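import Cfsg.Agent.Lib.ZT.ZT6

/-! # Simple Zassenhaus groups with a non-abelian regular normal 2-subgroup -/

set_option linter.style.haveILetI false
set_option linter.unusedSectionVars false

namespace Cfsg.Agent.Lib.ZT

open MulAction Cfsg Cfsg.Agent.Lib.RankOne Cfsg.Agent.Lib.RankOne.Setup
open Cfsg.Agent.Lib.Fusion.Hig (KG)
open Subgroup (center)

variable {G Ω : Type*} [Group G] [Finite G] [MulAction G Ω] {a : Ω} {t : G} {U : Subgroup G}

/-- No elements of order three in the two-point stabiliser. -/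
theorem not_three_dvd (hS : IsRankOneSetup G Ω a t U)
    (h3 : ∀ g : G, ∀ x y z : Ω, x ≠ y → y ≠ z → x ≠ z → g • x = x → g • y = y → g • z = z → g = 1)
    (hU2 : IsPGroup 2 U) (hne : ∃ d ∈ DD G a t, d ≠ 1) (hnc : ∃ x y : U, x * y ≠ y * x)
    (hN : Nat.card U = (Nat.card (DD G a t) + 1) ^ 2) : ¬ 3 ∣ Nat.card (DD G a t) := by
  classical
  intro h3d
  letI cg := commD hS h3
  have hk : KG (rho hS) := kg hS h3 hU2 hne
  haveI : Fact (Nat.Prime 3) := ⟨Nat.prime_three⟩
  obtain ⟨x', hx'⟩ := exists_prime_orderOf_dvd_card' (G := DD G a t) 3 h3d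
  set x : G := (x' : G) with hxdef
  have hxD : x ∈ DD G a t := x'.2
  have hxo : orderOf x = 3 := by
    rw [hxdef, Subgroup.orderOf_coe, hx']
  have hx3 : x * x * x = 1 := by
    have := pow_orderOf_eq_one x
    rw [hxo] at this
    calc x * x * x = x ^ 3 := by rw [pow_succ, pow_two]
      _ = 1 := this
  have hxx : x * x ≠ 1 := by
    intro h
    have h1 : orderOf x ∣ 2 := orderOf_dvd_of_pow_eq_one (by rw [pow_two, h])
    rw [hxo] at h1
    omega
  have hxinv : x⁻¹ = x * x := by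
    rw [inv_eq_iff_mul_eq_one]
    calc x * (x * x) = x * x * x := by group
      _ = 1 := hx3
  have hinv : t * x * t = x⁻¹ := D_inv hS h3 hxD
  have ht2 : t * t = 1 := hS.mul_self
  have ht1 : t ≠ 1 := hS.ne_one
  -- the second involution
  set s₁ := t * x with hs₁
  have hs2 : s₁ * s₁ = 1 := by
    calc s₁ * s₁ = (t * x * t) * x := by rw [hs₁]; group
      _ = 1 := by rw [hinv]; group
  have hs1 : s₁ ≠ 1 := by
    intro h
    have h1 : x = t := by
      calc x = t * (t * x) := by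
            rw [← mul_assoc, ht2, one_mul]
        _ = t := by
            rw [show t * x = s₁ from rfl, h, mul_one]
    apply hxx
    rw [h1, ht2]
  have h2 : ∃ x y : G, x ≠ 1 ∧ y ≠ 1 ∧ x ≠ y ∧ x * x = 1 ∧ y * y = 1 ∧ x * y = y * x := by
    obtain ⟨u, v, huv, hu1, hu2, hv1, hv2⟩ := hk.ex
    refine ⟨u, v, fun h => hu1 (Subtype.ext h), fun h => hv1 (Subtype.ext h),
      fun h => huv (Subtype.ext h), congrArg Subtype.val hu2, congrArg Subtype.val hv2, ?_⟩
    have h4 := (Subgroup.mem_center_iff.mp (hk.central hu2)) v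
    exact (congrArg Subtype.val h4).symm
  obtain ⟨a₁, ha₁, -⟩ := invol_fix hS hs1 hs2
  have hta₁ : t • a₁ ≠ a₁ := by
    intro h
    have h4 := commute_of_same_fix hS h2 ht1 ht2 hs1 hs2 h ha₁
    apply hxx
    -- `t s = s t` gives `x = t x t = x⁻¹`
    have h5 : x = x⁻¹ := by
      rw [← hinv]
      calc x = t * (t * x) := by rw [← mul_assoc, ht2, one_mul]
        _ = (t * x) * t := h4
    calc x * x = x⁻¹ * x := by rw [← h5]
      _ = 1 := inv_mul_cancel x
  obtain ⟨g, hg⟩ := trans hS a₁ a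
  set T := g * t * g⁻¹ with hT
  set S := g * s₁ * g⁻¹ with hS'
  have hT2 : T * T = 1 := by
    calc T * T = g * (t * t) * g⁻¹ := by rw [hT]; group
      _ = 1 := by rw [ht2]; group
  have hT1 : T ≠ 1 := by
    intro h
    apply ht1
    have : t = g⁻¹ * T * g := by rw [hT]; group
    rw [this, h]; group
  have hS2 : S * S = 1 := by
    calc S * S = g * (s₁ * s₁) * g⁻¹ := by rw [hS']; group
      _ = 1 := by rw [hs2]; group
  have hS1 : S ≠ 1 := by
    intro h
    apply hs1
    have : s₁ = g⁻¹ * S * g := by rw [hS']; group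
    rw [this, h]; group
  have hSa : S • a = a := by
    rw [← hg, hS', mul_smul, mul_smul, inv_smul_smul, ha₁]
  have hTa : T ∉ stabilizer G a := by
    intro h
    have h4 : T • a = a := h
    rw [← hg, hT, mul_smul, mul_smul, inv_smul_smul] at h4
    exact hta₁ (smul_left_cancel _ h4)
  have hbraid : t * s₁ * t = s₁ * t * s₁ := by
    have e1 : t * s₁ * t = x * t := by
      rw [hs₁, ← mul_assoc, ht2, one_mul]
    have e2 : s₁ * t * s₁ = t * (x * x) := by
      rw [hs₁]
      calc t * x * t * (t * x) = t * x * (t * t) * x := by group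
        _ = t * (x * x) := by rw [ht2]; group
    have e3 : x * t = t * x⁻¹ := by
      calc x * t = t * (t * x * t) := by
            rw [← mul_assoc, ← mul_assoc, ht2, one_mul]
        _ = t * x⁻¹ := by rw [hinv]
    rw [e1, e2, e3, hxinv]
  have hTS : T * S * T = S * T * S := by
    have e1 : T * S * T = g * (t * s₁ * t) * g⁻¹ := by rw [hT, hS']; group
    have e2 : S * T * S = g * (s₁ * t * s₁) * g⁻¹ := by rw [hT, hS']; group
    rw [e1, e2, hbraid]
  have hS'' : IsRankOneSetup G Ω a T U := change_t hS hT2 hT1 hTa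
  have hcardD : Nat.card (DD G a T) = Nat.card (DD G a t) := by
    have e1 := card_stab hS
    have e2 := card_stab hS''
    rw [e1] at e2
    exact (Nat.eq_of_mul_eq_mul_left Nat.card_pos e2).symm
  have hEmul : ∀ y z : U, y * y = 1 → z * z = 1 → (y * z) * (y * z) = 1 := by
    intro y z hy hz
    have h4 := (Subgroup.mem_center_iff.mp (hk.central hy)) z
    calc (y * z) * (y * z) = y * (z * y) * z := by group
      _ = y * (y * z) * z := by rw [h4]
      _ = (y * y) * (z * z) := by group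
      _ = 1 := by rw [hy, hz, one_mul]
  exact circle_contra hS'' h3 hEmul hSa hS1 hS2 hTS (by rw [hcardD]; exact hN)

/-- The two-point stabiliser has odd order. -/
theorem odd_two_point (hZ3 : ∀ g : G, ∀ x y z : Ω, x ≠ y → y ≠ z → x ≠ z → g • x = x → g • y = y →
      g • z = z → g = 1) [Finite Ω] {b : Ω} (hab : a ≠ b) (hUle : U ≤ stabilizer G a) (hreg : ∀ c d : Ω, c ≠ a → d ≠ a → ∃! u : U, (u : G) • c = d)
    (hUeven : Even (Nat.card U)) :
    Odd (Nat.card ↥(stabilizer G a ⊓ stabilizer G b)) := by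
  classical
  haveI : Fintype Ω := Fintype.ofFinite Ω
  by_contra hodd
  rw [Nat.not_odd_iff_even] at hodd
  haveI : Fact (Nat.Prime 2) := ⟨Nat.prime_two⟩
  obtain ⟨d', hd'⟩ := exists_prime_orderOf_dvd_card' (G := ↥(stabilizer G a ⊓ stabilizer G b)) 2
    hodd.two_dvd
  set d : G := (d' : G) with hddef
  have hdo : orderOf d = 2 := by rw [hddef, Subgroup.orderOf_coe, hd']
  have hda : d • a = a := d'.2.1
  have hdb : d • b = b := d'.2.2
  have hd1 : d ≠ 1 := by
    intro h
    rw [h, orderOf_one] at hdo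
    omega
  have hpg : IsPGroup 2 (Subgroup.zpowers d) := by
    rw [IsPGroup.iff_card]
    exact ⟨1, by rw [Nat.card_zpowers, hdo, pow_one]⟩
  have hmod := hpg.card_modEq_card_fixedPoints Ω
  have hfix : fixedPoints (Subgroup.zpowers d) Ω = {a, b} := by
    ext c
    simp only [mem_fixedPoints, Set.mem_insert_iff, Set.mem_singleton_iff]
    constructor
    · intro h
      by_contra hc
      push Not at hc
      have h4 : d • c = c := h ⟨d, Subgroup.mem_zpowers d⟩
      exact hd1 (hZ3 d a b c hab (Ne.symm hc.2) (Ne.symm hc.1) hda hdb h4)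
    · rintro (rfl | rfl) ⟨x, hx⟩
      · obtain ⟨k, rfl⟩ := Subgroup.mem_zpowers_iff.mp hx
        show d ^ k • c = c
        exact (zpow_mem (show d ∈ stabilizer G c from hda) k)
      · obtain ⟨k, rfl⟩ := Subgroup.mem_zpowers_iff.mp hx
        show d ^ k • c = c
        exact (zpow_mem (show d ∈ stabilizer G c from hdb) k)
  have hcardfix : Nat.card (fixedPoints (Subgroup.zpowers d) Ω) = 2 := by
    rw [hfix, Nat.card_coe_set_eq, Set.ncard_pair hab]
  rw [hcardfix] at hmod
  have hΩ : Nat.card Ω = Nat.card U + 1 := by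
    have hb : b ≠ a := Ne.symm hab
    have h1 : Nat.card U = Nat.card {c : Ω // c ≠ a} := by
      apply Nat.card_congr
      refine Equiv.ofBijective (fun u : U => ⟨(u : G) • b, ?_⟩) ⟨?_, ?_⟩
      · intro h
        have h4 : (u : G) • a = a := hUle u.2
        rw [← h4] at h
        exact hb (smul_left_cancel _ h)
      · intro u v huv
        have h4 : (u : G) • b = (v : G) • b := congrArg Subtype.val huv
        have h5 : (u : G) • b ≠ a := by
          intro h
          have h6 : (u : G) • a = a := hUle u.2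
          rw [← h6] at h
          exact hb (smul_left_cancel _ h)
        exact (hreg b _ hb h5).unique rfl h4.symm
      · rintro ⟨c, hc⟩
        obtain ⟨u, hu, -⟩ := hreg b c hb hc
        exact ⟨u, Subtype.ext hu⟩
    rw [h1, Nat.card_eq_fintype_card, Nat.card_eq_fintype_card]
    have h2 : Fintype.card {c : Ω // c ≠ a} = Fintype.card Ω - 1 := Set.card_ne_eq a
    have h3 : 0 < Fintype.card Ω := Fintype.card_pos_iff.mpr ⟨a⟩
    omega
  have h5 : Nat.card Ω % 2 = 0 := hmod
  rw [hΩ] at h5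
  obtain ⟨k, hk⟩ := hUeven
  omega

/-- **Suzuki's theorem on Zassenhaus groups with a non-abelian regular normal 2-subgroup.** -/
theorem suzuki_main_aux {G Ω : Type*} [Group G] [Finite G] [MulAction G Ω] [Finite Ω]
    (hZ : IsZassenhausGroup G Ω) [IsSimpleGroup G] {a b : Ω} (hab : a ≠ b)
    (U : Subgroup G) (hUle : U ≤ stabilizer G a)
    (hUn : ∀ h ∈ stabilizer G a, ∀ u ∈ U, h * u * h⁻¹ ∈ U)
    (hreg : ∀ c d : Ω, c ≠ a → d ≠ a → ∃! u : U, (u : G) • c = d)
    (hU2 : IsPGroup 2 U) (hUna : ∃ u ∈ U, ∃ v ∈ U, u * v ≠ v * u) :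
    ∃ n : ℕ, Odd n ∧ 1 < n ∧ Nat.card Ω = 2 ^ (2 * n) + 1 ∧
      IsCyclic ↥(stabilizer G a ⊓ stabilizer G b) ∧
      Nat.card ↥(stabilizer G a ⊓ stabilizer G b) = 2 ^ n - 1 ∧
      (∃ (F : Type) (_ : Field F) (_ : Fintype F) (φ : F ≃+* F), Fintype.card F = 2 ^ n ∧
        Nonempty (U ≃* Cfsg.suzukiTypeA F (φ : F →+* F))) ∧
      Nat.card G = (2 ^ n) ^ 2 * ((2 ^ n) ^ 2 + 1) * (2 ^ n - 1) := by
  classical
  haveI : Fintype G := Fintype.ofFinite G
  haveI : Fintype Ω := Fintype.ofFinite Ω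
  haveI : Fintype U := Fintype.ofFinite U
  have hZ' := hZ
  obtain ⟨hfaith, h2T, h3, ⟨g₀, hg₀1, a₀, b₀, hab₀, hg₀a, hg₀b⟩, hnoreg⟩ := hZ'
  have hnc : ∃ x y : U, x * y ≠ y * x := by
    obtain ⟨u, hu, v, hv, huv⟩ := hUna
    exact ⟨⟨u, hu⟩, ⟨v, hv⟩, fun h => huv (congrArg Subtype.val h)⟩
  have hUeven : Even (Nat.card U) := by
    obtain ⟨n, hn⟩ := IsPGroup.iff_card.mp hU2
    have hn0 : n ≠ 0 := by
      rintro rfl
      rw [pow_zero] at hn
      obtain ⟨x, y, hxy⟩ := hnc
      haveI : Subsingleton U := (Nat.card_eq_one_iff_unique.mp hn).1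
      exact hxy (Subsingleton.elim _ _)
    rw [hn]
    exact (Nat.even_pow.mpr ⟨even_two, hn0⟩)
  have hodd := odd_two_point h3 hab hUle hreg hUeven
  obtain ⟨t, rfl, htb, ht2⟩ := Cfsg.Agent.Lib.Char.Zass.exists_swap_inv hZ hab hodd
  have htb' : t • a ≠ a := Ne.symm hab
  have hS : IsRankOneSetup G Ω a t U :=
    { two_transitive := h2T
      mul_self := ht2
      ne_one := by
        rintro rfl
        exact htb' (one_smul _ _)
      not_mem := htb'
      le := hUle
      conj_mem := hUn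
      inf_eq_bot := by
        rw [eq_bot_iff]
        rintro x ⟨hxU, hxb⟩
        have h1 := (hreg (t • a) (t • a) htb' htb').unique (y₁ := ⟨x, hxU⟩) (y₂ := 1) hxb (one_smul _ _)
        exact congrArg Subtype.val h1
      sup_eq := by
        apply le_antisymm (sup_le hUle inf_le_left)
        intro g hg
        have hga : g • a = a := hg
        have h1 : g • (t • a) ≠ a := by
          intro h
          exact htb' (smul_left_cancel _ (h.trans hga.symm))
        obtain ⟨u, hu, -⟩ := hreg (t • a) _ htb' h1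
        have h2 : (u : G)⁻¹ * g ∈ stabilizer G a ⊓ stabilizer G (t • a) := by
          constructor
          · exact Subgroup.mul_mem _ (Subgroup.inv_mem _ (hUle u.2)) hg
          · show ((u : G)⁻¹ * g) • (t • a) = t • a
            rw [mul_smul, ← hu, inv_smul_smul]
        have h4 : g = (u : G) * ((u : G)⁻¹ * g) := by group
        rw [h4]
        exact Subgroup.mul_mem_sup u.2 h2
      even_card := hUeven
      odd_card := hodd }
  have hne : ∃ d ∈ DD G a t, d ≠ 1 := by
    obtain ⟨x, hxa, hxb⟩ := two_trans hS a₀ b₀ a (t • a) hab₀ hab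
    refine ⟨x * g₀ * x⁻¹, ⟨?_, ?_⟩, ?_⟩
    · show (x * g₀ * x⁻¹) • a = a
      rw [← hxa, mul_smul, mul_smul, inv_smul_smul, hg₀a]
    · show (x * g₀ * x⁻¹) • (t • a) = t • a
      rw [← hxb, mul_smul, mul_smul, inv_smul_smul, hg₀b]
    · intro h
      apply hg₀1
      have : g₀ = x⁻¹ * (x * g₀ * x⁻¹) * x := by group
      rw [this, h]; group
  haveI : Fintype (DD G a t) := Fintype.ofFinite _
  letI cg := commD hS h3
  have hk : KG (rho hS) := kg hS h3 hU2 hne
  have hkc := kg_card hk hnc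
  have hN : Nat.card U = Nat.card (center U) ^ 2 := by
    rcases hk.card_eq hnc with hN | hN
    · exact hN
    · exact (not_cube hS h3 hU2 hne hnc hN).elim
  obtain ⟨n, hn⟩ := IsPGroup.iff_card.mp (hU2.to_subgroup (center U))
  have hq := hkc.1
  rw [hn] at hq
  have hN' : Nat.card U = (Nat.card (DD G a t) + 1) ^ 2 := by rw [hq, hN, hn]
  have hnot3 := not_three_dvd hS h3 hU2 hne hnc hN'
  have hh1 : 1 < Nat.card (DD G a t) := by
    obtain ⟨d, hd, hd1⟩ := hne
    haveI : Nontrivial (DD G a t) :=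
      ⟨⟨⟨d, hd⟩, 1, fun h => hd1 (congrArg Subtype.val h)⟩⟩
    exact Finite.one_lt_card
  have hDodd : Odd (Nat.card (DD G a t)) := hodd
  have hh3 : 3 ≤ Nat.card (DD G a t) := by
    rcases hDodd with ⟨k, hk'⟩
    omega
  have hn2 : 1 < n := by
    by_contra hcon
    have h1 : n ≤ 1 := by omega
    have h2 : 2 ^ n ≤ 2 ^ 1 := Nat.pow_le_pow_right (by norm_num) h1
    omega
  have hnodd : Odd n := by
    by_contra hcon
    rw [Nat.not_odd_iff_even] at hcon
    obtain ⟨m, rfl⟩ := hcon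
    apply hnot3
    have h1 : 2 ^ (m + m) = 4 ^ m := by
      rw [← two_mul, pow_mul]
      norm_num
    have h2 : Nat.card (DD G a t) = 4 ^ m - 1 ^ m := by
      rw [one_pow, ← h1, ← hq]
      omega
    rw [h2]
    exact Nat.sub_dvd_pow_sub_pow 4 1 m
  have hDc : Nat.card (DD G a t) = 2 ^ n - 1 := by omega
  refine ⟨n, hnodd, hn2, ?_, hkc.2, hDc, ?_, ?_⟩
  · rw [card_Ω hS, hN, hn, ← pow_mul, mul_comm]
  · obtain ⟨F, fld, fint, φ, hcardF, -, -, hiso⟩ := hk.typeA hnc hN
    exact ⟨F, fld, fint, φ, by rw [hcardF, hn], hiso⟩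
  · rw [card_G hS, card_Ω hS, hN, hn, hDc]
    ring

/-- **Suzuki's theorem on Zassenhaus groups with a non-abelian regular normal 2-subgroup.** -/
theorem suzuki_main {G Ω : Type*} [Group G] [Finite G] [MulAction G Ω] [Finite Ω]
    (hZ : IsZassenhausGroup G Ω) [IsSimpleGroup G] {a b : Ω} (hab : a ≠ b)
    (U : Subgroup G) (hUle : U ≤ stabilizer G a)
    (hUn : ∀ h ∈ stabilizer G a, ∀ u ∈ U, h * u * h⁻¹ ∈ U)
    (hreg : ∀ c d : Ω, c ≠ a → d ≠ a → ∃! u : U, (u : G) • c = d)
    (hU2 : IsPGroup 2 U) (hUna : ∃ u ∈ U, ∃ v ∈ U, u * v ≠ v * u) :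
    ∃ n : ℕ, Odd n ∧ 1 < n ∧ Nat.card Ω = 2 ^ (2 * n) + 1 ∧
      IsCyclic ↥(stabilizer G a ⊓ stabilizer G b) ∧
      Nat.card ↥(stabilizer G a ⊓ stabilizer G b) = 2 ^ n - 1 ∧
      ∃ (F : Type) (_ : Field F) (_ : Fintype F) (φ : F ≃+* F), Fintype.card F = 2 ^ n ∧
        Nonempty (U ≃* Cfsg.suzukiTypeA F (φ : F →+* F)) := by
  obtain ⟨n, h1, h2, h3, h4, h5, h6, -⟩ := suzuki_main_aux hZ hab U hUle hUn hreg hU2 hUna
  exact ⟨n, h1, h2, h3, h4, h5, h6⟩

end Cfsg.Agent.Lib.ZT
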