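import Mathlib
import Cfsg.Agent.Lib.Basic.CoprimeAction
import Cfsg.Agent.Lib.Basic.Nilpotent
import Cfsg.Agent.Lib.Transfer.NormalAb
import Cfsg.Agent.Lib.OddLocal.UniqueP2
import Cfsg.Agent.Lib.ZT.G320a

/-!
# Groups with no noncyclic abelian subgroup of order eight: first tools
-/

set_option autoImplicit false
set_option linter.unusedVariables false
set_option linter.unusedSectionVars false

namespace Cfsg.Agent.Lib.ZT

open Subgroup
open scoped Pointwise commutatorElement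

section basics

variable {G : Type*} [Group G]

/-- `W` contains no noncyclic abelian subgroup of order eight. -/
def NoA (W : Subgroup G) : Prop :=
  ∀ A : Subgroup G, A ≤ W → IsMulCommutative A → ¬ IsCyclic A → Nat.card A ≠ 8

theorem NoA.mono {V W : Subgroup G} (h : NoA W) (hVW : V ≤ W) : NoA V :=
  fun A hA => h A (hA.trans hVW)

theorem exists_pow_not_mem_sq_mem {H : Subgroup G} : ∀ (n : ℕ) {x : G}, x ^ (2 ^ n) = 1 → x ∉ H →
    ∃ k : ℕ, x ^ k ∉ H ∧ (x ^ k) ^ 2 ∈ H := by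
  intro n
  induction n with
  | zero =>
    intro x hx hxH
    rw [pow_zero, pow_one] at hx
    exact absurd (hx ▸ H.one_mem) hxH
  | succ n ih =>
    intro x hx hxH
    by_cases h2 : x ^ 2 ∈ H
    · exact ⟨1, by simpa using hxH, by simpa using h2⟩
    · have hx' : (x ^ 2) ^ (2 ^ n) = 1 := by rw [← pow_mul, ← pow_succ']; exact hx
      obtain ⟨k, h1, h3⟩ := ih hx' h2
      exact ⟨2 * k, by rwa [pow_mul], by rwa [pow_mul]⟩

theorem card_le_two_mul [Finite G] {H₀ H : Subgroup G} (hle : H₀ ≤ H)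
    (h : ∀ x ∈ H, ∀ y ∈ H, x ∉ H₀ → y ∉ H₀ → x⁻¹ * y ∈ H₀) : Nat.card H ≤ 2 * Nat.card H₀ := by
  by_cases hex : ∃ x ∈ H, x ∉ H₀
  · obtain ⟨x, hx, hx0⟩ := hex
    have h1 : (H : Set G) ⊆ (H₀ : Set G) ∪ (fun y => x * y) '' (H₀ : Set G) := by
      intro y hy
      by_cases hy0 : y ∈ H₀
      · exact Or.inl hy0
      · exact Or.inr ⟨x⁻¹ * y, h x hx y hy hx0 hy0, by simp⟩
    calc Nat.card H = (H : Set G).ncard := (Nat.card_coe_set_eq _)
      _ ≤ ((H₀ : Set G) ∪ (fun y => x * y) '' (H₀ : Set G)).ncard :=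
          Set.ncard_le_ncard h1 (Set.toFinite _)
      _ ≤ (H₀ : Set G).ncard + ((fun y => x * y) '' (H₀ : Set G)).ncard := Set.ncard_union_le _ _
      _ ≤ (H₀ : Set G).ncard + (H₀ : Set G).ncard :=
          Nat.add_le_add_left (Set.ncard_image_le (Set.toFinite _)) _
      _ = 2 * Nat.card H₀ := by
          have : (H₀ : Set G).ncard = Nat.card H₀ := (Nat.card_coe_set_eq _).symm
          rw [this]; ring
  · push Not at hex
    have : H = H₀ := le_antisymm hex hle
    subst this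
    have : 0 < Nat.card H := Nat.card_pos
    omega

theorem card_sup_two [Finite G] {H : Subgroup G} {y : G} (hy : y ∈ normalizer (H : Set G)) (hyH : y ∉ H)
    (hy2 : y ^ 2 ∈ H) : Nat.card ↥(H ⊔ zpowers y) = 2 * Nat.card H := by
  have h1 := card_sup_zpowers_le H y hy 2 (by norm_num) hy2
  have hle : H ≤ H ⊔ zpowers y := le_sup_left
  obtain ⟨m, hm⟩ := Subgroup.card_dvd_of_le hle
  have hpos : 0 < Nat.card H := Nat.card_pos
  have hposC : 0 < Nat.card ↥(H ⊔ zpowers y) := Nat.card_pos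
  have hm2 : m ≤ 2 := by
    by_contra hcon
    push Not at hcon
    have : Nat.card H * 3 ≤ Nat.card H * m := Nat.mul_le_mul_left _ hcon
    omega
  have hm0 : m ≠ 0 := by rintro rfl; simp at hm; omega
  have hm1 : m ≠ 1 := by
    rintro rfl
    have : H = H ⊔ zpowers y := Subgroup.eq_of_le_of_card_ge hle (by omega)
    exact hyH (this ▸ (le_sup_right : zpowers y ≤ H ⊔ zpowers y) (mem_zpowers y))
  have : m = 2 := by omega
  subst this
  rw [hm]; ring

theorem not_cyclic_of_invols [Finite G] {C : Subgroup G} {u v : G} (hu : u ∈ C) (hv : v ∈ C)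
    (hu2 : u ^ 2 = 1) (hv2 : v ^ 2 = 1) (hu1 : u ≠ 1) (hv1 : v ≠ 1) (huv : u ≠ v) : ¬ IsCyclic C := by
  intro hc
  classical
  haveI : Fintype C := Fintype.ofFinite _
  have h1 := IsCyclic.card_pow_eq_one_le (α := C) (n := 2) (by norm_num)
  have hs : ({1, ⟨u, hu⟩, ⟨v, hv⟩} : Finset C) ⊆ Finset.univ.filter (fun x : C => x ^ 2 = 1) := by
    intro x hx
    simp only [Finset.mem_insert, Finset.mem_singleton] at hx
    simp only [Finset.mem_filter, Finset.mem_univ, true_and]
    rcases hx with rfl | rfl | rfl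
    · simp
    · ext; simpa using hu2
    · ext; simpa using hv2
  have h2 : ({1, ⟨u, hu⟩, ⟨v, hv⟩} : Finset C).card = 3 := by
    rw [Finset.card_eq_three]
    refine ⟨1, ⟨u, hu⟩, ⟨v, hv⟩, ?_, ?_, ?_, rfl⟩
    · intro h; exact hu1 (by simpa using (congrArg Subtype.val h).symm)
    · intro h; exact hv1 (by simpa using (congrArg Subtype.val h).symm)
    · intro h; exact huv (congrArg Subtype.val h)
  have h3 := Finset.card_le_card hs
  omega

theorem not_noA_of_good [Finite G] {W : Subgroup G} {b v : G} (hb : b ∈ W) (hv : v ∈ W) (hb4 : b ^ 4 = 1)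
    (hb2 : b ^ 2 ≠ 1) (hv2 : v ^ 2 = 1) (hvb : v ∉ zpowers b) (hc : b * v = v * b) : ¬ NoA W := by
  intro hNo
  have ho : orderOf b = 2 ^ (1 + 1) :=
    orderOf_eq_prime_pow (p := 2) (n := 1) (by simpa using hb2) (by simpa using hb4)
  have hcz : Nat.card (zpowers b) = 4 := by rw [Nat.card_zpowers, ho]; norm_num
  have hnorm : v ∈ normalizer (zpowers b : Set G) := by
    apply mem_normalizer_of_conj
    intro s hs
    obtain ⟨k, rfl⟩ := hs
    have : Commute v (b ^ k) := (Commute.zpow_right (Commute.symm hc) k)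
    show v * b ^ k * v⁻¹ ∈ zpowers b
    rw [this.eq]
    simp
  have hcard := card_sup_two hnorm hvb (by rw [hv2]; exact Subgroup.one_mem _)
  rw [hcz] at hcard
  set C := zpowers b ⊔ zpowers v with hC
  have hCc : C = closure {b, v} := by
    rw [hC, zpowers_eq_closure, zpowers_eq_closure, ← Subgroup.closure_union]
    congr 1
  have hCcomm : IsMulCommutative C := by
    rw [hCc]
    apply Subgroup.isMulCommutative_closure
    intro x hx y hy
    simp only [Set.mem_insert_iff, Set.mem_singleton_iff] at hx hy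
    rcases hx with rfl | rfl <;> rcases hy with rfl | rfl
    · rfl
    · exact hc
    · exact hc.symm
    · rfl
  have hCW : C ≤ W := sup_le ((zpowers_le).mpr hb) ((zpowers_le).mpr hv)
  have hbC : b ∈ C := (le_sup_left : zpowers b ≤ C) (mem_zpowers b)
  have hvC : v ∈ C := (le_sup_right : zpowers v ≤ C) (mem_zpowers v)
  have hncyc : ¬ IsCyclic C := by
    refine not_cyclic_of_invols (u := b ^ 2) (v := v) (C.pow_mem hbC 2) hvC ?_ hv2 hb2 ?_ ?_
    · rw [← pow_mul]; exact hb4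
    · rintro rfl; exact hvb (Subgroup.one_mem _)
    · rintro rfl
      exact hvb (Subgroup.pow_mem _ (mem_zpowers b) 2)
  exact hNo C hCW hCcomm hncyc hcard

theorem exists_invols_of_not_cyclic [Finite G] {B : Subgroup G} (hB2 : IsPGroup 2 B)
    (hab : ∀ x ∈ B, ∀ y ∈ B, x * y = y * x) (hnc : ¬ IsCyclic B) :
    ∃ u ∈ B, ∃ v ∈ B, u ^ 2 = 1 ∧ v ^ 2 = 1 ∧ u ≠ 1 ∧ v ≠ 1 ∧ u ≠ v := by
  haveI : Fact (Nat.Prime 2) := ⟨Nat.prime_two⟩
  have hcomm : ∀ a b : B, a * b = b * a := fun a b => Subtype.ext (hab a a.2 b b.2)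
  have hnU : ¬ Cfsg.Agent.Lib.OddLocal.UniqueP 2 B := fun hU =>
    hnc (Cfsg.Agent.Lib.OddLocal.isCyclic_of_comm_uniqueP hB2 hcomm hU)
  unfold Cfsg.Agent.Lib.OddLocal.UniqueP at hnU
  push Not at hnU
  obtain ⟨P, Q, hP, hQ, hPQ⟩ := hnU
  have key : ∀ P : Subgroup B, Nat.card P = 2 → ∃ x : B, x ∈ P ∧ x ≠ 1 ∧ x ^ 2 = 1 ∧ zpowers x = P := by
    intro P hP
    obtain ⟨x, hx, -⟩ := (Nat.card_eq_two_iff' (1 : P)).mp hP
    have h2 : x ^ 2 = 1 := by
      have := pow_card_eq_one' (x := x)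
      rwa [hP] at this
    have h2' : (x : B) ^ 2 = 1 := by
      have := congrArg Subtype.val h2
      simpa using this
    have hx1 : (x : B) ≠ 1 := fun h => hx (Subtype.ext h)
    refine ⟨x, x.2, hx1, h2', ?_⟩
    have ho : orderOf (x : B) = 2 := orderOf_eq_prime h2' hx1
    refine Subgroup.eq_of_le_of_card_ge ((zpowers_le).mpr x.2) ?_
    rw [hP, Nat.card_zpowers, ho]
  obtain ⟨x, hx, hx1, hx2, hxP⟩ := key P hP
  obtain ⟨y, hy, hy1, hy2, hyQ⟩ := key Q hQ
  have hxy : x ≠ y := by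
    rintro rfl
    exact hPQ (hxP.symm.trans hyQ)
  refine ⟨x, x.2, y, y.2, ?_, ?_, ?_, ?_, ?_⟩
  · simpa using congrArg Subtype.val hx2
  · simpa using congrArg Subtype.val hy2
  · intro h; exact hx1 (Subtype.ext h)
  · intro h; exact hy1 (Subtype.ext h)
  · intro h; exact hxy (Subtype.ext h)

/-- An abelian subgroup of a group with `NoA` is cyclic or of order at most four. -/
theorem NoA.cyclic_or_le [Finite G] {W B : Subgroup G} (h : NoA W) (hBW : B ≤ W) (hB2 : IsPGroup 2 B)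
    (hab : ∀ x ∈ B, ∀ y ∈ B, x * y = y * x) : IsCyclic B ∨ Nat.card B ≤ 4 := by
  haveI : Fact (Nat.Prime 2) := ⟨Nat.prime_two⟩
  by_contra hcon
  push Not at hcon
  obtain ⟨hnc, hcard⟩ := hcon
  obtain ⟨u, hu, v, hv, hu2, hv2, hu1, hv1, huv⟩ := exists_invols_of_not_cyclic hB2 hab hnc
  -- the Klein group
  have ho : orderOf u = 2 := orderOf_eq_prime hu2 hu1
  have hcz : Nat.card (zpowers u) = 2 := by rw [Nat.card_zpowers, ho]
  have hnorm : v ∈ normalizer (zpowers u : Set G) := by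
    apply mem_normalizer_of_conj
    intro s hs
    obtain ⟨k, rfl⟩ := hs
    have hc : Commute v u := hab v hv u hu
    have : Commute v (u ^ k) := hc.zpow_right k
    show v * u ^ k * v⁻¹ ∈ zpowers u
    rw [this.eq]
    simp
  have hvz : v ∉ zpowers u := by
    intro hvz
    rw [Subgroup.mem_zpowers_iff] at hvz
    obtain ⟨k, hk⟩ := hvz
    rcases Int.even_or_odd' k with ⟨c, rfl | rfl⟩
    · apply hv1
      rw [← hk, zpow_mul]
      simp [hu2]
    · apply huv
      rw [← hk, zpow_add, zpow_mul]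
      simp [hu2]
  have hV := card_sup_two hnorm hvz (by rw [hv2]; exact Subgroup.one_mem _)
  rw [hcz] at hV
  set V := zpowers u ⊔ zpowers v with hVdef
  have hVB : V ≤ B := sup_le ((zpowers_le).mpr hu) ((zpowers_le).mpr hv)
  obtain ⟨n, hn⟩ := IsPGroup.iff_card.mp hB2
  have hn3 : 3 ≤ n := by
    by_contra hlt
    push Not at hlt
    have : 2 ^ n ≤ 2 ^ 2 := Nat.pow_le_pow_right (by norm_num) (by omega)
    omega
  have hdvd : 2 ^ 3 ∣ Nat.card B := by rw [hn]; exact pow_dvd_pow 2 hn3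
  have hVc : Nat.card (V.subgroupOf B) = 2 ^ 2 := by
    have := Nat.card_congr (subgroupOfEquivOfLe hVB).toEquiv
    omega
  obtain ⟨K, hK, hVK⟩ := Sylow.exists_subgroup_card_pow_prime_le 2 hdvd (V.subgroupOf B) hVc (by norm_num)
  set C := K.map B.subtype with hC
  have hCB : C ≤ B := by
    rintro _ ⟨x, -, rfl⟩
    exact x.2
  have hCcard : Nat.card C = 8 := by
    rw [hC, Subgroup.card_map_of_injective B.subtype_injective, hK]; norm_num
  have hVC : V ≤ C := by
    intro x hx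
    refine ⟨⟨x, hVB hx⟩, hVK ?_, rfl⟩
    exact hx
  have huC : u ∈ C := hVC ((le_sup_left : zpowers u ≤ V) (mem_zpowers u))
  have hvC : v ∈ C := hVC ((le_sup_right : zpowers v ≤ V) (mem_zpowers v))
  refine h C (hCB.trans hBW) ?_ (not_cyclic_of_invols huC hvC hu2 hv2 hu1 hv1 huv) hCcard
  exact ⟨⟨fun a b => Subtype.ext (hab a (hCB a.2) b (hCB b.2))⟩⟩

/-- `g` commutes with `b`, conjugating `w` to `w b`: then `g ^ n` conjugates `w` to `w b ^ n`. -/
theorem pow_mul_of_conj {g w b : G} (h : g * w = w * b * g) (hb : g * b = b * g) (n : ℕ) :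
    g ^ n * w = w * b ^ n * g ^ n := by
  induction n with
  | zero => simp
  | succ n ih =>
    have hbn : g * b ^ n = b ^ n * g := (Commute.pow_right (show Commute g b from hb) n).eq
    calc g ^ (n + 1) * w = g * (g ^ n * w) := by rw [pow_succ']; group
      _ = g * (w * b ^ n * g ^ n) := by rw [ih]
      _ = (g * w) * b ^ n * g ^ n := by group
      _ = w * b * (g * b ^ n) * g ^ n := by rw [h]; group
      _ = w * b * (b ^ n * g) * g ^ n := by rw [hbn]
      _ = w * b ^ (n + 1) * g ^ (n + 1) := by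
          rw [pow_succ' b, pow_succ' g]; group

/-- A two-element `b` fixed by an odd order `g`, with `g w g⁻¹ = w b`, is trivial. -/
theorem eq_one_of_odd_conj {g w b : G} (hg : Odd (orderOf g)) (h : g * w = w * b * g) (hb : g * b = b * g)
    {n : ℕ} (hbn : b ^ (2 ^ n) = 1) : b = 1 := by
  have h1 := pow_mul_of_conj h hb (orderOf g)
  rw [pow_orderOf_eq_one] at h1
  simp only [one_mul, mul_one, left_eq_mul] at h1
  have h2 : orderOf b ∣ orderOf g := orderOf_dvd_of_pow_eq_one h1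
  have h3 : orderOf b ∣ 2 ^ n := orderOf_dvd_of_pow_eq_one hbn
  have h4 : (orderOf g).Coprime (2 ^ n) := (Nat.coprime_two_right.mpr hg).pow_right n
  have h5 : orderOf b = 1 := Nat.eq_one_of_dvd_coprimes h4 h2 h3
  exact orderOf_eq_one_iff.mp h5

/-- An element of odd order normalising a cyclic `2`-group centralises it. -/
theorem odd_comm_cyclic {g : G} (hg : Odd (orderOf g)) : ∀ (n : ℕ) {a : G}, a ^ (2 ^ n) = 1 →
    g * a * g⁻¹ ∈ zpowers a → g * a = a * g := by
  intro n
  induction n with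
  | zero =>
    intro a ha _
    rw [pow_zero, pow_one] at ha
    rw [ha]; simp
  | succ n ih =>
    intro a ha hr
    obtain ⟨r, hr⟩ := hr
    have hr' : g * a * g⁻¹ = a ^ r := hr.symm
    have ha2 : g * a ^ 2 = a ^ 2 * g := by
      apply ih (a := a ^ 2)
      · rw [← pow_mul, ← pow_succ']; exact ha
      · refine ⟨r, ?_⟩
        show (a ^ 2) ^ r = g * a ^ 2 * g⁻¹
        have : g * a ^ 2 * g⁻¹ = (g * a * g⁻¹) ^ 2 := by rw [pow_two, pow_two]; group
        rw [this, hr', ← zpow_natCast, ← zpow_natCast, ← zpow_mul, ← zpow_mul, mul_comm]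
    have hcz : ∀ c : ℤ, g * (a ^ 2) ^ c = (a ^ 2) ^ c * g := fun c =>
      (Commute.zpow_right (show Commute g (a ^ 2) from ha2) c).eq
    rcases Int.even_or_odd' r with ⟨c, rfl | rfl⟩
    · have e : a ^ (2 * c) = (a ^ 2) ^ c := by
        rw [zpow_mul]; norm_cast
      rw [e] at hr'
      have h1 : a = g⁻¹ * (a ^ 2) ^ c * g := by
        rw [← hr']; group
      have h2 : g⁻¹ * (a ^ 2) ^ c * g = (a ^ 2) ^ c := by
        have := hcz c
        calc g⁻¹ * (a ^ 2) ^ c * g = g⁻¹ * ((a ^ 2) ^ c * g) := by group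
          _ = g⁻¹ * (g * (a ^ 2) ^ c) := by rw [this]
          _ = (a ^ 2) ^ c := by group
      rw [h2] at h1
      have h3 : g * a * g⁻¹ = a := by rw [hr', ← h1]
      calc g * a = g * a * g⁻¹ * g := by group
        _ = a * g := by rw [h3]
    · have e : a ^ (2 * c + 1) = a * (a ^ 2) ^ c := by
        rw [zpow_add, zpow_mul, zpow_one, ← zpow_natCast a 2]
        have : Commute (a ^ ((2 : ℕ) : ℤ)) a := by
          exact (Commute.refl a).zpow_left _
        have h2 := (this.zpow_left c).eq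
        simpa using h2
      rw [e] at hr'
      set b := (a ^ 2) ^ c with hb
      have hbn : b ^ (2 ^ (n + 1)) = 1 := by
        rw [hb, ← zpow_natCast, ← zpow_mul, mul_comm, zpow_mul]
        have : (a ^ 2) ^ (((2 ^ (n + 1) : ℕ)) : ℤ) = 1 := by
          rw [zpow_natCast, ← pow_mul, mul_comm, pow_mul, ha, one_pow]
        rw [this, one_zpow]
      have h1 : g * a = a * b * g := by
        calc g * a = g * a * g⁻¹ * g := by group
          _ = a * b * g := by rw [hr']
      have h2 : g * b = b * g := hcz c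
      have hb1 := eq_one_of_odd_conj hg h1 h2 hbn
      rw [hb1] at h1
      simpa using h1

/-- **Lemma T.**  An element of odd order normalising a `2`-group `W` and a cyclic subgroup of index
at most two, centralises `W`. -/
theorem odd_comm_of_cyclic_index {W : Subgroup G} {g a : G} (hg : Odd (orderOf g))
    (hgW : g ∈ normalizer (W : Set G)) (hW : IsPGroup 2 W) (ha : a ∈ W) (h : g * a * g⁻¹ ∈ zpowers a)
    (hidx : ∀ x ∈ W, ∀ y ∈ W, x ∉ zpowers a → y ∉ zpowers a → x⁻¹ * y ∈ zpowers a) :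
    ∀ w ∈ W, g * w = w * g := by
  obtain ⟨k, hk⟩ := hW ⟨a, ha⟩
  have hak : a ^ (2 ^ k) = 1 := by
    simpa using congrArg Subtype.val hk
  have hga : g * a = a * g := odd_comm_cyclic hg k hak h
  have hgz : ∀ x ∈ zpowers a, g * x = x * g := by
    rintro _ ⟨c, rfl⟩
    exact (Commute.zpow_right (show Commute g a from hga) c).eq
  intro w hw
  by_cases hwa : w ∈ zpowers a
  · exact hgz w hwa
  · have hw' : g * w * g⁻¹ ∈ W := (mem_normalizer_iff.mp hgW w).mp hw
    have hw'a : g * w * g⁻¹ ∉ zpowers a := by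
      intro hc
      apply hwa
      have : w = g⁻¹ * (g * w * g⁻¹) * g := by group
      have h2 := hgz _ hc
      have h3 : g⁻¹ * (g * w * g⁻¹) * g = g * w * g⁻¹ := by
        calc g⁻¹ * (g * w * g⁻¹) * g = g⁻¹ * ((g * w * g⁻¹) * g) := by group
          _ = g⁻¹ * (g * (g * w * g⁻¹)) := by rw [h2]
          _ = g * w * g⁻¹ := by group
      rw [this, h3]
      exact hc
    have hb := hidx w hw _ hw' hwa hw'a
    set b := w⁻¹ * (g * w * g⁻¹) with hbdef
    have hbW : b ∈ W := W.mul_mem (W.inv_mem hw) hw'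
    obtain ⟨l, hl⟩ := hW ⟨b, hbW⟩
    have hbl : b ^ (2 ^ l) = 1 := by
      simpa using congrArg Subtype.val hl
    have h1 : g * w = w * b * g := by
      rw [hbdef]; group
    have hb1 := eq_one_of_odd_conj hg h1 (hgz b hb) hbl
    rw [hb1] at h1
    simpa using h1

/-- **Fixed coset.** -/
theorem exists_fixed_coset [Finite G] {W N M : Subgroup G} (hW : IsPGroup 2 W) (hNW : N ≤ W) (hMN : M ≤ N)
    (hne : ¬ N ≤ M) (hNn : W ≤ normalizer (N : Set G)) (hMn : W ≤ normalizer (M : Set G)) :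
    ∃ x ∈ N, x ∉ M ∧ ∀ w ∈ W, w * x * w⁻¹ * x⁻¹ ∈ M := by
  haveI : Fact (Nat.Prime 2) := ⟨Nat.prime_two⟩
  have hM'n : (M.subgroupOf W).Normal := (normal_subgroupOf_iff_le_normalizer (hMN.trans hNW)).mpr hMn
  have hN'n : (N.subgroupOf W).Normal := (normal_subgroupOf_iff_le_normalizer hNW).mpr hNn
  set M' := M.subgroupOf W with hM'
  set N' := N.subgroupOf W with hN'
  set q := QuotientGroup.mk' M' with hq
  have hqs : Function.Surjective q := QuotientGroup.mk'_surjective M'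
  have hN''n : (N'.map q).Normal := hN'n.map q hqs
  haveI : Group.IsNilpotent (↥W ⧸ M') := (hW.to_quotient M').isNilpotent
  have hN''ne : N'.map q ≠ ⊥ := by
    intro hbot
    apply hne
    intro x hx
    have h1 : q ⟨x, hNW hx⟩ ∈ N'.map q := ⟨⟨x, hNW hx⟩, hx, rfl⟩
    rw [hbot, Subgroup.mem_bot] at h1
    have h2 : (⟨x, hNW hx⟩ : ↥W) ∈ M' := (QuotientGroup.eq_one_iff _).mp h1
    exact h2
  have hne2 := Cfsg.Agent.Lib.Basic.normal_inf_center_ne_bot (N'.map q) hN''ne
  obtain ⟨⟨c, hc⟩, hc1⟩ := (Subgroup.ne_bot_iff_exists_ne_one.mp hne2)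
  obtain ⟨hcN, hcZ⟩ := Subgroup.mem_inf.mp hc
  obtain ⟨x, hxN, rfl⟩ := hcN
  refine ⟨x, hxN, ?_, ?_⟩
  · intro hxM
    apply hc1
    apply Subtype.ext
    show q x = 1
    exact (QuotientGroup.eq_one_iff _).mpr hxM
  · intro w hw
    have h1 : q ⟨w, hw⟩ * q x = q x * q ⟨w, hw⟩ := (Subgroup.mem_center_iff.mp hcZ _)
    have h2 : q ((⟨w, hw⟩ : ↥W) * x * (⟨w, hw⟩ : ↥W)⁻¹ * x⁻¹) = 1 := by
      simp only [map_mul, map_inv]
      rw [h1]
      group
    have h3 : ((⟨w, hw⟩ : ↥W) * x * (⟨w, hw⟩ : ↥W)⁻¹ * x⁻¹) ∈ M' := (QuotientGroup.eq_one_iff _).mp h2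
    exact h3

end basics

end Cfsg.Agent.Lib.ZT
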