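import Mathlib
import Cfsg.Agent.Lib.ZT.Q9a

/-!
# Groups with no noncyclic abelian subgroup of order eight: structure and odd automorphisms
-/

set_option autoImplicit false
set_option linter.unusedVariables false
set_option linter.unusedSectionVars false

namespace Cfsg.Agent.Lib.ZT

open Subgroup
open scoped Pointwise commutatorElement

section q9b

variable {G : Type*} [Group G]

/-- A two-element with an odd power trivial is trivial. -/
theorem eq_one_of_zpow_odd {x : G} {n : ℕ} (hx : x ^ (2 ^ n) = 1) (k : ℤ) (hk : x ^ (2 * k + 1) = 1) : x = 1 := by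
  have h1 : orderOf x ∣ 2 ^ n := orderOf_dvd_of_pow_eq_one hx
  have h2 : ((orderOf x : ℕ) : ℤ) ∣ 2 * k + 1 := orderOf_dvd_iff_zpow_eq_one.mpr hk
  have h3 : ((orderOf x : ℕ)).Coprime (2 * k + 1).natAbs := by
    have h5 : (orderOf x) ∣ (2 * k + 1).natAbs := Int.natCast_dvd.mp h2
    have h6 : Odd (2 * k + 1).natAbs := by
      rw [Int.natAbs_odd]; exact ⟨k, rfl⟩
    have h7 : (2 ^ n).Coprime (2 * k + 1).natAbs := (Nat.coprime_two_left.mpr h6).pow_left n
    exact h7.coprime_dvd_left h1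
  have h4 : orderOf x = 1 := by
    have h5 : (orderOf x) ∣ (2 * k + 1).natAbs := Int.natCast_dvd.mp h2
    exact Nat.Coprime.eq_one_of_dvd h3 h5
  exact orderOf_eq_one_iff.mp h4

theorem mem_zpowers_invol {t x : G} (ht : t ^ 2 = 1) (hx : x ∈ zpowers t) : x = 1 ∨ x = t := by
  obtain ⟨k, rfl⟩ := hx
  rcases Int.even_or_odd' k with ⟨c, rfl | rfl⟩
  · left
    show t ^ (2 * c) = 1
    rw [zpow_mul]
    simp [ht]
  · right
    show t ^ (2 * c + 1) = t
    rw [zpow_add, zpow_mul]
    simp [ht]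

/-- Index two: two elements outside lie in the same coset. -/
theorem inv_mul_mem_of_card [Finite G] {H₀ H : Subgroup G} (hle : H₀ ≤ H) (hcard : Nat.card H = 2 * Nat.card H₀)
    {x y : G} (hx : x ∈ H) (hy : y ∈ H) (hx0 : x ∉ H₀) (hy0 : y ∉ H₀) : x⁻¹ * y ∈ H₀ := by
  have h1 : Nat.card (H₀.subgroupOf H) = Nat.card H₀ := Nat.card_congr (subgroupOfEquivOfLe hle).toEquiv
  have h2 := Subgroup.card_mul_index (H₀.subgroupOf H)
  have hpos : 0 < Nat.card H₀ := Nat.card_pos
  have h3 : (H₀.subgroupOf H).index = 2 := by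
    rw [h1, hcard, mul_comm 2] at h2
    exact Nat.eq_of_mul_eq_mul_left hpos h2
  have h4 := Subgroup.mul_mem_iff_of_index_two h3 (a := (⟨x, hx⟩ : H)⁻¹) (b := ⟨y, hy⟩)
  have hx' : (⟨x, hx⟩ : H)⁻¹ ∉ H₀.subgroupOf H := by
    rw [Subgroup.inv_mem_iff]; exact hx0
  have hy' : (⟨y, hy⟩ : H) ∉ H₀.subgroupOf H := hy0
  have h5 : (⟨x, hx⟩ : H)⁻¹ * ⟨y, hy⟩ ∈ H₀.subgroupOf H := by
    rw [h4]; exact iff_of_false hx' hy'
  exact h5

theorem IsPGroup.elt_pow {W : Subgroup G} (hW : IsPGroup 2 W) {x : G} (hx : x ∈ W) : ∃ n : ℕ, x ^ (2 ^ n) = 1 := by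
  obtain ⟨k, hk⟩ := hW ⟨x, hx⟩
  exact ⟨k, by simpa using congrArg Subtype.val hk⟩

theorem sq_eq_one_of_card_four [Finite G] {V : Subgroup G} (hV4 : Nat.card V = 4) (hVnc : ¬ IsCyclic V) :
    ∀ x ∈ V, x ^ 2 = 1 := by
  intro x hx
  by_contra hx2
  apply hVnc
  have h4 : x ^ 4 = 1 := by
    have := pow_card_eq_one' (x := (⟨x, hx⟩ : V))
    rw [hV4] at this
    simpa using congrArg Subtype.val this
  have ho : orderOf x = 2 ^ (1 + 1) :=
    orderOf_eq_prime_pow (p := 2) (n := 1) (by simpa using hx2) (by simpa using h4)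
  have hz : zpowers x = V := Subgroup.eq_of_le_of_card_ge ((zpowers_le).mpr hx) (by
    rw [hV4, Nat.card_zpowers, ho]; norm_num)
  rw [← hz]
  infer_instance

/-- The Klein case of the structure lemma. -/
theorem card_le_eight_of_klein [Finite G] {W V : Subgroup G} (hW : IsPGroup 2 W) (hVW : V ≤ W)
    (hVn : W ≤ normalizer (V : Set G)) (hV4 : Nat.card V = 4) (hVnc : ¬ IsCyclic V)
    (hC : ∀ w ∈ W, (∀ v ∈ V, w * v = v * w) → w ∈ V) : Nat.card W ≤ 8 := by
  haveI : Fact (Nat.Prime 2) := ⟨Nat.prime_two⟩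
  have hV2 : ∀ x ∈ V, x ^ 2 = 1 := sq_eq_one_of_card_four hV4 hVnc
  have hne : ¬ V ≤ (⊥ : Subgroup G) := by
    intro h
    have : V = ⊥ := le_bot_iff.mp h
    rw [this] at hV4
    simp at hV4
  obtain ⟨t, htV, ht1, htc⟩ := exists_fixed_coset hW hVW bot_le hne hVn (fun w _ => by
    rw [mem_normalizer_iff]
    intro h
    simp only [SetLike.mem_coe, Subgroup.mem_bot]
    constructor
    · rintro rfl; simp
    · intro he
      have : h = w⁻¹ * (w * h * w⁻¹) * w := by group
      rw [this, he]; simp)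
  have ht1' : t ≠ 1 := by simpa using ht1
  have htc' : ∀ w ∈ W, w * t = t * w := by
    intro w hw
    have := htc w hw
    rw [Subgroup.mem_bot] at this
    have h2 : w * t * w⁻¹ = t := by
      rwa [mul_inv_eq_one] at this
    calc w * t = w * t * w⁻¹ * w := by group
      _ = t * w := by rw [h2]
  have hot : orderOf t = 2 := orderOf_eq_prime (hV2 t htV) ht1'
  have hcz : Nat.card (zpowers t) = 2 := by rw [Nat.card_zpowers, hot]
  have hzV : zpowers t ≤ V := (zpowers_le).mpr htV
  have hidx : ∀ {x y : G}, x ∈ V → y ∈ V → x ∉ zpowers t → y ∉ zpowers t → x⁻¹ * y ∈ zpowers t :=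
    fun hx hy hx0 hy0 => inv_mul_mem_of_card hzV (by rw [hV4, hcz]) hx hy hx0 hy0
  obtain ⟨u, huV, hut⟩ : ∃ u ∈ V, u ∉ zpowers t := by
    by_contra hcon
    push Not at hcon
    have : Nat.card V ≤ Nat.card (zpowers t) := Nat.card_le_card_of_injective
      (fun x : V => (⟨x, hcon x x.2⟩ : zpowers t)) (fun a b h => Subtype.ext (by simpa using congrArg Subtype.val h))
    omega
  -- conjugates of `u`
  have hconj : ∀ w ∈ W, w * u * w⁻¹ = u ∨ w * u * w⁻¹ = u * t := by
    intro w hw
    have h1 : w * u * w⁻¹ ∈ V := (mem_normalizer_iff.mp (hVn hw) u).mp huV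
    have h2 : w * u * w⁻¹ ∉ zpowers t := by
      intro hc
      apply hut
      rcases mem_zpowers_invol (hV2 t htV) hc with h3 | h3
      · have : u = 1 := by
          have h4 : w * u = w := by
            calc w * u = w * u * w⁻¹ * w := by group
              _ = w := by rw [h3]; simp
          simpa using h4
        rw [this]; exact Subgroup.one_mem _
      · have : w * u = t * w := by
          calc w * u = w * u * w⁻¹ * w := by group
            _ = t * w := by rw [h3]
        have h4 : u = t := by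
          rw [← htc' w hw] at this
          exact mul_left_cancel this
        rw [h4]; exact mem_zpowers t
    have h3 := hidx huV h1 hut h2
    rcases mem_zpowers_invol (hV2 t htV) h3 with h4 | h4
    · left
      rw [inv_mul_eq_one] at h4
      exact h4.symm
    · right
      rw [inv_mul_eq_iff_eq_mul] at h4
      exact h4
  set H₀ := W ⊓ centralizer ({u} : Set G) with hH₀
  have hH₀le : H₀ ≤ V := by
    intro w hw
    have hwW : w ∈ W := hw.1
    have hwu : w * u = u * w := by
      have := Subgroup.mem_centralizer_iff.mp hw.2 u (Set.mem_singleton u)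
      exact this.symm
    apply hC w hwW
    intro v hv
    have hwz : ∀ x ∈ zpowers t, w * x = x * w := by
      rintro _ ⟨k, rfl⟩
      exact (Commute.zpow_right (show Commute w t from htc' w hwW) k).eq
    by_cases hvz : v ∈ zpowers t
    · exact hwz v hvz
    · have h3 := hidx huV hv hut hvz
      have h4 : v = u * (u⁻¹ * v) := by group
      rw [h4]
      have h5 := hwz _ h3
      calc w * (u * (u⁻¹ * v)) = (w * u) * (u⁻¹ * v) := by group
        _ = (u * w) * (u⁻¹ * v) := by rw [hwu]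
        _ = u * (w * (u⁻¹ * v)) := by group
        _ = u * ((u⁻¹ * v) * w) := by rw [h5]
        _ = u * (u⁻¹ * v) * w := by group
  have hmem : ∀ w ∈ W, w * u * w⁻¹ = u → w ∈ H₀ := by
    intro w hw h
    refine Subgroup.mem_inf.mpr ⟨hw, ?_⟩
    rw [Subgroup.mem_centralizer_iff]
    intro x hx
    rw [Set.mem_singleton_iff] at hx
    subst hx
    calc x * w = w * x * w⁻¹ * w := by rw [h]
      _ = w * x := by group
  have hnot : ∀ w ∈ W, w ∉ H₀ → w * u * w⁻¹ = u * t := by
    intro w hw hn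
    rcases hconj w hw with h | h
    · exact absurd (hmem w hw h) hn
    · exact h
  have h2 := card_le_two_mul (H₀ := H₀) (H := W) inf_le_left (by
    intro x hx y hy hx0 hy0
    apply hmem _ (W.mul_mem (W.inv_mem hx) hy)
    have h1 := hnot x hx hx0
    have h3 := hnot y hy hy0
    have h4 : x⁻¹ * y * u * (x⁻¹ * y)⁻¹ = x⁻¹ * (y * u * y⁻¹) * x := by group
    rw [h4, h3, ← h1]
    group)
  have h3 : Nat.card H₀ ≤ Nat.card V := Subgroup.card_le_of_le hH₀le
  omega

/-- The core computation in the cyclic case. -/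
theorem cyc_core [Finite G] {W : Subgroup G} {a y : G} (hNo : NoA W) (ha : a ∈ W) (hyW : y ∈ W)
    (hy : y ∉ zpowers a) (hy2 : y ^ 2 ∈ zpowers a) {s : ℤ} (hs : y * a * y⁻¹ = a ^ (4 * s + 1))
    (hne : y * a ≠ a * y) {n : ℕ} (han : a ^ (2 ^ n) = 1) : False := by
  set c := a ^ (4 * s) with hc
  have hca : c * a = a * c := ((Commute.refl a).zpow_left _).eq
  have hs' : y * a * y⁻¹ = a * c := by
    rw [hs, zpow_add, zpow_one, hc]
    exact ((Commute.refl a).zpow_left _).eq
  have hzc : ∀ k : ℤ, y * a ^ k * y⁻¹ = a ^ k * c ^ k := by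
    intro k
    rw [← conj_zpow, hs', (show Commute a c from hca.symm).mul_zpow]
  -- `c ^ 2 = 1`
  obtain ⟨w, hw⟩ := hy2
  have hw' : y ^ 2 = a ^ w := hw.symm
  have hyy : y ^ 2 * a * (y ^ 2)⁻¹ = a := by
    rw [hw']
    have : a ^ w * a = a * a ^ w := ((Commute.refl a).zpow_left _).eq
    rw [this]; group
  have hcn : c ^ (2 ^ n) = 1 := by
    rw [hc, ← zpow_natCast, ← zpow_mul, mul_comm, zpow_mul]
    have : a ^ (((2 ^ n : ℕ)) : ℤ) = 1 := by rw [zpow_natCast, han]
    rw [this, one_zpow]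
  have hyc : y * c * y⁻¹ = c * c ^ (4 * s) := by
    rw [hc, hzc]
  have h1 : y ^ 2 * a * (y ^ 2)⁻¹ = a * c * (c * c ^ (4 * s)) := by
    have e : y ^ 2 * a * (y ^ 2)⁻¹ = y * (y * a * y⁻¹) * y⁻¹ := by rw [pow_two]; group
    have e2 : y * (a * c) * y⁻¹ = (y * a * y⁻¹) * (y * c * y⁻¹) := by group
    rw [e, hs', e2, hs', hyc]
  rw [hyy] at h1
  have h2 : c * (c * c ^ (4 * s)) = 1 := by
    have : a * (c * (c * c ^ (4 * s))) = a * 1 := by
      rw [mul_one]
      calc a * (c * (c * c ^ (4 * s))) = a * c * (c * c ^ (4 * s)) := by group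
        _ = a := h1.symm
    exact mul_left_cancel this
  have hcsq : (c ^ 2) ^ (2 * s + 1) = 1 := by
    have e : (c ^ 2) ^ (2 * s + 1) = c ^ (4 * s + 2) := by
      rw [← zpow_natCast, ← zpow_mul]
      congr 1
      push_cast
      ring
    have e2 : c ^ (4 * s + 2) = c * (c * c ^ (4 * s)) := by
      rw [zpow_add]
      have : c ^ (2 : ℤ) = c * c := by
        rw [zpow_two]
      rw [this]
      have hcomm : Commute (c * c) (c ^ (4 * s)) := Commute.mul_left ((Commute.refl c).zpow_right _) ((Commute.refl c).zpow_right _)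
      rw [← hcomm.eq]
      group
    rw [e, e2, h2]
  have hc2n : (c ^ 2) ^ (2 ^ n) = 1 := by
    rw [← pow_mul, mul_comm, pow_mul, hcn, one_pow]
  have hc2 : c ^ 2 = 1 := eq_one_of_zpow_odd hc2n s hcsq
  have hc1 : c ≠ 1 := by
    intro h
    apply hne
    rw [h, mul_one] at hs'
    calc y * a = y * a * y⁻¹ * y := by group
      _ = a * y := by rw [hs']
  -- the element `b`
  set b := a ^ (2 * s) with hb
  have hb2 : b ^ 2 = c := by
    rw [hb, hc, ← zpow_natCast, ← zpow_mul]
    congr 1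
    push_cast
    ring
  have hb4 : b ^ 4 = 1 := by
    have : b ^ 4 = (b ^ 2) ^ 2 := by rw [← pow_mul]
    rw [this, hb2, hc2]
  have hya2 : y * a ^ (2 : ℤ) * y⁻¹ = a ^ (2 : ℤ) := by
    rw [hzc]
    have : c ^ (2 : ℤ) = 1 := by
      rw [zpow_two, ← pow_two, hc2]
    rw [this, mul_one]
  have hyb : y * b * y⁻¹ = b := by
    rw [hb, zpow_mul, ← conj_zpow, hya2]
  have hybc : y * b = b * y := by
    calc y * b = y * b * y⁻¹ * y := by group
      _ = b * y := by rw [hyb]
  have hbW : b ∈ W := W.zpow_mem ha _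
  -- `w` even
  have hfix : y * a ^ w * y⁻¹ = a ^ w := by
    rw [← hw']
    rw [pow_two]; group
  have hcw : c ^ w = 1 := by
    rw [hzc] at hfix
    exact mul_eq_left.mp hfix
  rcases Int.even_or_odd' w with ⟨t, rfl | rfl⟩
  swap
  · apply hc1
    rw [zpow_add, zpow_mul, zpow_one] at hcw
    have : c ^ (2 : ℤ) = 1 := by
      rw [zpow_two, ← pow_two, hc2]
    rw [this, one_zpow, one_mul] at hcw
    exact hcw
  -- `u`
  set u := y * a ^ (-t) with hu
  have huW : u ∈ W := W.mul_mem hyW (W.zpow_mem ha _)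
  have hu_not : u ∉ zpowers a := by
    intro h
    apply hy
    have : y = u * a ^ t := by rw [hu, zpow_neg]; group
    rw [this]
    exact Subgroup.mul_mem _ h (Subgroup.zpow_mem _ (mem_zpowers a) _)
  have hubc : u * b = b * u := by
    have hab : a ^ (-t) * b = b * a ^ (-t) := by
      rw [hb]; exact ((Commute.refl a).zpow_zpow _ _).eq
    rw [hu]
    calc y * a ^ (-t) * b = y * (a ^ (-t) * b) := by group
      _ = y * (b * a ^ (-t)) := by rw [hab]
      _ = (y * b) * a ^ (-t) := by group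
      _ = (b * y) * a ^ (-t) := by rw [hybc]
      _ = b * (y * a ^ (-t)) := by group
  set d := c ^ (-t) with hd
  have hu2 : u ^ 2 = d := by
    have h1 := hzc (-t)
    have h2 : y * a ^ (-t) = a ^ (-t) * c ^ (-t) * y := by
      rw [← h1]; group
    have hw3 : y * y = a ^ (2 * t) := by rw [← pow_two]; exact hw'
    have hdc : ∀ k : ℤ, d * a ^ k = a ^ k * d := by
      intro k
      rw [hd, hc]
      exact ((Commute.refl a).zpow_zpow _ _).zpow_left _ |>.eq
    calc u ^ 2 = (y * a ^ (-t)) * (y * a ^ (-t)) := by rw [pow_two]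
      _ = (a ^ (-t) * d * y) * (y * a ^ (-t)) := by rw [h2]
      _ = a ^ (-t) * d * (y * y) * a ^ (-t) := by group
      _ = a ^ (-t) * d * a ^ (2 * t) * a ^ (-t) := by rw [hw3]
      _ = a ^ (-t) * (d * a ^ (2 * t)) * a ^ (-t) := by group
      _ = a ^ (-t) * (a ^ (2 * t) * d) * a ^ (-t) := by rw [hdc]
      _ = a ^ (-t) * a ^ (2 * t) * (d * a ^ (-t)) := by group
      _ = a ^ (-t) * a ^ (2 * t) * (a ^ (-t) * d) := by rw [hdc]
      _ = (a ^ (-t) * a ^ (2 * t) * a ^ (-t)) * d := by group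
      _ = d := by
          rw [← zpow_add, ← zpow_add]
          have : -t + 2 * t + -t = 0 := by ring
          rw [this]; simp
  have hbza : zpowers b ≤ zpowers a := (zpowers_le).mpr (Subgroup.zpow_mem _ (mem_zpowers a) _)
  have hb2' : b ^ 2 ≠ 1 := by rw [hb2]; exact hc1
  have hdz : d ∈ zpowers c := Subgroup.zpow_mem _ (mem_zpowers c) (-t)
  rcases mem_zpowers_invol hc2 hdz with hd1 | hd1
  · exact not_noA_of_good hbW huW hb4 hb2' (by rw [hu2, hd1]) (fun h => hu_not (hbza h)) hubc.symm hNo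
  · have hv2 : (u * b⁻¹) ^ 2 = 1 := by
      have hcomm : Commute u b⁻¹ := (show Commute u b from hubc).inv_right
      rw [hcomm.mul_pow, hu2, hd1, inv_pow, hb2]
      simp
    have hvn : u * b⁻¹ ∉ zpowers a := by
      intro h
      apply hu_not
      have : u = (u * b⁻¹) * b := by group
      rw [this]
      exact Subgroup.mul_mem _ h (hbza (mem_zpowers b))
    have hcv : b * (u * b⁻¹) = (u * b⁻¹) * b := by
      calc b * (u * b⁻¹) = (b * u) * b⁻¹ := by group
        _ = (u * b) * b⁻¹ := by rw [hubc]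
        _ = u := by group
        _ = (u * b⁻¹) * b := by group
    exact not_noA_of_good hbW (W.mul_mem huW (W.inv_mem hbW)) hb4 hb2' hv2 (fun h => hvn (hbza h)) hcv hNo

theorem conj_mul_exp {x x' a : G} {p q : ℤ} (h : x * a * x⁻¹ = a ^ p) (h' : x' * a * x'⁻¹ = a ^ q) :
    (x * x') * a * (x * x')⁻¹ = a ^ (p * q) := by
  have : (x * x') * a * (x * x')⁻¹ = x * (x' * a * x'⁻¹) * x⁻¹ := by group
  rw [this, h', ← conj_zpow, h, ← zpow_mul]

/-- The cyclic case of the structure lemma. -/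
theorem cyc_case [Finite G] {W : Subgroup G} {a : G} (hNo : NoA W) (hW : IsPGroup 2 W) (ha : a ∈ W)
    (hn : W ≤ normalizer (zpowers a : Set G)) (hC : ∀ x ∈ W, x * a = a * x → x ∈ zpowers a) :
    (∀ x ∈ W, ∀ y ∈ W, x ∉ zpowers a → y ∉ zpowers a → x⁻¹ * y ∈ zpowers a) ∧
      ∀ x ∈ W, x ∉ zpowers a → x ^ 4 = 1 := by
  obtain ⟨n, han⟩ := IsPGroup.elt_pow hW ha
  have hexp : ∀ x ∈ W, ∃ r : ℤ, x * a * x⁻¹ = a ^ r := by
    intro x hx
    obtain ⟨r, hr⟩ := (mem_normalizer_iff.mp (hn hx) a).mp (mem_zpowers a)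
    exact ⟨r, hr.symm⟩
  have hodd : ∀ x ∈ W, ∃ s : ℤ, x * a * x⁻¹ = a ^ (4 * s + 1) ∨ x * a * x⁻¹ = a ^ (4 * s + 3) := by
    intro x hx
    obtain ⟨r, hr⟩ := hexp x hx
    obtain ⟨r', hr'⟩ := hexp x⁻¹ (W.inv_mem hx)
    rcases Int.even_or_odd' r with ⟨c, rfl | rfl⟩
    · -- `a = 1`
      have h1 : a = a ^ (2 * c * r') := by
        have e : a = x⁻¹ * (x * a * x⁻¹) * x := by group
        have e2 : x⁻¹ * a ^ (2 * c) * x = (x⁻¹ * a * x⁻¹⁻¹) ^ (2 * c) := by
          rw [conj_zpow]; simp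
        calc a = x⁻¹ * (x * a * x⁻¹) * x := e
          _ = x⁻¹ * a ^ (2 * c) * x := by rw [hr]
          _ = (x⁻¹ * a * x⁻¹⁻¹) ^ (2 * c) := e2
          _ = (a ^ r') ^ (2 * c) := by rw [hr']
          _ = a ^ (2 * c * r') := by rw [← zpow_mul, mul_comm]
      have h2 : a ^ (2 * (-(c * r')) + 1) = 1 := by
        rw [zpow_add, zpow_one]
        have e : 2 * (-(c * r')) = -(2 * c * r') := by ring
        rw [e, zpow_neg]
        nth_rewrite 2 [h1]
        group
      have ha1 := eq_one_of_zpow_odd han _ h2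
      refine ⟨0, Or.inl ?_⟩
      rw [hr, ha1]; simp
    · refine ⟨c / 2, ?_⟩
      have : 2 * c + 1 = 4 * (c / 2) + 1 ∨ 2 * c + 1 = 4 * (c / 2) + 3 := by omega
      rcases this with h | h
      · left; rw [hr, h]
      · right; rw [hr, h]
  have hpow : ∀ (x : G) (s : ℤ), x * a * x⁻¹ = a ^ (4 * s + 1) → ∀ k : ℕ, ∃ s' : ℤ, x ^ k * a * (x ^ k)⁻¹ = a ^ (4 * s' + 1) := by
    intro x s hs k
    induction k with
    | zero => exact ⟨0, by simp⟩
    | succ k ih =>
      obtain ⟨s', hs'⟩ := ih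
      refine ⟨4 * s * s' + s + s', ?_⟩
      have := conj_mul_exp hs hs'
      rw [pow_succ']
      rw [this]
      congr 1
      ring
  have h1 : ∀ x ∈ W, x ∉ zpowers a → ∀ s : ℤ, x * a * x⁻¹ ≠ a ^ (4 * s + 1) := by
    intro x hx hxn s hs
    obtain ⟨m, hm⟩ := IsPGroup.elt_pow hW hx
    obtain ⟨k, hk1, hk2⟩ := exists_pow_not_mem_sq_mem m hm hxn
    obtain ⟨s', hs'⟩ := hpow x s hs k
    exact cyc_core hNo ha (W.pow_mem hx k) hk1 hk2 hs' (fun hc => hk1 (hC _ (W.pow_mem hx k) hc)) han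
  have h2 : ∀ x ∈ W, x ∉ zpowers a → ∃ s : ℤ, x * a * x⁻¹ = a ^ (4 * s + 3) := by
    intro x hx hxn
    obtain ⟨s, hs | hs⟩ := hodd x hx
    · exact absurd hs (h1 x hx hxn s)
    · exact ⟨s, hs⟩
  have hidx : ∀ x ∈ W, ∀ y ∈ W, x ∉ zpowers a → y ∉ zpowers a → x⁻¹ * y ∈ zpowers a := by
    intro x hx y hy hxn hyn
    by_contra hz
    obtain ⟨s, hs⟩ := h2 x hx hxn
    obtain ⟨s', hs'⟩ := h2 _ (W.mul_mem (W.inv_mem hx) hy) hz
    have h3 := conj_mul_exp hs hs'
    have e : x * (x⁻¹ * y) = y := by group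
    rw [e] at h3
    apply h1 y hy hyn (4 * s * s' + 3 * s + 3 * s' + 2)
    rw [h3]
    congr 1
    ring
  refine ⟨hidx, ?_⟩
  intro x hx hxn
  have hx2 : x * x ∈ zpowers a := by
    have := hidx x⁻¹ (W.inv_mem hx) x hx (by rwa [Subgroup.inv_mem_iff]) hxn
    simpa using this
  obtain ⟨w, hw⟩ := hx2
  have hw' : x * x = a ^ w := hw.symm
  obtain ⟨s, hs⟩ := h2 x hx hxn
  have hfix : x * a ^ w * x⁻¹ = a ^ w := by
    rw [← hw']; group
  rw [← conj_zpow, hs, ← zpow_mul] at hfix
  have h3 : (a ^ (2 * w)) ^ (2 * s + 1) = 1 := by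
    have e : (a ^ (2 * w)) ^ (2 * s + 1) = a ^ ((4 * s + 3) * w) * (a ^ w)⁻¹ := by
      rw [← zpow_mul, ← zpow_neg, ← zpow_add]
      congr 1
      ring
    rw [e, hfix]
    simp
  have h4 : (a ^ (2 * w)) ^ (2 ^ n) = 1 := by
    rw [← zpow_natCast, ← zpow_mul, mul_comm, zpow_mul]
    have : a ^ (((2 ^ n : ℕ)) : ℤ) = 1 := by rw [zpow_natCast, han]
    rw [this, one_zpow]
  have h5 := eq_one_of_zpow_odd h4 s h3
  calc x ^ 4 = (x * x) ^ 2 := by
        rw [← pow_two, ← pow_mul]
    _ = (a ^ w) ^ 2 := by rw [hw']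
    _ = a ^ (2 * w) := by
        rw [← zpow_natCast, ← zpow_mul, mul_comm]
        norm_cast
    _ = 1 := h5

/-- **Lemma M**: structure of `2`-groups with no noncyclic abelian subgroup of order eight. -/
theorem lemM [Finite G] {W : Subgroup G} (hW : IsPGroup 2 W) (hNo : NoA W) :
    Nat.card W ≤ 8 ∨ ∃ a ∈ W, (∀ x ∈ W, ∀ y ∈ W, x ∉ zpowers a → y ∉ zpowers a → x⁻¹ * y ∈ zpowers a) ∧
      ∀ x ∈ W, x ∉ zpowers a → x ^ 4 = 1 := by
  haveI : Fact (Nat.Prime 2) := ⟨Nat.prime_two⟩
  obtain ⟨A, hA⟩ := (Set.toFinite {M : Subgroup W | M.Normal ∧ IsMulCommutative M}).exists_maximal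
    ⟨⊥, inferInstance, inferInstance⟩
  obtain ⟨hAn, hAcomm⟩ := hA.prop
  haveI := hAn
  have hmax : ∀ M : Subgroup W, M.Normal → IsMulCommutative M → A ≤ M → M = A :=
    fun M h1 h2 h3 => hA.eq_of_ge ⟨h1, h2⟩ h3
  have hCA : centralizer (A : Set W) ≤ A := Cfsg.Agent.Lib.Transfer.centralizer_le_of_maximal hW hAcomm hmax
  set A₀ := A.map W.subtype with hA₀
  have hA₀W : A₀ ≤ W := by
    rintro _ ⟨x, -, rfl⟩
    exact x.2
  have hA₀2 : IsPGroup 2 A₀ := hW.to_le hA₀W
  have hA₀c : ∀ x ∈ A₀, ∀ y ∈ A₀, x * y = y * x := by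
    rintro _ ⟨x, hx, rfl⟩ _ ⟨y, hy, rfl⟩
    have := hAcomm.is_comm.comm (⟨x, hx⟩ : A) ⟨y, hy⟩
    exact congrArg (fun z : A => ((z : W) : G)) this
  have hnorm : W ≤ normalizer (A₀ : Set G) := by
    intro w hw
    apply mem_normalizer_of_conj
    rintro _ ⟨x, hx, rfl⟩
    exact ⟨(⟨w, hw⟩ : W) * x * (⟨w, hw⟩ : W)⁻¹, hAn.conj_mem x hx _, rfl⟩
  have hcent : ∀ w ∈ W, (∀ v ∈ A₀, w * v = v * w) → w ∈ A₀ := by
    intro w hw h
    have : (⟨w, hw⟩ : W) ∈ centralizer (A : Set W) := by
      rw [Subgroup.mem_centralizer_iff]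
      intro y hy
      apply Subtype.ext
      exact (h y ⟨y, hy, rfl⟩).symm
    exact ⟨⟨w, hw⟩, hCA this, rfl⟩
  by_cases hcyc : IsCyclic A₀
  · right
    obtain ⟨a', ha'⟩ := hcyc.exists_generator
    set a : G := a'.1 with ha
    have haA : a ∈ A₀ := a'.2
    have hz : zpowers a = A₀ := by
      apply le_antisymm ((zpowers_le).mpr haA)
      intro x hx
      obtain ⟨k, hk⟩ := ha' ⟨x, hx⟩
      exact ⟨k, by simpa using congrArg Subtype.val hk⟩
    refine ⟨a, hA₀W haA, ?_⟩
    have := cyc_case hNo hW (hA₀W haA) (by rwa [hz]) (by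
      intro x hx hc
      rw [hz]
      apply hcent x hx
      intro v hv
      rw [← hz] at hv
      obtain ⟨k, rfl⟩ := hv
      exact (Commute.zpow_right (show Commute x a from hc) k).eq)
    exact this
  · left
    rcases hNo.cyclic_or_le hA₀W hA₀2 hA₀c with h | h
    · exact absurd h hcyc
    · obtain ⟨k, hk⟩ := IsPGroup.iff_card.mp hA₀2
      have hk2 : k ≤ 2 := by
        by_contra hlt
        push Not at hlt
        have : 2 ^ 3 ≤ 2 ^ k := Nat.pow_le_pow_right (by norm_num) hlt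
        omega
      have hV4 : Nat.card A₀ = 4 := by
        interval_cases k
        · exfalso
          apply hcyc
          have : Subsingleton A₀ := (Nat.card_eq_one_iff_unique.mp (by simpa using hk)).1
          infer_instance
        · exfalso
          apply hcyc
          haveI : Fact (Nat.card A₀).Prime := ⟨by rw [hk]; norm_num⟩
          exact isCyclic_of_prime_card rfl
        · simpa using hk
      exact card_le_eight_of_klein hW hA₀W hnorm hV4 hcyc hcent

/-- The Klein group. -/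
def IsV4 (W : Subgroup G) : Prop := Nat.card W = 4 ∧ ∀ x ∈ W, x ^ 2 = 1

/-- The quaternion group of order eight. -/
def IsQ8 (W : Subgroup G) : Prop :=
  Nat.card W = 8 ∧ (∃ x ∈ W, ∃ y ∈ W, x * y ≠ y * x) ∧
    ∃ z ∈ W, z ≠ 1 ∧ z ^ 2 = 1 ∧ ∀ x ∈ W, x ^ 2 = 1 → x = 1 ∨ x = z

/-- **Lemma L**. -/
theorem lemL [Finite G] {W : Subgroup G} {g : G} (hW : IsPGroup 2 W) (hNo : NoA W) (hg : Odd (orderOf g))
    (hgW : g ∈ normalizer (W : Set G)) (hnc : ¬ ∀ w ∈ W, g * w = w * g) : IsV4 W ∨ IsQ8 W := by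
  haveI : Fact (Nat.Prime 2) := ⟨Nat.prime_two⟩
  have hT : ∀ a ∈ W, g * a * g⁻¹ ∈ zpowers a →
      (∀ x ∈ W, ∀ y ∈ W, x ∉ zpowers a → y ∉ zpowers a → x⁻¹ * y ∈ zpowers a) → False :=
    fun a ha h hidx => hnc (odd_comm_of_cyclic_index hg hgW hW ha h hidx)
  have hcyc : ¬ IsCyclic W := by
    intro hcyc
    obtain ⟨a', ha'⟩ := hcyc.exists_generator
    have hall : ∀ x ∈ W, x ∈ zpowers (a' : G) := by
      intro x hx
      obtain ⟨k, hk⟩ := ha' ⟨x, hx⟩
      exact ⟨k, by simpa using congrArg Subtype.val hk⟩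
    exact hT a' a'.2 (hall _ ((mem_normalizer_iff.mp hgW _).mp a'.2))
      (fun x hx y hy hxn => absurd (hall x hx) hxn)
  have hcard : Nat.card W ≤ 8 := by
    rcases lemM hW hNo with h | ⟨a, ha, hidx, h4⟩
    · exact h
    · have h1 : g * a * g⁻¹ ∉ zpowers a := fun h => hT a ha h hidx
      have h2 := h4 _ ((mem_normalizer_iff.mp hgW _).mp ha) h1
      have h3 : a ^ 4 = 1 := by
        rw [conj_pow] at h2
        have : g * a ^ 4 = g := by
          calc g * a ^ 4 = g * a ^ 4 * g⁻¹ * g := by group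
            _ = g := by rw [h2]; simp
        simpa using this
      have h5 : Nat.card (zpowers a) ≤ 4 := by
        rw [Nat.card_zpowers]
        exact Nat.le_of_dvd (by norm_num) (orderOf_dvd_of_pow_eq_one h3)
      have h6 := card_le_two_mul (H₀ := zpowers a) (H := W) ((zpowers_le).mpr ha) hidx
      omega
  obtain ⟨n, hn⟩ := IsPGroup.iff_card.mp hW
  have hn3 : n ≤ 3 := by
    by_contra hlt
    push Not at hlt
    have : 2 ^ 4 ≤ 2 ^ n := Nat.pow_le_pow_right (by norm_num) hlt
    omega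
  interval_cases n
  · exfalso
    apply hcyc
    have : Subsingleton W := (Nat.card_eq_one_iff_unique.mp (by simpa using hn)).1
    infer_instance
  · exfalso
    apply hcyc
    haveI : Fact (Nat.card W).Prime := ⟨by rw [hn]; norm_num⟩
    exact isCyclic_of_prime_card rfl
  · left
    have h4 : Nat.card W = 4 := by simpa using hn
    exact ⟨h4, sq_eq_one_of_card_four h4 hcyc⟩
  · right
    have h8 : Nat.card W = 8 := by simpa using hn
    have hx4 : ∀ x ∈ W, x ^ 4 = 1 := by
      intro x hx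
      by_contra h
      apply hcyc
      have h8' : x ^ 8 = 1 := by
        have := pow_card_eq_one' (x := (⟨x, hx⟩ : W))
        rw [h8] at this
        simpa using congrArg Subtype.val this
      have ho : orderOf x = 2 ^ (2 + 1) :=
        orderOf_eq_prime_pow (p := 2) (n := 2) (by simpa using h) (by simpa using h8')
      have hz : zpowers x = W := Subgroup.eq_of_le_of_card_ge ((zpowers_le).mpr hx)
        (by rw [h8, Nat.card_zpowers, ho]; norm_num)
      rw [← hz]
      infer_instance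
    have hna : ∃ x ∈ W, ∃ y ∈ W, x * y ≠ y * x := by
      by_contra hcon
      push Not at hcon
      rcases hNo.cyclic_or_le le_rfl hW hcon with h | h
      · exact hcyc h
      · omega
    obtain ⟨a, ha, ha2⟩ : ∃ a ∈ W, a ^ 2 ≠ 1 := by
      by_contra hcon
      push Not at hcon
      obtain ⟨x, hx, y, hy, hxy⟩ := hna
      apply hxy
      have h1 := hcon _ (W.mul_mem hx hy)
      have h2 := hcon x hx
      have h3 := hcon y hy
      have hxi : x⁻¹ = x := inv_eq_of_mul_eq_one_right (by rw [← pow_two]; exact h2)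
      have hyi : y⁻¹ = y := inv_eq_of_mul_eq_one_right (by rw [← pow_two]; exact h3)
      have hxyi : (x * y)⁻¹ = x * y := inv_eq_of_mul_eq_one_right (by rw [← pow_two]; exact h1)
      rw [mul_inv_rev, hxi, hyi] at hxyi
      exact hxyi.symm
    have ha4 := hx4 a ha
    have ho : orderOf a = 2 ^ (1 + 1) :=
      orderOf_eq_prime_pow (p := 2) (n := 1) (by simpa using ha2) (by simpa using ha4)
    have hcz : Nat.card (zpowers a) = 4 := by rw [Nat.card_zpowers, ho]; norm_num
    have haW : zpowers a ≤ W := (zpowers_le).mpr ha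
    have hidx : ∀ x ∈ W, ∀ y ∈ W, x ∉ zpowers a → y ∉ zpowers a → x⁻¹ * y ∈ zpowers a :=
      fun x hx y hy hx0 hy0 => inv_mul_mem_of_card haW (by rw [h8, hcz]) hx hy hx0 hy0
    have h1 : g * a * g⁻¹ ∉ zpowers a := fun h => hT a ha h hidx
    have ha'W : g * a * g⁻¹ ∈ W := (mem_normalizer_iff.mp hgW _).mp ha
    have ha'2 : (g * a * g⁻¹) ^ 2 ≠ 1 := by
      rw [conj_pow]
      intro h
      apply ha2
      have : g * a ^ 2 = g := by
        calc g * a ^ 2 = g * a ^ 2 * g⁻¹ * g := by group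
          _ = g := by rw [h]; simp
      simpa using this
    have ha4z : a ^ (4 : ℤ) = 1 := by
      have : a ^ (4 : ℤ) = a ^ (4 : ℕ) := by norm_cast
      rw [this, ha4]
    have hmod : ∀ k : ℤ, a ^ k = 1 ∨ a ^ k = a ∨ a ^ k = a ^ 2 ∨ a ^ k = a⁻¹ := by
      intro k
      have h2 : a ^ k = a ^ (k % 4) := zpow_eq_zpow_emod k ha4z
      have h3 : k % 4 = 0 ∨ k % 4 = 1 ∨ k % 4 = 2 ∨ k % 4 = 3 := by omega
      have hinv : a ^ 3 = a⁻¹ := by
        apply eq_inv_of_mul_eq_one_left
        rw [← pow_succ]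
        exact ha4
      rcases h3 with h3 | h3 | h3 | h3 <;> rw [h2, h3]
      · left; simp
      · right; left; simp
      · right; right; left; norm_cast
      · right; right; right
        rw [← hinv]
        norm_cast
    have hinv : ∀ v ∈ W, v ^ 2 = 1 → v ∈ zpowers a := by
      intro v hv hv2
      by_contra hva
      have hconj : v * a * v⁻¹ ∈ zpowers a := by
        by_contra hc
        have hcW : v * a * v⁻¹ ∈ W := W.mul_mem (W.mul_mem hv ha) (W.inv_mem hv)
        have h2 := hidx v hv _ hcW hva hc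
        have e : v⁻¹ * (v * a * v⁻¹) = a * v⁻¹ := by group
        rw [e] at h2
        apply hva
        have : v = (a⁻¹ * (a * v⁻¹))⁻¹ := by group
        rw [this]
        exact Subgroup.inv_mem _ (Subgroup.mul_mem _ (Subgroup.inv_mem _ (mem_zpowers a)) h2)
      obtain ⟨k, hk⟩ := hconj
      have hk' : v * a * v⁻¹ = a ^ k := hk.symm
      have hvinv : v⁻¹ = v := inv_eq_of_mul_eq_one_right (by rw [← pow_two]; exact hv2)
      have hsq : (v * a * v⁻¹) ^ 2 = v * a ^ 2 * v⁻¹ := conj_pow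
      have hne1 : v * a ^ 2 * v⁻¹ ≠ 1 := by
        intro h
        apply ha2
        have : v * a ^ 2 = v := by
          calc v * a ^ 2 = v * a ^ 2 * v⁻¹ * v := by group
            _ = v := by rw [h]; simp
        simpa using this
      have hinverts : v * a * v⁻¹ = a⁻¹ := by
        rcases hmod k with h | h | h | h
        · exfalso
          rw [h] at hk'
          apply hne1
          rw [← hsq, hk']
          simp
        · -- commuting: abelian
          exfalso
          rw [h] at hk'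
          have hcomm : v * a = a * v := by
            calc v * a = v * a * v⁻¹ * v := by group
              _ = a * v := by rw [hk']
          have hcz' : ∀ i : ℤ, v * a ^ i = a ^ i * v := fun i =>
            (Commute.zpow_right (show Commute v a from hcomm) i).eq
          have hform : ∀ w ∈ W, ∃ i : ℤ, w = a ^ i ∨ w = v * a ^ i := by
            intro w hw
            by_cases hwa : w ∈ zpowers a
            · obtain ⟨i, hi⟩ := hwa
              exact ⟨i, Or.inl hi.symm⟩
            · obtain ⟨i, hi⟩ := hidx v hv w hw hva hwa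
              refine ⟨i, Or.inr ?_⟩
              have hi' : a ^ i = v⁻¹ * w := hi
              rw [hi']; group
          obtain ⟨x, hx, y, hy, hxy⟩ := hna
          apply hxy
          obtain ⟨i, hi⟩ := hform x hx
          obtain ⟨j, hj⟩ := hform y hy
          have hij : a ^ i * a ^ j = a ^ j * a ^ i := ((Commute.refl a).zpow_zpow _ _).eq
          rcases hi with rfl | rfl <;> rcases hj with rfl | rfl
          · exact hij
          · calc a ^ i * (v * a ^ j) = (a ^ i * v) * a ^ j := by group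
              _ = (v * a ^ i) * a ^ j := by rw [hcz']
              _ = v * (a ^ i * a ^ j) := by group
              _ = v * (a ^ j * a ^ i) := by rw [hij]
              _ = (v * a ^ j) * a ^ i := by group
          · calc (v * a ^ i) * a ^ j = v * (a ^ i * a ^ j) := by group
              _ = v * (a ^ j * a ^ i) := by rw [hij]
              _ = (v * a ^ j) * a ^ i := by group
              _ = (a ^ j * v) * a ^ i := by rw [hcz']
              _ = a ^ j * (v * a ^ i) := by group
          · calc (v * a ^ i) * (v * a ^ j) = v * (a ^ i * v) * a ^ j := by group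
              _ = v * (v * a ^ i) * a ^ j := by rw [hcz']
              _ = v * v * (a ^ i * a ^ j) := by group
              _ = v * v * (a ^ j * a ^ i) := by rw [hij]
              _ = v * (v * a ^ j) * a ^ i := by group
              _ = v * (a ^ j * v) * a ^ i := by rw [hcz']
              _ = (v * a ^ j) * (v * a ^ i) := by group
        · exfalso
          rw [h] at hk'
          apply hne1
          rw [← hsq, hk', ← pow_mul]
          exact ha4
        · rw [hk', h]
      obtain ⟨i, hi⟩ := hidx v hv _ ha'W hva h1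
      have hi' : a ^ i = v⁻¹ * (g * a * g⁻¹) := hi
      have e1 : g * a * g⁻¹ = v * a ^ i := by rw [hi']; group
      apply ha'2
      rw [e1, pow_two]
      have e2 : v * a ^ i * v⁻¹ = (a⁻¹) ^ i := by rw [← hinverts, conj_zpow]
      have e3 : v * a ^ i * v = (a⁻¹) ^ i := by
        rw [hvinv] at e2
        exact e2
      calc v * a ^ i * (v * a ^ i) = (v * a ^ i * v) * a ^ i := by group
        _ = (a⁻¹) ^ i * a ^ i := by rw [e3]
        _ = 1 := by rw [inv_zpow]; group
    refine ⟨h8, hna, a ^ 2, W.pow_mem ha 2, ha2, by rw [← pow_mul]; exact ha4, ?_⟩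
    intro x hx hx2
    obtain ⟨k, rfl⟩ := hinv x hx hx2
    show a ^ k = 1 ∨ a ^ k = a ^ 2
    have hx2' : (a ^ k) ^ 2 = 1 := hx2
    rcases hmod k with h | h | h | h
    · exact Or.inl h
    · rw [h] at hx2'; exact absurd hx2' ha2
    · exact Or.inr h
    · rw [h, inv_pow] at hx2'
      exact absurd (inv_eq_one.mp hx2') ha2

end q9b

end Cfsg.Agent.Lib.ZT
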