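import Mathlib
import Cfsg.Agent.Lib.ZT.Q9b
import Cfsg.Agent.Lib.Basic.Solv1
import Cfsg.Agent.Lib.Basic.Hall

/-!
# Groups with no noncyclic abelian subgroup of order eight: the quaternion case, normality of the Sylow subgroup
-/

set_option autoImplicit false
set_option linter.unusedVariables false
set_option linter.unusedSectionVars false

namespace Cfsg.Agent.Lib.ZT

open Subgroup
open scoped Pointwise commutatorElement

section q9c

variable {G : Type*} [Group G]

theorem zpow_cases_of_four {a : G} (ha4 : a ^ 4 = 1) (k : ℤ) :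
    a ^ k = 1 ∨ a ^ k = a ∨ a ^ k = a ^ 2 ∨ a ^ k = a⁻¹ := by
  have ha4z : a ^ (4 : ℤ) = 1 := by
    have : a ^ (4 : ℤ) = a ^ (4 : ℕ) := by norm_cast
    rw [this, ha4]
  have h2 : a ^ k = a ^ (k % 4) := zpow_eq_zpow_emod k ha4z
  have h3 : k % 4 = 0 ∨ k % 4 = 1 ∨ k % 4 = 2 ∨ k % 4 = 3 := by omega
  have hinv : a ^ 3 = a⁻¹ := by
    apply eq_inv_of_mul_eq_one_left
    rw [← pow_succ]
    exact ha4
  rcases h3 with h3 | h3 | h3 | h3 <;> rw [h2, h3]
  · left; simp
  · right; left; simp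
  · right; right; left; norm_cast
  · right; right; right
    rw [← hinv]
    norm_cast

/-- If `W = ⟨a⟩ ∪ v⟨a⟩`, and `a, v` commute, then `W` is abelian. -/
theorem comm_of_coset_cover {W : Subgroup G} {a v : G} (hcomm : v * a = a * v)
    (hform : ∀ w ∈ W, ∃ i : ℤ, w = a ^ i ∨ w = v * a ^ i) :
    ∀ x ∈ W, ∀ y ∈ W, x * y = y * x := by
  intro x hx y hy
  have hcz' : ∀ i : ℤ, v * a ^ i = a ^ i * v := fun i =>
    (Commute.zpow_right (show Commute v a from hcomm) i).eq
  obtain ⟨i, hi⟩ := hform x hx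
  obtain ⟨j, hj⟩ := hform y hy
  have hij : a ^ i * a ^ j = a ^ j * a ^ i := ((Commute.refl a).zpow_zpow _ _).eq
  rcases hi with rfl | rfl <;> rcases hj with rfl | rfl
  · exact hij
  · calc a ^ i * (v * a ^ j) = (a ^ i * v) * a ^ j := by group
      _ = (v * a ^ i) * a ^ j := by rw [hcz']
      _ = v * (a ^ i * a ^ j) := by group
      _ = v * (a ^ j * a ^ i) := by rw [hij]
      _ = (v * a ^ j) * a ^ i := by group
  · calc (v * a ^ i) * a ^ j = v * (a ^ i * a ^ j) := by group
      _ = v * (a ^ j * a ^ i) := by rw [hij]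
      _ = (v * a ^ j) * a ^ i := by group
      _ = (a ^ j * v) * a ^ i := by rw [hcz']
      _ = a ^ j * (v * a ^ i) := by group
  · calc (v * a ^ i) * (v * a ^ j) = v * (a ^ i * v) * a ^ j := by group
      _ = v * (v * a ^ i) * a ^ j := by rw [hcz']
      _ = v * v * (a ^ i * a ^ j) := by group
      _ = v * v * (a ^ j * a ^ i) := by rw [hij]
      _ = v * (v * a ^ j) * a ^ i := by group
      _ = v * (a ^ j * v) * a ^ i := by rw [hcz']
      _ = (v * a ^ j) * (v * a ^ i) := by group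

/-- Quaternion data. -/
structure Q8D (W : Subgroup G) (z : G) : Prop where
  card : Nat.card W = 8
  na : ∃ x ∈ W, ∃ y ∈ W, x * y ≠ y * x
  zmem : z ∈ W
  z1 : z ≠ 1
  z2 : z ^ 2 = 1
  u : ∀ x ∈ W, x ^ 2 = 1 → x = 1 ∨ x = z

theorem IsQ8.exists {W : Subgroup G} (h : IsQ8 W) : ∃ z, Q8D W z := by
  obtain ⟨h1, h2, z, h3, h4, h5, h6⟩ := h
  exact ⟨z, ⟨h1, h2, h3, h4, h5, h6⟩⟩

namespace Q8D

variable {W : Subgroup G} {z : G}

theorem idx_of_order [Finite G] (h : Q8D W z) {x : G} (hx : x ∈ W) (hxo : orderOf x = 4) :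
    ∀ u ∈ W, ∀ v ∈ W, u ∉ zpowers x → v ∉ zpowers x → u⁻¹ * v ∈ zpowers x := by
  intro u hu v hv hu0 hv0
  exact inv_mul_mem_of_card ((zpowers_le).mpr hx) (by rw [h.card, Nat.card_zpowers, hxo]) hu hv hu0 hv0

theorem pow4 [Finite G] (h : Q8D W z) {x : G} (hx : x ∈ W) : x ^ 4 = 1 := by
  by_contra hc
  have h8' : x ^ 8 = 1 := by
    have := pow_card_eq_one' (x := (⟨x, hx⟩ : W))
    rw [h.card] at this
    simpa using congrArg Subtype.val this
  have ho : orderOf x = 2 ^ (2 + 1) :=
    orderOf_eq_prime_pow (p := 2) (n := 2) (by simpa using hc) (by simpa using h8')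
  have hz : zpowers x = W := Subgroup.eq_of_le_of_card_ge ((zpowers_le).mpr hx)
    (by rw [h.card, Nat.card_zpowers, ho]; norm_num)
  obtain ⟨a, ha, b, hb, hab⟩ := h.na
  apply hab
  rw [← hz] at ha hb
  obtain ⟨i, rfl⟩ := ha
  obtain ⟨j, rfl⟩ := hb
  exact ((Commute.refl x).zpow_zpow _ _).eq

theorem sq [Finite G] (h : Q8D W z) {x : G} (hx : x ∈ W) (hxz : x ∉ zpowers z) : x ^ 2 = z := by
  have h1 : x ^ 2 ≠ 1 := by
    intro h2
    rcases h.u x hx h2 with h3 | h3
    · exact hxz (h3 ▸ Subgroup.one_mem _)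
    · exact hxz (h3 ▸ mem_zpowers z)
  have h2 : (x ^ 2) ^ 2 = 1 := by rw [← pow_mul]; exact h.pow4 hx
  rcases h.u _ (W.pow_mem hx 2) h2 with h3 | h3
  · exact absurd h3 h1
  · exact h3

theorem order [Finite G] (h : Q8D W z) {x : G} (hx : x ∈ W) (hxz : x ∉ zpowers z) : orderOf x = 4 := by
  have h1 : x ^ 2 ≠ 1 := by
    rw [h.sq hx hxz]; exact h.z1
  have ho : orderOf x = 2 ^ (1 + 1) :=
    orderOf_eq_prime_pow (p := 2) (n := 1) (by simpa using h1) (by simpa using h.pow4 hx)
  rw [ho]; norm_num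

theorem conj [Finite G] (h : Q8D W z) {s : G} (hs : s ∈ normalizer (W : Set G)) : s * z * s⁻¹ = z := by
  have h1 : s * z * s⁻¹ ∈ W := (mem_normalizer_iff.mp hs z).mp h.zmem
  have h2 : (s * z * s⁻¹) ^ 2 = 1 := by
    rw [conj_pow, h.z2]; simp
  rcases h.u _ h1 h2 with h3 | h3
  · exfalso
    apply h.z1
    have : s * z = s := by
      calc s * z = s * z * s⁻¹ * s := by group
        _ = s := by rw [h3]; simp
    simpa using this
  · exact h3

theorem comm_conj [Finite G] (h : Q8D W z) {s : G} (hs : s ∈ normalizer (W : Set G)) : s * z = z * s := by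
  calc s * z = s * z * s⁻¹ * s := by group
    _ = z * s := by rw [h.conj hs]

theorem normz [Finite G] (h : Q8D W z) {s : G} (hs : s ∈ normalizer (W : Set G)) :
    s ∈ normalizer (zpowers z : Set G) := by
  apply mem_normalizer_of_conj
  rintro _ ⟨k, rfl⟩
  show s * z ^ k * s⁻¹ ∈ zpowers z
  rw [← conj_zpow, h.conj hs]
  exact Subgroup.zpow_mem _ (mem_zpowers z) k

theorem le [Finite G] (h : Q8D W z) : zpowers z ≤ W := (zpowers_le).mpr h.zmem

theorem card_z [Finite G] (h : Q8D W z) : Nat.card (zpowers z) = 2 := by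
  rw [Nat.card_zpowers, orderOf_eq_prime h.z2 h.z1]

theorem comm_z [Finite G] (h : Q8D W z) {x : G} (hx : x ∈ W) : x * z = z * x :=
  h.comm_conj (le_normalizer hx)

theorem sq_mem [Finite G] (h : Q8D W z) {x : G} (hx : x ∈ W) : x ^ 2 ∈ zpowers z := by
  by_cases hxz : x ∈ zpowers z
  · exact Subgroup.pow_mem _ hxz 2
  · rw [h.sq hx hxz]; exact mem_zpowers z

theorem comm [Finite G] (h : Q8D W z) {x y : G} (hx : x ∈ W) (hy : y ∈ W) : x * y * x⁻¹ * y⁻¹ ∈ zpowers z := by
  have h1 := h.sq_mem hx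
  have h2 := h.sq_mem (W.mul_mem (W.inv_mem hx) hy)
  have h3 := h.sq_mem (W.inv_mem hy)
  have e : x * y * x⁻¹ * y⁻¹ = x ^ 2 * (x⁻¹ * y) ^ 2 * (y⁻¹) ^ 2 := by
    simp only [pow_two]; group
  rw [e]
  exact Subgroup.mul_mem _ (Subgroup.mul_mem _ h1 h2) h3

theorem not_comm [Finite G] (h : Q8D W z) {e x : G} (he : e ∈ W) (hez : e ∉ zpowers z) (hx : x ∈ W)
    (hxe : x ∉ zpowers e) : e * x ≠ x * e := by
  intro hc
  obtain ⟨a, ha, b, hb, hab⟩ := h.na
  have hid := h.idx_of_order he (h.order he hez)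
  refine hab (comm_of_coset_cover (a := e) (v := x) hc.symm ?_ a ha b hb)
  intro w hw
  by_cases hwa : w ∈ zpowers e
  · obtain ⟨i, hi⟩ := hwa
    exact ⟨i, Or.inl hi.symm⟩
  · obtain ⟨i, hi⟩ := hid x hx w hw hxe hwa
    refine ⟨i, Or.inr ?_⟩
    have hi' : e ^ i = x⁻¹ * w := hi
    rw [hi']; group

theorem exists_not_mem [Finite G] (h : Q8D W z) {e : G} (he : e ∈ W) (hez : e ∉ zpowers z) :
    ∃ f ∈ W, f ∉ zpowers e := by
  by_contra hcon
  push Not at hcon
  have h1 : W ≤ zpowers e := hcon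
  have h2 := Subgroup.card_le_of_le h1
  rw [h.card, Nat.card_zpowers, h.order he hez] at h2
  omega

theorem exists_not_z [Finite G] (h : Q8D W z) : ¬ W ≤ zpowers z := by
  intro h1
  have h2 := Subgroup.card_le_of_le h1
  rw [h.card, h.card_z] at h2
  omega

end Q8D

/-- No noncyclic abelian subgroup of order eight in a `2`-group with self-centralising normal `Q₈`. -/
theorem no_good_of_Q8 [Finite G] {T W A : Subgroup G} {z : G} (hQ : Q8D T z) (hW : IsPGroup 2 W) (hTW : T ≤ W)
    (hAW : A ≤ W) (hTn : W ≤ normalizer (T : Set G)) (hC : ∀ x ∈ W, (∀ t ∈ T, x * t = t * x) → x ∈ T)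
    (hAc : ∀ x ∈ A, ∀ y ∈ A, x * y = y * x) (hAnc : ¬ IsCyclic A) (hA8 : Nat.card A = 8) : False := by
  obtain ⟨e, heT, hez, hefix⟩ := exists_fixed_coset hW hTW hQ.le hQ.exists_not_z hTn (fun s hs => hQ.normz (hTn hs))
  have he2 : e ^ 2 = z := hQ.sq heT hez
  have he4 : e ^ 4 = 1 := hQ.pow4 heT
  have heo := hQ.order heT hez
  obtain ⟨f, hfT, hfe⟩ := hQ.exists_not_mem heT hez
  have hidx := hQ.idx_of_order heT heo
  have hef : e * f ≠ f * e := hQ.not_comm heT hez hfT hfe
  have hcomm : e * f * e⁻¹ = z * f := by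
    rcases mem_zpowers_invol hQ.z2 (hQ.comm heT hfT) with h | h
    · exfalso
      apply hef
      rw [mul_inv_eq_one] at h
      calc e * f = e * f * e⁻¹ * e := by group
        _ = f * e := by rw [h]
    · rw [mul_inv_eq_iff_eq_mul] at h
      exact h
  have hcent : ∀ c ∈ W, c * e = e * c → c * f = f * c → c ∈ zpowers e := by
    intro c hc h1 h2
    have hcz : ∀ t ∈ zpowers e, c * t = t * c := by
      rintro _ ⟨i, rfl⟩
      exact (Commute.zpow_right (show Commute c e from h1) i).eq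
    have hcT : c ∈ T := by
      apply hC c hc
      intro t ht
      by_cases hte : t ∈ zpowers e
      · exact hcz t hte
      · have h3 := hidx f hfT t ht hfe hte
        have e1 : t = f * (f⁻¹ * t) := by group
        rw [e1]
        calc c * (f * (f⁻¹ * t)) = (c * f) * (f⁻¹ * t) := by group
          _ = (f * c) * (f⁻¹ * t) := by rw [h2]
          _ = f * (c * (f⁻¹ * t)) := by group
          _ = f * ((f⁻¹ * t) * c) := by rw [hcz _ h3]
          _ = (f * (f⁻¹ * t)) * c := by group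
    by_contra hce
    exact hQ.not_comm heT hez hcT hce h1.symm
  have hz_e : z = e ^ 2 := he2.symm
  have hzf : f * z = z * f := hQ.comm_z hfT
  have key : ∀ a ∈ A, a * e = e * a → a ∈ zpowers e := by
    intro a ha hae
    have haW := hAW ha
    have hf'T : a * f * a⁻¹ ∈ T := (mem_normalizer_iff.mp (hTn haW) f).mp hfT
    have hf'e : a * f * a⁻¹ ∉ zpowers e := by
      intro h
      apply hef
      have h1 : e * (a * f * a⁻¹) = (a * f * a⁻¹) * e := by
        obtain ⟨i, hi⟩ := h
        rw [← hi]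
        exact ((Commute.refl e).zpow_right i).eq
      have h2 : a * (e * f) * a⁻¹ = a * (f * e) * a⁻¹ := by
        calc a * (e * f) * a⁻¹ = (a * e) * f * a⁻¹ := by group
          _ = (e * a) * f * a⁻¹ := by rw [hae]
          _ = e * (a * f * a⁻¹) := by group
          _ = (a * f * a⁻¹) * e := h1
          _ = a * f * a⁻¹ * e := rfl
          _ = a * f * (a⁻¹ * e * a) * a⁻¹ := by group
          _ = a * f * e * a⁻¹ := by
              have : a⁻¹ * e * a = e := by
                calc a⁻¹ * e * a = a⁻¹ * (e * a) := by group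
                  _ = a⁻¹ * (a * e) := by rw [hae]
                  _ = e := by group
              rw [this]
          _ = a * (f * e) * a⁻¹ := by group
      have h3 : a * (e * f) = a * (f * e) := mul_right_cancel h2
      exact mul_left_cancel h3
    obtain ⟨i, hi⟩ := hidx f hfT _ hf'T hfe hf'e
    have hi' : e ^ i = f⁻¹ * (a * f * a⁻¹) := hi
    have e1 : a * f * a⁻¹ = f * e ^ i := by rw [hi']; group
    -- the third case
    have third : ∀ ε : G, (ε = e ∨ ε = e⁻¹) → a * f * a⁻¹ = f * ε → False := by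
      intro ε hε h1
      have haε : a * ε = ε * a := by
        rcases hε with rfl | rfl
        · exact hae
        · exact ((show Commute a e from hae).inv_right).eq
      have hε2 : ε * ε = z := by
        rcases hε with rfl | rfl
        · rw [← pow_two]; exact he2
        · have : e⁻¹ * e⁻¹ = (e ^ 2)⁻¹ := by rw [pow_two]; group
          rw [this, he2]
          exact inv_eq_of_mul_eq_one_right (by rw [← pow_two]; exact hQ.z2)
      have h2 : a ^ 2 * f * (a ^ 2)⁻¹ = z * f := by
        calc a ^ 2 * f * (a ^ 2)⁻¹ = a * (a * f * a⁻¹) * a⁻¹ := by rw [pow_two]; group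
          _ = a * (f * ε) * a⁻¹ := by rw [h1]
          _ = (a * f * a⁻¹) * (a * ε * a⁻¹) := by group
          _ = (f * ε) * (a * ε * a⁻¹) := by rw [h1]
          _ = (f * ε) * ε := by rw [haε]; group
          _ = f * (ε * ε) := by group
          _ = f * z := by rw [hε2]
          _ = z * f := hzf
      set c := e⁻¹ * a ^ 2 with hc
      have hae2 : a ^ 2 * e = e * a ^ 2 := (Commute.pow_left (show Commute a e from hae) 2).eq
      have hc1 : c * e = e * c := by
        rw [hc]
        calc e⁻¹ * a ^ 2 * e = e⁻¹ * (a ^ 2 * e) := by group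
          _ = e⁻¹ * (e * a ^ 2) := by rw [hae2]
          _ = e * (e⁻¹ * a ^ 2) := by group
      have hc2 : c * f = f * c := by
        have h3 : e⁻¹ * (z * f) * e = f := by
          rw [← hcomm]; group
        have h4 : a ^ 2 * f = z * f * a ^ 2 := by
          calc a ^ 2 * f = a ^ 2 * f * (a ^ 2)⁻¹ * a ^ 2 := by group
            _ = z * f * a ^ 2 := by rw [h2]
        rw [hc]
        calc e⁻¹ * a ^ 2 * f = e⁻¹ * (a ^ 2 * f) := by group
          _ = e⁻¹ * (z * f * a ^ 2) := by rw [h4]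
          _ = (e⁻¹ * (z * f) * e) * (e⁻¹ * a ^ 2) := by group
          _ = f * (e⁻¹ * a ^ 2) := by rw [h3]
      have hcz := hcent c (W.mul_mem (W.inv_mem (hTW heT)) (W.pow_mem haW 2)) hc1 hc2
      obtain ⟨j, hj⟩ := hcz
      have hj' : c = e ^ j := hj.symm
      have hef' : e⁻¹ * f ≠ f * e⁻¹ := by
        intro h
        apply hef
        have h' : Commute e⁻¹⁻¹ f := (show Commute e⁻¹ f from h).inv_left
        rw [inv_inv] at h'
        exact h'.eq
      have ha2 : a ^ 2 = e ∨ a ^ 2 = e⁻¹ := by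
        have hc' : a ^ 2 = e * c := by rw [hc]; group
        rcases zpow_cases_of_four he4 j with h | h | h | h
        · left
          rw [hc', hj', h, mul_one]
        · exfalso
          apply hef
          have : c = e := by rw [hj', h]
          rw [this] at hc2
          exact hc2
        · right
          rw [hc', hj', h]
          apply eq_inv_of_mul_eq_one_left
          calc e * e ^ 2 * e = e ^ 4 := by simp only [pow_succ, pow_zero]; group
            _ = 1 := he4
        · exfalso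
          apply hef'
          have : c = e⁻¹ := by rw [hj', h]
          rw [this] at hc2
          exact hc2
      have ha4 : a ^ 4 ≠ 1 := by
        have e2 : a ^ 4 = (a ^ 2) ^ 2 := by rw [← pow_mul]
        rw [e2]
        rcases ha2 with h | h
        · rw [h, he2]; exact hQ.z1
        · rw [h, inv_pow, he2]
          intro h'
          exact hQ.z1 (inv_eq_one.mp h')
      have ha8 : a ^ 8 = 1 := by
        have := pow_card_eq_one' (x := (⟨a, ha⟩ : A))
        rw [hA8] at this
        simpa using congrArg Subtype.val this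
      have ho : orderOf a = 2 ^ (2 + 1) :=
        orderOf_eq_prime_pow (p := 2) (n := 2) (by simpa using ha4) (by simpa using ha8)
      have hz : zpowers a = A := Subgroup.eq_of_le_of_card_ge ((zpowers_le).mpr ha)
        (by rw [hA8, Nat.card_zpowers, ho]; norm_num)
      apply hAnc
      rw [← hz]
      infer_instance
    rcases zpow_cases_of_four he4 i with h | h | h | h
    · apply hcent a haW hae
      rw [h, mul_one] at e1
      calc a * f = a * f * a⁻¹ * a := by group
        _ = f * a := by rw [e1]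
    · exact (third e (Or.inl rfl) (by rw [e1, h])).elim
    · rw [h, he2, hzf, ← hcomm] at e1
      have h4 : e⁻¹ * a ∈ zpowers e := by
        apply hcent _ (W.mul_mem (W.inv_mem (hTW heT)) haW)
        · calc e⁻¹ * a * e = e⁻¹ * (a * e) := by group
            _ = e⁻¹ * (e * a) := by rw [hae]
            _ = e * (e⁻¹ * a) := by group
        · have h5 : a * f = e * f * e⁻¹ * a := by
            calc a * f = a * f * a⁻¹ * a := by group
              _ = e * f * e⁻¹ * a := by rw [e1]
          calc e⁻¹ * a * f = e⁻¹ * (a * f) := by group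
            _ = e⁻¹ * (e * f * e⁻¹ * a) := by rw [h5]
            _ = f * (e⁻¹ * a) := by group
      have e5 : a = e * (e⁻¹ * a) := by group
      rw [e5]
      exact Subgroup.mul_mem _ (mem_zpowers e) h4
    · exact (third e⁻¹ (Or.inr rfl) (by rw [e1, h])).elim
  -- the centraliser of `e` in `A`
  set A₀ := A ⊓ centralizer ({e} : Set G) with hA₀
  have hmem : ∀ a ∈ A, a * e = e * a → a ∈ A₀ := by
    intro a ha h
    refine Subgroup.mem_inf.mpr ⟨ha, ?_⟩
    rw [Subgroup.mem_centralizer_iff]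
    intro x hx
    rw [Set.mem_singleton_iff] at hx
    subst hx
    exact h.symm
  have hnot : ∀ a ∈ A, a ∉ A₀ → a * e * a⁻¹ = z * e := by
    intro a ha hn
    rcases mem_zpowers_invol hQ.z2 (hefix a (hAW ha)) with h | h
    · exfalso
      apply hn
      apply hmem a ha
      rw [mul_inv_eq_one] at h
      calc a * e = a * e * a⁻¹ * a := by group
        _ = e * a := by rw [h]
    · rw [mul_inv_eq_iff_eq_mul] at h
      exact h
  have h2 := card_le_two_mul (H₀ := A₀) (H := A) inf_le_left (by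
    intro x hx y hy hx0 hy0
    apply hmem _ (A.mul_mem (A.inv_mem hx) hy)
    have h1 := hnot x hx hx0
    have h3 := hnot y hy hy0
    have h4 : x⁻¹ * y * e * (x⁻¹ * y)⁻¹ = x⁻¹ * (y * e * y⁻¹) * x := by group
    have h5 : x⁻¹ * y * e * (x⁻¹ * y)⁻¹ = e := by
      rw [h4, h3, ← h1]
      group
    calc x⁻¹ * y * e = x⁻¹ * y * e * (x⁻¹ * y)⁻¹ * (x⁻¹ * y) := by group
      _ = e * (x⁻¹ * y) := by rw [h5])
  have hA₀le : A₀ ≤ zpowers e := by
    intro a ha
    have hc := Subgroup.mem_centralizer_iff.mp ha.2 e (Set.mem_singleton e)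
    exact key a ha.1 hc.symm
  have hcz : Nat.card (zpowers e) = 4 := by rw [Nat.card_zpowers, heo]
  have h3 : Nat.card A₀ ≤ 4 := by
    have := Subgroup.card_le_of_le hA₀le
    omega
  have h4 : A₀ = zpowers e := Subgroup.eq_of_le_of_card_ge hA₀le (by omega)
  have heA : e ∈ A := by
    have : e ∈ A₀ := h4 ▸ mem_zpowers e
    exact this.1
  have h5 : A ≤ zpowers e := fun a ha => key a ha (hAc a ha e heA)
  have h6 := Subgroup.card_le_of_le h5
  omega

/-- Order of a product. -/
theorem card_sup_le_of_le_normalizer [Finite G] {Y K : Subgroup G} (h : K ≤ normalizer (Y : Set G)) :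
    Nat.card ↥(Y ⊔ K) ≤ Nat.card Y * Nat.card K := by
  have hs : ((Y ⊔ K : Subgroup G) : Set G) = (Y : Set G) * K := coe_mul_of_right_le_normalizer_left Y K h
  rw [← Nat.card_prod]
  refine Nat.card_le_card_of_surjective (fun p : Y × K => (⟨p.1 * p.2, ?_⟩ : ↥(Y ⊔ K))) ?_
  · exact Subgroup.mul_mem _ ((le_sup_left : Y ≤ Y ⊔ K) p.1.2) ((le_sup_right : K ≤ Y ⊔ K) p.2.2)
  · rintro ⟨x, hx⟩
    have hx' : x ∈ ((Y ⊔ K : Subgroup G) : Set G) := hx
    rw [hs] at hx'
    obtain ⟨y, hy, k, hk, rfl⟩ := Set.mem_mul.mp hx'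
    exact ⟨(⟨y, hy⟩, ⟨k, hk⟩), rfl⟩

theorem IsV4.not_cyclic [Finite G] {W : Subgroup G} (h : IsV4 W) : ¬ IsCyclic W := by
  intro hc
  obtain ⟨a, ha⟩ := hc.exists_generator
  have h1 : orderOf a = 4 := by
    rw [orderOf_eq_card_of_forall_mem_zpowers ha, h.1]
  have h2 : a ^ 2 = 1 := Subtype.ext (h.2 a a.2)
  have h3 := orderOf_dvd_of_pow_eq_one h2
  rw [h1] at h3
  omega

theorem index_two_pow_of_le [Finite G] {K R : Subgroup G} (hKR : K ≤ R) {n : ℕ}
    (hcard : Nat.card G = 2 ^ n * Nat.card K) : ∃ k : ℕ, R.index = 2 ^ k := by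
  obtain ⟨c, hc⟩ := Subgroup.card_dvd_of_le hKR
  have h1 := Subgroup.card_mul_index R
  rw [hc, hcard] at h1
  have hpos : 0 < Nat.card K := Nat.card_pos
  have h2 : c * R.index = 2 ^ n := by
    apply Nat.eq_of_mul_eq_mul_left hpos
    calc Nat.card K * (c * R.index) = Nat.card K * c * R.index := by ring
      _ = 2 ^ n * Nat.card K := h1
      _ = Nat.card K * 2 ^ n := by ring
  have h3 : R.index ∣ 2 ^ n := ⟨c, by rw [← h2]; ring⟩
  obtain ⟨k, -, hk⟩ := (Nat.dvd_prime_pow Nat.prime_two).mp h3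
  exact ⟨k, hk⟩

theorem mem_normalizer_of_normal' [Finite G] {T : Subgroup G} (hT : T.Normal) (g : G) : g ∈ normalizer (T : Set G) := by
  apply mem_normalizer_of_conj
  intro s hs
  exact hT.conj_mem s hs g

/-- **Step A**: the Sylow `2`-subgroup is normal. -/
theorem stepA_normal [Finite G] [Group.IsSolvable G] (hO : Cfsg.pPrimeCore 2 G = ⊥)
    (h8 : ∃ A : Subgroup G, IsMulCommutative ↥A ∧ ¬ IsCyclic ↥A ∧ Nat.card ↥A = 8)
    (hmin : ∀ R : Subgroup G, R ≠ ⊤ → (∃ k : ℕ, R.index = 2 ^ k) →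
      ¬ ∃ A : Subgroup G, A ≤ R ∧ IsMulCommutative ↥A ∧ ¬ IsCyclic ↥A ∧ Nat.card ↥A = 8)
    (X : Sylow 2 G) : (X : Subgroup G).Normal := by
  haveI : Fact (Nat.Prime 2) := ⟨Nat.prime_two⟩
  by_contra hXn
  set T := Cfsg.pCore 2 G with hT
  have hTn : T.Normal := Cfsg.Agent.Lib.Basic.pCore_normal 2
  have hT2 : IsPGroup 2 T := Cfsg.Agent.Lib.Basic.pCore_isPGroup 2
  have hTX : T ≤ X := Cfsg.Agent.Lib.Basic.pCore_le_sylow X
  have hCT : centralizer (T : Set G) ≤ T :=
    Cfsg.Agent.Lib.Basic.centralizer_pCore_le_of_pPrimeCore_eq_bot 2 hO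
  have hTne : T ≠ X := fun h => hXn (h ▸ hTn)
  have hcard : Nat.card T < Nat.card X := by
    have h1 := Subgroup.card_le_of_le hTX
    rcases h1.lt_or_eq with h | h
    · exact h
    · exact absurd (Subgroup.eq_of_le_of_card_ge hTX h.ge) hTne
  -- the Hall complement
  have hcop := X.card_coprime_index
  obtain ⟨H, hH⟩ := Cfsg.Agent.Lib.Basic.hall_exists _ (X : Subgroup G).index (Nat.card X) rfl
    (by rw [mul_comm, Subgroup.card_mul_index]) hcop.symm
  obtain ⟨n, hn⟩ := IsPGroup.iff_card.mp X.isPGroup'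
  have hGcard : Nat.card G = 2 ^ n * Nat.card H := by
    rw [hH, ← hn, Subgroup.card_mul_index]
  have hodd : Odd (Nat.card H) := by
    rw [hH, ← Nat.not_even_iff_odd, even_iff_two_dvd]
    exact X.not_dvd_index
  have hHnorm : H ≤ normalizer (T : Set G) := fun h _ => mem_normalizer_of_normal' hTn h
  have hR : T ⊔ H ≠ ⊤ := by
    intro h
    have h1 := card_sup_le_of_le_normalizer hHnorm
    rw [h, Subgroup.card_top, hGcard, ← hn] at h1
    have h2 : 0 < Nat.card H := Nat.card_pos
    have := Nat.le_of_mul_le_mul_right h1 h2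
    omega
  have hRidx := index_two_pow_of_le (le_sup_right : H ≤ T ⊔ H) hGcard
  have hNo : NoA T := by
    intro A hAT hAc hAnc hA8
    exact hmin _ hR hRidx ⟨A, hAT.trans le_sup_left, hAc, hAnc, hA8⟩
  have hHne : H ≠ ⊥ := by
    rintro rfl
    apply hXn
    have h1 : (X : Subgroup G).index = 1 := by
      rw [← hH]; simp
    rw [Subgroup.index_eq_one.mp h1]
    infer_instance
  obtain ⟨⟨g, hgH⟩, hg1⟩ := Subgroup.ne_bot_iff_exists_ne_one.mp hHne
  have hg1' : g ≠ 1 := fun h => hg1 (Subtype.ext h)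
  have hgodd : Odd (orderOf g) := Odd.of_dvd_nat hodd (Subgroup.orderOf_dvd_natCard H hgH)
  have hnc : ¬ ∀ t ∈ T, g * t = t * g := by
    intro h
    have hgT : g ∈ T := hCT (by
      rw [Subgroup.mem_centralizer_iff]
      intro t ht
      exact (h t ht).symm)
    obtain ⟨m, hm⟩ := IsPGroup.iff_card.mp hT2
    have h1 : orderOf g ∣ 2 ^ m := hm ▸ Subgroup.orderOf_dvd_natCard T hgT
    have h2 : (orderOf g).Coprime (2 ^ m) := (Nat.coprime_two_right.mpr hgodd).pow_right m
    apply hg1'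
    exact orderOf_eq_one_iff.mp (Nat.Coprime.eq_one_of_dvd h2 h1)
  have hL := lemL hT2 hNo hgodd (mem_normalizer_of_normal' hTn g) hnc
  obtain ⟨A, hAc, hAnc, hA8⟩ := h8
  have hA2 : IsPGroup 2 A := IsPGroup.of_card (n := 3) (by rw [hA8]; norm_num)
  obtain ⟨X', hAX'⟩ := hA2.exists_le_sylow
  have hTX' : T ≤ X' := Cfsg.Agent.Lib.Basic.pCore_le_sylow X'
  have hC' : ∀ x ∈ (X' : Subgroup G), (∀ t ∈ T, x * t = t * x) → x ∈ T := by
    intro x _ h
    apply hCT
    rw [Subgroup.mem_centralizer_iff]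
    intro t ht
    exact (h t ht).symm
  have hAc' : ∀ x ∈ A, ∀ y ∈ A, x * y = y * x := by
    intro x hx y hy
    have := hAc.is_comm.comm (⟨x, hx⟩ : A) ⟨y, hy⟩
    exact congrArg Subtype.val this
  rcases hL with hV | hQ
  · have h1 := card_le_eight_of_klein X'.isPGroup' hTX' (fun s _ => mem_normalizer_of_normal' hTn s) hV.1 hV.not_cyclic hC'
    have h2 : A = X' := Subgroup.eq_of_le_of_card_ge hAX' (by omega)
    have hTA : T ≤ A := h2 ▸ hTX'
    have hAT : A ≤ T := by
      intro a ha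
      apply hC' a (hAX' ha)
      intro t ht
      exact hAc' a ha t (hTA ht)
    have h3 := Subgroup.card_le_of_le hAT
    rw [hV.1] at h3
    omega
  · obtain ⟨z, hz⟩ := hQ.exists
    exact no_good_of_Q8 hz X'.isPGroup' hTX' hAX' (fun s _ => mem_normalizer_of_normal' hTn s) hC' hAc' hAnc hA8

end q9c

end Cfsg.Agent.Lib.ZT
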