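import Mathlib
import Cfsg.Agent.Lib.ZT.Q9c
import Cfsg.Agent.Lib.Basic.CoprimeAction
import Cfsg.Agent.Lib.Basic.Frattini
import Cfsg.Agent.Lib.OddLocal.UniqueP2

/-!
# Groups with no noncyclic abelian subgroup of order eight: tools for the coprime action
-/

set_option autoImplicit false
set_option linter.unusedVariables false
set_option linter.unusedSectionVars false

namespace Cfsg.Agent.Lib.ZT

open Subgroup
open scoped Pointwise commutatorElement

section q9d

variable {G : Type*} [Group G]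

theorem exists_central_mem [Finite G] {W N : Subgroup G} (hW : IsPGroup 2 W) (hNW : N ≤ W) (hne : N ≠ ⊥)
    (hNn : W ≤ normalizer (N : Set G)) : ∃ t ∈ N, t ≠ 1 ∧ ∀ w ∈ W, w * t = t * w := by
  have hne' : ¬ N ≤ (⊥ : Subgroup G) := fun h => hne (le_bot_iff.mp h)
  obtain ⟨t, htV, ht1, htc⟩ := exists_fixed_coset hW hNW bot_le hne' hNn (fun w _ => by
    rw [mem_normalizer_iff]
    intro h
    simp only [SetLike.mem_coe, Subgroup.mem_bot]
    constructor
    · rintro rfl; simp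
    · intro he
      have : h = w⁻¹ * (w * h * w⁻¹) * w := by group
      rw [this, he]; simp)
  refine ⟨t, htV, by simpa using ht1, ?_⟩
  intro w hw
  have := htc w hw
  rw [Subgroup.mem_bot] at this
  have h2 : w * t * w⁻¹ = t := by
    rwa [mul_inv_eq_one] at this
  calc w * t = w * t * w⁻¹ * w := by group
    _ = t * w := by rw [h2]

/-- A generator of a subgroup of index two is moved by an odd element acting nontrivially. -/
theorem conj_not_mem_of_index_two [Finite G] {W : Subgroup G} {g a : G} (hg : Odd (orderOf g))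
    (hgW : g ∈ normalizer (W : Set G)) (hW : IsPGroup 2 W) (hnc : ¬ ∀ w ∈ W, g * w = w * g) (ha : a ∈ W)
    (hcard : Nat.card W = 2 * orderOf a) : g * a * g⁻¹ ∉ zpowers a := by
  have hle : zpowers a ≤ W := (zpowers_le).mpr ha
  have hidx : ∀ x ∈ W, ∀ y ∈ W, x ∉ zpowers a → y ∉ zpowers a → x⁻¹ * y ∈ zpowers a :=
    fun x hx y hy hx0 hy0 => inv_mul_mem_of_card hle (by rw [hcard, Nat.card_zpowers]) hx hy hx0 hy0
  exact fun h => hnc (odd_comm_of_cyclic_index hg hgW hW ha h hidx)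

/-- Generation by an element and its conjugate. -/
theorem le_of_index_two_odd [Finite G] {W H : Subgroup G} {g a : G} (hg : Odd (orderOf g))
    (hgW : g ∈ normalizer (W : Set G)) (hW : IsPGroup 2 W) (hnc : ¬ ∀ w ∈ W, g * w = w * g) (ha : a ∈ W)
    (hcard : Nat.card W = 2 * orderOf a) (h1 : a ∈ H) (h2 : g * a * g⁻¹ ∈ H) : W ≤ H := by
  have hle : zpowers a ≤ W := (zpowers_le).mpr ha
  have hidx : ∀ x ∈ W, ∀ y ∈ W, x ∉ zpowers a → y ∉ zpowers a → x⁻¹ * y ∈ zpowers a :=
    fun x hx y hy hx0 hy0 => inv_mul_mem_of_card hle (by rw [hcard, Nat.card_zpowers]) hx hy hx0 hy0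
  have hf := conj_not_mem_of_index_two hg hgW hW hnc ha hcard
  have hfW : g * a * g⁻¹ ∈ W := (mem_normalizer_iff.mp hgW a).mp ha
  have hzH : zpowers a ≤ H := (zpowers_le).mpr h1
  intro w hw
  by_cases hwa : w ∈ zpowers a
  · exact hzH hwa
  · have h3 := hidx _ hfW w hw hf hwa
    have e : w = (g * a * g⁻¹) * ((g * a * g⁻¹)⁻¹ * w) := by group
    rw [e]
    exact H.mul_mem h2 (hzH h3)

theorem comm_sup_zpowers {L : Subgroup G} {d : G} (hL : ∀ x ∈ L, ∀ y ∈ L, x * y = y * x)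
    (hd : ∀ x ∈ L, d * x = x * d) : ∀ x ∈ L ⊔ zpowers d, ∀ y ∈ L ⊔ zpowers d, x * y = y * x := by
  have h1 : ∀ x ∈ L ⊔ zpowers d, x * d = d * x ∧ ∀ l ∈ L, x * l = l * x := by
    intro x hx
    have hle : L ⊔ zpowers d ≤ centralizer (({d} : Set G) ∪ (L : Set G)) := by
      apply sup_le
      · intro l hl
        rw [Subgroup.mem_centralizer_iff]
        rintro y (hy | hy)
        · rw [Set.mem_singleton_iff] at hy
          subst hy
          exact hd l hl
        · exact hL y hy l hl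
      · rw [zpowers_le, Subgroup.mem_centralizer_iff]
        rintro y (hy | hy)
        · rw [Set.mem_singleton_iff] at hy
          subst hy
          rfl
        · exact (hd y hy).symm
    have h2 := Subgroup.mem_centralizer_iff.mp (hle hx)
    refine ⟨(h2 d (Or.inl rfl)).symm, fun l hl => (h2 l (Or.inr hl)).symm⟩
  intro x hx y hy
  have hle : L ⊔ zpowers d ≤ centralizer ({x} : Set G) := by
    apply sup_le
    · intro l hl
      rw [Subgroup.mem_centralizer_singleton_iff]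
      exact ((h1 x hx).2 l hl).symm
    · rw [zpowers_le, Subgroup.mem_centralizer_singleton_iff]
      exact ((h1 x hx).1).symm
  have := hle hy
  rw [Subgroup.mem_centralizer_singleton_iff] at this
  exact this.symm

theorem normalizer_sup_zpowers [Finite G] {L : Subgroup G} {d g : G} (hg : g ∈ normalizer (L : Set G))
    (hd : g * d * g⁻¹ = d) : g ∈ normalizer ((L ⊔ zpowers d : Subgroup G) : Set G) := by
  apply mem_normalizer_of_conj
  intro s hs
  have hle : L ⊔ zpowers d ≤ (L ⊔ zpowers d).comap (MulAut.conj g).toMonoidHom := by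
    apply sup_le
    · intro l hl
      show g * l * g⁻¹ ∈ L ⊔ zpowers d
      exact (le_sup_left : L ≤ L ⊔ zpowers d) ((mem_normalizer_iff.mp hg l).mp hl)
    · rw [zpowers_le]
      show g * d * g⁻¹ ∈ L ⊔ zpowers d
      rw [hd]
      exact (le_sup_right : zpowers d ≤ L ⊔ zpowers d) (mem_zpowers d)
  exact hle hs

theorem Q8D.iso [Finite G] {L : Subgroup G} {z : G} (h : Q8D L z) (hL2 : IsPGroup 2 L) :
    Nonempty (↥L ≃* QuaternionGroup (2 ^ (0 + 1))) := by
  haveI : Fact (Nat.Prime 2) := ⟨Nat.prime_two⟩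
  have key : ∀ P : Subgroup L, Nat.card P = 2 → P = zpowers (⟨z, h.zmem⟩ : L) := by
    intro P hP
    obtain ⟨x, hx, -⟩ := (Nat.card_eq_two_iff' (1 : P)).mp hP
    have h2 : x ^ 2 = 1 := by
      have := pow_card_eq_one' (x := x)
      rwa [hP] at this
    have h2' : (x : L) ^ 2 = 1 := by
      have := congrArg Subtype.val h2
      simpa using this
    have h2'' : ((x : L) : G) ^ 2 = 1 := by
      have := congrArg Subtype.val h2'
      simpa using this
    have hx1 : (x : L) ≠ 1 := fun h => hx (Subtype.ext h)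
    have hx1' : ((x : L) : G) ≠ 1 := fun h => hx1 (Subtype.ext h)
    have ho : orderOf (x : L) = 2 := orderOf_eq_prime h2' hx1
    have hz : zpowers (x : L) = P := by
      refine Subgroup.eq_of_le_of_card_ge ((zpowers_le).mpr x.2) ?_
      rw [hP, Nat.card_zpowers, ho]
    have hxz : (x : L) = ⟨z, h.zmem⟩ := by
      apply Subtype.ext
      rcases h.u _ (x : L).2 h2'' with h3 | h3
      · exact absurd h3 hx1'
      · exact h3
    rw [← hz, hxz]
  have hU : Cfsg.Agent.Lib.OddLocal.UniqueP 2 L := by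
    intro P Q hP hQ
    rw [key P hP, key Q hQ]
  rcases Cfsg.Agent.Lib.OddLocal.cyclic_or_quaternion hL2 hU with hc | ⟨n, ⟨e⟩⟩
  · exfalso
    obtain ⟨x, hx, y, hy, hxy⟩ := h.na
    apply hxy
    obtain ⟨a, ha⟩ := hc.exists_generator
    obtain ⟨i, hi⟩ := ha ⟨x, hx⟩
    obtain ⟨j, hj⟩ := ha ⟨y, hy⟩
    have hi' : x = ((a ^ i : L) : G) := (congrArg Subtype.val hi).symm
    have hj' : y = ((a ^ j : L) : G) := (congrArg Subtype.val hj).symm
    rw [hi', hj']
    have := ((Commute.refl a).zpow_zpow i j).eq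
    exact congrArg Subtype.val this
  · have h1 : Nat.card (QuaternionGroup (2 ^ n)) = 4 * 2 ^ n := by
      haveI : NeZero (2 ^ n) := ⟨by positivity⟩
      rw [Nat.card_eq_fintype_card, QuaternionGroup.card]
    have h2 := Nat.card_congr e.toEquiv
    rw [h1, h.card] at h2
    have h3 : 2 ^ n = 2 ^ 1 := by omega
    have h4 : n = 1 := Nat.pow_right_injective (le_refl 2) h3
    subst h4
    exact ⟨e⟩

/-- The subgroup generated by the squares. -/
def sqs (X : Subgroup G) : Subgroup G := closure {x | ∃ u ∈ X, u ^ 2 = x}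

theorem sq_mem_sqs {X : Subgroup G} {u : G} (hu : u ∈ X) : u ^ 2 ∈ sqs X := subset_closure ⟨u, hu, rfl⟩

theorem sqs_le {X : Subgroup G} : sqs X ≤ X := by
  rw [sqs, closure_le]
  rintro _ ⟨u, hu, rfl⟩
  exact X.pow_mem hu 2

theorem sqs_le_of {X N : Subgroup G} (h : ∀ u ∈ X, u ^ 2 ∈ N) : sqs X ≤ N := by
  rw [sqs, closure_le]
  rintro _ ⟨u, hu, rfl⟩
  exact h u hu

theorem comm_mem_sqs {X : Subgroup G} {u v : G} (hu : u ∈ X) (hv : v ∈ X) : u * v * u⁻¹ * v⁻¹ ∈ sqs X := by
  have e : u * v * u⁻¹ * v⁻¹ = u ^ 2 * (u⁻¹ * v) ^ 2 * (v⁻¹) ^ 2 := by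
    simp only [pow_two]; group
  rw [e]
  exact mul_mem (mul_mem (sq_mem_sqs hu) (sq_mem_sqs (X.mul_mem (X.inv_mem hu) hv))) (sq_mem_sqs (X.inv_mem hv))

theorem sqs_normal {X : Subgroup G} (hX : X.Normal) : (sqs X).Normal := by
  constructor
  intro n hn g
  have hle : sqs X ≤ (sqs X).comap (MulAut.conj g).toMonoidHom := by
    rw [sqs, closure_le]
    rintro _ ⟨u, hu, rfl⟩
    show g * u ^ 2 * g⁻¹ ∈ closure {x | ∃ u ∈ X, u ^ 2 = x}
    rw [← conj_pow]
    exact subset_closure ⟨_, hX.conj_mem u hu g, rfl⟩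
  exact hle hn

theorem map_frattini_eq_sqs [Finite G] {X : Subgroup G} (hX2 : IsPGroup 2 X) :
    (frattini ↥X).map X.subtype = sqs X := by
  haveI : Fact (Nat.Prime 2) := ⟨Nat.prime_two⟩
  apply le_antisymm
  · have h1 : frattini ↥X ≤ (sqs X).subgroupOf X := by
      apply Cfsg.Agent.Lib.Basic.frattini_le_of_commutator_le_of_pow_mem Nat.prime_two
      · rw [commutator_def, Subgroup.commutator_le]
        rintro ⟨u, hu⟩ - ⟨v, hv⟩ -
        show ((⁅(⟨u, hu⟩ : X), (⟨v, hv⟩ : X)⁆ : X) : G) ∈ sqs X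
        simp only [commutatorElement_def]
        exact comm_mem_sqs hu hv
      · rintro ⟨u, hu⟩
        exact sq_mem_sqs hu
    rintro _ ⟨x, hx, rfl⟩
    exact h1 hx
  · rw [sqs, closure_le]
    rintro _ ⟨u, hu, rfl⟩
    exact ⟨⟨u, hu⟩ ^ 2, Cfsg.Agent.Lib.Basic.pow_mem_frattini_of_isPGroup hX2 _, rfl⟩

theorem sqs_ne [Finite G] {X : Subgroup G} (hX2 : IsPGroup 2 X) (hne : X ≠ ⊥) : sqs X ≠ X := by
  intro h
  have h1 : (frattini ↥X).map X.subtype = (⊤ : Subgroup X).map X.subtype := by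
    rw [map_frattini_eq_sqs hX2, h]
    ext x
    constructor
    · intro hx
      exact ⟨⟨x, hx⟩, Subgroup.mem_top _, rfl⟩
    · rintro ⟨y, -, rfl⟩
      exact y.2
  have h2 : frattini ↥X = ⊤ := Subgroup.map_injective X.subtype_injective h1
  have h3 : (⊥ : Subgroup X) = ⊤ := Cfsg.Agent.Lib.Basic.eq_top_of_sup_eq_top_of_le_frattini (L := ⊤) (by rw [h2]) (by simp)
  apply hne
  rw [eq_bot_iff]
  intro x hx
  have h4 : (⟨x, hx⟩ : X) ∈ (⊥ : Subgroup X) := h3 ▸ Subgroup.mem_top _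
  have h5 : (⟨x, hx⟩ : X) = 1 := h4
  exact congrArg Subtype.val h5

/-- `C_X(K) ≤ Y` when `[X, K] = X`, `Y` normal with `X / Y` abelian. -/
theorem fix_le_of_commutator_eq [Finite G] {X K Y : Subgroup G} (hXn : X.Normal) (hYn : Y.Normal) (hX2 : IsPGroup 2 X)
    (hKodd : Odd (Nat.card K)) (hcomm : ∀ u ∈ X, ∀ v ∈ X, u * v * u⁻¹ * v⁻¹ ∈ Y) (hLX : ⁅X, K⁆ = X) :
    X ⊓ centralizer (K : Set G) ≤ Y := by
  set q := QuotientGroup.mk' Y with hq
  have hqs : Function.Surjective q := QuotientGroup.mk'_surjective Y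
  set V := X.map q with hV
  set A := K.map q with hA
  have hVn : V.Normal := hXn.map q hqs
  have hVc : IsMulCommutative V := by
    refine ⟨⟨?_⟩⟩
    rintro ⟨_, u, hu, rfl⟩ ⟨_, v, hv, rfl⟩
    apply Subtype.ext
    show q u * q v = q v * q u
    have h1 : q (u * v * u⁻¹ * v⁻¹) = 1 := (QuotientGroup.eq_one_iff _).mpr (hcomm u hu v hv)
    simp only [map_mul, map_inv] at h1
    have h2 : q u * q v * (q u)⁻¹ * (q v)⁻¹ = 1 := h1
    have h3 : q u * q v * (q u)⁻¹ = q v := by rwa [mul_inv_eq_one] at h2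
    calc q u * q v = q u * q v * (q u)⁻¹ * q u := by group
      _ = q v * q u := by rw [h3]
  have hAV : A ≤ normalizer (V : Set (G ⧸ Y)) := fun a _ => mem_normalizer_of_normal' hVn a
  obtain ⟨n, hn⟩ := IsPGroup.iff_card.mp hX2
  have hcop : (Nat.card A).Coprime (Nat.card V) := by
    have h1 : Nat.card A ∣ Nat.card K := Subgroup.card_map_dvd K q
    have h2 : Nat.card V ∣ 2 ^ n := hn ▸ Subgroup.card_map_dvd X q
    have h3 : (Nat.card K).Coprime (2 ^ n) := (Nat.coprime_two_right.mpr hKodd).pow_right n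
    exact Nat.Coprime.coprime_dvd_left h1 (Nat.Coprime.coprime_dvd_right h2 h3)
  have hbot := Cfsg.Agent.Lib.Basic.centralizer_inf_commutator_eq_bot hAV hcop
  intro z hz
  have h1 : q z ∈ V := ⟨z, hz.1, rfl⟩
  have h2 : q z ∈ centralizer (A : Set (G ⧸ Y)) := by
    rw [Subgroup.mem_centralizer_iff]
    rintro _ ⟨k, hk, rfl⟩
    have := (Subgroup.mem_centralizer_iff.mp hz.2) k hk
    rw [← map_mul, ← map_mul, this]
  have h3 : q z ∈ ⁅V, A⁆ := by
    rw [hV, hA, ← Subgroup.map_commutator, hLX]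
    exact h1
  have h4 : q z ∈ (V ⊓ centralizer (A : Set (G ⧸ Y))) ⊓ ⁅V, A⁆ := ⟨⟨h1, h2⟩, h3⟩
  rw [hbot, Subgroup.mem_bot] at h4
  exact (QuotientGroup.eq_one_iff _).mp h4

end q9d

end Cfsg.Agent.Lib.ZT
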