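import Mathlib
import Cfsg.Agent.Lib.ZT.Q9d
import Cfsg.Prelude.Def_Transfer

/-!
# Groups with no noncyclic abelian subgroup of order eight: the complement acting on the Sylow subgroup
-/

set_option autoImplicit false
set_option linter.unusedVariables false
set_option linter.unusedSectionVars false

namespace Cfsg.Agent.Lib.ZT

open Subgroup
open scoped Pointwise commutatorElement

section q9e

variable {G : Type*} [Group G]

/-- The hypotheses of the second step. -/
structure SB (X K : Subgroup G) : Prop where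
  Xn : X.Normal
  X2 : IsPGroup 2 X
  Kodd : Odd (Nat.card K)
  cent : ∀ x, (∀ t ∈ X, x * t = t * x) → x ∈ X
  Mn : ∀ Y : Subgroup G, Y ≤ X → K ≤ normalizer (Y : Set G) → ¬ NoA Y → Y = X
  hA : ¬ NoA X

/-- The conclusion. -/
def Concl (X : Subgroup G) : Prop :=
  IsMulCommutative ↥X ∨ (Cfsg.IsExtraspecial 2 ↥X ∧ 32 ≤ Nat.card ↥X) ∨
  (∃ (X₀ : Subgroup G) (k : ℕ), X₀ ≤ X ∧ X₀.relIndex X = 2 ∧ Nonempty (↥X₀ ≃* QuaternionGroup (2 ^ (k + 1))) ∧
    X₀ ⊔ (X ⊓ Subgroup.centralizer (X₀ : Set G)) = X) ∨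
  (Cfsg.IsSpecial 2 ↥X ∧ Nat.card ↥(Subgroup.center ↥X) = 4)

theorem SB.gOdd {X K : Subgroup G} [Finite G] (h : SB X K) {g : G} (hg : g ∈ K) : Odd (orderOf g) :=
  Odd.of_dvd_nat h.Kodd (Subgroup.orderOf_dvd_natCard K hg)

theorem SB.hcop {X K : Subgroup G} [Finite G] (h : SB X K) : (Nat.card K).Coprime (Nat.card X) := by
  obtain ⟨n, hn⟩ := IsPGroup.iff_card.mp h.X2
  rw [hn]
  exact (Nat.coprime_two_right.mpr h.Kodd).pow_right n

theorem comm_conj_of_comm {d g u : G} (h1 : d * u = u * d) (h2 : d * g = g * d) :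
    d * (g * u * g⁻¹) = (g * u * g⁻¹) * d := by
  have h3 : d * g⁻¹ = g⁻¹ * d := ((show Commute d g from h2).inv_right).eq
  calc d * (g * u * g⁻¹) = (d * g) * u * g⁻¹ := by group
    _ = (g * d) * u * g⁻¹ := by rw [h2]
    _ = g * (d * u) * g⁻¹ := by group
    _ = g * (u * d) * g⁻¹ := by rw [h1]
    _ = g * u * (d * g⁻¹) := by group
    _ = g * u * (g⁻¹ * d) := by rw [h3]
    _ = (g * u * g⁻¹) * d := by group

theorem relIndex_eq_two_of_card [Finite G] {L X : Subgroup G} (hle : L ≤ X) (hcard : Nat.card X = 2 * Nat.card L) :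
    L.relIndex X = 2 := by
  have h1 : Nat.card (L.subgroupOf X) = Nat.card L := Nat.card_congr (subgroupOfEquivOfLe hle).toEquiv
  have h2 := Subgroup.card_mul_index (L.subgroupOf X)
  have hpos : 0 < Nat.card L := Nat.card_pos
  rw [h1, hcard, mul_comm 2] at h2
  exact Nat.eq_of_mul_eq_mul_left hpos h2

theorem sq_comm_of_comm_mem {x u z : G} (hz2 : z ^ 2 = 1) (hxz : x * z = z * x) (h : x * u * x⁻¹ * u⁻¹ ∈ zpowers z) :
    x ^ 2 * u = u * x ^ 2 := by
  have hzz : z * z = 1 := by rw [← pow_two]; exact hz2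
  rcases mem_zpowers_invol hz2 h with h1 | h1
  · rw [mul_inv_eq_one] at h1
    have h2 : x * u = u * x := by
      calc x * u = x * u * x⁻¹ * x := by group
        _ = u * x := by rw [h1]
    exact (Commute.pow_left (show Commute x u from h2) 2).eq
  · rw [mul_inv_eq_iff_eq_mul] at h1
    have h2 : x * u = z * u * x := by
      calc x * u = x * u * x⁻¹ * x := by group
        _ = z * u * x := by rw [h1]
    calc x ^ 2 * u = x * (x * u) := by rw [pow_two]; group
      _ = x * (z * u * x) := by rw [h2]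
      _ = (x * z) * u * x := by group
      _ = (z * x) * u * x := by rw [hxz]
      _ = z * (x * u) * x := by group
      _ = z * (z * u * x) * x := by rw [h2]
      _ = (z * z) * u * (x * x) := by group
      _ = u * x ^ 2 := by rw [hzz, pow_two]; group

/-- The case `[X, K] = 1`. -/
theorem caseBot [Finite G] {X K : Subgroup G} (h : SB X K) (hbot : ⁅X, K⁆ = ⊥) : Concl X := by
  have hXC : X ≤ centralizer (K : Set G) := Subgroup.commutator_eq_bot_iff_le_centralizer.mp hbot
  have hK1 : ∀ g ∈ K, g = 1 := by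
    intro g hg
    have hgX : g ∈ X := by
      apply h.cent
      intro t ht
      exact Subgroup.mem_centralizer_iff.mp (hXC ht) g hg
    obtain ⟨m, hm⟩ := IsPGroup.iff_card.mp h.X2
    have h1 : orderOf g ∣ 2 ^ m := hm ▸ Subgroup.orderOf_dvd_natCard X hgX
    have h2 : (orderOf g).Coprime (2 ^ m) := (Nat.coprime_two_right.mpr (h.gOdd hg)).pow_right m
    exact orderOf_eq_one_iff.mp (Nat.Coprime.eq_one_of_dvd h2 h1)
  have hA := h.hA
  simp only [NoA] at hA
  push Not at hA
  obtain ⟨A, hAX, hAc, hAnc, hA8⟩ := hA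
  have hEq : A = X := h.Mn A hAX (by
    intro k hk
    rw [hK1 k hk]
    exact Subgroup.one_mem _) (fun hn => hn A le_rfl hAc hAnc hA8)
  left
  rw [← hEq]
  exact hAc

/-- The case `1 < [X, K] < X`. -/
theorem caseB1 [Finite G] {X K : Subgroup G} (h : SB X K) (hne : ⁅X, K⁆ ≠ X) (hbot : ⁅X, K⁆ ≠ ⊥) : Concl X := by
  haveI : Fact (Nat.Prime 2) := ⟨Nat.prime_two⟩
  have hXn := h.Xn
  have hX2 := h.X2
  haveI := hX2.isNilpotent
  have hKX : K ≤ normalizer (X : Set G) := fun k _ => mem_normalizer_of_normal' hXn k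
  have hLX : ⁅X, K⁆ ≤ X := Cfsg.Agent.Lib.Basic.commutator_le_of_le_normalizer hKX
  have hKL : K ≤ normalizer ((⁅X, K⁆ : Subgroup G) : Set G) := Subgroup.normalizer_commutator_ge_right X K
  have hXL : X ≤ normalizer ((⁅X, K⁆ : Subgroup G) : Set G) := Subgroup.normalizer_commutator_ge_left X K
  have hLL : ⁅⁅X, K⁆, K⁆ = ⁅X, K⁆ :=
    Cfsg.Agent.Lib.Basic.coprime_commutator_commutator hKX h.hcop (Or.inr inferInstance)
  have hdec := fun x hx => Cfsg.Agent.Lib.Basic.coprime_exists_mul hKX h.hcop (Or.inr inferInstance) x hx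
  set L := ⁅X, K⁆ with hL
  have hNo : NoA L := by
    by_contra hn
    exact hne (h.Mn L hLX hKL hn)
  have hL2 : IsPGroup 2 L := hX2.to_le hLX
  obtain ⟨g, hg, hnc⟩ : ∃ g ∈ K, ¬ ∀ w ∈ L, g * w = w * g := by
    by_contra hcon
    push Not at hcon
    apply hbot
    rw [← hLL, eq_bot_iff, Subgroup.commutator_le]
    intro l hl k hk
    have := hcon k hk l hl
    rw [commutatorElement_def, Subgroup.mem_bot, mul_inv_eq_one, mul_inv_eq_iff_eq_mul]
    exact this.symm
  have hgo := h.gOdd hg
  have hgN := hKL hg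
  have hXne : ∃ x ∈ X, x ∉ L := by
    by_contra hcon
    push Not at hcon
    exact hne (le_antisymm hLX hcon)
  -- an element `d` outside `L` fixed by `K`
  obtain ⟨d, hdD, hdL, hd2⟩ : ∃ d ∈ X ⊓ centralizer (K : Set G), d ∉ L ∧ d ^ 2 ∈ L := by
    obtain ⟨x, hx, hxL⟩ := hXne
    obtain ⟨n, hn, c, hc, rfl⟩ := hdec x hx
    have hcL : c ∉ L := by
      intro hcL
      exact hxL (L.mul_mem hn hcL)
    obtain ⟨m, hm⟩ := IsPGroup.elt_pow hX2 hc.1
    obtain ⟨k, hk1, hk2⟩ := exists_pow_not_mem_sq_mem m hm hcL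
    exact ⟨c ^ k, Subgroup.pow_mem _ hc k, hk1, hk2⟩
  have hdX := hdD.1
  have hKd : ∀ k ∈ K, k * d * k⁻¹ = d := by
    intro k hk
    have := Subgroup.mem_centralizer_iff.mp hdD.2 k hk
    rw [this]; group
  have hgd : d * g = g * d := (Subgroup.mem_centralizer_iff.mp hdD.2 g hg).symm
  have hd2g : g * d ^ 2 * g⁻¹ = d ^ 2 := by
    rw [← conj_pow, hKd g hg]
  have hdDall : ∀ k : ℕ, g * d ^ k * g⁻¹ = d ^ k := by
    intro k
    rw [← conj_pow, hKd g hg]
  have hNE : K ≤ normalizer ((L ⊔ zpowers d : Subgroup G) : Set G) :=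
    fun k hk => normalizer_sup_zpowers (hKL hk) (hKd k hk)
  have hEX : L ⊔ zpowers d ≤ X := sup_le hLX ((zpowers_le).mpr hdX)
  have hdN : d ∈ normalizer (L : Set G) := hXL hdX
  have hEc := card_sup_two hdN hdL hd2
  rcases lemL hL2 hNo hgo hgN hnc with hV | hQ
  · -- the Klein case
    obtain ⟨t, htL, ht1, htc⟩ := exists_central_mem hX2 hLX hbot hXL
    have hto : orderOf t = 2 := orderOf_eq_prime (hV.2 t htL) ht1
    have hct : Nat.card L = 2 * orderOf t := by rw [hV.1, hto]
    have hLab : ∀ x ∈ L, ∀ y ∈ L, x * y = y * x := by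
      intro x hx y hy
      have h1 := hV.2 _ (L.mul_mem hx hy)
      have h2 := hV.2 x hx
      have h3 := hV.2 y hy
      have hxi : x⁻¹ = x := inv_eq_of_mul_eq_one_right (by rw [← pow_two]; exact h2)
      have hyi : y⁻¹ = y := inv_eq_of_mul_eq_one_right (by rw [← pow_two]; exact h3)
      have hxyi : (x * y)⁻¹ = x * y := inv_eq_of_mul_eq_one_right (by rw [← pow_two]; exact h1)
      rw [mul_inv_rev, hxi, hyi] at hxyi
      exact hxyi.symm
    have hdt : d * t = t * d := htc d hdX
    have hdLc : ∀ l ∈ L, d * l = l * d := by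
      have hle : L ≤ centralizer ({d} : Set G) := le_of_index_two_odd hgo hgN hL2 hnc htL hct
        (Subgroup.mem_centralizer_singleton_iff.mpr hdt.symm)
        (Subgroup.mem_centralizer_singleton_iff.mpr (comm_conj_of_comm hdt hgd).symm)
      intro l hl
      exact (Subgroup.mem_centralizer_singleton_iff.mp (hle hl)).symm
    have hd21 : d ^ 2 = 1 := by
      by_contra hne1
      have ho : orderOf (d ^ 2) = 2 := orderOf_eq_prime (hV.2 _ hd2) hne1
      have h1 := conj_not_mem_of_index_two hgo hgN hL2 hnc hd2 (by rw [hV.1, ho])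
      rw [hd2g] at h1
      exact h1 (mem_zpowers _)
    have hcomm := comm_sup_zpowers hLab hdLc
    have htE : t ∈ L ⊔ zpowers d := (le_sup_left : L ≤ L ⊔ zpowers d) htL
    have hdE : d ∈ L ⊔ zpowers d := (le_sup_right : zpowers d ≤ L ⊔ zpowers d) (mem_zpowers d)
    have hnc' : ¬ IsCyclic ↥(L ⊔ zpowers d) := not_cyclic_of_invols htE hdE (hV.2 t htL) hd21 ht1
      (fun h1 => hdL (h1 ▸ L.one_mem)) (fun h1 => hdL (h1 ▸ htL))
    have hnoE : ¬ NoA (L ⊔ zpowers d) := by
      intro hn
      refine hn _ le_rfl ⟨⟨fun a b => Subtype.ext (hcomm a a.2 b b.2)⟩⟩ hnc' ?_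
      rw [hEc, hV.1]
    have hEq := h.Mn _ hEX hNE hnoE
    have hXab : ∀ a ∈ X, ∀ b ∈ X, a * b = b * a := by
      rw [← hEq]
      exact hcomm
    exact Or.inl ⟨⟨fun a b => Subtype.ext (hXab a a.2 b b.2)⟩⟩
  · -- the quaternion case
    obtain ⟨z, hz⟩ := hQ.exists
    obtain ⟨e, heL, hez, hefix⟩ := exists_fixed_coset hX2 hLX hz.le hz.exists_not_z hXL (fun s hs => hz.normz (hXL hs))
    have heo := hz.order heL hez
    have hce : Nat.card L = 2 * orderOf e := by rw [hz.card, heo]
    have he2 := hz.sq heL hez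
    have hgz : g * z = z * g := hz.comm_conj hgN
    set f := g * e * g⁻¹ with hf
    have hfL : f ∈ L := (mem_normalizer_iff.mp hgN e).mp heL
    have hfe : f ∉ zpowers e := conj_not_mem_of_index_two hgo hgN hL2 hnc heL hce
    have hh0 : e * f ∉ zpowers z := by
      intro hc
      apply hfe
      have hz_e : zpowers z ≤ zpowers e := (zpowers_le).mpr (he2 ▸ Subgroup.pow_mem _ (mem_zpowers e) 2)
      have e1 : f = e⁻¹ * (e * f) := by group
      rw [e1]
      exact Subgroup.mul_mem _ (Subgroup.inv_mem _ (mem_zpowers e)) (hz_e hc)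
    have hh0L := L.mul_mem heL hfL
    have hch : Nat.card L = 2 * orderOf (e * f) := by rw [hz.card, hz.order hh0L hh0]
    have hε := hefix d hdX
    set ε := d * e * d⁻¹ * e⁻¹ with hεdef
    have hεcases := mem_zpowers_invol hz.z2 hε
    have hεε : ε * ε = 1 := by
      rcases hεcases with h0 | h0
      · rw [h0, one_mul]
      · rw [h0, ← pow_two]; exact hz.z2
    have hεe : e * ε = ε * e := by
      rcases hεcases with h0 | h0
      · rw [h0]; simp
      · rw [h0]; exact hz.comm_z heL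
    have hgε : g * ε * g⁻¹ = ε := by
      rcases hεcases with h0 | h0
      · rw [h0]; simp
      · rw [h0]; exact hz.conj hgN
    have h1 : d * e * d⁻¹ = ε * e := by rw [hεdef]; group
    have h2 : d * f * d⁻¹ = ε * f := by
      calc d * f * d⁻¹ = (d * g) * e * (d * g)⁻¹ := by rw [hf]; group
        _ = (g * d) * e * (g * d)⁻¹ := by rw [hgd]
        _ = g * (d * e * d⁻¹) * g⁻¹ := by group
        _ = g * (ε * e) * g⁻¹ := by rw [h1]
        _ = (g * ε * g⁻¹) * (g * e * g⁻¹) := by group
        _ = ε * f := by rw [hgε]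
    have h3 : d * (e * f) * d⁻¹ = e * f := by
      calc d * (e * f) * d⁻¹ = (d * e * d⁻¹) * (d * f * d⁻¹) := by group
        _ = (ε * e) * (ε * f) := by rw [h1, h2]
        _ = ε * (e * ε) * f := by group
        _ = ε * (ε * e) * f := by rw [hεe]
        _ = (ε * ε) * (e * f) := by group
        _ = e * f := by rw [hεε, one_mul]
    have hdh : d * (e * f) = (e * f) * d := by
      calc d * (e * f) = d * (e * f) * d⁻¹ * d := by group
        _ = (e * f) * d := by rw [h3]
    have hdLc : ∀ l ∈ L, d * l = l * d := by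
      have hle : L ≤ centralizer ({d} : Set G) := le_of_index_two_odd hgo hgN hL2 hnc hh0L hch
        (Subgroup.mem_centralizer_singleton_iff.mpr hdh.symm)
        (Subgroup.mem_centralizer_singleton_iff.mpr (comm_conj_of_comm hdh hgd).symm)
      intro l hl
      exact (Subgroup.mem_centralizer_singleton_iff.mp (hle hl)).symm
    have hd2z : d ^ 2 ∈ zpowers z := by
      by_contra hc
      have ho := hz.order hd2 hc
      have h4 := conj_not_mem_of_index_two hgo hgN hL2 hnc hd2 (by rw [hz.card, ho])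
      rw [hd2g] at h4
      exact h4 (mem_zpowers _)
    have he4 := hz.pow4 heL
    have he21 : e ^ 2 ≠ 1 := by rw [he2]; exact hz.z1
    have heE : e ∈ L ⊔ zpowers d := (le_sup_left : L ≤ L ⊔ zpowers d) heL
    have hdE : d ∈ L ⊔ zpowers d := (le_sup_right : zpowers d ≤ L ⊔ zpowers d) (mem_zpowers d)
    have hed : e * d = d * e := (hdLc e heL).symm
    have hzLe : zpowers e ≤ L := (zpowers_le).mpr heL
    have hnoE : ¬ NoA (L ⊔ zpowers d) := by
      rcases mem_zpowers_invol hz.z2 hd2z with h0 | h0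
      · exact not_noA_of_good heE hdE he4 he21 h0 (fun h => hdL (hzLe h)) hed
      · have hv2 : (e * d) ^ 2 = 1 := by
          rw [(show Commute e d from hed).mul_pow, he2, h0, ← pow_two]
          exact hz.z2
        have hvn : e * d ∉ zpowers e := by
          intro h4
          apply hdL
          have e1 : d = e⁻¹ * (e * d) := by group
          rw [e1]
          exact L.mul_mem (L.inv_mem heL) (hzLe h4)
        refine not_noA_of_good heE (Subgroup.mul_mem _ heE hdE) he4 he21 hv2 hvn ?_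
        rw [← mul_assoc, mul_assoc e d e, ← hed]
        group
    have hEq := h.Mn _ hEX hNE hnoE
    have hcX : Nat.card X = 2 * Nat.card L := by
      rw [← hEc, hEq]
    refine Or.inr (Or.inr (Or.inl ⟨L, 0, hLX, relIndex_eq_two_of_card hLX hcX, hz.iso hL2, ?_⟩))
    apply le_antisymm (sup_le hLX inf_le_left)
    have hle : L ⊔ zpowers d ≤ L ⊔ (X ⊓ centralizer (L : Set G)) := by
      refine sup_le le_sup_left ((zpowers_le).mpr ?_)
      refine (le_sup_right : X ⊓ centralizer (L : Set G) ≤ L ⊔ (X ⊓ centralizer (L : Set G))) (Subgroup.mem_inf.mpr ⟨hdX, ?_⟩)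
      rw [Subgroup.mem_centralizer_iff]
      intro l hl
      exact (hdLc l hl).symm
    rw [hEq] at hle
    exact hle

/-- The case `[X, K] = X`. -/
theorem caseB2 [Finite G] {X K : Subgroup G} (h : SB X K) (hLX : ⁅X, K⁆ = X) : Concl X := by
  haveI : Fact (Nat.Prime 2) := ⟨Nat.prime_two⟩
  by_cases hab : ∀ x ∈ X, ∀ y ∈ X, x * y = y * x
  · exact Or.inl ⟨⟨fun a b => Subtype.ext (hab a a.2 b b.2)⟩⟩
  have hXn := h.Xn
  have hX2 := h.X2
  have hXne : X ≠ ⊥ := by
    rintro rfl
    apply hab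
    intro x hx y hy
    rw [Subgroup.mem_bot] at hx hy
    rw [hx, hy]
  set Y := sqs X with hY
  have hYn : Y.Normal := sqs_normal hXn
  have hYX : Y ≤ X := sqs_le
  have hYne : Y ≠ X := sqs_ne hX2 hXne
  have hNoY : NoA Y := by
    by_contra hn
    exact hYne (h.Mn Y hYX (fun k _ => mem_normalizer_of_normal' hYn k) hn)
  have hY2 : IsPGroup 2 Y := hX2.to_le hYX
  have hcommY : ∀ u ∈ X, ∀ v ∈ X, u * v * u⁻¹ * v⁻¹ ∈ Y := fun u hu v hv => comm_mem_sqs hu hv
  have hYbot : Y ≠ ⊥ := by
    intro hb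
    apply hab
    intro u hu v hv
    have := hcommY u hu v hv
    rw [hb, Subgroup.mem_bot, mul_inv_eq_one, mul_inv_eq_iff_eq_mul] at this
    exact this
  have hXYN : X ≤ normalizer (Y : Set G) := fun s _ => mem_normalizer_of_normal' hYn s
  have hdich : (∀ g ∈ K, ∀ y ∈ Y, g * y = y * g) ∨ ∃ g ∈ K, (¬ ∀ y ∈ Y, g * y = y * g) ∧ IsV4 Y := by
    by_cases hk : ∀ g ∈ K, ∀ y ∈ Y, g * y = y * g
    · exact Or.inl hk
    right
    push Not at hk
    obtain ⟨g, hg, y, hy, hne⟩ := hk
    have hnc : ¬ ∀ w ∈ Y, g * w = w * g := fun hh => hne (hh y hy)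
    have hgo := h.gOdd hg
    have hgN := mem_normalizer_of_normal' hYn g
    rcases lemL hY2 hNoY hgo hgN hnc with hV | hQ
    · exact ⟨g, hg, hnc, hV⟩
    · exfalso
      obtain ⟨z, hz⟩ := hQ.exists
      obtain ⟨e, heY, hez, hefix⟩ := exists_fixed_coset hX2 hYX hz.le hz.exists_not_z hXYN (fun s hs => hz.normz (hXYN hs))
      have hce : Nat.card Y = 2 * orderOf e := by rw [hz.card, hz.order heY hez]
      have hx2 : ∀ x ∈ X, x ^ 2 ∈ centralizer (Y : Set G) := by
        intro x hx
        have hxz : x * z = z * x := hz.comm_conj (hXYN hx)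
        have h1 := sq_comm_of_comm_mem hz.z2 hxz (hefix x hx)
        have h2 : x ^ 2 * (g * e * g⁻¹) = (g * e * g⁻¹) * x ^ 2 := by
          apply sq_comm_of_comm_mem hz.z2 hxz
          have hgx : g⁻¹ * x * g ∈ X := by
            have := hXn.conj_mem x hx g⁻¹
            simpa using this
          have h3 := hefix _ hgx
          have h4 : g * ((g⁻¹ * x * g) * e * (g⁻¹ * x * g)⁻¹ * e⁻¹) * g⁻¹ ∈ zpowers z :=
            (mem_normalizer_iff.mp (hz.normz hgN) _).mp h3
          have e1 : g * ((g⁻¹ * x * g) * e * (g⁻¹ * x * g)⁻¹ * e⁻¹) * g⁻¹ =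
              x * (g * e * g⁻¹) * x⁻¹ * (g * e * g⁻¹)⁻¹ := by group
          rwa [e1] at h4
        have hle : Y ≤ centralizer ({x ^ 2} : Set G) := le_of_index_two_odd hgo hgN hY2 hnc heY hce
          (Subgroup.mem_centralizer_singleton_iff.mpr h1.symm)
          (Subgroup.mem_centralizer_singleton_iff.mpr h2.symm)
        rw [Subgroup.mem_centralizer_iff]
        intro y hy
        exact (Subgroup.mem_centralizer_singleton_iff.mp (hle hy))
      have hYC : Y ≤ centralizer (Y : Set G) := sqs_le_of hx2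
      obtain ⟨a, ha, b, hb, hab'⟩ := hz.na
      exact hab' (Subgroup.mem_centralizer_iff.mp (hYC hb) a ha)
  have hYZ : ∀ y ∈ Y, ∀ x ∈ X, x * y = y * x := by
    rcases hdich with hk | ⟨g, hg, hnc, hV⟩
    · have h1 : ⁅⁅K, Y⁆, X⁆ = ⊥ := by
        have : ⁅K, Y⁆ = ⊥ := by
          rw [Subgroup.commutator_eq_bot_iff_le_centralizer]
          intro g hg
          rw [Subgroup.mem_centralizer_iff]
          intro y hy
          exact (hk g hg y hy).symm
        rw [this]
        exact Subgroup.commutator_bot_left _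
      have h2 : ⁅⁅Y, X⁆, K⁆ = ⊥ := by
        have hle : ⁅Y, X⁆ ≤ Y := Subgroup.commutator_le_left Y X
        rw [Subgroup.commutator_eq_bot_iff_le_centralizer]
        intro y hy
        rw [Subgroup.mem_centralizer_iff]
        intro g hg
        exact hk g hg y (hle hy)
      have h3 : ⁅⁅X, K⁆, Y⁆ = ⊥ := Subgroup.commutator_commutator_eq_bot_of_rotate h1 h2
      rw [hLX, Subgroup.commutator_eq_bot_iff_le_centralizer] at h3
      intro y hy x hx
      exact (Subgroup.mem_centralizer_iff.mp (h3 hx) y hy).symm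
    · obtain ⟨t, htY, ht1, htc⟩ := exists_central_mem hX2 hYX hYbot hXYN
      have hgN := mem_normalizer_of_normal' hYn g
      have hgo := h.gOdd hg
      have hct : Nat.card Y = 2 * orderOf t := by rw [hV.1, orderOf_eq_prime (hV.2 t htY) ht1]
      have hle : Y ≤ centralizer (X : Set G) := by
        refine le_of_index_two_odd hgo hgN hY2 hnc htY hct ?_ ?_
        · rw [Subgroup.mem_centralizer_iff]
          intro x hx
          exact htc x hx
        · rw [Subgroup.mem_centralizer_iff]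
          intro x hx
          have hgx : g⁻¹ * x * g ∈ X := by
            have := hXn.conj_mem x hx g⁻¹
            simpa using this
          have h1 := htc _ hgx
          calc x * (g * t * g⁻¹) = g * ((g⁻¹ * x * g) * t) * g⁻¹ := by group
            _ = g * (t * (g⁻¹ * x * g)) * g⁻¹ := by rw [h1]
            _ = (g * t * g⁻¹) * x := by group
      intro y hy x hx
      exact Subgroup.mem_centralizer_iff.mp (hle hy) x hx
  -- the centre lies in `Y`
  set Z := X ⊓ centralizer (X : Set G) with hZ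
  have hZn : Z.Normal := Subgroup.normal_inf_normal X _
  have hZX : Z ≤ X := inf_le_left
  have hZab : ∀ x ∈ Z, ∀ y ∈ Z, x * y = y * x := fun x hx y hy =>
    (Subgroup.mem_centralizer_iff.mp (Subgroup.mem_inf.mp hy).2 x (Subgroup.mem_inf.mp hx).1)
  have hZY : Z ≤ Y := by
    by_cases hkz : ∀ g ∈ K, ∀ c ∈ Z, g * c = c * g
    · intro c hc
      apply fix_le_of_commutator_eq hXn hYn hX2 h.Kodd hcommY hLX
      refine Subgroup.mem_inf.mpr ⟨(Subgroup.mem_inf.mp hc).1, ?_⟩
      rw [Subgroup.mem_centralizer_iff]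
      intro g hg
      exact hkz g hg c hc
    · push Not at hkz
      obtain ⟨g, hg, c, hc, hne⟩ := hkz
      have hnc : ¬ ∀ w ∈ Z, g * w = w * g := fun hh => hne (hh c hc)
      have hZneX : Z ≠ X := by
        intro he
        apply hab
        intro x hx y hy
        have hy' : y ∈ Z := by rw [he]; exact hy
        exact (Subgroup.mem_centralizer_iff.mp (Subgroup.mem_inf.mp hy').2 x hx)
      have hNoZ : NoA Z := by
        by_contra hn
        exact hZneX (h.Mn Z hZX (fun k _ => mem_normalizer_of_normal' hZn k) hn)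
      have hZ2 : IsPGroup 2 Z := hX2.to_le hZX
      have hgo := h.gOdd hg
      have hgN := mem_normalizer_of_normal' hZn g
      rcases lemL hZ2 hNoZ hgo hgN hnc with hV | hQ
      · obtain ⟨⟨t, htY⟩, ht1⟩ := Subgroup.ne_bot_iff_exists_ne_one.mp hYbot
        have ht1' : t ≠ 1 := fun h1 => ht1 (Subtype.ext h1)
        have htZ : t ∈ Z := Subgroup.mem_inf.mpr ⟨hYX htY, by
          rw [Subgroup.mem_centralizer_iff]
          intro x hx
          exact hYZ t htY x hx⟩
        exact le_of_index_two_odd hgo hgN hZ2 hnc htZ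
          (by rw [hV.1, orderOf_eq_prime (hV.2 t htZ) ht1']) htY (hYn.conj_mem t htY g)
      · exfalso
        obtain ⟨z, hz⟩ := hQ.exists
        obtain ⟨a, ha, b, hb, hab'⟩ := hz.na
        exact hab' (hZab a ha b hb)
  have hYZ' : Y ≤ Z := fun y hy => Subgroup.mem_inf.mpr ⟨hYX hy, by
    rw [Subgroup.mem_centralizer_iff]
    intro x hx
    exact hYZ y hy x hx⟩
  have hYeqZ : Y = Z := le_antisymm hYZ' hZY
  -- the commutator subgroup
  set D := ⁅X, X⁆ with hD
  have hDn : D.Normal := Subgroup.commutator_normal X X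
  have hDY : D ≤ Y := by
    rw [hD, Subgroup.commutator_le]
    intro u hu v hv
    rw [commutatorElement_def]
    exact hcommY u hu v hv
  have hDbot : D ≠ ⊥ := by
    intro hb
    apply hab
    intro x hx y hy
    have := Subgroup.commutator_mem_commutator hx hy
    rw [← hD, hb, Subgroup.mem_bot, commutatorElement_def, mul_inv_eq_one, mul_inv_eq_iff_eq_mul] at this
    exact this
  have hYD : Y ≤ D := by
    rcases hdich with hk | ⟨g, hg, hnc, hV⟩
    · let P : Subgroup G :=
        { carrier := {x | x ∈ X ∧ x ^ 2 ∈ D}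
          mul_mem' := by
            rintro a b ⟨ha, ha2⟩ ⟨hb, hb2⟩
            refine ⟨X.mul_mem ha hb, ?_⟩
            have e : (a * b) ^ 2 = a ^ 2 * ⁅a⁻¹, b⁆ * b ^ 2 := by
              simp only [pow_two, commutatorElement_def]
              group
            rw [e]
            exact D.mul_mem (D.mul_mem ha2 (Subgroup.commutator_mem_commutator (X.inv_mem ha) hb)) hb2
          one_mem' := ⟨X.one_mem, by rw [one_pow]; exact D.one_mem⟩
          inv_mem' := by
            rintro a ⟨ha, ha2⟩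
            refine ⟨X.inv_mem ha, ?_⟩
            rw [inv_pow]
            exact D.inv_mem ha2 }
      have hLP : ⁅X, K⁆ ≤ P := by
        rw [Subgroup.commutator_le]
        intro x hx k hk'
        have hw : k * x⁻¹ * k⁻¹ ∈ X := hXn.conj_mem _ (X.inv_mem hx) k
        have hsq : x ^ 2 ∈ Y := sq_mem_sqs hx
        have hkx : k * x ^ 2 = x ^ 2 * k := hk k hk' _ hsq
        have hw2 : (k * x⁻¹ * k⁻¹) ^ 2 = (x ^ 2)⁻¹ := by
          rw [conj_pow, inv_pow]
          have : k * (x ^ 2)⁻¹ = (x ^ 2)⁻¹ * k := ((show Commute k (x ^ 2) from hkx).inv_right).eq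
          rw [this]
          group
        have e1 : ⁅x, k⁆ = x * (k * x⁻¹ * k⁻¹) := by
          rw [commutatorElement_def]
          group
        rw [e1]
        refine ⟨X.mul_mem hx hw, ?_⟩
        have e : (x * (k * x⁻¹ * k⁻¹)) ^ 2 = x ^ 2 * ⁅x⁻¹, k * x⁻¹ * k⁻¹⁆ * (k * x⁻¹ * k⁻¹) ^ 2 := by
          simp only [pow_two, commutatorElement_def]
          group
        rw [e, hw2]
        have := Subgroup.commutator_mem_commutator (X.inv_mem hx) hw
        exact hDn.conj_mem _ this (x ^ 2)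
      rw [hLX] at hLP
      exact sqs_le_of (fun u hu => (hLP hu).2)
    · obtain ⟨⟨t, htD⟩, ht1⟩ := Subgroup.ne_bot_iff_exists_ne_one.mp hDbot
      have ht1' : t ≠ 1 := fun h1 => ht1 (Subtype.ext h1)
      have htY := hDY htD
      exact le_of_index_two_odd (h.gOdd hg) (mem_normalizer_of_normal' hYn g) hY2 hnc htY
        (by rw [hV.1, orderOf_eq_prime (hV.2 t htY) ht1']) htD (hDn.conj_mem t htD g)
  have hYeqD : Y = D := le_antisymm hYD hDY
  -- exponent two
  have hYab : ∀ a ∈ Y, ∀ b ∈ Y, a * b = b * a := fun a ha b hb => hYZ b hb a (hYX ha)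
  let Ω : Subgroup G :=
    { carrier := {u | u ∈ Y ∧ u ^ 2 = 1}
      mul_mem' := by
        rintro a b ⟨ha, ha2⟩ ⟨hb, hb2⟩
        refine ⟨Y.mul_mem ha hb, ?_⟩
        rw [(show Commute a b from hYab a ha b hb).mul_pow, ha2, hb2, one_mul]
      one_mem' := ⟨Y.one_mem, by simp⟩
      inv_mem' := by
        rintro a ⟨ha, ha2⟩
        exact ⟨Y.inv_mem ha, by rw [inv_pow, ha2, inv_one]⟩ }
  have hDΩ : D ≤ Ω := by
    rw [hD, Subgroup.commutator_le]
    intro u hu v hv
    have hcY : ⁅u, v⁆ ∈ Y := by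
      rw [commutatorElement_def]
      exact hcommY u hu v hv
    refine ⟨hcY, ?_⟩
    set c := ⁅u, v⁆ with hc
    have h1 : u * v * u⁻¹ = c * v := by
      rw [hc, commutatorElement_def]
      group
    have huc : u * c = c * u := hYZ c hcY u hu
    have hu2 : u ^ 2 ∈ Y := sq_mem_sqs hu
    have h2 : u ^ 2 * v * (u ^ 2)⁻¹ = v := by
      have := hYZ _ hu2 v hv
      rw [← this]
      group
    have h3 : u ^ 2 * v * (u ^ 2)⁻¹ = c * c * v := by
      calc u ^ 2 * v * (u ^ 2)⁻¹ = u * (u * v * u⁻¹) * u⁻¹ := by rw [pow_two]; group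
        _ = u * (c * v) * u⁻¹ := by rw [h1]
        _ = (u * c) * v * u⁻¹ := by group
        _ = (c * u) * v * u⁻¹ := by rw [huc]
        _ = c * (u * v * u⁻¹) := by group
        _ = c * (c * v) := by rw [h1]
        _ = c * c * v := by group
    rw [h2] at h3
    rw [pow_two]
    exact mul_eq_right.mp h3.symm
  have hsq1 : ∀ y ∈ Y, y ^ 2 = 1 := fun y hy => (hDΩ (hYD hy)).2
  have hYcard : Nat.card Y = 2 ∨ Nat.card Y = 4 := by
    have hle4 : Nat.card Y ≤ 4 := by
      rcases hNoY.cyclic_or_le le_rfl hY2 hYab with hc | hc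
      · obtain ⟨a, ha⟩ := hc.exists_generator
        have h1 : orderOf a = Nat.card Y := orderOf_eq_card_of_forall_mem_zpowers ha
        have h2 : a ^ 2 = 1 := Subtype.ext (hsq1 a a.2)
        have h3 := Nat.le_of_dvd (by norm_num) (orderOf_dvd_of_pow_eq_one h2)
        omega
      · exact hc
    obtain ⟨k, hk⟩ := IsPGroup.iff_card.mp hY2
    have hk0 : k ≠ 0 := by
      rintro rfl
      apply hYbot
      exact Subgroup.eq_bot_of_card_eq _ (by simpa using hk)
    have hk2 : k ≤ 2 := by
      by_contra hlt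
      push Not at hlt
      have : 2 ^ 3 ≤ 2 ^ k := Nat.pow_le_pow_right (by norm_num) hlt
      omega
    have h1 : k = 1 ∨ k = 2 := by omega
    rcases h1 with rfl | rfl
    · left; simpa using hk
    · right; simpa using hk
  -- the conclusion
  have hmapF : (frattini ↥X).map X.subtype = Y := map_frattini_eq_sqs hX2
  have hmapC : (commutator ↥X).map X.subtype = D := Subgroup.map_subtype_commutator X
  have hmapZ : (center ↥X).map X.subtype = Z := by
    ext x
    constructor
    · rintro ⟨y, hy, rfl⟩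
      refine Subgroup.mem_inf.mpr ⟨y.2, ?_⟩
      rw [Subgroup.mem_centralizer_iff]
      intro t ht
      have := Subgroup.mem_center_iff.mp hy ⟨t, ht⟩
      exact congrArg Subtype.val this
    · intro hx
      obtain ⟨hx1, hx2⟩ := Subgroup.mem_inf.mp hx
      refine ⟨⟨x, hx1⟩, Subgroup.mem_center_iff.mpr ?_, rfl⟩
      rintro ⟨t, ht⟩
      exact Subtype.ext (Subgroup.mem_centralizer_iff.mp hx2 t ht)
  have hF : frattini ↥X = center ↥X :=
    Subgroup.map_injective X.subtype_injective (by rw [hmapF, hmapZ, hYeqZ])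
  have hCC : commutator ↥X = center ↥X :=
    Subgroup.map_injective X.subtype_injective (by rw [hmapC, hmapZ, ← hYeqD, hYeqZ])
  have hSp : Cfsg.IsSpecial 2 ↥X := ⟨hX2, hF, hCC⟩
  have hcZ : Nat.card (center ↥X) = Nat.card Y := by
    rw [hYeqZ, ← hmapZ, Subgroup.card_map_of_injective X.subtype_injective]
  rcases hYcard with hc2 | hc4
  · right; left
    refine ⟨⟨hSp, by rw [hcZ, hc2]⟩, ?_⟩
    have hA := h.hA
    simp only [NoA] at hA
    push Not at hA
    obtain ⟨A, hAX, hAc, hAnc, hA8⟩ := hA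
    have hAab : ∀ x ∈ A, ∀ y ∈ A, x * y = y * x := by
      intro x hx y hy
      have := hAc.is_comm.comm (⟨x, hx⟩ : A) ⟨y, hy⟩
      exact congrArg Subtype.val this
    have hAne : A ≠ X := by
      intro he
      apply hab
      intro x hx y hy
      exact hAab x (he ▸ hx) y (he ▸ hy)
    obtain ⟨n, hn⟩ := IsPGroup.iff_card.mp hX2
    have hle : 8 ≤ Nat.card X := hA8 ▸ Subgroup.card_le_of_le hAX
    have hne8 : Nat.card X ≠ 8 := fun h8 => hAne (Subgroup.eq_of_le_of_card_ge hAX (by rw [h8, hA8]))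
    have hn4 : 4 ≤ n := by
      by_contra hlt
      push Not at hlt
      have h1 : 2 ^ n ≤ 2 ^ 3 := Nat.pow_le_pow_right (by norm_num) (by omega)
      omega
    have hn5 : n ≠ 4 := by
      rintro rfl
      have h16 : Nat.card X = 16 := by simpa using hn
      have hidxA : ∀ {x y : G}, x ∈ X → y ∈ X → x ∉ A → y ∉ A → x⁻¹ * y ∈ A :=
        fun hx hy hx0 hy0 => inv_mul_mem_of_card hAX (by rw [h16, hA8]) hx hy hx0 hy0
      obtain ⟨w, hwX, hwA⟩ : ∃ w ∈ X, w ∉ A := by
        by_contra hcon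
        push Not at hcon
        exact hAne (le_antisymm hAX hcon)
      set A₀ := A ⊓ centralizer ({w} : Set G) with hA₀
      have hunique : ∀ u ∈ Y, ∀ v ∈ Y, u ≠ 1 → v ≠ 1 → u = v := by
        intro u hu v hv hu1 hv1
        obtain ⟨x, -, hx⟩ := (Nat.card_eq_two_iff' (1 : Y)).mp hc2
        have h1 := hx ⟨u, hu⟩ (fun h => hu1 (congrArg Subtype.val h))
        have h2 := hx ⟨v, hv⟩ (fun h => hv1 (congrArg Subtype.val h))
        exact congrArg Subtype.val (h1.trans h2.symm)
      have hmem : ∀ a ∈ A, a * w = w * a → a ∈ A₀ := fun a ha h1 =>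
        Subgroup.mem_inf.mpr ⟨ha, Subgroup.mem_centralizer_singleton_iff.mpr h1⟩
      have hcard₀ := card_le_two_mul (H₀ := A₀) (H := A) inf_le_left (by
        intro x hx y hy hx0 hy0
        apply hmem _ (A.mul_mem (A.inv_mem hx) hy)
        have h1x : x * w * x⁻¹ * w⁻¹ ≠ 1 := by
          intro he
          rw [mul_inv_eq_one, mul_inv_eq_iff_eq_mul] at he
          exact hx0 (hmem x hx he)
        have h1y : y * w * y⁻¹ * w⁻¹ ≠ 1 := by
          intro he
          rw [mul_inv_eq_one, mul_inv_eq_iff_eq_mul] at he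
          exact hy0 (hmem y hy he)
        have heq := hunique _ (hcommY x (hAX hx) w hwX) _ (hcommY y (hAX hy) w hwX) h1x h1y
        have h2 : x * w * x⁻¹ = y * w * y⁻¹ := mul_right_cancel heq
        calc x⁻¹ * y * w = x⁻¹ * (y * w * y⁻¹) * y := by group
          _ = x⁻¹ * (x * w * x⁻¹) * y := by rw [h2]
          _ = w * (x⁻¹ * y) := by group)
      obtain ⟨c, hcA₀, hcY⟩ : ∃ c ∈ A₀, c ∉ Y := by
        by_contra hcon
        push Not at hcon
        have := Subgroup.card_le_of_le (show A₀ ≤ Y from hcon)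
        omega
      apply hcY
      apply hZY
      obtain ⟨hcA, hcC⟩ := Subgroup.mem_inf.mp hcA₀
      refine Subgroup.mem_inf.mpr ⟨hAX hcA, ?_⟩
      rw [Subgroup.mem_centralizer_iff]
      intro x hx
      have hcw : c * w = w * c := Subgroup.mem_centralizer_singleton_iff.mp hcC
      by_cases hxA : x ∈ A
      · exact hAab x hxA c hcA
      · have h3 := hidxA hwX hx hwA hxA
        have e : x = w * (w⁻¹ * x) := by group
        have h4 := hAab _ h3 c hcA
        rw [e]
        calc w * (w⁻¹ * x) * c = w * ((w⁻¹ * x) * c) := by group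
          _ = w * (c * (w⁻¹ * x)) := by rw [h4]
          _ = (w * c) * (w⁻¹ * x) := by group
          _ = (c * w) * (w⁻¹ * x) := by rw [hcw]
          _ = c * (w * (w⁻¹ * x)) := by group
    have hn6 : 5 ≤ n := by omega
    rw [hn]
    calc 32 = 2 ^ 5 := by norm_num
      _ ≤ 2 ^ n := Nat.pow_le_pow_right (by norm_num) hn6
  · right; right; right
    exact ⟨hSp, by rw [hcZ, hc4]⟩

/-- The second step. -/
theorem stepB_main [Finite G] {X K : Subgroup G} (h : SB X K) : Concl X := by
  by_cases h1 : ⁅X, K⁆ = ⊥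
  · exact caseBot h h1
  · by_cases h2 : ⁅X, K⁆ = X
    · exact caseB2 h h2
    · exact caseB1 h h2 h1

end q9e

end Cfsg.Agent.Lib.ZT
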