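import Mathlib

/-!
# Groups with exactly two conjugacy classes of maximal subgroups

Main point: if every proper normal subgroup lies in both `A` and `B` and every proper subgroup lies
in a conjugate of `A` or of `B`, then `|G : B|` divides `|G : A| - 1` (and symmetrically), which is
absurd.
-/

set_option autoImplicit false

namespace Cfsg.Agent.Lib.ZT.TwoMax

open Subgroup MulAction
open scoped Pointwise

variable {G : Type*} [Group G]

theorem mem_conj_iff {g x : G} {M : Subgroup G} : x ∈ MulAut.conj g • M ↔ g⁻¹ * x * g ∈ M := by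
  rw [Subgroup.mem_pointwise_smul_iff_inv_smul_mem]
  simp [MulAut.smul_def]

theorem normal_le_conj_iff {K M : Subgroup G} (hK : K.Normal) (g : G) :
    K ≤ MulAut.conj g • M ↔ K ≤ M := by
  constructor
  · intro h k hk
    have h2 : g * k * g⁻¹ ∈ K := hK.conj_mem k hk g
    have h3 := h h2
    rw [mem_conj_iff] at h3
    simpa [mul_assoc] using h3
  · intro h k hk
    rw [mem_conj_iff]
    apply h
    have := hK.conj_mem k hk g⁻¹
    simpa using this

theorem conj_ne_top {M : Subgroup G} (hM : M ≠ ⊤) (g : G) : MulAut.conj g • M ≠ ⊤ := by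
  intro h
  apply hM
  rw [eq_top_iff]
  intro y _
  have h1 : g * y * g⁻¹ ∈ MulAut.conj g • M := by rw [h]; exact mem_top _
  rw [mem_conj_iff] at h1
  simpa [mul_assoc] using h1

theorem conj_eq_map (g : G) (M : Subgroup G) :
    MulAut.conj g • M = M.map (MulAut.conj g).toMonoidHom := rfl

theorem card_conj (g : G) (M : Subgroup G) : Nat.card ↥(MulAut.conj g • M) = Nat.card M := by
  rw [conj_eq_map, Subgroup.card_map_of_injective]
  exact (MulAut.conj g).injective

theorem index_conj [Finite G] (g : G) (M : Subgroup G) : (MulAut.conj g • M).index = M.index := by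
  have h1 := card_mul_index (MulAut.conj g • M)
  have h2 := card_mul_index M
  rw [card_conj] at h1
  have hpos : 0 < Nat.card M := Nat.card_pos
  exact Nat.eq_of_mul_eq_mul_left hpos (h1.trans h2.symm)

theorem stabilizer_mk (A : Subgroup G) (g : G) :
    stabilizer G ((g : G) : G ⧸ A) = MulAut.conj g • A := by
  ext x
  rw [mem_stabilizer_iff, mem_conj_iff, MulAction.Quotient.smul_coe, smul_eq_mul, QuotientGroup.eq]
  constructor
  · intro h
    have h2 := A.inv_mem h
    simpa [mul_assoc] using h2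
  · intro h
    have h2 := A.inv_mem h
    simpa [mul_assoc] using h2

theorem isPGroup_of_top {q : ℕ} (h : IsPGroup q (⊤ : Subgroup G)) : IsPGroup q G := by
  intro g
  obtain ⟨k, hk⟩ := h ⟨g, mem_top g⟩
  refine ⟨k, ?_⟩
  have := congrArg Subtype.val hk
  simpa using this


/-- normalizers grow inside `p`-groups, in `G`-language. -/
theorem exists_normalizer_gt [Finite G] {q : ℕ} [Fact q.Prime] {E Q : Subgroup G} (hQ : IsPGroup q Q)
    (hEQ : E < Q) : ∃ y ∈ Q, y ∉ E ∧ y ∈ Subgroup.normalizer (E : Set G) := by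
  haveI hnil : Group.IsNilpotent Q := hQ.isNilpotent
  have hnc : NormalizerCondition Q := Group.normalizerCondition_of_isNilpotent
  have hlt : E.subgroupOf Q < ⊤ := by
    rw [lt_top_iff_ne_top]
    intro h
    rw [Subgroup.subgroupOf_eq_top] at h
    exact absurd h (not_le_of_gt hEQ)
  have h2 := hnc _ hlt
  obtain ⟨⟨y, hyQ⟩, hyN, hyE⟩ := SetLike.exists_of_lt h2
  refine ⟨y, hyQ, ?_, ?_⟩
  · intro h
    exact hyE (by rw [Subgroup.mem_subgroupOf]; exact h)
  · rw [Subgroup.mem_normalizer_iff]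
    intro z
    rw [Subgroup.mem_normalizer_iff] at hyN
    constructor
    · intro hz
      have hzQ : z ∈ Q := hEQ.le hz
      have := (hyN ⟨z, hzQ⟩).mp (by rw [Subgroup.mem_subgroupOf]; exact hz)
      rw [Subgroup.mem_subgroupOf] at this
      simpa using this
    · intro hz
      have hzQ' : y * z * y⁻¹ ∈ Q := hEQ.le hz
      have hzQ : z ∈ Q := by
        have := Q.mul_mem (Q.mul_mem (Q.inv_mem hyQ) hzQ') hyQ
        simpa [mul_assoc] using this
      have := (hyN ⟨z, hzQ⟩).mpr (by rw [Subgroup.mem_subgroupOf]; simpa using hz)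
      rw [Subgroup.mem_subgroupOf] at this
      simpa using this


theorem dvd_card_of_forall_orbit' {A X : Type*} [Group A] [MulAction A X] [Finite X] (d : ℕ)
    (h : ∀ x : X, d ∣ Nat.card (orbit A x)) : d ∣ Nat.card X := by
  classical
  haveI : Fintype (orbitRel.Quotient A X) := Fintype.ofFinite _
  rw [Nat.card_congr (MulAction.selfEquivSigmaOrbits A X), Nat.card_sigma]
  exact Finset.dvd_sum fun ω _ => h _

theorem dvd_card_subtype_of_orbit' {A X : Type*} [Group A] [MulAction A X] [Finite X] (P : X → Prop)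
    (hinv : ∀ (a : A) (x : X), P x → P (a • x)) (d : ℕ)
    (h : ∀ x : X, P x → d ∣ Nat.card (orbit A x)) : d ∣ Nat.card {x // P x} := by
  letI : MulAction A {x // P x} :=
    { smul := fun a y => ⟨a • y.1, hinv a _ y.2⟩
      one_smul := fun y => Subtype.ext (one_smul A y.1)
      mul_smul := fun a b y => Subtype.ext (mul_smul a b y.1) }
  apply dvd_card_of_forall_orbit' (A := A)
  intro y
  have e : Nat.card (orbit A y) = Nat.card (orbit A y.1) := by
    rw [Nat.card_coe_set_eq, Nat.card_coe_set_eq, ← index_stabilizer, ← index_stabilizer]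
    congr 1
    ext a
    rw [mem_stabilizer_iff, mem_stabilizer_iff, Subtype.ext_iff]
    rfl
  rw [e]
  exact h _ y.2

/-- The uniqueness of the fixed point. -/
theorem claim1 [Finite G] (A B : Subgroup G)
    (cover : ∀ X : Subgroup G, X ≠ ⊤ → (∃ c : G ⧸ A, X ≤ stabilizer G c) ∨ ∃ g : G, X ≤ MulAut.conj g • B)
    (hN : ∀ E : Subgroup G, E.Normal → E ≠ ⊤ → E ≤ B) (q : ℕ) [Fact q.Prime] (hNP : ¬ IsPGroup q G)
    (E : Subgroup G) : IsPGroup q E → (∀ g : G, ¬ E ≤ MulAut.conj g • B) →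
      ∃ c : G ⧸ A, E ≤ stabilizer G c ∧ ∀ c' : G ⧸ A, E ≤ stabilizer G c' → c' = c := by
  refine WellFoundedGT.induction (motive := fun E : Subgroup G => IsPGroup q E → (∀ g : G, ¬ E ≤ MulAut.conj g • B) →
      ∃ c : G ⧸ A, E ≤ stabilizer G c ∧ ∀ c' : G ⧸ A, E ≤ stabilizer G c' → c' = c) E ?_
  intro E ih hEp hEB
  have hEtop : E ≠ ⊤ := by
    rintro rfl
    exact hNP (isPGroup_of_top hEp)
  have hNtop : Subgroup.normalizer (E : Set G) ≠ ⊤ := by
    intro h
    rw [Subgroup.normalizer_eq_top_iff] at h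
    apply hEB 1
    simpa using hN E h hEtop
  have hEN : E ≤ Subgroup.normalizer (E : Set G) := Subgroup.le_normalizer
  rcases cover _ hNtop with ⟨c₀, hc₀⟩ | ⟨g, hg⟩
  swap
  · exact absurd (hEN.trans hg) (hEB g)
  refine ⟨c₀, hEN.trans hc₀, ?_⟩
  intro c' hc'
  by_contra hne
  set H := stabilizer G c' with hH
  have hEH : IsPGroup q ↥(E.subgroupOf H) := hEp.comap_of_injective H.subtype H.subtype_injective
  obtain ⟨Q, hQ⟩ := hEH.exists_le_sylow
  set Q' : Subgroup G := (Q : Subgroup H).map H.subtype with hQ'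
  have hEQ' : E ≤ Q' := by
    intro e he
    exact ⟨⟨e, hc' he⟩, hQ (by rw [Subgroup.mem_subgroupOf]; exact he), rfl⟩
  have hQ'p : IsPGroup q Q' := Q.isPGroup'.map _
  have hQ'H : Q' ≤ H := Subgroup.map_subtype_le _
  by_cases hEeq : E = Q'
  · -- Witt
    obtain ⟨x, hx⟩ := MulAction.exists_smul_eq G c₀ c'
    set E' : Subgroup G := MulAut.conj x • E with hE'
    have hE'H : E' ≤ H := by
      intro y hy
      rw [hE', mem_conj_iff] at hy
      have h1 : (x⁻¹ * y * x) • c₀ = c₀ := (hEN.trans hc₀) hy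
      rw [hH, mem_stabilizer_iff, ← hx]
      have h2 : y • x • c₀ = x • (x⁻¹ * y * x) • c₀ := by
        rw [← mul_smul, ← mul_smul]; congr 1; group
      rw [h2, h1]
    have hE'p : IsPGroup q E' := by
      rw [hE', conj_eq_map]
      exact hEp.map _
    have hE'2 : IsPGroup q ↥(E'.subgroupOf H) := hE'p.comap_of_injective H.subtype H.subtype_injective
    obtain ⟨Q2, hQ2⟩ := hE'2.exists_le_sylow
    have hcardQ : Nat.card Q' = Nat.card (Q : Subgroup H) := by
      rw [hQ', Subgroup.card_map_of_injective H.subtype_injective]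
    have hcard2 : Nat.card (Q2 : Subgroup H) = Nat.card (Q : Subgroup H) := by
      rw [Sylow.card_eq_multiplicity, Sylow.card_eq_multiplicity]
    have hcardE' : Nat.card ↥(E'.subgroupOf H) = Nat.card E := by
      rw [hE', ← card_conj x E]
      exact Nat.card_congr (Subgroup.subgroupOfEquivOfLe hE'H).toEquiv
    have hE'Q2 : E'.subgroupOf H = (Q2 : Subgroup H) := by
      apply Subgroup.eq_of_le_of_card_ge hQ2
      rw [hcard2, hcardE', ← hcardQ, ← hEeq]
    obtain ⟨h, hh⟩ := MulAction.exists_smul_eq H Q2 Q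
    have hkey : ∀ y ∈ E, ((h : G) * x) * y * ((h : G) * x)⁻¹ ∈ E := by
      intro y hy
      have h1 : x * y * x⁻¹ ∈ E' := by
        rw [hE', mem_conj_iff]; simpa [mul_assoc] using hy
      have h2 : (⟨x * y * x⁻¹, hE'H h1⟩ : H) ∈ (Q2 : Subgroup H) := by
        rw [← hE'Q2, Subgroup.mem_subgroupOf]; exact h1
      have h3 : h * (⟨x * y * x⁻¹, hE'H h1⟩ : H) * h⁻¹ ∈ (Q : Subgroup H) := by
        rw [← hh, Sylow.coe_subgroup_smul, mem_conj_iff]
        simpa [mul_assoc] using h2
      have h4 : ((h * (⟨x * y * x⁻¹, hE'H h1⟩ : H) * h⁻¹ : H) : G) ∈ Q' := ⟨_, h3, rfl⟩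
      rw [← hEeq] at h4
      simpa [mul_assoc] using h4
    have hconj : MulAut.conj ((h : G) * x) • E = E := by
      apply Subgroup.eq_of_le_of_card_ge
      · intro z hz
        rw [mem_conj_iff] at hz
        have := hkey _ hz
        simpa [mul_assoc] using this
      · rw [card_conj]
    have hmemN : (h : G) * x ∈ Subgroup.normalizer (E : Set G) := by
      rw [Subgroup.mem_normalizer_iff]
      intro z
      constructor
      · exact hkey z
      · intro hz
        rw [← hconj] at hz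
        rw [mem_conj_iff] at hz
        simpa [mul_assoc] using hz
    have h5 : ((h : G) * x) • c₀ = c₀ := hc₀ hmemN
    rw [mul_smul, hx] at h5
    have h6 : (h : G) • c' = c' := h.2
    rw [h6] at h5
    exact hne h5
  · have hlt : E < Q' := lt_of_le_of_ne hEQ' hEeq
    obtain ⟨y, hyQ, hyE, hyN⟩ := exists_normalizer_gt hQ'p hlt
    set R : Subgroup G := Subgroup.normalizer (E : Set G) ⊓ Q' with hR
    have hER : E < R := by
      refine lt_of_le_of_ne (le_inf hEN hEQ') ?_
      intro h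
      exact hyE (h ▸ (⟨hyN, hyQ⟩ : y ∈ R))
    have hRp : IsPGroup q R := hQ'p.to_le inf_le_right
    have hRB : ∀ g : G, ¬ R ≤ MulAut.conj g • B := fun g hg => hEB g (hER.le.trans hg)
    obtain ⟨c₁, _, huniq⟩ := ih R hER hRp hRB
    have h1 := huniq c₀ (inf_le_left.trans hc₀)
    have h2 := huniq c' (inf_le_right.trans hQ'H)
    exact hne (h2.trans h1.symm)

/-- `|G : B|` divides `|G : A| - 1`. -/
theorem key [Finite G] (A B : Subgroup G)
    (cover : ∀ X : Subgroup G, X ≠ ⊤ → (∃ c : G ⧸ A, X ≤ stabilizer G c) ∨ ∃ g : G, X ≤ MulAut.conj g • B)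
    (hN : ∀ E : Subgroup G, E.Normal → E ≠ ⊤ → E ≤ B) (hNP : ∀ q : ℕ, q.Prime → ¬ IsPGroup q G) :
    B.index ∣ A.index - 1 := by
  classical
  rw [Nat.dvd_iff_prime_pow_dvd_dvd]
  intro q k hq hqk
  haveI := Fact.mk hq
  rcases Nat.eq_zero_or_pos k with rfl | hkpos
  · simp
  have hqb : q ∣ B.index := (dvd_pow_self q hkpos.ne').trans hqk
  let Q : Sylow q G := default
  have hQB : ∀ g : G, ¬ (Q : Subgroup G) ≤ MulAut.conj g • B := by
    intro g h
    have h1 := Subgroup.index_dvd_of_le h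
    rw [index_conj] at h1
    exact Q.not_dvd_index (hqb.trans h1)
  obtain ⟨c₀, hc₀, huniq⟩ := claim1 A B cover hN q (hNP q hq) Q Q.isPGroup' hQB
  have hcard : Nat.card {x : G ⧸ A // x ≠ c₀} = A.index - 1 := by
    haveI := Fintype.ofFinite (G ⧸ A)
    rw [Nat.card_eq_fintype_card, Subgroup.index, Nat.card_eq_fintype_card]
    simp [Fintype.card_subtype_compl]
  rw [← hcard]
  refine dvd_card_subtype_of_orbit' (A := (Q : Subgroup G)) (X := G ⧸ A) (fun x => x ≠ c₀) ?_ _ ?_
  · intro a x hx hax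
    apply hx
    have h1 : (a : G)⁻¹ • c₀ = c₀ := hc₀ ((Q : Subgroup G).inv_mem a.2)
    have h2 : x = (a : G)⁻¹ • ((a : G) • x) := (inv_smul_smul _ _).symm
    have hax' : (a : G) • x = c₀ := hax
    rw [h2, hax', h1]
  · intro x hx
    set E : Subgroup G := (Q : Subgroup G) ⊓ stabilizer G x with hE
    have hEp : IsPGroup q E := Q.isPGroup'.to_le inf_le_left
    have hEB : ∃ g : G, E ≤ MulAut.conj g • B := by
      by_contra hcon
      push Not at hcon
      obtain ⟨c, _, hu⟩ := claim1 A B cover hN q (hNP q hq) E hEp hcon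
      have h1 := hu c₀ (inf_le_left.trans hc₀)
      have h2 := hu x inf_le_right
      exact hx (h2.trans h1.symm)
    obtain ⟨g, hg⟩ := hEB
    -- the stabilizer in `Q`
    set s : Subgroup (Q : Subgroup G) := stabilizer (Q : Subgroup G) x with hs
    have hsE : Nat.card s = Nat.card E := by
      have h0 : s.map (Q : Subgroup G).subtype = E := by
        ext y
        constructor
        · rintro ⟨⟨z, hz⟩, hzs, rfl⟩
          exact ⟨hz, hzs⟩
        · rintro ⟨hy1, hy2⟩
          exact ⟨⟨y, hy1⟩, hy2, rfl⟩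
      rw [← h0, Subgroup.card_map_of_injective (Subgroup.subtype_injective _)]
    have horb : Nat.card (orbit (Q : Subgroup G) x) = s.index := by
      rw [Nat.card_coe_set_eq, ← index_stabilizer]
    rw [horb]
    have h1 : Nat.card s * s.index = Nat.card (Q : Subgroup G) := card_mul_index s
    have h2 : Nat.card E ∣ Nat.card B := by
      have := Subgroup.card_dvd_of_le hg
      rwa [card_conj] at this
    have h3 : Nat.card E * q ^ k ∣ Nat.card G := by
      rw [← card_mul_index B]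
      exact mul_dvd_mul h2 hqk
    obtain ⟨m, hm⟩ := (IsPGroup.iff_card).mp hEp
    have h4 : q ^ (m + k) ∣ Nat.card (Q : Subgroup G) := by
      apply Q.pow_dvd_card_of_pow_dvd_card
      rw [pow_add, ← hm]
      exact h3
    rw [← h1, hsE, hm, pow_add] at h4
    exact Nat.dvd_of_mul_dvd_mul_left (pow_pos hq.pos m) h4


/-- Jordan: some element lies in no conjugate of a proper subgroup. -/
theorem exists_not_mem_all_conj [Finite G] (M : Subgroup G) (hM : M ≠ ⊤) :
    ∃ x : G, ∀ g : G, x ∉ MulAut.conj g • M := by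
  classical
  letI := Fintype.ofFinite G
  by_contra hc
  push Not at hc
  haveI : Nontrivial (G ⧸ M) := (Subgroup.one_lt_index_of_ne_top hM |> fun h =>
    Finite.one_lt_card_iff_nontrivial.mp (by simpa [Subgroup.index] using h))
  letI := Fintype.ofFinite (G ⧸ M)
  have h := MulAction.sum_card_fixedBy_eq_card_orbits_mul_card_group G (G ⧸ M)
  have hsub : Subsingleton (orbitRel.Quotient G (G ⧸ M)) := by
    constructor
    intro x y
    induction x using Quotient.inductionOn with | _ a => ?_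
    induction y using Quotient.inductionOn with | _ b => ?_
    apply Quotient.sound
    exact (orbitRel_apply).mpr (by rw [orbit_eq_univ]; exact Set.mem_univ _)
  rw [Fintype.card_eq_one_iff.mpr ⟨Quotient.mk _ (((1 : G) : G ⧸ M)), fun y => Subsingleton.elim _ _⟩, one_mul] at h
  have hpos : ∀ x : G, 1 ≤ Fintype.card (fixedBy (G ⧸ M) x) := by
    intro x
    obtain ⟨g, hg⟩ := hc x
    rw [← stabilizer_mk] at hg
    have : Nonempty (fixedBy (G ⧸ M) x) := ⟨⟨((g : G) : G ⧸ M), hg⟩⟩
    exact Fintype.card_pos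
  have h1 : Fintype.card (fixedBy (G ⧸ M) (1 : G)) = Fintype.card (G ⧸ M) := by
    rw [Fintype.card_congr (Equiv.subtypeUnivEquiv (fun x => by simp))]
  have h2 : 2 ≤ Fintype.card (G ⧸ M) := Fintype.one_lt_card
  have hlt : ∑ g : G, 1 < ∑ g : G, Fintype.card (fixedBy (G ⧸ M) g) := by
    apply Finset.sum_lt_sum (fun g _ => hpos g)
    refine ⟨1, Finset.mem_univ _, ?_⟩
    rw [h1]; exact h2
  rw [h] at hlt
  simp at hlt

/-- A `p`-group cannot have just the two maximal subgroups. -/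
theorem not_isPGroup_of_two [Finite G] (M₁ M₂ : Subgroup G) (h1 : IsCoatom M₁) (h2 : IsCoatom M₂)
    (hne : ∀ g : G, M₂ ≠ MulAut.conj g • M₁)
    (hall : ∀ M : Subgroup G, IsCoatom M → ∃ g : G, M = MulAut.conj g • M₁ ∨ M = MulAut.conj g • M₂)
    (r : ℕ) (hr : r.Prime) : ¬ IsPGroup r G := by
  intro hp
  haveI := Fact.mk hr
  haveI hnil : Group.IsNilpotent G := hp.isNilpotent
  have hn1 : M₁.Normal := NormalizerCondition.normal_of_coatom M₁ Group.normalizerCondition_of_isNilpotent h1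
  have hn2 : M₂.Normal := NormalizerCondition.normal_of_coatom M₂ Group.normalizerCondition_of_isNilpotent h2
  have hcj1 : ∀ g : G, MulAut.conj g • M₁ = M₁ := fun g => by
    apply Subgroup.eq_of_le_of_card_ge
    · intro z hz
      rw [mem_conj_iff] at hz
      have := hn1.conj_mem _ hz g
      simpa [mul_assoc] using this
    · rw [card_conj]
  have hcj2 : ∀ g : G, MulAut.conj g • M₂ = M₂ := fun g => by
    apply Subgroup.eq_of_le_of_card_ge
    · intro z hz
      rw [mem_conj_iff] at hz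
      have := hn2.conj_mem _ hz g
      simpa [mul_assoc] using this
    · rw [card_conj]
  have hne' : M₁ ≠ M₂ := fun h => hne 1 (by simp [h])
  have hle : ∀ {A B : Subgroup G}, IsCoatom A → IsCoatom B → A ≠ B → ¬ A ≤ B := by
    intro A B hA hB hAB hl
    exact hB.1 (hA.2 B (lt_of_le_of_ne hl hAB))
  obtain ⟨x, hx1, hx2⟩ := SetLike.not_le_iff_exists.mp (hle h1 h2 hne')
  obtain ⟨y, hy2, hy1⟩ := SetLike.not_le_iff_exists.mp (hle h2 h1 hne'.symm)
  set z := x * y with hz
  have hz1 : z ∉ M₁ := fun h => hy1 ((M₁.mul_mem_cancel_left hx1).1 h)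
  have hz2 : z ∉ M₂ := fun h => hx2 ((M₂.mul_mem_cancel_right hy2).1 h)
  have htop : zpowers z = ⊤ := by
    by_contra hT
    obtain ⟨Y, hY, hTY⟩ := (eq_top_or_exists_le_coatom _).resolve_left hT
    obtain ⟨g, rfl | rfl⟩ := hall Y hY
    · rw [hcj1] at hTY
      exact hz1 (hTY (mem_zpowers z))
    · rw [hcj2] at hTY
      exact hz2 (hTY (mem_zpowers z))
  have hord : orderOf z = Nat.card G := by
    rw [← Nat.card_zpowers, htop, Subgroup.card_top]
  obtain ⟨n, hn⟩ := (IsPGroup.iff_card).mp hp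
  have hgen : ∀ (i : ℕ) (M : Subgroup G), ¬ r ∣ i → z ^ i ∈ M → M = ⊤ := by
    intro i M hi hM
    have hi0 : i ≠ 0 := fun h => hi (h ▸ dvd_zero r)
    have hcop : (orderOf z).gcd i = 1 := by
      rw [hord, hn]
      exact Nat.Coprime.pow_left n ((Nat.Prime.coprime_iff_not_dvd hr).2 hi)
    have h3 : orderOf (z ^ i) = Nat.card G := by
      rw [orderOf_pow' z hi0, hcop, Nat.div_one, hord]
    have h4 : zpowers (z ^ i) = ⊤ := by
      apply Subgroup.eq_top_of_card_eq
      rw [Nat.card_zpowers, h3]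
    rw [eq_top_iff, ← h4]
    exact (Subgroup.zpowers_le).2 hM
  have hxz : x ∈ Submonoid.powers z := by
    rw [mem_powers_iff_mem_zpowers, htop]; exact mem_top x
  have hyz : y ∈ Submonoid.powers z := by
    rw [mem_powers_iff_mem_zpowers, htop]; exact mem_top y
  obtain ⟨i, hi⟩ := Submonoid.mem_powers_iff _ _ |>.1 hxz
  obtain ⟨j, hj⟩ := Submonoid.mem_powers_iff _ _ |>.1 hyz
  have hmod : i + j ≡ 1 [MOD orderOf z] := by
    rw [← pow_eq_pow_iff_modEq, pow_add, hi, hj, pow_one]
  have hn0 : n ≠ 0 := by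
    rintro rfl
    rw [pow_zero] at hn
    haveI : Subsingleton G := (Nat.card_eq_one_iff_unique.mp hn).1
    exact h1.1 (Subsingleton.elim _ _)
  have hrd : r ∣ orderOf z := by
    rw [hord, hn]; exact dvd_pow_self r hn0
  have hmod2 : i + j ≡ 1 [MOD r] := hmod.of_dvd hrd
  by_cases hir : r ∣ i
  · by_cases hjr : r ∣ j
    · have h5 : r ∣ 1 := (hmod2.dvd_iff (dvd_refl r)).1 (dvd_add hir hjr)
      exact hr.one_lt.ne' (Nat.dvd_one.mp h5)
    · exact h2.1 (hgen j M₂ hjr (hj ▸ hy2))
  · exact h1.1 (hgen i M₁ hir (hi ▸ hx1))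

theorem exists_normal_sylow [Finite G] (M₁ M₂ : Subgroup G) (h1 : IsCoatom M₁)
    (hall : ∀ M : Subgroup G, IsCoatom M → ∃ g : G, M = MulAut.conj g • M₁ ∨ M = MulAut.conj g • M₂)
    (K : Subgroup G) (hKn : K.Normal) (hK1 : K ≤ M₁) (hK2 : ¬ K ≤ M₂) :
    ∃ (s : ℕ) (S : Subgroup G), s.Prime ∧ S.Normal ∧ IsPGroup s S ∧ S ≤ K ∧ ¬ S ≤ M₂ := by
  by_contra hcon
  push Not at hcon
  haveI := hKn
  have hsy : ∀ (s : ℕ) [Fact s.Prime] (P : Sylow s K),
      ∃ g : G, (P : Subgroup K).map K.subtype ≤ MulAut.conj g • M₂ := by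
    intro s _ P
    by_contra hno
    push Not at hno
    set S := (P : Subgroup K).map K.subtype with hS
    have hS1 : S ≤ K := Subgroup.map_subtype_le _
    have hSp : IsPGroup s S := P.isPGroup'.map _
    have hnorm : S.Normal := by
      by_contra hnn
      have hNt : Subgroup.normalizer (S : Set G) ≠ ⊤ := fun h => hnn (Subgroup.normalizer_eq_top_iff.mp h)
      obtain ⟨Y, hY, hNY⟩ := (eq_top_or_exists_le_coatom _).resolve_left hNt
      obtain ⟨g, rfl | rfl⟩ := hall Y hY
      · have hKY : K ≤ MulAut.conj g • M₁ := (normal_le_conj_iff hKn g).2 hK1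
        have h3 := Sylow.normalizer_sup_eq_top P
        have h4 : (⊤ : Subgroup G) ≤ MulAut.conj g • M₁ := by
          rw [← h3]; exact sup_le hNY hKY
        exact conj_ne_top h1.1 g (top_le_iff.mp h4)
      · exact hno g (Subgroup.le_normalizer.trans hNY)
    apply hno 1
    have := hcon s S (Fact.out) hnorm hSp hS1
    simpa using this
  apply hK2
  have hdvd : Nat.card K ∣ Nat.card ↥(K ⊓ M₂) := by
    rw [Nat.dvd_iff_prime_pow_dvd_dvd]
    intro p k hp hpk
    haveI := Fact.mk hp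
    let P : Sylow p K := default
    have h0 := P.pow_dvd_card_of_pow_dvd_card hpk
    obtain ⟨g, hg⟩ := hsy p P
    set S := (P : Subgroup K).map K.subtype with hS
    set R := MulAut.conj g⁻¹ • S with hRd
    have hR : R ≤ K ⊓ M₂ := by
      intro y hy
      rw [hRd, mem_conj_iff] at hy
      have hw : g * y * g⁻¹ ∈ S := by simpa using hy
      have hwK : g * y * g⁻¹ ∈ K := Subgroup.map_subtype_le _ hw
      have hwM := hg hw
      rw [mem_conj_iff] at hwM
      constructor
      · have := hKn.conj_mem _ hwK g⁻¹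
        simpa [mul_assoc] using this
      · simpa [mul_assoc] using hwM
    have hc : Nat.card R = Nat.card (P : Subgroup K) := by
      rw [hRd, card_conj, hS, Subgroup.card_map_of_injective K.subtype_injective]
    have h5 := Subgroup.card_dvd_of_le hR
    rw [hc] at h5
    exact h0.trans h5
  have hle : K ⊓ M₂ = K := Subgroup.eq_of_le_of_card_ge inf_le_left (Nat.le_of_dvd Nat.card_pos hdvd)
  exact inf_eq_left.mp hle

theorem caseB [Finite G] (M₁ M₂ : Subgroup G) (h1 : IsCoatom M₁) (h2 : IsCoatom M₂)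
    (hne : ∀ g : G, M₂ ≠ MulAut.conj g • M₁)
    (hall : ∀ M : Subgroup G, IsCoatom M → ∃ g : G, M = MulAut.conj g • M₁ ∨ M = MulAut.conj g • M₂)
    (K : Subgroup G) (hKn : K.Normal) (hK1 : K ≤ M₁) (hK2 : ¬ K ≤ M₂) :
    Group.IsSolvable G ∧ (Nat.card G).primeFactors.card = 2 := by
  classical
  obtain ⟨s, S, hs, hSn, hSp, hSK, hSM⟩ := exists_normal_sylow M₁ M₂ h1 hall K hKn hK1 hK2
  haveI := Fact.mk hs
  haveI := hSn
  have hS1 : S ≤ M₁ := hSK.trans hK1
  have hSconj : ∀ g : G, ¬ S ≤ MulAut.conj g • M₂ := fun g h => hSM ((normal_le_conj_iff hSn g).1 h)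
  obtain ⟨x, hx⟩ := exists_not_mem_all_conj M₁ h1.1
  have htop : zpowers x ⊔ S = ⊤ := by
    by_contra hT
    obtain ⟨Y, hY, hTY⟩ := (eq_top_or_exists_le_coatom _).resolve_left hT
    obtain ⟨g, rfl | rfl⟩ := hall Y hY
    · exact hx g (hTY ((le_sup_left : zpowers x ≤ zpowers x ⊔ S) (mem_zpowers x)))
    · exact hSconj g (le_sup_right.trans hTY)
  have hcyc : IsCyclic (G ⧸ S) := by
    refine ⟨⟨((x : G) : G ⧸ S), ?_⟩⟩
    intro y
    induction y using QuotientGroup.induction_on with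
    | H y =>
      have hy : y ∈ (zpowers x ⊔ S : Subgroup G) := htop ▸ mem_top y
      have hy2 : y ∈ ((zpowers x ⊔ S : Subgroup G) : Set G) := hy
      rw [Subgroup.mul_normal] at hy2
      obtain ⟨a, ha, b, hb, rfl⟩ := Set.mem_mul.mp hy2
      obtain ⟨i, rfl⟩ := mem_zpowers_iff.mp ha
      refine ⟨i, ?_⟩
      have hb1 : ((b : G) : G ⧸ S) = 1 := (QuotientGroup.eq_one_iff b).2 hb
      show ((x : G) : G ⧸ S) ^ i = ((x ^ i * b : G) : G ⧸ S)
      rw [QuotientGroup.mk_mul, hb1, mul_one, QuotientGroup.mk_zpow]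
  refine ⟨?_, ?_⟩
  · haveI : Group.IsNilpotent S := hSp.isNilpotent
    haveI : Group.IsSolvable (G ⧸ S) :=
      Group.isSolvable_of_comm (fun a b => (IsCyclic.commGroup (α := G ⧸ S)).mul_comm a b)
    exact Group.isSolvable_of_ker_le_range S.subtype (QuotientGroup.mk' S)
      (by rw [QuotientGroup.ker_mk', Subgroup.range_subtype])
  set a := M₁.index with ha
  have ha1 : 1 < a := one_lt_index_of_ne_top h1.1
  have hprimes : ∀ r : ℕ, r.Prime → r ∣ Nat.card (G ⧸ S) → r = a := by
    intro r hr hrd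
    obtain ⟨gb, hgb⟩ := hcyc
    have hord : orderOf gb = Nat.card (G ⧸ S) := orderOf_eq_card_of_forall_mem_zpowers hgb
    set C : Subgroup (G ⧸ S) := zpowers (gb ^ r) with hC
    have hCcard : Nat.card C * r = Nat.card (G ⧸ S) := by
      rw [hC, Nat.card_zpowers, orderOf_pow' gb hr.ne_zero, hord, Nat.gcd_eq_right hrd,
        Nat.div_mul_cancel hrd]
    have hCidx : C.index = r := by
      have h3 := card_mul_index C
      have hpos : 0 < Nat.card C := Nat.card_pos
      exact Nat.eq_of_mul_eq_mul_left hpos (h3.trans hCcard.symm)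
    set X₀ : Subgroup G := C.comap (QuotientGroup.mk' S) with hX₀
    have hX₀idx : X₀.index = r :=
      (index_comap_of_surjective C (QuotientGroup.mk'_surjective S)).trans hCidx
    have hX₀ne : X₀ ≠ ⊤ := by
      intro h
      rw [h, index_top] at hX₀idx
      exact hr.one_lt.ne hX₀idx
    have hSX : S ≤ X₀ := by
      intro z hz
      rw [hX₀, Subgroup.mem_comap]
      have : QuotientGroup.mk' S z = 1 := (QuotientGroup.eq_one_iff z).2 hz
      rw [this]
      exact C.one_mem
    obtain ⟨Y, hY, hXY⟩ := (eq_top_or_exists_le_coatom _).resolve_left hX₀ne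
    obtain ⟨g, rfl | rfl⟩ := hall Y hY
    · have h3 := index_dvd_of_le hXY
      rw [index_conj, hX₀idx] at h3
      exact (((Nat.dvd_prime hr).mp h3).resolve_left ha1.ne').symm
    · exact absurd (hSX.trans hXY) (hSconj g)
  have hadvd : a ∣ Nat.card (G ⧸ S) := index_dvd_of_le hS1
  have hapr : a.Prime := by
    have h3 := Nat.minFac_prime ha1.ne'
    have h4 := hprimes _ h3 ((Nat.minFac_dvd a).trans hadvd)
    rwa [h4] at h3
  have hcardG : Nat.card S * Nat.card (G ⧸ S) = Nat.card G := card_mul_index S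
  obtain ⟨m, hm⟩ := (IsPGroup.iff_card).mp hSp
  have hm0 : m ≠ 0 := by
    rintro rfl
    rw [pow_zero] at hm
    have : S = ⊥ := Subgroup.eq_bot_of_card_eq S hm
    exact hSM (this ▸ bot_le)
  have hsdvd : s ∣ Nat.card G := by
    rw [← hcardG, hm]
    exact (dvd_pow_self s hm0).trans (dvd_mul_right _ _)
  have hadvdG : a ∣ Nat.card G := by
    rw [← hcardG]; exact hadvd.trans (dvd_mul_left _ _)
  have hall_pr : ∀ r : ℕ, r.Prime → r ∣ Nat.card G → r = s ∨ r = a := by
    intro r hr hrd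
    rw [← hcardG] at hrd
    rcases (Nat.Prime.dvd_mul hr).1 hrd with h3 | h3
    · rw [hm] at h3
      exact Or.inl ((Nat.prime_dvd_prime_iff_eq hr hs).1 (hr.dvd_of_dvd_pow h3))
    · exact Or.inr (hprimes r hr h3)
  have hsne : s ≠ a := by
    intro he
    have hcard0 : Nat.card G ≠ 0 := Nat.card_pos.ne'
    have h3 := Nat.eq_prime_pow_of_unique_prime_dvd (p := s) hcard0 (fun {d} hd hdd => by
      rcases hall_pr d hd hdd with h4 | h4
      · exact h4
      · exact h4.trans he.symm)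
    exact not_isPGroup_of_two M₁ M₂ h1 h2 hne hall s hs (IsPGroup.of_card h3)
  have hpf : (Nat.card G).primeFactors = {s, a} := by
    ext r
    simp only [Nat.mem_primeFactors, Finset.mem_insert, Finset.mem_singleton]
    constructor
    · rintro ⟨hr, hrd, _⟩
      exact hall_pr r hr hrd
    · rintro (rfl | rfl)
      · exact ⟨hs, hsdvd, Nat.card_pos.ne'⟩
      · exact ⟨hapr, hadvdG, Nat.card_pos.ne'⟩
  rw [hpf, Finset.card_pair hsne]

theorem two_max [Finite G] (M₁ M₂ : Subgroup G) (h1 : IsCoatom M₁) (h2 : IsCoatom M₂)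
    (hne : ∀ g : G, M₂ ≠ MulAut.conj g • M₁)
    (hall : ∀ M : Subgroup G, IsCoatom M → ∃ g : G, M = MulAut.conj g • M₁ ∨ M = MulAut.conj g • M₂) :
    Group.IsSolvable G ∧ (Nat.card G).primeFactors.card = 2 := by
  by_cases hb : ∃ K : Subgroup G, K.Normal ∧ K ≤ M₁ ∧ ¬ K ≤ M₂
  · obtain ⟨K, a, b, c⟩ := hb
    exact caseB M₁ M₂ h1 h2 hne hall K a b c
  have hne' : ∀ g : G, M₁ ≠ MulAut.conj g • M₂ := by
    intro g h
    apply hne g⁻¹
    rw [h, ← mul_smul]
    simp
  have hall' : ∀ M : Subgroup G, IsCoatom M → ∃ g : G, M = MulAut.conj g • M₂ ∨ M = MulAut.conj g • M₁ := by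
    intro M hM
    obtain ⟨g, hg⟩ := hall M hM
    exact ⟨g, hg.symm⟩
  by_cases hb' : ∃ K : Subgroup G, K.Normal ∧ K ≤ M₂ ∧ ¬ K ≤ M₁
  · obtain ⟨K, a, b, c⟩ := hb'
    exact caseB M₂ M₁ h2 h1 hne' hall' K a b c
  exfalso
  push Not at hb hb'
  have hN1 : ∀ E : Subgroup G, E.Normal → E ≠ ⊤ → E ≤ M₁ ∧ E ≤ M₂ := by
    intro E hE hEt
    obtain ⟨Y, hY, hEY⟩ := (eq_top_or_exists_le_coatom _).resolve_left hEt
    obtain ⟨g, rfl | rfl⟩ := hall Y hY
    · have h3 := (normal_le_conj_iff hE g).1 hEY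
      exact ⟨h3, hb E hE h3⟩
    · have h3 := (normal_le_conj_iff hE g).1 hEY
      exact ⟨hb' E hE h3, h3⟩
  have hNP : ∀ q : ℕ, q.Prime → ¬ IsPGroup q G := fun q hq =>
    not_isPGroup_of_two M₁ M₂ h1 h2 hne hall q hq
  have cover1 : ∀ X : Subgroup G, X ≠ ⊤ →
      (∃ c : G ⧸ M₁, X ≤ stabilizer G c) ∨ ∃ g : G, X ≤ MulAut.conj g • M₂ := by
    intro X hX
    obtain ⟨Y, hY, hXY⟩ := (eq_top_or_exists_le_coatom _).resolve_left hX
    obtain ⟨g, rfl | rfl⟩ := hall Y hY
    · exact Or.inl ⟨((g : G) : G ⧸ M₁), by rw [stabilizer_mk]; exact hXY⟩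
    · exact Or.inr ⟨g, hXY⟩
  have cover2 : ∀ X : Subgroup G, X ≠ ⊤ →
      (∃ c : G ⧸ M₂, X ≤ stabilizer G c) ∨ ∃ g : G, X ≤ MulAut.conj g • M₁ := by
    intro X hX
    obtain ⟨Y, hY, hXY⟩ := (eq_top_or_exists_le_coatom _).resolve_left hX
    obtain ⟨g, rfl | rfl⟩ := hall Y hY
    · exact Or.inr ⟨g, hXY⟩
    · exact Or.inl ⟨((g : G) : G ⧸ M₂), by rw [stabilizer_mk]; exact hXY⟩
  have d1 := key M₁ M₂ cover1 (fun E h ht => (hN1 E h ht).2) hNP
  have d2 := key M₂ M₁ cover2 (fun E h ht => (hN1 E h ht).1) hNP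
  have a1 : 1 < M₁.index := one_lt_index_of_ne_top h1.1
  have a2 : 1 < M₂.index := one_lt_index_of_ne_top h2.1
  have l1 := Nat.le_of_dvd (by omega) d1
  have l2 := Nat.le_of_dvd (by omega) d2
  omega

end Cfsg.Agent.Lib.ZT.TwoMax
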