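import Mathlib
import Cfsg.Agent.Lib.ZT.G320a
import Cfsg.Agent.Lib.Known.SL23

/-!
# Groups of shape `3^{1+2}.SL₂(3)` with `O₂ = 1`: the splitting

From an extraspecial normal subgroup `R` of order `27` and exponent `3` with quotient `SL₂(3)`, with `O₂ = 1` and an
elementary abelian subgroup of order `27`, we get a complement `H` to `R` and the central involution `t` of `H`,
acting on `R/Z(R)` as `-1`.
-/

set_option autoImplicit false
set_option linter.unusedVariables false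
set_option linter.unusedSectionVars false

namespace Cfsg.Agent.Lib.ZT.X648

open Cfsg.Agent.Lib.Known (G3)
open Cfsg.Agent.Lib.Known.SL23

theorem squares_aux : ∀ g : G3, ∃ p q : G3, g = p ^ 2 * q ^ 2 := by decide +kernel
theorem eight_aux : ∀ g : G3, g ^ 8 = 1 → g ^ 4 = 1 := by decide +kernel
theorem normal_aux : ∀ g : G3, g ≠ 1 → ∃ h : G3, ∃ k : Fin 5, (g * h * g⁻¹ * h⁻¹) ^ k.val = m1 ∨ g ^ k.val = m1 := by
  decide +kernel
theorem qI4 : qI ^ 4 = 1 := by decide +kernel
theorem qI9 : qI ^ 9 * qI ^ 9 = m1 := by decide +kernel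
theorem m1_ne : m1 ≠ 1 := by decide +kernel
theorem m1_central : ∀ g : G3, g * m1 = m1 * g := by decide +kernel

theorem hcardG3 : Nat.card G3 = 24 := by
  rw [Nat.card_eq_fintype_card]
  exact card_G3

theorem sq_one_of_cube {W : Type*} [Group W] {a : W} (h3 : a ^ 3 = 1) (h2 : a ^ 2 = 1) : a = 1 := by
  have : a ^ 3 = a ^ 2 * a := pow_succ a 2
  rw [h2, one_mul] at this
  rw [← this, h3]

theorem four_le_card {α : Type*} [Finite α] {a b c d : α} (h₁ : a ≠ b) (h₂ : a ≠ c) (h₃ : a ≠ d) (h₄ : b ≠ c)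
    (h₅ : b ≠ d) (h₆ : c ≠ d) : 4 ≤ Nat.card α := by
  have hf : Function.Injective (![a, b, c, d] : Fin 4 → α) := by
    intro x y hxy
    fin_cases x <;> fin_cases y <;> first
      | rfl
      | (exfalso
         simp only [Matrix.cons_val, Fin.isValue, Fin.reduceFinMk, Fin.zero_eta, Fin.mk_one] at hxy
         first
           | exact h₁ hxy | exact h₂ hxy | exact h₃ hxy | exact h₄ hxy | exact h₅ hxy | exact h₆ hxy
           | exact h₁ hxy.symm | exact h₂ hxy.symm | exact h₃ hxy.symm | exact h₄ hxy.symm | exact h₅ hxy.symm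
           | exact h₆ hxy.symm)
  have := Nat.card_le_card_of_injective _ hf
  simpa using this

variable {X : Type*} [Group X]

/-- The hypotheses. -/
structure Hyp (R Z : Subgroup X) (π : X →* G3) : Prop where
  ker : π.ker = R
  surj : Function.Surjective π
  cardR : Nat.card R = 27
  exp : ∀ r ∈ R, r ^ 3 = 1
  ZleR : Z ≤ R
  Zn : Z.Normal
  cardZ : Nat.card Z = 3
  Zc : ∀ z ∈ Z, ∀ r ∈ R, z * r = r * z
  Zall : ∀ z ∈ R, (∀ r ∈ R, z * r = r * z) → z ∈ Z
  cmZ : ∀ r ∈ R, ∀ r' ∈ R, cm r r' ∈ Z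
  nab : ∃ r ∈ R, ∃ r' ∈ R, r * r' ≠ r' * r
  O2 : ∀ t : X, t ^ 2 = 1 → (∀ x : X, x * t = t * x) → t = 1
  E : ∃ E : Subgroup X, (∀ a ∈ E, ∀ b ∈ E, a * b = b * a) ∧ (∀ a ∈ E, a ^ 3 = 1) ∧ Nat.card E = 27

variable {R Z : Subgroup X} {π : X →* G3}

theorem Hyp.memR (h : Hyp R Z π) {x : X} : x ∈ R ↔ π x = 1 := by
  rw [← h.ker, MonoidHom.mem_ker]

theorem Hyp.normal (h : Hyp R Z π) : R.Normal := h.ker ▸ π.normal_ker

theorem Hyp.fin (h : Hyp R Z π) : Finite R := by
  apply Nat.finite_of_card_ne_zero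
  rw [h.cardR]; norm_num

theorem Hyp.finZ (h : Hyp R Z π) : Finite Z := by
  apply Nat.finite_of_card_ne_zero
  rw [h.cardZ]; norm_num

theorem Hyp.Z_cases (h : Hyp R Z π) {z w : X} (hz : z ∈ Z) (hz1 : z ≠ 1) (hw : w ∈ Z) :
    w = 1 ∨ w = z ∨ w = z⁻¹ := by
  by_contra hcon
  push Not at hcon
  obtain ⟨h1, h2, h3⟩ := hcon
  have : Finite Z := h.finZ
  have hzz : z ≠ z⁻¹ := by
    intro e
    apply hz1
    apply sq_one_of_cube (h.exp z (h.ZleR hz))
    rw [pow_two]
    nth_rewrite 1 [e]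
    simp
  have hz0 : (1 : X) ≠ z⁻¹ := by
    intro e
    apply hz1
    simpa using e.symm
  have := four_le_card (α := Z) (a := ⟨1, Z.one_mem⟩) (b := ⟨z, hz⟩) (c := ⟨z⁻¹, Z.inv_mem hz⟩) (d := ⟨w, hw⟩)
    (fun e => hz1 (congrArg Subtype.val e).symm) (fun e => hz0 (congrArg Subtype.val e))
    (fun e => h1 (congrArg Subtype.val e).symm) (fun e => hzz (congrArg Subtype.val e))
    (fun e => h2 (congrArg Subtype.val e).symm) (fun e => h3 (congrArg Subtype.val e).symm)
  rw [h.cardZ] at this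
  omega

theorem Hyp.central (h : Hyp R Z π) {z : X} (hz : z ∈ Z) (x : X) : x * z = z * x := by
  by_cases hz1 : z = 1
  · simp [hz1]
  have hsq : ∀ y : X, y ^ 2 * z * (y ^ 2)⁻¹ = z := by
    intro y
    have h1 : y * z * y⁻¹ ∈ Z := h.Zn.conj_mem z hz y
    have h2 : y * z * y⁻¹ ≠ 1 := by
      intro h0
      apply hz1
      have e : z = y⁻¹ * (y * z * y⁻¹) * y := by group
      rw [e, h0]
      group
    rcases h.Z_cases hz hz1 h1 with h3 | h3 | h3
    · exact absurd h3 h2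
    · calc y ^ 2 * z * (y ^ 2)⁻¹ = y * (y * z * y⁻¹) * y⁻¹ := by rw [pow_two]; group
        _ = z := by rw [h3, h3]
    · calc y ^ 2 * z * (y ^ 2)⁻¹ = y * (y * z * y⁻¹) * y⁻¹ := by rw [pow_two]; group
        _ = y * z⁻¹ * y⁻¹ := by rw [h3]
        _ = (y * z * y⁻¹)⁻¹ := by group
        _ = z := by rw [h3, inv_inv]
  obtain ⟨p, q, hpq⟩ := squares_aux (π x)
  obtain ⟨x₁, rfl⟩ := h.surj p
  obtain ⟨x₂, rfl⟩ := h.surj q
  have hr : (x₁ ^ 2 * x₂ ^ 2)⁻¹ * x ∈ R := by
    rw [h.memR, map_mul, map_inv, map_mul, map_pow, map_pow, hpq]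
    simp
  have hrz := h.Zc z hz _ hr
  have hxe : x = x₁ ^ 2 * x₂ ^ 2 * ((x₁ ^ 2 * x₂ ^ 2)⁻¹ * x) := by group
  have e1 : x * z * x⁻¹ = z := by
    rw [hxe]
    generalize (x₁ ^ 2 * x₂ ^ 2)⁻¹ * x = r at hrz
    have e2 : x₁ ^ 2 * x₂ ^ 2 * r * z * (x₁ ^ 2 * x₂ ^ 2 * r)⁻¹ =
        x₁ ^ 2 * (x₂ ^ 2 * (r * z * r⁻¹) * (x₂ ^ 2)⁻¹) * (x₁ ^ 2)⁻¹ := by group
    rw [e2, ← hrz]
    have e3 : z * r * r⁻¹ = z := by group
    rw [e3, hsq, hsq]
  calc x * z = x * z * x⁻¹ * x := by group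
    _ = z * x := by rw [e1]

theorem Hyp.exists_t (h : Hyp R Z π) : ∃ i t : X, t = i * i ∧ t * t = 1 ∧ π t = m1 := by
  obtain ⟨x₀, hx₀⟩ := h.surj qI
  have h4 : x₀ ^ 4 ∈ R := by
    rw [h.memR, map_pow, hx₀]
    exact qI4
  have h12 : x₀ ^ 12 = 1 := by
    have := h.exp _ h4
    rw [← pow_mul] at this
    exact this
  refine ⟨x₀ ^ 9, x₀ ^ 9 * x₀ ^ 9, rfl, ?_, ?_⟩
  · rw [← pow_add, ← pow_add]
    have : x₀ ^ (9 + 9 + (9 + 9)) = (x₀ ^ 12) ^ 3 := by rw [← pow_mul]
    rw [this, h12, one_pow]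
  · rw [map_mul, map_pow, hx₀]
    exact qI9

section T

variable {i t : X}

theorem Hyp.cm_t_mem (h : Hyp R Z π) (hπt : π t = m1) (x : X) : x * t * x⁻¹ * t⁻¹ ∈ R := by
  rw [h.memR]
  simp only [map_mul, map_inv, hπt]
  rw [m1_central]
  group

theorem tt_inv (htt : t * t = 1) : t⁻¹ = t := inv_eq_of_mul_eq_one_left htt

theorem Hyp.not_central (h : Hyp R Z π) (htt : t * t = 1) (hπt : π t = m1) : ∃ r ∈ R, t * r * t ≠ r := by
  by_contra hcon
  push Not at hcon
  have ht1 : t = 1 := by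
    apply h.O2 t (by rw [pow_two]; exact htt)
    intro x
    have hr := h.cm_t_mem hπt x
    set r := x * t * x⁻¹ * t⁻¹ with hrdef
    have e1 : x * t * x⁻¹ = r * t := by rw [hrdef]; group
    have e2 : (x * t * x⁻¹) * (x * t * x⁻¹) = 1 := by
      calc (x * t * x⁻¹) * (x * t * x⁻¹) = x * (t * t) * x⁻¹ := by group
        _ = 1 := by rw [htt]; group
    rw [e1] at e2
    have e3 : r * t * (r * t) = r * (t * r * t) := by group
    rw [e3, hcon r hr] at e2
    have hr1 : r = 1 := sq_one_of_cube (h.exp r hr) (by rw [pow_two]; exact e2)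
    have e4 : x * t * x⁻¹ = t := by rw [e1, hr1, one_mul]
    calc x * t = x * t * x⁻¹ * x := by group
      _ = t * x := by rw [e4]
  rw [ht1, map_one] at hπt
  exact m1_ne hπt.symm

/-- The fixed points of `t` in `R`. -/
def fixT (R : Subgroup X) (t : X) (htt : t * t = 1) : Subgroup X where
  carrier := {w | w ∈ R ∧ t * w * t = w}
  mul_mem' := by
    rintro a b ⟨ha, ha'⟩ ⟨hb, hb'⟩
    refine ⟨R.mul_mem ha hb, ?_⟩
    have e : t * (a * b) * t = (t * a * t) * (t * b * t) := by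
      have : t * a * t * (t * b * t) = t * a * (t * t) * b * t := by group
      rw [this, htt]
      group
    rw [e, ha', hb']
  one_mem' := ⟨R.one_mem, by rw [mul_one, htt]⟩
  inv_mem' := by
    rintro a ⟨ha, ha'⟩
    refine ⟨R.inv_mem ha, ?_⟩
    have e : t * a⁻¹ * t = (t * a * t)⁻¹ := by
      have h1 : (t * a * t)⁻¹ = t⁻¹ * a⁻¹ * t⁻¹ := by group
      rw [h1, tt_inv htt]
    rw [e, ha']

theorem tau_mul (htt : t * t = 1) (a b : X) : t * (a * b) * t = (t * a * t) * (t * b * t) := by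
  have : t * a * t * (t * b * t) = t * a * (t * t) * b * t := by group
  rw [this, htt]
  group

theorem tau_inv (htt : t * t = 1) (a : X) : t * a⁻¹ * t = (t * a * t)⁻¹ := by
  have h1 : (t * a * t)⁻¹ = t⁻¹ * a⁻¹ * t⁻¹ := by group
  rw [h1, tt_inv htt]

theorem tau_tau (htt : t * t = 1) (a : X) : t * (t * a * t) * t = a := by
  have : t * (t * a * t) * t = (t * t) * a * (t * t) := by group
  rw [this, htt]
  group

theorem Hyp.tau_central (h : Hyp R Z π) (htt : t * t = 1) {z : X} (hz : z ∈ Z) : t * z * t = z := by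
  rw [h.central hz t, mul_assoc, htt, mul_one]

theorem card_three_cases {n : ℕ} (hn : n ∣ 27) : n = 1 ∨ n = 3 ∨ n = 9 ∨ n = 27 := by
  have : (27 : ℕ) = 3 ^ 3 := by norm_num
  rw [this] at hn
  obtain ⟨k, hk, rfl⟩ := (Nat.dvd_prime_pow Nat.prime_three).1 hn
  interval_cases k <;> simp

/-- A subgroup of `R` properly containing `Z` has at least nine elements. -/
theorem Hyp.nine_le (h : Hyp R Z π) {W : Subgroup X} (hWR : W ≤ R) (hZW : Z ≤ W) {w : X} (hw : w ∈ W) (hwZ : w ∉ Z) :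
    Nat.card W = 9 ∨ Nat.card W = 27 := by
  have : Finite R := h.fin
  have h1 : Nat.card W ∣ 27 := by
    rw [← h.cardR]
    exact Subgroup.card_dvd_of_le hWR
  have hfW : Finite W := by
    apply Nat.finite_of_card_ne_zero
    intro h0
    rw [h0] at h1
    omega
  have : Finite Z := h.finZ
  have h2 : Nat.card Z ∣ Nat.card W := Subgroup.card_dvd_of_le hZW
  rw [h.cardZ] at h2
  rcases card_three_cases h1 with h3 | h3 | h3 | h3
  · rw [h3] at h2; omega
  · have : Z = W := Subgroup.eq_of_le_of_card_ge hZW (by rw [h.cardZ, h3])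
    rw [this] at hwZ
    exact absurd hw hwZ
  · exact Or.inl h3
  · exact Or.inr h3

/-- A proper subgroup of `R` has at most nine elements. -/
theorem Hyp.le_nine (h : Hyp R Z π) {W : Subgroup X} (hWR : W ≤ R) (hne : W ≠ R) : Nat.card W ≤ 9 := by
  have : Finite R := h.fin
  have h1 : Nat.card W ∣ 27 := by
    rw [← h.cardR]
    exact Subgroup.card_dvd_of_le hWR
  rcases card_three_cases h1 with h3 | h3 | h3 | h3
  · omega
  · omega
  · omega
  · exfalso
    apply hne
    exact Subgroup.eq_of_le_of_card_ge hWR (by rw [h.cardR, h3])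

theorem Hyp.fix_mem_Z (h : Hyp R Z π) (hti : t = i * i) (htt : t * t = 1) (hπt : π t = m1) {r₀ : X} (hr₀ : r₀ ∈ R)
    (hfix : t * r₀ * t = r₀) : r₀ ∈ Z := by
  classical
  by_contra hr₀Z
  have : Finite R := h.fin
  set W := fixT R t htt with hW
  have hWR : W ≤ R := fun w hw => hw.1
  have hZW : Z ≤ W := fun z hz => ⟨h.ZleR hz, h.tau_central htt hz⟩
  obtain ⟨r, hr, hrt⟩ := h.not_central htt hπt
  have hWne : W ≠ R := by
    intro e
    have : r ∈ W := by rw [e]; exact hr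
    exact hrt this.2
  have hW9 : Nat.card W = 9 := by
    rcases h.nine_le hWR hZW (w := r₀) ⟨hr₀, hfix⟩ hr₀Z with h1 | h1
    · exact h1
    · exfalso
      exact hWne (Subgroup.eq_of_le_of_card_ge hWR (by rw [h.cardR, h1]))
  have : Finite W := by
    apply Nat.finite_of_card_ne_zero
    rw [hW9]; norm_num
  -- the inverted elements
  let I := {a : X // a ∈ R ∧ t * a * t = a⁻¹}
  have hinj : Function.Injective (fun p : I × W => (⟨p.1.1 * p.2.1, R.mul_mem p.1.2.1 (hWR p.2.2)⟩ : R)) := by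
    rintro ⟨⟨a, ha, ha'⟩, ⟨w, hw⟩⟩ ⟨⟨a', hb, hb'⟩, ⟨w', hw'⟩⟩ he
    have he' : a * w = a' * w' := congrArg Subtype.val he
    set w₀ := a'⁻¹ * a with hw₀
    have hw₀W : w₀ ∈ W := by
      have : w₀ = w' * w⁻¹ := by
        rw [hw₀]
        calc a'⁻¹ * a = a'⁻¹ * (a * w) * w⁻¹ := by group
          _ = a'⁻¹ * (a' * w') * w⁻¹ := by rw [he']
          _ = w' * w⁻¹ := by group
      rw [this]
      exact W.mul_mem hw' (W.inv_mem hw)
    have hae : a = a' * w₀ := by rw [hw₀]; group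
    have hw₀R : w₀ ∈ R := hWR hw₀W
    have hw₀f : t * w₀ * t = w₀ := hw₀W.2
    have e1 : a⁻¹ = a'⁻¹ * w₀ := by
      rw [← ha', hae, tau_mul htt, hb', hw₀f]
    have e2 : w₀⁻¹ * a'⁻¹ = a'⁻¹ * w₀ := by
      rw [← e1, hae]
      group
    have hc := h.cmZ _ (R.inv_mem hb) _ hw₀R
    have e3 : cm a'⁻¹ w₀ * (w₀ * a'⁻¹) = a'⁻¹ * w₀ := by
      unfold cm; group
    have e4 : w₀⁻¹ = cm a'⁻¹ w₀ * w₀ := by
      have e5 : w₀⁻¹ * a'⁻¹ = (cm a'⁻¹ w₀ * w₀) * a'⁻¹ := by
        rw [e2, ← e3]; group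
      exact mul_right_cancel e5
    have hw₀3 := h.exp _ hw₀R
    have hw₀Z : w₀ ∈ Z := by
      have e5 : w₀ = cm a'⁻¹ w₀ := by
        have e6 : w₀ ^ 3 = 1 := hw₀3
        have e7 : w₀⁻¹ * w₀⁻¹ = w₀ := by
          have : w₀⁻¹ * w₀⁻¹ = w₀ * (w₀ ^ 3)⁻¹ := by group
          rw [this, e6]
          simp
        calc w₀ = w₀⁻¹ * w₀⁻¹ := e7.symm
          _ = cm a'⁻¹ w₀ * w₀ * w₀⁻¹ := by nth_rewrite 1 [e4]; rfl
          _ = cm a'⁻¹ w₀ := by group
      rw [e5]
      exact hc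
    have e6 : w₀⁻¹ = w₀ := by
      have e7 := e2
      rw [h.central hw₀Z a'⁻¹] at e7
      exact mul_right_cancel e7
    have hw₀1 : w₀ = 1 := by
      apply sq_one_of_cube hw₀3
      rw [pow_two]
      nth_rewrite 1 [← e6]
      simp
    have haa : a = a' := by rw [hae, hw₀1, mul_one]
    subst haa
    have hww : w = w' := mul_left_cancel he'
    subst hww
    rfl
  have hcardI : Nat.card I * 9 ≤ 27 := by
    have := Nat.card_le_card_of_injective _ hinj
    rw [Nat.card_prod, hW9, h.cardR] at this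
    exact this
  have hfinI : Finite I := Finite.of_injective (fun a : I => (⟨a.1, a.2.1⟩ : R)) (by
    intro a b hab
    have hab' : (⟨a.1, a.2.1⟩ : R) = ⟨b.1, b.2.1⟩ := hab
    apply Subtype.ext
    exact congrArg (fun q : R => (q : X)) hab')
  set j := r⁻¹ * (t * r * t) with hj
  have hτR : t * r * t ∈ R := by
    have := h.normal.conj_mem r hr t
    rwa [tt_inv htt] at this
  have hjR : j ∈ R := R.mul_mem (R.inv_mem hr) hτR
  have hjinv : t * j * t = j⁻¹ := by
    rw [hj, tau_mul htt, tau_inv htt, tau_tau htt]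
    group
  have hj1 : j ≠ 1 := by
    intro e
    apply hrt
    have e2 : t * r * t = r * j := by rw [hj]; group
    rw [e2, e, mul_one]
  have hj3 := h.exp j hjR
  have hjj : j ≠ j⁻¹ := by
    intro e
    apply hj1
    apply sq_one_of_cube hj3
    rw [pow_two]
    nth_rewrite 1 [e]
    simp
  have hj0 : (1 : X) ≠ j⁻¹ := by
    intro e
    apply hj1
    simpa using e.symm
  have hit : i * t = t * i := by rw [hti]; group
  have hit' : i⁻¹ * t = t * i⁻¹ := by
    have : Commute i t := hit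
    exact this.inv_left
  set j₁ := i * j * i⁻¹ with hj₁
  have hj₁R : j₁ ∈ R := h.normal.conj_mem j hjR i
  have hj₁inv : t * j₁ * t = j₁⁻¹ := by
    have e1 : t * j₁ * t = (t * i) * j * (i⁻¹ * t) := by rw [hj₁]; group
    rw [e1, ← hit, hit']
    have e2 : i * t * j * (t * i⁻¹) = i * (t * j * t) * i⁻¹ := by group
    rw [e2, hjinv, hj₁]
    group
  have hj₁1 : j₁ ≠ 1 := by
    intro e
    apply hj1
    have e2 : j = i⁻¹ * j₁ * i := by rw [hj₁]; group
    rw [e2, e]
    group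
  have hcases : j₁ = j ∨ j₁ = j⁻¹ := by
    by_contra hcon
    push Not at hcon
    have h4 := four_le_card (α := I) (a := ⟨1, R.one_mem, by rw [mul_one, htt, inv_one]⟩) (b := ⟨j, hjR, hjinv⟩)
      (c := ⟨j⁻¹, R.inv_mem hjR, by rw [tau_inv htt, hjinv]⟩) (d := ⟨j₁, hj₁R, hj₁inv⟩)
      (fun e => hj1 (congrArg Subtype.val e).symm) (fun e => hj0 (congrArg Subtype.val e))
      (fun e => hj₁1 (congrArg Subtype.val e).symm) (fun e => hjj (congrArg Subtype.val e))
      (fun e => hcon.1 (congrArg Subtype.val e).symm) (fun e => hcon.2 (congrArg Subtype.val e).symm)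
    omega
  have hfin : t * j * t = i * j₁ * i⁻¹ := by
    have e1 : i * j₁ * i⁻¹ = (i * i) * j * (i * i)⁻¹ := by rw [hj₁]; group
    rw [e1, ← hti, tt_inv htt]
  have hfix' : t * j * t = j := by
    rcases hcases with e | e
    · rw [hfin, e, ← hj₁, e]
    · have e2 : i * j₁ * i⁻¹ = j₁⁻¹ := by
        rw [e]
        have : i * j⁻¹ * i⁻¹ = (i * j * i⁻¹)⁻¹ := by group
        rw [this, ← hj₁, e]
      rw [hfin, e2, e, inv_inv]
  rw [hjinv] at hfix'
  exact hjj hfix'.symm

theorem Hyp.mul_tau_mem (h : Hyp R Z π) (hti : t = i * i) (htt : t * t = 1) (hπt : π t = m1) {r : X} (hr : r ∈ R) :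
    r * (t * r * t) ∈ Z := by
  have hτR : t * r * t ∈ R := by
    have := h.normal.conj_mem r hr t
    rwa [tt_inv htt] at this
  set s := r * (t * r * t) with hs
  have hsR : s ∈ R := R.mul_mem hr hτR
  have e1 : t * s * t = (t * r * t) * r := by
    rw [hs, tau_mul htt, tau_tau htt]
  set c := s⁻¹ * (t * s * t) with hc
  have hcZ : c ∈ Z := by
    have e2 : c = cm (t * r * t)⁻¹ r⁻¹ := by
      rw [hc, e1, hs]
      unfold cm
      group
    rw [e2]
    exact h.cmZ _ (R.inv_mem hτR) _ (R.inv_mem hr)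
  have e3 : t * c * t = c⁻¹ := by
    rw [hc, tau_mul htt, tau_inv htt, tau_tau htt]
    group
  rw [h.tau_central htt hcZ] at e3
  have hc1 : c = 1 := by
    apply sq_one_of_cube (h.exp c (h.ZleR hcZ))
    rw [pow_two]
    nth_rewrite 1 [e3]
    simp
  apply h.fix_mem_Z hti htt hπt hsR
  have : s⁻¹ * (t * s * t) = 1 := hc1
  exact (inv_mul_eq_one.mp this).symm

theorem Hyp.frattini (h : Hyp R Z π) (htt : t * t = 1) (hπt : π t = m1) (x : X) :
    ∃ r ∈ R, ∃ c : X, c * t = t * c ∧ x = r * c := by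
  have hi₀ := h.cm_t_mem hπt x
  rw [tt_inv htt] at hi₀
  set i₀ := x * t * x⁻¹ * t with hi₀d
  have hτ : t * i₀ * t = i₀⁻¹ := by
    have e1 : t * i₀ * t = t * x * t * x⁻¹ * (t * t) := by rw [hi₀d]; group
    rw [e1, htt, hi₀d]
    have : (x * t * x⁻¹ * t)⁻¹ = t⁻¹ * x * t⁻¹ * x⁻¹ := by group
    rw [this, tt_inv htt]
    group
  refine ⟨i₀⁻¹, R.inv_mem hi₀, i₀ * x, ?_, by group⟩
  have e1 : x * t = i₀ * t * x := by
    rw [hi₀d]
    have : x * t * x⁻¹ * t * t * x = x * t * x⁻¹ * (t * t) * x := by group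
    rw [this, htt]
    group
  have h3 := h.exp i₀ hi₀
  have e2 : t * i₀ = i₀⁻¹ * t := by
    calc t * i₀ = t * i₀ * t * t := by rw [mul_assoc (t * i₀), htt, mul_one]
      _ = i₀⁻¹ * t := by rw [hτ]
  have e3 : i₀ * i₀ = i₀⁻¹ := by
    apply eq_inv_of_mul_eq_one_left
    rw [← h3, pow_succ, pow_two]
  calc i₀ * x * t = i₀ * (x * t) := by group
    _ = i₀ * (i₀ * t * x) := by rw [e1]
    _ = (i₀ * i₀) * t * x := by group
    _ = i₀⁻¹ * t * x := by rw [e3]
    _ = t * i₀ * x := by rw [e2]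
    _ = t * (i₀ * x) := by group

/-- The centraliser of an element, with a convenient carrier. -/
def comT (t : X) : Subgroup X where
  carrier := {c | c * t = t * c}
  mul_mem' := by
    intro a b ha hb
    have ha' : Commute a t := ha
    have hb' : Commute b t := hb
    exact ha'.mul_left hb'
  one_mem' := by
    change 1 * t = t * 1
    simp
  inv_mem' := by
    intro a ha
    have ha' : Commute a t := ha
    exact ha'.inv_left

theorem mem_comT {t c : X} : c ∈ comT t ↔ c * t = t * c := Iff.rfl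

variable [Finite X]

theorem Hyp.card_C (h : Hyp R Z π) (hti : t = i * i) (htt : t * t = 1) (hπt : π t = m1) :
    Nat.card (comT t) = 72 := by
  let f : comT t →* G3 := π.comp (comT t).subtype
  have hsurj : Function.Surjective f := by
    intro g
    obtain ⟨x, rfl⟩ := h.surj g
    obtain ⟨r, hr, c, hc, rfl⟩ := h.frattini htt hπt x
    refine ⟨⟨c, hc⟩, ?_⟩
    change π c = π (r * c)
    rw [map_mul, h.memR.1 hr, one_mul]
  have hmap : f.ker.map (comT t).subtype = Z := by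
    ext z
    constructor
    · rintro ⟨⟨c, hc⟩, hc2, rfl⟩
      have hc3 : π c = 1 := hc2
      apply h.fix_mem_Z hti htt hπt (h.memR.2 hc3)
      have : c * t = t * c := hc
      rw [← this, mul_assoc, htt, mul_one]
    · intro hz
      refine ⟨⟨z, (h.central hz t).symm⟩, ?_, rfl⟩
      change π z = 1
      exact h.memR.1 (h.ZleR hz)
  have hk : Nat.card f.ker = 3 := by
    calc Nat.card f.ker = Nat.card (f.ker.map (comT t).subtype) :=
          (Subgroup.card_map_of_injective (comT t).subtype_injective).symm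
      _ = Nat.card Z := by rw [hmap]
      _ = 3 := h.cardZ
  have hr : Nat.card f.range = 24 := by
    rw [MonoidHom.range_eq_top.2 hsurj, Subgroup.card_top, hcardG3]
  have := Subgroup.card_mul_index f.ker
  rw [Subgroup.index_ker, hk, hr] at this
  exact this.symm

theorem Hyp.exists_S (h : Hyp R Z π) (hti : t = i * i) (htt : t * t = 1) (hπt : π t = m1) :
    ∃ S : Subgroup X, S ≤ comT t ∧ Nat.card S = 8 ∧ (∀ x ∈ comT t, x ^ 8 = 1 → x ∈ S) ∧
      (∀ q : G3, q ^ 4 = 1 → ∃ s ∈ S, π s = q) := by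
  have hcard := h.card_C hti htt hπt
  obtain ⟨K, hK⟩ := Sylow.exists_subgroup_card_pow_prime (G := comT t) 2 (n := 3) (by rw [hcard]; norm_num)
  set S := K.map (comT t).subtype with hS
  have hSC : S ≤ comT t := by
    rintro _ ⟨c, -, rfl⟩
    exact c.2
  have hS8 : Nat.card S = 8 := by
    rw [hS, Subgroup.card_map_of_injective (comT t).subtype_injective, hK]
    norm_num
  have hpow : ∀ s ∈ S, s ^ 8 = 1 := by
    intro s hs
    have : (⟨s, hs⟩ : S) ^ Nat.card S = 1 := pow_card_eq_one'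
    rw [hS8] at this
    exact congrArg Subtype.val this
  have hfix : ∀ x ∈ comT t, π x = 1 → x ∈ Z := by
    intro x hx hπ
    apply h.fix_mem_Z hti htt hπt (h.memR.2 hπ)
    have : x * t = t * x := hx
    rw [← this, mul_assoc, htt, mul_one]
  have h28 : ∀ z : X, z ^ 3 = 1 → z ^ 8 = 1 → z = 1 := by
    intro z h3 h8
    apply sq_one_of_cube h3
    have : z ^ 8 = (z ^ 3) ^ 2 * z ^ 2 := by rw [← pow_mul, ← pow_add]
    rw [this, h3, one_pow, one_mul] at h8
    exact h8
  let g : S →* G3 := π.comp S.subtype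
  have hg : Function.Injective g := by
    rw [injective_iff_map_eq_one]
    rintro ⟨s, hs⟩ hs2
    have hs3 : π s = 1 := hs2
    have hz := hfix s (hSC hs) hs3
    have : s = 1 := h28 s (h.exp s (h.ZleR hz)) (hpow s hs)
    exact Subtype.ext this
  have hrange : g.range = Q := by
    apply Subgroup.eq_of_le_of_card_ge
    · rintro _ ⟨s, rfl⟩
      apply eight_aux
      change (π s.1) ^ 8 = 1
      rw [← map_pow, hpow s.1 s.2, map_one]
    · rw [card_Q, Nat.card_congr (MonoidHom.ofInjective hg).toEquiv.symm, hS8]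
  have hlift : ∀ q : G3, q ^ 4 = 1 → ∃ s ∈ S, π s = q := by
    intro q hq
    have : q ∈ g.range := by
      rw [hrange]
      exact hq
    obtain ⟨s, hs⟩ := this
    exact ⟨s.1, s.2, hs⟩
  refine ⟨S, hSC, hS8, ?_, hlift⟩
  intro x hx hx8
  have hπ4 : (π x) ^ 4 = 1 := by
    apply eight_aux
    rw [← map_pow, hx8, map_one]
  obtain ⟨s, hs, hsx⟩ := hlift _ hπ4
  have hz : s⁻¹ * x ∈ Z := by
    apply hfix
    · exact (comT t).mul_mem ((comT t).inv_mem (hSC hs)) hx
    · rw [map_mul, map_inv, hsx]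
      simp
  have hcomm : Commute s (s⁻¹ * x) := by
    exact h.central hz s
  have hx' : x = s * (s⁻¹ * x) := by group
  have h8 : (s⁻¹ * x) ^ 8 = 1 := by
    have e : x ^ 8 = s ^ 8 * (s⁻¹ * x) ^ 8 := by
      nth_rewrite 1 [hx']
      exact hcomm.mul_pow 8
    rw [hx8, hpow s hs, one_mul] at e
    exact e.symm
  have hz1 := h28 _ (h.exp _ (h.ZleR hz)) h8
  rw [hx', hz1, mul_one]
  exact hs

theorem Hyp.exists_y (h : Hyp R Z π) (hti : t = i * i) (htt : t * t = 1) (hπt : π t = m1) :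
    ∃ y : X, y * t = t * y ∧ y ^ 3 = 1 ∧ y ∉ R := by
  classical
  have hfinR : Finite R := h.fin
  obtain ⟨E, hEab, hE3, hE27⟩ := h.E
  obtain ⟨e, heE, heR⟩ : ∃ e ∈ E, e ∉ R := by
    by_contra hcon
    push Not at hcon
    have hER : E = R := Subgroup.eq_of_le_of_card_ge hcon (by rw [h.cardR, hE27])
    obtain ⟨r, hr, r', hr', hne⟩ := h.nab
    rw [← hER] at hr hr'
    exact hne (hEab r hr r' hr')
  obtain ⟨w, hwE, hwR, hwZ⟩ : ∃ w ∈ E, w ∈ R ∧ w ∉ Z := by
    by_contra hcon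
    push Not at hcon
    let f : E →* G3 := π.comp E.subtype
    have h1 := Subgroup.card_mul_index f.ker
    rw [Subgroup.index_ker, hE27] at h1
    have h2 : Nat.card f.ker ≤ 3 := by
      have : Finite Z := h.finZ
      have hinj : Function.Injective (fun k : f.ker => (⟨k.1.1, hcon k.1.1 k.1.2 (h.memR.2 k.2)⟩ : Z)) := by
        intro a b hab
        have hab' : (⟨a.1.1, hcon a.1.1 a.1.2 (h.memR.2 a.2)⟩ : Z) = ⟨b.1.1, hcon b.1.1 b.1.2 (h.memR.2 b.2)⟩ := hab
        apply Subtype.ext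
        apply Subtype.ext
        exact congrArg (fun q : Z => (q : X)) hab'
      have hle := Nat.card_le_card_of_injective _ hinj
      rwa [h.cardZ] at hle
    have h3 : Nat.card f.range ∣ 24 := by
      have := Subgroup.card_subgroup_dvd_card f.range
      rwa [hcardG3] at this
    have h4 : Nat.card f.range ∣ 27 := ⟨_, by rw [← h1]; ring⟩
    have h5 : Nat.card f.range ≤ 3 := Nat.le_of_dvd (by norm_num) (by
      have := Nat.dvd_gcd h3 h4
      simpa using this)
    nlinarith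
  obtain ⟨r, hr, c, hc, rfl⟩ := h.frattini htt hπt e
  have hwc : r * c * w = w * (r * c) := hEab _ heE _ hwE
  have e1 : c * w * c⁻¹ = r⁻¹ * w * r := by
    calc c * w * c⁻¹ = r⁻¹ * (r * c * w) * c⁻¹ := by group
      _ = r⁻¹ * (w * (r * c)) * c⁻¹ := by rw [hwc]
      _ = r⁻¹ * w * r := by group
  set z₀ := w⁻¹ * (c * w * c⁻¹) with hz₀
  have hz₀Z : z₀ ∈ Z := by
    have : z₀ = cm w⁻¹ r⁻¹ := by
      rw [hz₀, e1]
      unfold cm
      group
    rw [this]
    exact h.cmZ _ (R.inv_mem hwR) _ (R.inv_mem hr)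
  have hw' : c * w * c⁻¹ = w * z₀ := by rw [hz₀]; group
  have hs := h.mul_tau_mem hti htt hπt hwR
  set s := w * (t * w * t) with hsd
  have hτw : t * w * t = w⁻¹ * s := by rw [hsd]; group
  have hci : c⁻¹ * t = t * c⁻¹ := by
    have : Commute c t := hc
    exact this.inv_left
  have e2 : t * (c * w * c⁻¹) * t = c * (t * w * t) * c⁻¹ := by
    have e3 : t * (c * w * c⁻¹) * t = (t * c) * w * (c⁻¹ * t) := by group
    rw [e3, ← hc, hci]
    group
  have e4 : z₀⁻¹ = z₀ := by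
    have e5 : c * (w⁻¹ * s) * c⁻¹ = (c * w * c⁻¹)⁻¹ * (c * s * c⁻¹) := by group
    have e6 : c * s * c⁻¹ = s := by
      rw [h.central hs c]
      group
    rw [hw', tau_mul htt, h.tau_central htt hz₀Z, hτw, e5, e6, hw'] at e2
    have e7 : w⁻¹ * s * z₀ = w⁻¹ * z₀⁻¹ * s := by
      rw [e2, mul_inv_rev, h.central (Z.inv_mem hz₀Z) w⁻¹]
    have e8 : s * z₀ = z₀ * s := (h.central hz₀Z s)
    have e9 : w⁻¹ * (z₀ * s) = w⁻¹ * (z₀⁻¹ * s) := by
      rw [← e8, ← mul_assoc, e7]
      group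
    exact (mul_right_cancel (mul_left_cancel e9)).symm
  have hz₀1 : z₀ = 1 := by
    apply sq_one_of_cube (h.exp z₀ (h.ZleR hz₀Z))
    rw [pow_two]
    nth_rewrite 1 [← e4]
    simp
  have hcw : c * w = w * c := by
    have : c * w * c⁻¹ = w := by rw [hw', hz₀1, mul_one]
    calc c * w = c * w * c⁻¹ * c := by group
      _ = w * c := by rw [this]
  have hrw : r * w = w * r := by
    have e5 : r⁻¹ * w * r = w := by rw [← e1, hw', hz₀1, mul_one]
    calc r * w = r * (r⁻¹ * w * r) := by rw [e5]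
      _ = w * r := by group
  -- the centraliser of `w` in `R`
  set A := R ⊓ comT w with hA
  set W' := Subgroup.zpowers w ⊔ Z with hW'
  have hzw : ∀ z ∈ Z, ∀ g : X, z ∈ comT g := fun z hz g => (h.central hz g).symm
  have hW'A : W' ≤ A := by
    apply sup_le
    · rw [Subgroup.zpowers_le]
      exact ⟨hwR, rfl⟩
    · intro z hz
      exact ⟨h.ZleR hz, hzw z hz w⟩
  have hW'c : W' ≤ comT c := by
    apply sup_le
    · rw [Subgroup.zpowers_le]
      exact hcw.symm
    · intro z hz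
      exact hzw z hz c
  have hAR : A ≤ R := inf_le_left
  have hAne : A ≠ R := by
    intro eA
    apply hwZ
    apply h.Zall w hwR
    intro r' hr'
    rw [← eA] at hr'
    exact hr'.2.symm
  have hA9 := h.le_nine hAR hAne
  have hW'eq : W' = A := by
    apply Subgroup.eq_of_le_of_card_ge hW'A
    · have hm : w ∈ W' := (le_sup_left : Subgroup.zpowers w ≤ W') (Subgroup.mem_zpowers w)
      rcases h.nine_le (hW'A.trans hAR) (le_sup_right : Z ≤ W') hm hwZ with h1 | h1
      · rw [h1]; exact hA9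
      · rw [h1]
        have := Nat.card_le_card_of_injective _ (Subgroup.inclusion_injective hW'A)
        rw [h1] at this
        omega
  have hrc : r * c = c * r := by
    have hrA : r ∈ A := ⟨hr, hrw⟩
    rw [← hW'eq] at hrA
    have := hW'c hrA
    exact this
  have hcomm : Commute r c := hrc
  have he3 := hE3 _ heE
  rw [hcomm.mul_pow, h.exp r hr, one_mul] at he3
  refine ⟨c, hc, he3, ?_⟩
  intro hcR
  exact heR (R.mul_mem hr hcR)

end T

variable [Finite X]

/-- The splitting. -/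
theorem Hyp.main (h : Hyp R Z π) :
    ∃ (t : X) (H : Subgroup X), t * t = 1 ∧ π t = m1 ∧ t ∈ H ∧ (∀ x ∈ H, x * t = t * x) ∧
      (∀ r ∈ R, r * (t * r * t) ∈ Z) ∧ (∀ x ∈ H, π x = 1 → x = 1) ∧ (∀ g : G3, ∃ x ∈ H, π x = g) := by
  classical
  obtain ⟨i, t, hti, htt, hπt⟩ := h.exists_t
  obtain ⟨S, hSC, hS8, hSmem, hSlift⟩ := h.exists_S hti htt hπt
  obtain ⟨y, hyt, hy3, hyR⟩ := h.exists_y hti htt hπt
  have hyC : y ∈ comT t := hyt
  have hyN : y ∈ Subgroup.normalizer (S : Set X) := by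
    apply Cfsg.Agent.Lib.ZT.mem_normalizer_of_conj
    intro s hs
    apply hSmem
    · exact (comT t).mul_mem ((comT t).mul_mem hyC (hSC hs)) ((comT t).inv_mem hyC)
    · have hs8 : s ^ 8 = 1 := by
        have : (⟨s, hs⟩ : S) ^ Nat.card S = 1 := pow_card_eq_one'
        rw [hS8] at this
        exact congrArg Subtype.val this
      rw [conj_pow, hs8]
      simp
  set H := S ⊔ Subgroup.zpowers y with hH
  have hHC : H ≤ comT t := by
    apply sup_le hSC
    rw [Subgroup.zpowers_le]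
    exact hyC
  have hcard : Nat.card H ≤ 24 := by
    have := Cfsg.Agent.Lib.ZT.card_sup_zpowers_le S y hyN 3 (by norm_num) (by rw [hy3]; exact S.one_mem)
    rw [hS8] at this
    exact this
  have htS : t ∈ S := by
    apply hSmem
    · exact rfl
    · have : t ^ 8 = (t * t) ^ 4 := by
        rw [← pow_two, ← pow_mul]
      rw [this, htt, one_pow]
  have hSH : S ≤ H := le_sup_left
  have hyH : y ∈ H := (le_sup_right : Subgroup.zpowers y ≤ H) (Subgroup.mem_zpowers y)
  set T := H.map π with hT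
  have hQT : Q ≤ T := by
    intro q hq
    obtain ⟨s, hs, hsq⟩ := hSlift q hq
    exact ⟨s, hSH hs, hsq⟩
  have h8 : 8 ∣ Nat.card T := by
    rw [← card_Q]
    exact Subgroup.card_dvd_of_le hQT
  have hπy : π y ∈ T := ⟨y, hyH, rfl⟩
  have h3 : 3 ∣ Nat.card T := by
    have hord : orderOf (π y) = 3 := by
      have : Fact (Nat.Prime 3) := ⟨Nat.prime_three⟩
      apply orderOf_eq_prime
      · rw [← map_pow, hy3, map_one]
      · intro e
        exact hyR (h.memR.2 e)
    have := Subgroup.orderOf_dvd_natCard T hπy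
    rwa [hord] at this
  have h24 : 24 ∣ Nat.card T := by
    have := Nat.Coprime.mul_dvd_of_dvd_of_dvd (by norm_num : Nat.Coprime 8 3) h8 h3
    simpa using this
  have hTtop : T = ⊤ := by
    apply Subgroup.eq_top_of_card_eq
    rw [hcardG3]
    apply le_antisymm
    · have := Subgroup.card_subgroup_dvd_card T
      rw [hcardG3] at this
      exact Nat.le_of_dvd (by norm_num) this
    · exact Nat.le_of_dvd Nat.card_pos h24
  have hsurj : ∀ g : G3, ∃ x ∈ H, π x = g := by
    intro g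
    have : g ∈ T := by rw [hTtop]; trivial
    obtain ⟨x, hx, hxg⟩ := this
    exact ⟨x, hx, hxg⟩
  let f : H →* G3 := π.comp H.subtype
  have hfs : Function.Surjective f := by
    intro g
    obtain ⟨x, hx, hxg⟩ := hsurj g
    exact ⟨⟨x, hx⟩, hxg⟩
  have hfb := hfs.bijective_of_nat_card_le (by
    rw [hcardG3]
    exact hcard)
  refine ⟨t, H, htt, hπt, hSH htS, fun x hx => hHC hx, fun r hr => h.mul_tau_mem hti htt hπt hr, ?_, hsurj⟩
  intro x hx hx1
  have : (⟨x, hx⟩ : H) = 1 := by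
    apply hfb.1
    rw [map_one]
    exact hx1
  exact congrArg Subtype.val this

end Cfsg.Agent.Lib.ZT.X648
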