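import Mathlib
import Cfsg.Agent.Lib.ZT.X648a

/-!
# Groups of shape `3^{1+2}.SL₂(3)` with `O₂ = 1`: coordinates
-/

set_option autoImplicit false
set_option linter.unusedVariables false
set_option linter.unusedSectionVars false

namespace Cfsg.Agent.Lib.ZT.X648

open Cfsg.Agent.Lib.Known (G3)
open Cfsg.Agent.Lib.Known.SL23
open Cfsg.Agent.Lib.ZT (cm_swap cm_conj cm_mul_left cm_mul_right)

variable {X : Type*} [Group X] {R Z : Subgroup X} {π : X →* G3}

open Classical in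
/-- The logarithm on `Z`. -/
noncomputable def lg (ζ z : X) : ZMod 3 := if z = 1 then 0 else if z = ζ then 1 else 2

theorem lg_one (ζ : X) : lg ζ 1 = 0 := by simp [lg]

theorem lg_self {ζ : X} (h1 : ζ ≠ 1) : lg ζ ζ = 1 := by simp [lg, h1]

theorem lg_inv_self {ζ : X} (h1 : ζ ≠ 1) (h2 : ζ⁻¹ ≠ ζ) : lg ζ ζ⁻¹ = 2 := by
  simp [lg, h1, h2]

section lg

variable (h : Hyp R Z π) {ζ : X} (hζ : ζ ∈ Z) (hζ1 : ζ ≠ 1)
include h hζ hζ1

theorem Hyp.zeta_facts : ζ⁻¹ ≠ ζ ∧ ζ * ζ = ζ⁻¹ ∧ ζ⁻¹ * ζ⁻¹ = ζ := by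
  have h3 := h.exp ζ (h.ZleR hζ)
  have e1 : ζ * ζ = ζ⁻¹ := by
    apply eq_inv_of_mul_eq_one_left
    rw [← h3, pow_succ, pow_two]
  refine ⟨?_, e1, ?_⟩
  · intro e
    apply hζ1
    apply sq_one_of_cube h3
    rw [pow_two]
    nth_rewrite 1 [← e]
    simp
  · rw [← e1]
    have : ζ * ζ * (ζ * ζ) = ζ ^ 3 * ζ := by simp only [pow_succ, pow_zero, one_mul, mul_assoc]
    rw [this, h3, one_mul]

theorem Hyp.lg_mul {z w : X} (hz : z ∈ Z) (hw : w ∈ Z) : lg ζ (z * w) = lg ζ z + lg ζ w := by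
  obtain ⟨f1, f2, f3⟩ := h.zeta_facts hζ hζ1
  have v2 : (1 : ZMod 3) + 1 = 2 := by decide
  have v3 : (2 : ZMod 3) + 2 = 1 := by decide
  have v4 : (1 : ZMod 3) + 2 = 0 := by decide
  have v5 : (2 : ZMod 3) + 1 = 0 := by decide
  rcases h.Z_cases hζ hζ1 hz with rfl | rfl | rfl <;> rcases h.Z_cases hζ hζ1 hw with rfl | rfl | rfl
  · simp [lg_one]
  · simp [lg_one]
  · simp [lg_one]
  · simp [lg_one]
  · rw [f2, lg_self hζ1, lg_inv_self hζ1 f1, v2]
  · rw [mul_inv_cancel, lg_one, lg_self hζ1, lg_inv_self hζ1 f1, v4]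
  · simp [lg_one]
  · rw [inv_mul_cancel, lg_one, lg_self hζ1, lg_inv_self hζ1 f1, v5]
  · rw [f3, lg_self hζ1, lg_inv_self hζ1 f1, v3]

theorem Hyp.lg_eq_zero {z : X} (hz : z ∈ Z) (h0 : lg ζ z = 0) : z = 1 := by
  obtain ⟨f1, f2, f3⟩ := h.zeta_facts hζ hζ1
  rcases h.Z_cases hζ hζ1 hz with rfl | rfl | rfl
  · rfl
  · rw [lg_self hζ1] at h0
    exact absurd h0 (by decide)
  · rw [lg_inv_self hζ1 f1] at h0
    exact absurd h0 (by decide)

theorem Hyp.lg_inv {z : X} (hz : z ∈ Z) : lg ζ z⁻¹ = - lg ζ z := by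
  have := h.lg_mul hζ hζ1 hz (Z.inv_mem hz)
  rw [mul_inv_cancel, lg_one] at this
  linear_combination -this

end lg

theorem cm_ne_one {a b : X} (hab : a * b ≠ b * a) : cm a b ≠ 1 := by
  intro e
  apply hab
  have e2 : a * b = cm a b * (b * a) := by
    unfold cm
    group
  rw [e2, e, one_mul]

/-- First coordinate. -/
noncomputable def ul (a b r : X) : ZMod 3 := lg (cm a b) (cm a r)
/-- Second coordinate. -/
noncomputable def ur (a b r : X) : ZMod 3 := lg (cm a b) (cm r b)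
/-- `r` times its image under `t`. -/
def sg (t r : X) : X := r * (t * r * t)
/-- Third coordinate. -/
noncomputable def kk (a b t r : X) : ZMod 3 := lg (cm a b) (sg t r ^ 2)

theorem tau_eq' (t r : X) : t * r * t = r⁻¹ * sg t r := by
  unfold sg
  group

section coords

variable (h : Hyp R Z π) {a b : X} (ha : a ∈ R) (hb : b ∈ R) (hab : a * b ≠ b * a)
include h ha hb hab

theorem Hyp.gen : Subgroup.closure ({a, b} : Set X) = R := by
  have hfR : Finite R := h.fin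
  set A := Subgroup.closure ({a, b} : Set X) with hA
  have haA : a ∈ A := Subgroup.subset_closure (by simp)
  have hbA : b ∈ A := Subgroup.subset_closure (by simp)
  have hAR : A ≤ R := by
    rw [hA, Subgroup.closure_le]
    rintro x (rfl | rfl)
    · exact ha
    · exact hb
  have hζZ : cm a b ∈ Z := h.cmZ a ha b hb
  have hζ1 := cm_ne_one hab
  have hζA : cm a b ∈ A := by
    unfold cm
    exact A.mul_mem (A.mul_mem (A.mul_mem haA hbA) (A.inv_mem haA)) (A.inv_mem hbA)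
  have hZA : Z ≤ A := by
    intro z hz
    rcases h.Z_cases hζZ hζ1 hz with rfl | rfl | rfl
    · exact A.one_mem
    · exact hζA
    · exact A.inv_mem hζA
  have haZ : a ∉ Z := by
    intro haZ
    exact hab (h.Zc a haZ b hb)
  rcases h.nine_le hAR hZA haA haZ with h9 | h27
  · exfalso
    set W := Subgroup.zpowers a ⊔ Z with hW
    have hWA : W ≤ A := sup_le (by rw [Subgroup.zpowers_le]; exact haA) hZA
    have haW : a ∈ W := (le_sup_left : Subgroup.zpowers a ≤ W) (Subgroup.mem_zpowers a)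
    have hfA : Finite A := by
      apply Nat.finite_of_card_ne_zero
      rw [h9]; norm_num
    have hW9 : Nat.card W ≤ 9 := by
      have := Nat.card_le_card_of_injective _ (Subgroup.inclusion_injective hWA)
      rwa [h9] at this
    have hW9' : 9 ≤ Nat.card W := by
      rcases h.nine_le (hWA.trans hAR) (le_sup_right : Z ≤ W) haW haZ with h1 | h1 <;> omega
    have hWeq : W = A := Subgroup.eq_of_le_of_card_ge hWA (by rw [h9]; exact hW9')
    have hbW : b ∈ W := by rw [hWeq]; exact hbA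
    have hWc : W ≤ comT a := by
      apply sup_le
      · rw [Subgroup.zpowers_le]
        exact rfl
      · intro z hz
        exact (h.central hz a).symm
    have : b * a = a * b := hWc hbW
    exact hab this.symm
  · exact Subgroup.eq_of_le_of_card_ge hAR (by rw [h.cardR, h27])

theorem Hyp.ind (P : X → Prop) (pa : P a) (pb : P b) (p1 : P 1)
    (pm : ∀ x ∈ R, ∀ y ∈ R, P x → P y → P (x * y)) : ∀ r ∈ R, P r := by
  intro r hr
  have hAR : Subgroup.closure ({a, b} : Set X) ≤ R := (h.gen ha hb hab).le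
  rw [← h.gen ha hb hab] at hr
  induction hr using Subgroup.closure_induction with
  | mem x hx =>
    rcases hx with rfl | rfl
    · exact pa
    · exact pb
  | one => exact p1
  | mul x y hx hy ihx ihy => exact pm x (hAR hx) y (hAR hy) ihx ihy
  | inv x hx ih =>
    have h3 := h.exp x (hAR hx)
    have e1 : x⁻¹ = x * x := by
      symm
      apply eq_inv_of_mul_eq_one_left
      rw [← h3, pow_succ, pow_two]
    rw [e1]
    exact pm x (hAR hx) x (hAR hx) ih ih

theorem Hyp.zz1 : cm a b ∈ Z ∧ cm a b ≠ 1 := ⟨h.cmZ a ha b hb, cm_ne_one hab⟩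

theorem Hyp.ul_mul {r r' : X} (hr : r ∈ R) (hr' : r' ∈ R) : ul a b (r * r') = ul a b r + ul a b r' := by
  unfold ul
  rw [cm_mul_right (fun g => h.central (h.cmZ a ha r' hr') g)]
  exact h.lg_mul (h.cmZ a ha b hb) (cm_ne_one hab) (h.cmZ a ha r hr) (h.cmZ a ha r' hr')

theorem Hyp.ur_mul {r r' : X} (hr : r ∈ R) (hr' : r' ∈ R) : ur a b (r * r') = ur a b r + ur a b r' := by
  unfold ur
  rw [cm_mul_left (fun g => h.central (h.cmZ r' hr' b hb) g)]
  exact h.lg_mul (h.cmZ a ha b hb) (cm_ne_one hab) (h.cmZ r hr b hb) (h.cmZ r' hr' b hb)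

theorem Hyp.ul_Z {z : X} (hz : z ∈ Z) : ul a b z = 0 := by
  unfold ul
  have : cm a z = 1 := by
    unfold cm
    rw [h.central hz a]
    group
  rw [this, lg_one]

theorem Hyp.ur_Z {z : X} (hz : z ∈ Z) : ur a b z = 0 := by
  unfold ur
  have : cm z b = 1 := by
    unfold cm
    rw [← h.central hz b]
    group
  rw [this, lg_one]

omit h ha hb hab in
theorem ul_a : ul a b a = 0 := by
  unfold ul
  have : cm a a = 1 := by unfold cm; group
  rw [this, lg_one]

omit h ha hb in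
theorem ur_a : ur a b a = 1 := lg_self (cm_ne_one hab)

omit h ha hb in
theorem ul_b : ul a b b = 1 := lg_self (cm_ne_one hab)

omit h ha hb hab in
theorem ur_b : ur a b b = 0 := by
  unfold ur
  have : cm b b = 1 := by unfold cm; group
  rw [this, lg_one]

theorem Hyp.lg_cm {r' : X} (hr' : r' ∈ R) : ∀ r ∈ R,
    lg (cm a b) (cm r r') = - ul a b r * ur a b r' + ur a b r * ul a b r' := by
  obtain ⟨hζ, hζ1⟩ := h.zz1 ha hb hab
  apply h.ind ha hb hab
  · rw [ul_a, ur_a hab]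
    simp [ul]
  · rw [ul_b hab, ur_b, cm_swap r' b, h.lg_inv hζ hζ1 (h.cmZ r' hr' b hb)]
    simp [ur]
  · have e1 : cm (1 : X) r' = 1 := by unfold cm; group
    have e2 : ul a b (1 : X) = 0 := by unfold ul cm; simp [lg_one]
    have e3 : ur a b (1 : X) = 0 := by unfold ur cm; simp [lg_one]
    rw [e1, e2, e3, lg_one]
    ring
  · intro x hx y hy ihx ihy
    rw [cm_mul_left (fun g => h.central (h.cmZ y hy r' hr') g),
      h.lg_mul hζ hζ1 (h.cmZ x hx r' hr') (h.cmZ y hy r' hr'), ihx, ihy, h.ul_mul ha hb hab hx hy,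
      h.ur_mul ha hb hab hx hy]
    ring

theorem Hyp.ul_conj_mul (x : X) {r r' : X} (hr : r ∈ R) (hr' : r' ∈ R) :
    ul a b (x * (r * r') * x⁻¹) = ul a b (x * r * x⁻¹) + ul a b (x * r' * x⁻¹) := by
  have e : x * (r * r') * x⁻¹ = (x * r * x⁻¹) * (x * r' * x⁻¹) := by group
  rw [e]
  exact h.ul_mul ha hb hab (h.normal.conj_mem r hr x) (h.normal.conj_mem r' hr' x)

theorem Hyp.ur_conj_mul (x : X) {r r' : X} (hr : r ∈ R) (hr' : r' ∈ R) :
    ur a b (x * (r * r') * x⁻¹) = ur a b (x * r * x⁻¹) + ur a b (x * r' * x⁻¹) := by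
  have e : x * (r * r') * x⁻¹ = (x * r * x⁻¹) * (x * r' * x⁻¹) := by group
  rw [e]
  exact h.ur_mul ha hb hab (h.normal.conj_mem r hr x) (h.normal.conj_mem r' hr' x)

theorem Hyp.act_l (x : X) : ∀ r ∈ R, ul a b (x * r * x⁻¹) =
    ul a b (x * b * x⁻¹) * ul a b r + ul a b (x * a * x⁻¹) * ur a b r := by
  apply h.ind ha hb hab
  · rw [ul_a, ur_a hab]
    ring
  · rw [ul_b hab, ur_b]
    ring
  · have e2 : ul a b (1 : X) = 0 := by unfold ul cm; simp [lg_one]
    have e3 : ur a b (1 : X) = 0 := by unfold ur cm; simp [lg_one]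
    have e4 : x * 1 * x⁻¹ = 1 := by group
    rw [e4, e2, e3]
    ring
  · intro y hy z hz ihy ihz
    rw [h.ul_conj_mul ha hb hab x hy hz, ihy, ihz, h.ul_mul ha hb hab hy hz, h.ur_mul ha hb hab hy hz]
    ring

theorem Hyp.act_r (x : X) : ∀ r ∈ R, ur a b (x * r * x⁻¹) =
    ur a b (x * b * x⁻¹) * ul a b r + ur a b (x * a * x⁻¹) * ur a b r := by
  apply h.ind ha hb hab
  · rw [ul_a, ur_a hab]
    ring
  · rw [ul_b hab, ur_b]
    ring
  · have e2 : ul a b (1 : X) = 0 := by unfold ul cm; simp [lg_one]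
    have e3 : ur a b (1 : X) = 0 := by unfold ur cm; simp [lg_one]
    have e4 : x * 1 * x⁻¹ = 1 := by group
    rw [e4, e2, e3]
    ring
  · intro y hy z hz ihy ihz
    rw [h.ur_conj_mul ha hb hab x hy hz, ihy, ihz, h.ul_mul ha hb hab hy hz, h.ur_mul ha hb hab hy hz]
    ring

theorem Hyp.det_eq (x : X) : ul a b (x * b * x⁻¹) * ur a b (x * a * x⁻¹) -
    ul a b (x * a * x⁻¹) * ur a b (x * b * x⁻¹) = 1 := by
  obtain ⟨hζ, hζ1⟩ := h.zz1 ha hb hab
  have hbx := h.normal.conj_mem b hb x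
  have hax := h.normal.conj_mem a ha x
  have h1 := h.lg_cm ha hb hab hax _ hbx
  rw [← cm_conj, h.central (h.cmZ b hb a ha) x, mul_assoc, mul_inv_cancel, mul_one, cm_swap a b,
    h.lg_inv hζ hζ1 hζ, lg_self hζ1] at h1
  linear_combination h1

/-- The action on `R/Z` as a matrix group. -/
noncomputable def rhoOf (h : Hyp R Z π) {a b : X} (ha : a ∈ R) (hb : b ∈ R) (hab : a * b ≠ b * a) : X →* G3 where
  toFun x := ⟨!![ul a b (x * b * x⁻¹), ul a b (x * a * x⁻¹); ur a b (x * b * x⁻¹), ur a b (x * a * x⁻¹)], by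
    rw [Matrix.det_fin_two_of]
    exact h.det_eq ha hb hab x⟩
  map_one' := by
    apply Subtype.ext
    have e1 : (1 : X) * b * 1⁻¹ = b := by group
    have e2 : (1 : X) * a * 1⁻¹ = a := by group
    change !![ul a b (1 * b * 1⁻¹), ul a b (1 * a * 1⁻¹); ur a b (1 * b * 1⁻¹), ur a b (1 * a * 1⁻¹)] =
      (1 : Matrix (Fin 2) (Fin 2) (ZMod 3))
    rw [e1, e2, ul_a, ur_a hab, ul_b hab, ur_b]
    ext i j
    fin_cases i <;> fin_cases j <;> simp
  map_mul' x y := by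
    apply Subtype.ext
    have hby := h.normal.conj_mem b hb y
    have hay := h.normal.conj_mem a ha y
    have e1 : x * y * b * (x * y)⁻¹ = x * (y * b * y⁻¹) * x⁻¹ := by group
    have e2 : x * y * a * (x * y)⁻¹ = x * (y * a * y⁻¹) * x⁻¹ := by group
    change !![ul a b (x * y * b * (x * y)⁻¹), ul a b (x * y * a * (x * y)⁻¹);
        ur a b (x * y * b * (x * y)⁻¹), ur a b (x * y * a * (x * y)⁻¹)] =
      !![ul a b (x * b * x⁻¹), ul a b (x * a * x⁻¹); ur a b (x * b * x⁻¹), ur a b (x * a * x⁻¹)] *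
        !![ul a b (y * b * y⁻¹), ul a b (y * a * y⁻¹); ur a b (y * b * y⁻¹), ur a b (y * a * y⁻¹)]
    rw [Matrix.mul_fin_two, e1, e2, h.act_l ha hb hab x _ hby, h.act_l ha hb hab x _ hay, h.act_r ha hb hab x _ hby,
      h.act_r ha hb hab x _ hay]

theorem Hyp.conj_R {r y : X} (hr : r ∈ R) (hy : y ∈ R) : ul a b (r * y * r⁻¹) = ul a b y ∧ ur a b (r * y * r⁻¹) = ur a b y := by
  have e : r * y * r⁻¹ = cm r y * y := by
    unfold cm
    group
  rw [e, h.ul_mul ha hb hab (h.ZleR (h.cmZ r hr y hy)) hy, h.ur_mul ha hb hab (h.ZleR (h.cmZ r hr y hy)) hy,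
    h.ul_Z ha hb hab (h.cmZ r hr y hy), h.ur_Z ha hb hab (h.cmZ r hr y hy)]
  simp

theorem Hyp.rho_R {r : X} (hr : r ∈ R) : rhoOf h ha hb hab r = 1 := by
  rw [← map_one (rhoOf h ha hb hab)]
  apply Subtype.ext
  change !![ul a b (r * b * r⁻¹), ul a b (r * a * r⁻¹); ur a b (r * b * r⁻¹), ur a b (r * a * r⁻¹)] =
    !![ul a b (1 * b * 1⁻¹), ul a b (1 * a * 1⁻¹); ur a b (1 * b * 1⁻¹), ur a b (1 * a * 1⁻¹)]
  have e1 : (1 : X) * b * 1⁻¹ = b := by group
  have e2 : (1 : X) * a * 1⁻¹ = a := by group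
  rw [e1, e2, (h.conj_R ha hb hab hr hb).1, (h.conj_R ha hb hab hr hb).2, (h.conj_R ha hb hab hr ha).1,
    (h.conj_R ha hb hab hr ha).2]

variable {t : X} (htt : t * t = 1) (hmem : ∀ r ∈ R, r * (t * r * t) ∈ Z)
include htt hmem

omit ha hb hab in
theorem Hyp.sg_mul {r r' : X} (hr : r ∈ R) (hr' : r' ∈ R) : sg t (r * r') = cm r r' * sg t r * sg t r' := by
  have hs : sg t r ∈ Z := hmem r hr
  have hs' : sg t r' ∈ Z := hmem r' hr'
  have e1 : sg t (r * r') = r * r' * ((t * r * t) * (t * r' * t)) := by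
    unfold sg
    rw [tau_mul htt]
  rw [e1, tau_eq' t r, tau_eq' t r']
  have e2 : sg t r * r'⁻¹ = r'⁻¹ * sg t r := h.central hs r'⁻¹ |>.symm
  calc r * r' * (r⁻¹ * sg t r * (r'⁻¹ * sg t r')) = r * r' * r⁻¹ * (sg t r * r'⁻¹) * sg t r' := by group
    _ = r * r' * r⁻¹ * (r'⁻¹ * sg t r) * sg t r' := by rw [e2]
    _ = cm r r' * sg t r * sg t r' := by unfold cm; group

theorem Hyp.kk_mul {r r' : X} (hr : r ∈ R) (hr' : r' ∈ R) : kk a b t (r * r') =
    kk a b t r + kk a b t r' + (- ul a b r' * ur a b r + ur a b r' * ul a b r) := by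
  obtain ⟨hζ, hζ1⟩ := h.zz1 ha hb hab
  have hc := h.cmZ r hr r' hr'
  have hs : sg t r ∈ Z := hmem r hr
  have hs' : sg t r' ∈ Z := hmem r' hr'
  unfold kk
  rw [h.sg_mul htt hmem hr hr']
  have e1 : (cm r r' * sg t r * sg t r') ^ 2 = cm r r' * cm r r' * (sg t r ^ 2 * sg t r' ^ 2) := by
    have c1 : Commute (cm r r') (sg t r) := h.central hs (cm r r')
    have c2 : Commute (cm r r' * sg t r) (sg t r') := (h.central hs' _)
    rw [c2.mul_pow, c1.mul_pow, pow_two]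
    group
  have hs2 : sg t r ^ 2 ∈ Z := Z.pow_mem hs 2
  have hs2' : sg t r' ^ 2 ∈ Z := Z.pow_mem hs' 2
  rw [e1, h.lg_mul hζ hζ1 (Z.mul_mem hc hc) (Z.mul_mem hs2 hs2'), h.lg_mul hζ hζ1 hc hc,
    h.lg_mul hζ hζ1 hs2 hs2', h.lg_cm ha hb hab hr' r hr]
  have h3 : (3 : ZMod 3) = 0 := by decide
  linear_combination (ur a b r * ul a b r' - ul a b r * ur a b r') * h3

theorem Hyp.kk_conj {x r : X} (hx : x * t = t * x) (hr : r ∈ R) :
    kk a b t (x * r * x⁻¹) = kk a b t r := by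
  have hx' : x⁻¹ * t = t * x⁻¹ := by
    have : Commute x t := hx
    exact this.inv_left
  have e : sg t (x * r * x⁻¹) = x * sg t r * x⁻¹ := by
    unfold sg
    have e2 : t * (x * r * x⁻¹) * t = x * (t * r * t) * x⁻¹ := by
      have e3 : t * (x * r * x⁻¹) * t = (t * x) * r * (x⁻¹ * t) := by group
      rw [e3, ← hx, hx']
      group
    rw [e2]
    group
  have hs : sg t r ∈ Z := hmem r hr
  have e' : x * sg t r * x⁻¹ = sg t r := by
    rw [h.central hs x]
    group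
  unfold kk
  rw [e, e']

theorem Hyp.zero_of {r : X} (hr : r ∈ R) (h1 : ul a b r = 0) (h2 : ur a b r = 0) (h3 : kk a b t r = 0) : r = 1 := by
  obtain ⟨hζ, hζ1⟩ := h.zz1 ha hb hab
  have c1 : cm a r = 1 := h.lg_eq_zero hζ hζ1 (h.cmZ a ha r hr) h1
  have c2 : cm r b = 1 := h.lg_eq_zero hζ hζ1 (h.cmZ r hr b hb) h2
  have hrZ : r ∈ Z := by
    apply h.Zall r hr
    have hp : ∀ y ∈ R, r * y = y * r := by
      apply h.ind ha hb hab
      · have e2 : a * r = cm a r * (r * a) := by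
          unfold cm
          group
        rw [e2, c1, one_mul]
      · have e2 : r * b = cm r b * (b * r) := by
          unfold cm
          group
        rw [e2, c2, one_mul]
      · simp
      · intro x _ y _ hx hy
        rw [← mul_assoc, hx, mul_assoc, hy, mul_assoc]
    exact hp
  have e1 : sg t r = r * r := by
    unfold sg
    rw [h.tau_central htt hrZ]
  unfold kk at h3
  have e2 : sg t r ^ 2 = r := by
    rw [e1]
    have h3' := h.exp r hr
    have : (r * r) ^ 2 = r ^ 3 * r := by simp only [pow_succ, pow_zero, one_mul, mul_assoc]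
    rw [this, h3', one_mul]
  rw [e2] at h3
  exact h.lg_eq_zero hζ hζ1 hrZ h3

theorem Hyp.zeta_k : kk a b t (cm a b) = 1 := by
  obtain ⟨hζ, hζ1⟩ := h.zz1 ha hb hab
  have e1 : sg t (cm a b) = cm a b * cm a b := by
    unfold sg
    rw [h.tau_central htt hζ]
  unfold kk
  have e2 : sg t (cm a b) ^ 2 = cm a b := by
    rw [e1]
    have h3' := h.exp _ (h.ZleR hζ)
    have : (cm a b * cm a b) ^ 2 = (cm a b) ^ 3 * cm a b := by
      simp only [pow_succ, pow_zero, one_mul, mul_assoc]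
    rw [this, h3', one_mul]
  rw [e2]
  exact lg_self hζ1

theorem Hyp.rho_t_ne : rhoOf h ha hb hab t ≠ 1 := by
  intro e
  have e1 := congrArg (fun g : G3 => (g : Matrix (Fin 2) (Fin 2) (ZMod 3)) 0 0) e
  have e2 : ul a b (t * b * t⁻¹) = ((1 : G3) : Matrix (Fin 2) (Fin 2) (ZMod 3)) 0 0 := e1
  rw [Matrix.SpecialLinearGroup.coe_one, Matrix.one_apply_eq] at e2
  rw [tt_inv htt, tau_eq' t b] at e2
  have hs : sg t b ∈ Z := hmem b hb
  have hi : ul a b b⁻¹ = - ul a b b := by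
    have e3 := h.ul_mul ha hb hab hb (R.inv_mem hb)
    rw [mul_inv_cancel] at e3
    have e4 : ul a b (1 : X) = 0 := by unfold ul cm; simp [lg_one]
    rw [e4] at e3
    linear_combination -e3
  rw [h.ul_mul ha hb hab (R.inv_mem hb) (h.ZleR hs), hi, h.ul_Z ha hb hab hs, ul_b hab] at e2
  exact absurd e2 (by decide)

end coords

/-- The output: a complement and coordinates. -/
structure Data (R H : Subgroup X) (ul ur k : X → ZMod 3) (ρ : X →* G3) (ζ : X) : Prop where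
  Rn : R.Normal
  disj : ∀ x ∈ R, x ∈ H → x = 1
  fac : ∀ x : X, ∃ r ∈ R, ∃ y ∈ H, x = r * y
  cardX : Nat.card X = 648
  ul_mul : ∀ r ∈ R, ∀ r' ∈ R, ul (r * r') = ul r + ul r'
  ur_mul : ∀ r ∈ R, ∀ r' ∈ R, ur (r * r') = ur r + ur r'
  k_mul : ∀ r ∈ R, ∀ r' ∈ R, k (r * r') = k r + k r' + (- ul r' * ur r + ur r' * ul r)
  zero : ∀ r ∈ R, ul r = 0 → ur r = 0 → k r = 0 → r = 1
  act_l : ∀ x ∈ H, ∀ r ∈ R, ul (x * r * x⁻¹) =
    (ρ x : Matrix (Fin 2) (Fin 2) (ZMod 3)) 0 0 * ul r + (ρ x : Matrix (Fin 2) (Fin 2) (ZMod 3)) 0 1 * ur r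
  act_r : ∀ x ∈ H, ∀ r ∈ R, ur (x * r * x⁻¹) =
    (ρ x : Matrix (Fin 2) (Fin 2) (ZMod 3)) 1 0 * ul r + (ρ x : Matrix (Fin 2) (Fin 2) (ZMod 3)) 1 1 * ur r
  act_k : ∀ x ∈ H, ∀ r ∈ R, k (x * r * x⁻¹) = k r
  inj : ∀ x ∈ H, ρ x = 1 → x = 1
  ζR : ζ ∈ R
  ζc : ∀ x : X, x * ζ = ζ * x
  ζl : ul ζ = 0
  ζr : ur ζ = 0
  ζk : k ζ = 1
  ζ3 : ζ ^ 3 = 1
  ζ1 : ζ ≠ 1

theorem Hyp.data [Finite X] (h : Hyp R Z π) : ∃ (H : Subgroup X) (ul ur k : X → ZMod 3) (ρ : X →* G3) (ζ : X),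
    Data R H ul ur k ρ ζ := by
  obtain ⟨t, H, htt, hπt, htH, hHt, hmem, hinj, hsurj⟩ := h.main
  obtain ⟨a, ha, b, hb, hab⟩ := h.nab
  have hζZ := h.cmZ a ha b hb
  have hζ1 := cm_ne_one hab
  have hRn := h.normal
  refine ⟨H, ul a b, ur a b, kk a b t, rhoOf h ha hb hab, cm a b, ?_⟩
  refine
    { Rn := hRn
      disj := fun x hxR hxH => hinj x hxH (h.memR.1 hxR)
      fac := ?_
      cardX := ?_
      ul_mul := fun r hr r' hr' => h.ul_mul ha hb hab hr hr'
      ur_mul := fun r hr r' hr' => h.ur_mul ha hb hab hr hr'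
      k_mul := fun r hr r' hr' => h.kk_mul ha hb hab htt hmem hr hr'
      zero := fun r hr h1 h2 h3 => h.zero_of ha hb hab htt hmem hr h1 h2 h3
      act_l := fun x hx r hr => h.act_l ha hb hab x r hr
      act_r := fun x hx r hr => h.act_r ha hb hab x r hr
      act_k := fun x hx r hr => h.kk_conj ha hb hab htt hmem (hHt x hx) hr
      inj := ?_
      ζR := h.ZleR hζZ
      ζc := fun x => h.central hζZ x
      ζl := h.ul_Z ha hb hab hζZ
      ζr := h.ur_Z ha hb hab hζZ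
      ζk := h.zeta_k ha hb hab htt hmem
      ζ3 := h.exp _ (h.ZleR hζZ)
      ζ1 := hζ1 }
  · intro x
    obtain ⟨y, hy, hyx⟩ := hsurj (π x)
    refine ⟨x * y⁻¹, ?_, y, hy, by group⟩
    rw [h.memR, map_mul, map_inv, hyx]
    simp
  · have h1 := Subgroup.card_mul_index R
    have hR : R.index = 24 := by
      rw [← h.ker, Subgroup.index_ker, MonoidHom.range_eq_top.2 h.surj, Subgroup.card_top, hcardG3]
    rw [h.cardR, hR] at h1
    exact h1.symm
  · intro x hxH hρx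
    by_contra hx1
    have hπx : π x ≠ 1 := fun e => hx1 (hinj x hxH e)
    obtain ⟨g, k, hgk⟩ := normal_aux (π x) hπx
    obtain ⟨y, rfl⟩ := h.surj g
    have hrho : ∃ w : X, rhoOf h ha hb hab w = 1 ∧ π w = m1 := by
      rcases hgk with e | e
      · refine ⟨(x * y * x⁻¹ * y⁻¹) ^ k.val, ?_, ?_⟩
        · rw [map_pow]
          simp only [map_mul, map_inv, hρx]
          simp
        · rw [map_pow]
          simp only [map_mul, map_inv]
          exact e
      · refine ⟨x ^ k.val, ?_, ?_⟩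
        · rw [map_pow, hρx, one_pow]
        · rw [map_pow]
          exact e
    obtain ⟨w, hw1, hw2⟩ := hrho
    have hr : t⁻¹ * w ∈ R := by
      rw [h.memR, map_mul, map_inv, hπt, hw2]
      simp
    have e2 := h.rho_R ha hb hab hr
    rw [map_mul, map_inv, hw1, mul_one, inv_eq_one] at e2
    exact h.rho_t_ne ha hb hab htt hmem e2

end Cfsg.Agent.Lib.ZT.X648
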