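import Mathlib
import Cfsg.Agent.Lib.ZT.X648b
import Cfsg.Agent.Lib.Classical.SpOrder
import Cfsg.Agent.Lib.Classical.Symp2
import Cfsg.Agent.Lib.Classical.Frames
import Cfsg.Prelude.Def_Classical

/-!
# The stabiliser of a vector in `Sp₄(3)`
-/

set_option autoImplicit false
set_option linter.unusedVariables false
set_option linter.unusedSectionVars false

namespace Cfsg.Agent.Lib.ZT.X648

open Matrix
open Cfsg.Agent.Lib.Known (G3)

/-- `4 × 4` matrices. -/
abbrev MM := Matrix (Fin 2 ⊕ Fin 2) (Fin 2 ⊕ Fin 2) (ZMod 3)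
/-- `Sp₄(3)`. -/
abbrev Sp4 := Matrix.symplecticGroup (Fin 2) (ZMod 3)
/-- `2 × 2` matrices. -/
abbrev M2 := Matrix (Fin 2) (Fin 2) (ZMod 3)

/-- The matrices stabilising the first basis vector. -/
def gm (u v k : ZMod 3) (h : M2) : MM :=
  fromBlocks !![1, h 1 0 * u - h 0 0 * v; 0, h 0 0] !![k, h 1 1 * u - h 0 1 * v; u, h 0 1]
    !![0, 0; 0, h 1 0] !![1, 0; v, h 1 1]

theorem gm_mul {u v k u' v' k' : ZMod 3} {h h' : M2} (hd : h 0 0 * h 1 1 - h 0 1 * h 1 0 = 1) :
    gm u v k h * gm u' v' k' h' = gm (u + (h 0 0 * u' + h 0 1 * v')) (v + (h 1 0 * u' + h 1 1 * v'))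
      (k + k' + (-(h 0 0 * u' + h 0 1 * v') * v + (h 1 0 * u' + h 1 1 * v') * u)) (h * h') := by
  ext i j
  rcases i with i | i <;> rcases j with j | j <;> fin_cases i <;> fin_cases j <;>
    simp [gm, Matrix.mul_apply, Fintype.sum_sum_type, Fin.sum_univ_two] <;>
    first
      | ring1
      | linear_combination (-(h' 1 0 * u' - h' 0 0 * v')) * hd
      | linear_combination (-(h' 1 1 * u' - h' 0 1 * v')) * hd

theorem gm_mem {u v k : ZMod 3} {h : M2} (hd : h 0 0 * h 1 1 - h 0 1 * h 1 0 = 1) :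
    gm u v k h ∈ Matrix.symplecticGroup (Fin 2) (ZMod 3) := by
  rw [SymplecticGroup.mem_iff]
  ext i j
  rcases i with i | i <;> rcases j with j | j <;> fin_cases i <;> fin_cases j <;>
    simp [gm, Matrix.J, Matrix.mul_apply, Matrix.transpose_apply, Fintype.sum_sum_type, Fin.sum_univ_two, Matrix.one_apply] <;>
    first
      | ring1
      | linear_combination hd
      | linear_combination -hd
      | linear_combination u * hd
      | linear_combination (-u) * hd
      | linear_combination v * hd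
      | linear_combination (-v) * hd

theorem G3_det (g : G3) : (g : M2) 0 0 * (g : M2) 1 1 - (g : M2) 0 1 * (g : M2) 1 0 = 1 := by
  have := g.2
  rwa [Matrix.det_fin_two] at this

theorem gm_eq_one {u v k : ZMod 3} {h : M2} (he : gm u v k h = 1) : u = 0 ∧ v = 0 ∧ k = 0 ∧ h = 1 := by
  have e1 := congrFun (congrFun he (Sum.inl 1)) (Sum.inr 0)
  have e2 := congrFun (congrFun he (Sum.inr 1)) (Sum.inr 0)
  have e3 := congrFun (congrFun he (Sum.inl 0)) (Sum.inr 0)
  have e4 := congrFun (congrFun he (Sum.inl 1)) (Sum.inl 1)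
  have e5 := congrFun (congrFun he (Sum.inl 1)) (Sum.inr 1)
  have e6 := congrFun (congrFun he (Sum.inr 1)) (Sum.inl 1)
  have e7 := congrFun (congrFun he (Sum.inr 1)) (Sum.inr 1)
  simp [gm, Matrix.one_apply] at e1 e2 e3 e4 e5 e6 e7
  refine ⟨e1, e2, e3, ?_⟩
  ext i j
  fin_cases i <;> fin_cases j <;> simp [e4, e5, e6, e7]

theorem gm_one : gm 0 0 0 1 = 1 := by
  ext i j
  rcases i with i | i <;> rcases j with j | j <;> fin_cases i <;> fin_cases j <;> simp [gm, Matrix.one_apply]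

/-- The first basis vector. -/
def v0 : Fin 2 ⊕ Fin 2 → ZMod 3 := Pi.single (Sum.inl 0) 1

theorem gm_mulVec (u v k : ZMod 3) (h : M2) : gm u v k h *ᵥ v0 = v0 := by
  ext i
  rcases i with i | i <;> fin_cases i <;>
    simp [gm, v0, Matrix.mulVec, dotProduct, Fintype.sum_sum_type, Fin.sum_univ_two, Pi.single_apply]

variable {X : Type*} [Group X] {R H : Subgroup X} {ul ur k : X → ZMod 3} {ρ : X →* G3} {ζ : X}

theorem Data.exists_hom (D : Data R H ul ur k ρ ζ) :
    ∃ Φ : X →* Sp4, Function.Injective Φ ∧ (Φ ζ).1 = gm 0 0 1 1 ∧ ∀ x, (Φ x).1 *ᵥ v0 = v0 := by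
  choose rr hrr hh hhh hx using D.fac
  have huniq : ∀ r ∈ R, ∀ y ∈ H, rr (r * y) = r ∧ hh (r * y) = y := by
    intro r hr y hy
    have e := hx (r * y)
    have e2 : (rr (r * y))⁻¹ * r = hh (r * y) * y⁻¹ := by
      calc (rr (r * y))⁻¹ * r = (rr (r * y))⁻¹ * (r * y) * y⁻¹ := by group
        _ = (rr (r * y))⁻¹ * (rr (r * y) * hh (r * y)) * y⁻¹ := by rw [← e]
        _ = hh (r * y) * y⁻¹ := by group
    have h1 := D.disj _ (R.mul_mem (R.inv_mem (hrr _)) hr) (by rw [e2]; exact H.mul_mem (hhh _) (H.inv_mem hy))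
    constructor
    · exact inv_mul_eq_one.mp h1
    · rw [e2] at h1
      exact mul_inv_eq_one.mp h1
  have hul1 : ul 1 = 0 := by
    have := D.ul_mul 1 R.one_mem 1 R.one_mem
    rw [mul_one] at this
    linear_combination -this
  have hur1 : ur 1 = 0 := by
    have := D.ur_mul 1 R.one_mem 1 R.one_mem
    rw [mul_one] at this
    linear_combination -this
  have hk1 : k 1 = 0 := by
    have := D.k_mul 1 R.one_mem 1 R.one_mem
    rw [mul_one, hul1, hur1] at this
    linear_combination -this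
  have hun1 := huniq 1 R.one_mem 1 H.one_mem
  rw [mul_one] at hun1
  let toF : X → Sp4 := fun x => ⟨gm (ul (rr x)) (ur (rr x)) (k (rr x)) (ρ (hh x)), gm_mem (G3_det _)⟩
  refine ⟨{ toFun := toF, map_one' := ?_, map_mul' := ?_ }, ?_, ?_, ?_⟩
  · apply Subtype.ext
    change gm (ul (rr 1)) (ur (rr 1)) (k (rr 1)) (ρ (hh 1)) = 1
    rw [hun1.1, hun1.2, hul1, hur1, hk1, map_one, Matrix.SpecialLinearGroup.coe_one]
    exact gm_one
  · intro x x'
    apply Subtype.ext
    change gm (ul (rr (x * x'))) (ur (rr (x * x'))) (k (rr (x * x'))) (ρ (hh (x * x'))) =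
      gm (ul (rr x)) (ur (rr x)) (k (rr x)) (ρ (hh x)) * gm (ul (rr x')) (ur (rr x')) (k (rr x')) (ρ (hh x'))
    rw [gm_mul (G3_det _)]
    have hR := D.Rn
    have hc : hh x * rr x' * (hh x)⁻¹ ∈ R := hR.conj_mem _ (hrr x') _
    have e1 : x * x' = (rr x * (hh x * rr x' * (hh x)⁻¹)) * (hh x * hh x') := by
      calc x * x' = (rr x * hh x) * (rr x' * hh x') := by rw [← hx x, ← hx x']
        _ = _ := by group
    have hu := huniq _ (R.mul_mem (hrr x) hc) _ (H.mul_mem (hhh x) (hhh x'))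
    rw [← e1] at hu
    rw [hu.1, hu.2, D.ul_mul _ (hrr x) _ hc, D.ur_mul _ (hrr x) _ hc, D.k_mul _ (hrr x) _ hc,
      D.act_l _ (hhh x) _ (hrr x'), D.act_r _ (hhh x) _ (hrr x'), D.act_k _ (hhh x) _ (hrr x'), map_mul,
      Matrix.SpecialLinearGroup.coe_mul]
  · rw [injective_iff_map_eq_one]
    intro x hxe
    have he : gm (ul (rr x)) (ur (rr x)) (k (rr x)) (ρ (hh x)) = 1 := congrArg Subtype.val hxe
    obtain ⟨e1, e2, e3, e4⟩ := gm_eq_one he
    have hr1 := D.zero _ (hrr x) e1 e2 e3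
    have hh1 : hh x = 1 := by
      apply D.inj _ (hhh x)
      apply Subtype.ext
      exact e4
    rw [hx x, hr1, hh1, one_mul]
  · have hu := huniq ζ D.ζR 1 H.one_mem
    rw [mul_one] at hu
    change gm (ul (rr ζ)) (ur (rr ζ)) (k (rr ζ)) (ρ (hh ζ)) = _
    rw [hu.1, hu.2, D.ζl, D.ζr, D.ζk, map_one, Matrix.SpecialLinearGroup.coe_one]
  · intro x
    exact gm_mulVec _ _ _ _

/-- The stabiliser of the first basis vector. -/
def stabV : Subgroup Sp4 where
  carrier := {g | g.1 *ᵥ v0 = v0}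
  mul_mem' := by
    intro a b ha hb
    change (a.1 * b.1) *ᵥ v0 = v0
    rw [← mulVec_mulVec, hb, ha]
  one_mem' := by
    change (1 : MM) *ᵥ v0 = v0
    rw [one_mulVec]
  inv_mem' := by
    intro a ha
    have := Cfsg.Agent.Lib.Classical.sp_inv_mulVec_mulVec a v0
    change a⁻¹.1 *ᵥ v0 = v0
    have ha' : a.1 *ᵥ v0 = v0 := ha
    rwa [ha'] at this

theorem mem_stabV {g : Sp4} : g ∈ stabV ↔ g.1 *ᵥ v0 = v0 := Iff.rfl

theorem v0_ne : v0 ≠ 0 := by
  intro e
  have := congrFun e (Sum.inl 0)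
  simp [v0] at this

theorem card_F3 : Fintype.card (ZMod 3) = 3 := ZMod.card 3

theorem card_Sp4 : Nat.card Sp4 = 51840 := by
  rw [Cfsg.Agent.Lib.Classical.card_sp card_F3 2]
  norm_num [Finset.prod_range_succ]

theorem sp4_central (g : Sp4) (hg : g ∈ Subgroup.center Sp4) : g.1 = 1 ∨ g.1 = -1 :=
  Cfsg.Agent.Lib.Classical.sp_central_one_or_neg (by norm_num) g hg

theorem card_stabV : Nat.card stabV = 648 := by
  classical
  have h1 := Cfsg.Agent.Lib.Classical.card_sub_of_fibers (fun g : Sp4 => g.1 *ᵥ v0) stabV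
    (by
      intro g h
      rw [mem_stabV]
      change (g : MM) *ᵥ v0 = (h : MM) *ᵥ v0 ↔ ((g⁻¹ * h : Sp4) : MM) *ᵥ v0 = v0
      have hmul : ((g⁻¹ * h : Sp4) : MM) = ((g⁻¹ : Sp4) : MM) * (h : MM) := rfl
      constructor
      · intro e
        rw [hmul, ← mulVec_mulVec, ← e]
        exact Cfsg.Agent.Lib.Classical.sp_inv_mulVec_mulVec g v0
      · intro e
        have h2 : (g : MM) *ᵥ (((g⁻¹ * h : Sp4) : MM) *ᵥ v0) = (g : MM) *ᵥ v0 := by rw [e]
        rw [hmul, ← mulVec_mulVec, Cfsg.Agent.Lib.Classical.sp_mulVec_inv_mulVec] at h2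
        exact h2.symm)
    ⊤ {x : Fin 2 ⊕ Fin 2 → ZMod 3 | x ≠ 0}
    (by
      intro g
      simp only [Subgroup.mem_top, true_iff, Set.mem_setOf_eq]
      intro h0
      apply v0_ne
      have := Cfsg.Agent.Lib.Classical.sp_inv_mulVec_mulVec g v0
      rw [h0, mulVec_zero] at this
      exact this.symm)
    (by
      intro x hx
      obtain ⟨g, -, hg⟩ := Cfsg.Agent.Lib.Classical.tr_vec (Cfsg.Agent.Lib.Classical.sympNondeg_top (m := 2) (F := ZMod 3))
        (Submodule.mem_top (x := v0)) (Submodule.mem_top (x := x)) v0_ne hx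
      exact ⟨g, hg⟩)
  have h2 : Nat.card ↥(⊤ : Subgroup Sp4) = Nat.card Sp4 := Nat.card_congr Subgroup.topEquiv.toEquiv
  rw [h2, card_Sp4] at h1
  have h3 : Nat.card ({x : Fin 2 ⊕ Fin 2 → ZMod 3 | x ≠ 0} : Set (Fin 2 ⊕ Fin 2 → ZMod 3)) = 80 := by
    have e1 : Nat.card ({x : Fin 2 ⊕ Fin 2 → ZMod 3 | x ≠ 0} : Set (Fin 2 ⊕ Fin 2 → ZMod 3)) =
        Fintype.card {x : Fin 2 ⊕ Fin 2 → ZMod 3 // ¬ (x = 0)} := by
      rw [Nat.card_eq_fintype_card]
      rfl
    rw [e1, Fintype.card_subtype_compl, Fintype.card_pi, Finset.prod_const, Finset.card_univ, Fintype.card_sum,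
      Fintype.card_fin, card_F3, Fintype.card_subtype_eq]
    norm_num
  rw [h3] at h1
  omega

/-- `PSp₄(3)`. -/
abbrev PP := Cfsg.PSp 2 (ZMod 3)

theorem fact_three (a b : ℕ) (hb : b ≠ 0) (h3 : ¬ 3 ∣ b) : (3 ^ a * b).factorization 3 = a := by
  rw [Nat.factorization_mul (by positivity) hb, Nat.Prime.factorization_pow Nat.prime_three]
  simp [Nat.factorization_eq_zero_of_not_dvd h3]

theorem card_PP : Nat.card PP = 25920 := by
  have h1 := Subgroup.card_mul_index (Subgroup.center Sp4)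
  rw [Cfsg.Agent.Lib.Classical.card_center_sp card_F3 (by norm_num), card_Sp4] at h1
  have h2 : (Subgroup.center Sp4).index = Nat.card PP := rfl
  rw [h2] at h1
  norm_num at h1
  omega

theorem trace_T : Matrix.trace (gm 0 0 1 1) = 1 := by
  simp [gm, Matrix.trace, Fintype.sum_sum_type, Fin.sum_univ_two]
  decide

theorem unit_F3 : ∀ l : ZMod 3, l ≠ 0 → l = 1 ∨ l = -1 := by decide

theorem Data.main [Finite X] (D : Data R H ul ur k ρ ζ) :
    ∃ (c : PP) (S : Sylow 3 PP), orderOf c = 3 ∧ c ∈ (S : Subgroup PP) ∧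
      c ∈ Subgroup.centralizer ((S : Subgroup PP) : Set PP) ∧
      Nonempty (X ≃* Subgroup.centralizer ({c} : Set PP)) := by
  classical
  obtain ⟨Φ, hΦi, hΦζ, hΦv⟩ := D.exists_hom
  have hneg_ne : ∀ x, (Φ x).1 ≠ -1 := by
    intro x e
    have h1 := hΦv x
    rw [e] at h1
    have h2 := congrFun h1 (Sum.inl 0)
    simp [v0, Matrix.neg_mulVec] at h2
    exact absurd h2 (by decide)
  let mk : Sp4 →* PP := QuotientGroup.mk' (Subgroup.center Sp4)
  have hmk : Function.Surjective mk := QuotientGroup.mk'_surjective _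
  have hmkker : ∀ g : Sp4, mk g = 1 ↔ g ∈ Subgroup.center Sp4 := by
    intro g
    exact QuotientGroup.eq_one_iff g
  let Ψ : X →* PP := mk.comp Φ
  have hΨi : Function.Injective Ψ := by
    rw [injective_iff_map_eq_one]
    intro x hx
    have h1 := (hmkker (Φ x)).1 hx
    rcases sp4_central _ h1 with h2 | h2
    · apply hΦi
      rw [map_one]
      exact Subtype.ext h2
    · exact absurd h2 (hneg_ne x)
  -- surjectivity onto the stabiliser
  let Φ' : X → stabV := fun x => ⟨Φ x, hΦv x⟩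
  have hΦ'i : Function.Injective Φ' := by
    intro x y hxy
    apply hΦi
    exact congrArg Subtype.val hxy
  have : Finite stabV := Nat.finite_of_card_ne_zero (by rw [card_stabV]; norm_num)
  have hΦ'b := hΦ'i.bijective_of_nat_card_le (by rw [card_stabV, D.cardX])
  have hΦs : ∀ g : Sp4, g.1 *ᵥ v0 = v0 → ∃ x, Φ x = g := by
    intro g hg
    obtain ⟨x, hx⟩ := hΦ'b.2 ⟨g, hg⟩
    exact ⟨x, congrArg Subtype.val hx⟩
  set c := Ψ ζ with hc
  have hζcomm : ∀ x, Ψ x * c = c * Ψ x := by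
    intro x
    rw [hc, ← map_mul, ← map_mul, D.ζc]
  have hcent : ∀ y : PP, y ∈ Subgroup.centralizer ({c} : Set PP) ↔ ∃ x, Ψ x = y := by
    intro y
    rw [Subgroup.mem_centralizer_iff]
    constructor
    · intro hy
      have hy2 := hy c (Set.mem_singleton c)
      obtain ⟨g, rfl⟩ := hmk y
      set T₀ := Φ ζ with hT₀
      have hT : T₀.1 = gm 0 0 1 1 := hΦζ
      have e0 : mk (T₀ * g) = mk (g * T₀) := by
        rw [map_mul, map_mul]
        exact hy2
      have hz : (T₀ * g)⁻¹ * (g * T₀) ∈ Subgroup.center Sp4 := by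
        rw [← hmkker, map_mul, map_inv, e0]
        simp
      set z := (T₀ * g)⁻¹ * (g * T₀) with hzd
      have e1 : g * T₀ = T₀ * g * z := by rw [hzd]; group
      have e2 : g.1 * T₀.1 = T₀.1 * g.1 * z.1 := congrArg Subtype.val e1
      have hgg : (g⁻¹).1 * g.1 = 1 := congrArg Subtype.val (inv_mul_cancel g)
      have hgg' : g.1 * (g⁻¹).1 = 1 := congrArg Subtype.val (mul_inv_cancel g)
      have hcomm : g.1 * T₀.1 = T₀.1 * g.1 := by
        rcases sp4_central z hz with h2 | h2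
        · rw [e2, h2, mul_one]
        · exfalso
          rw [h2, mul_neg, mul_one] at e2
          have e3 : T₀.1 = -(g.1 * T₀.1 * (g⁻¹).1) := by
            rw [e2, neg_mul, neg_neg, mul_assoc, hgg', mul_one]
          have e4 := congrArg Matrix.trace e3
          rw [Matrix.trace_neg, Matrix.trace_mul_comm, ← mul_assoc, hgg, one_mul, hT, trace_T] at e4
          exact absurd e4 (by decide)
      -- entries
      have hent : ∀ x, g.1 x (Sum.inl 0) = if x = Sum.inl 0 then g.1 (Sum.inr 0) (Sum.inr 0) else 0 := by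
        intro x
        have e5 := congrFun (congrFun hcomm x) (Sum.inr 0)
        rw [hT] at e5
        simp only [Matrix.mul_apply, Fintype.sum_sum_type, Fin.sum_univ_two] at e5
        rcases x with i | i <;> fin_cases i <;> simp [gm] at e5 ⊢ <;> first | exact e5 | (linear_combination e5)
      have hgv : g.1 *ᵥ v0 = g.1 (Sum.inr 0) (Sum.inr 0) • v0 := by
        ext x
        have : (g.1 *ᵥ v0) x = g.1 x (Sum.inl 0) := by
          simp [v0, Matrix.mulVec_single]
        rw [this, hent x]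
        simp [v0, Pi.single_apply]
      have hlam0 : g.1 (Sum.inr 0) (Sum.inr 0) ≠ 0 := by
        intro e
        rw [e, zero_smul] at hgv
        apply v0_ne
        have := Cfsg.Agent.Lib.Classical.sp_inv_mulVec_mulVec g v0
        rw [hgv, mulVec_zero] at this
        exact this.symm
      generalize hlam : g.1 (Sum.inr 0) (Sum.inr 0) = l at hgv hlam0
      have hl : l = 1 ∨ l = -1 := unit_F3 l hlam0
      rcases hl with rfl | rfl
      · rw [one_smul] at hgv
        obtain ⟨x, hx⟩ := hΦs g hgv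
        exact ⟨x, by change mk (Φ x) = mk g; rw [hx]⟩
      · let N : Sp4 := ⟨-1, SymplecticGroup.neg_mem (one_mem _)⟩
        have hNc : N ∈ Subgroup.center Sp4 := by
          rw [Subgroup.mem_center_iff]
          intro g'
          apply Subtype.ext
          change g'.1 * (-1) = (-1) * g'.1
          simp
        have hNg : (g * N).1 *ᵥ v0 = v0 := by
          change (g.1 * (-1)) *ᵥ v0 = v0
          rw [mul_neg, mul_one, Matrix.neg_mulVec, hgv]
          simp
        obtain ⟨x, hx⟩ := hΦs _ hNg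
        refine ⟨x, ?_⟩
        change mk (Φ x) = mk g
        rw [hx, map_mul, (hmkker N).2 hNc, mul_one]
    · rintro ⟨x, rfl⟩ h' hh'
      rw [Set.mem_singleton_iff] at hh'
      rw [hh']
      exact (hζcomm x).symm
  have h3 : Fact (Nat.Prime 3) := ⟨Nat.prime_three⟩
  have hζord : orderOf ζ = 3 := orderOf_eq_prime D.ζ3 D.ζ1
  have hcord : orderOf c = 3 := by
    rw [hc, orderOf_injective Ψ hΨi, hζord]
  have hpg : IsPGroup 3 (Subgroup.zpowers ζ) := by
    apply IsPGroup.of_card (n := 1)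
    rw [Nat.card_zpowers, hζord, pow_one]
  obtain ⟨Q, hQ⟩ := hpg.exists_le_sylow
  have hζQ : ζ ∈ (Q : Subgroup X) := hQ (Subgroup.mem_zpowers ζ)
  have hQ81 : Nat.card (Q : Subgroup X) = 3 ^ 4 := by
    rw [Sylow.card_eq_multiplicity, D.cardX]
    have : (648 : ℕ) = 3 ^ 4 * 8 := by norm_num
    rw [this, fact_three 4 8 (by norm_num) (by norm_num)]
  set S₀ : Subgroup PP := (Q : Subgroup X).map Ψ with hS₀
  have hS₀card : Nat.card S₀ = 3 ^ 4 := by
    rw [hS₀, Subgroup.card_map_of_injective hΨi, hQ81]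
  have hidx : ¬ 3 ∣ S₀.index := by
    have h1 := Subgroup.card_mul_index S₀
    rw [hS₀card, card_PP] at h1
    have h2 : S₀.index = 320 := by omega
    rw [h2]
    norm_num
  refine ⟨c, (IsPGroup.of_card hS₀card).toSylow hidx, hcord, ?_, ?_, ?_⟩
  · rw [IsPGroup.toSylow_coe]
    exact ⟨ζ, hζQ, rfl⟩
  · rw [IsPGroup.toSylow_coe, Subgroup.mem_centralizer_iff]
    rintro _ ⟨q, -, rfl⟩
    exact hζcomm q
  · have hr : Ψ.range = Subgroup.centralizer ({c} : Set PP) := by
      ext y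
      rw [hcent]
      exact Iff.rfl
    exact ⟨(MonoidHom.ofInjective hΨi).trans (MulEquiv.subgroupCongr hr)⟩

end Cfsg.Agent.Lib.ZT.X648
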