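import Mathlib
import Cfsg.Agent.Lib.ZT.X648c
import Cfsg.Prelude.Def_Solvable
import Cfsg.Prelude.Def_CaseTheorems
import Cfsg.Prelude.Def_Transfer

/-!
# Groups of shape `3^{1+2}.SL₂(3)` with `O₂ = 1`: the assembled statement
-/

set_option autoImplicit false
set_option linter.unusedVariables false
set_option linter.unusedSectionVars false

namespace Cfsg.Agent.Lib.ZT.X648

open Cfsg.Agent.Lib.Known (G3)
open scoped commutatorElement

theorem exists_hyp {X : Type*} [Group X] [Finite X]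
    (hR : Cfsg.IsExtraspecial 3 (Cfsg.pCore 3 X)) (hRcard : Nat.card (Cfsg.pCore 3 X) = 27)
    (hRexp : ∀ r ∈ Cfsg.pCore 3 X, r ^ 3 = 1)
    (e : X ⧸ Cfsg.pCore 3 X ≃* Matrix.SpecialLinearGroup (Fin 2) (ZMod 3))
    (hO2 : Cfsg.pCore 2 X = ⊥)
    (hE : ∃ E : Subgroup X, IsMulCommutative E ∧ (∀ a ∈ E, a ^ 3 = 1) ∧ Nat.card E = 27) :
    ∃ (Z : Subgroup X) (π : X →* G3), Hyp (Cfsg.pCore 3 X) Z π := by
  set R := Cfsg.pCore 3 X with hRd
  let π : X →* G3 := e.toMonoidHom.comp (QuotientGroup.mk' R)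
  let Z : Subgroup X := (Subgroup.center ↥R).map R.subtype
  have hmemZ : ∀ z : X, z ∈ Z ↔ z ∈ R ∧ ∀ r ∈ R, z * r = r * z := by
    intro z
    constructor
    · rintro ⟨w, hw, rfl⟩
      refine ⟨w.2, fun r hr => ?_⟩
      have := Subgroup.mem_center_iff.1 hw ⟨r, hr⟩
      exact (congrArg Subtype.val this).symm
    · rintro ⟨hz, hc⟩
      refine ⟨⟨z, hz⟩, Subgroup.mem_center_iff.2 fun g => Subtype.ext (hc g.1 g.2).symm, rfl⟩
  refine ⟨Z, π, ?_⟩
  refine
    { ker := ?_
      surj := ?_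
      cardR := hRcard
      exp := hRexp
      ZleR := fun z hz => ((hmemZ z).1 hz).1
      Zn := ?_
      cardZ := ?_
      Zc := fun z hz => ((hmemZ z).1 hz).2
      Zall := fun z hz hc => (hmemZ z).2 ⟨hz, hc⟩
      cmZ := ?_
      nab := ?_
      O2 := ?_
      E := ?_ }
  · ext x
    rw [MonoidHom.mem_ker]
    change e (QuotientGroup.mk x) = 1 ↔ x ∈ R
    rw [map_eq_one_iff e e.injective, QuotientGroup.eq_one_iff]
  · intro g
    obtain ⟨q, hq⟩ := e.surjective g
    obtain ⟨x, rfl⟩ := QuotientGroup.mk'_surjective R q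
    exact ⟨x, hq⟩
  · constructor
    intro z hz x
    obtain ⟨hzR, hc⟩ := (hmemZ z).1 hz
    have hRn : R.Normal := inferInstance
    refine (hmemZ _).2 ⟨hRn.conj_mem z hzR x, fun r hr => ?_⟩
    have hr' : x⁻¹ * r * x ∈ R := by
      have := hRn.conj_mem r hr x⁻¹
      rwa [inv_inv] at this
    have h1 := hc _ hr'
    calc x * z * x⁻¹ * r = x * (z * (x⁻¹ * r * x)) * x⁻¹ := by group
      _ = x * ((x⁻¹ * r * x) * z) * x⁻¹ := by rw [h1]
      _ = r * (x * z * x⁻¹) := by group
  · rw [Subgroup.card_map_of_injective R.subtype_injective]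
    exact hR.2
  · intro r hr r' hr'
    have h1 : ⁅(⟨r, hr⟩ : R), (⟨r', hr'⟩ : R)⁆ ∈ commutator ↥R := by
      rw [commutator_def]
      exact Subgroup.commutator_mem_commutator (Subgroup.mem_top _) (Subgroup.mem_top _)
    rw [hR.1.2.2] at h1
    exact ⟨_, h1, rfl⟩
  · by_contra hcon
    push Not at hcon
    have htop : Subgroup.center ↥R = ⊤ := by
      rw [eq_top_iff]
      intro g _
      exact Subgroup.mem_center_iff.2 fun g' => Subtype.ext (hcon g'.1 g'.2 g.1 g.2)
    have h2 := hR.2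
    rw [htop, Subgroup.card_top, hRcard] at h2
    omega
  · intro t ht2 hc
    by_contra ht1
    have hN : (Subgroup.zpowers t).Normal := by
      constructor
      intro n hn g
      obtain ⟨k, rfl⟩ := Subgroup.mem_zpowers_iff.1 hn
      have hcomm : Commute g t := hc g
      have : g * t ^ k * g⁻¹ = t ^ k := by
        rw [(hcomm.zpow_right k).eq]
        group
      rw [this]
      exact hn
    have hord : orderOf t = 2 := orderOf_eq_prime ht2 ht1
    have hP : IsPGroup 2 (Subgroup.zpowers t) := by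
      apply IsPGroup.of_card (n := 1)
      rw [Nat.card_zpowers, hord, pow_one]
    have hle : Subgroup.zpowers t ≤ Cfsg.pCore 2 X := le_sSup ⟨hN, hP⟩
    rw [hO2] at hle
    exact ht1 (Subgroup.mem_bot.1 (hle (Subgroup.mem_zpowers t)))
  · obtain ⟨E, hab, h3, h27⟩ := hE
    refine ⟨E, fun a ha b hb => ?_, h3, h27⟩
    exact congrArg Subtype.val (hab.is_comm.comm ⟨a, ha⟩ ⟨b, hb⟩)

section transport

theorem map_center_equiv {G G' : Type*} [Group G] [Group G'] (e : G ≃* G') :
    (Subgroup.center G).map (e : G →* G') = Subgroup.center G' := by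
  ext x
  constructor
  · rintro ⟨z, hz, rfl⟩
    rw [Subgroup.mem_center_iff]
    intro g
    obtain ⟨g', rfl⟩ := e.surjective g
    have := Subgroup.mem_center_iff.1 hz g'
    change e g' * e z = e z * e g'
    rw [← map_mul, ← map_mul, this]
  · intro hx
    refine ⟨e.symm x, ?_, by simp⟩
    rw [SetLike.mem_coe, Subgroup.mem_center_iff]
    intro g
    apply e.injective
    rw [map_mul, map_mul, e.apply_symm_apply]
    exact Subgroup.mem_center_iff.1 hx _

variable {m : ℕ} {F₁ F₂ : Type*} [Field F₁] [Field F₂]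

theorem sp_map_mem (ι : F₁ ≃+* F₂) {A : Matrix (Fin m ⊕ Fin m) (Fin m ⊕ Fin m) F₁}
    (hA : A ∈ Matrix.symplecticGroup (Fin m) F₁) : A.map ι ∈ Matrix.symplecticGroup (Fin m) F₂ :=
  SymplecticGroup.map_mem hA ι

/-- The symplectic groups of isomorphic fields are isomorphic. -/
noncomputable def spCongr (ι : F₁ ≃+* F₂) : Matrix.symplecticGroup (Fin m) F₁ ≃* Matrix.symplecticGroup (Fin m) F₂ where
  toFun g := ⟨g.1.map ι, sp_map_mem ι g.2⟩
  invFun g := ⟨g.1.map ι.symm, sp_map_mem ι.symm g.2⟩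
  left_inv g := Subtype.ext (by ext i j; simp)
  right_inv g := Subtype.ext (by ext i j; simp)
  map_mul' a b := Subtype.ext (by
    change (a.1 * b.1).map ι = a.1.map ι * b.1.map ι
    exact Matrix.map_mul)

/-- The projective symplectic groups of isomorphic fields are isomorphic. -/
noncomputable def pspCongr (ι : F₁ ≃+* F₂) : Cfsg.PSp m F₁ ≃* Cfsg.PSp m F₂ :=
  QuotientGroup.congr _ _ (spCongr ι) (map_center_equiv _)

theorem transport {G G' X : Type*} [Group G] [Group G'] [Finite G] [Finite G'] [Group X] (E : G ≃* G')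
    (h : ∃ (c : G) (S : Sylow 3 G), orderOf c = 3 ∧ c ∈ (S : Subgroup G) ∧
      c ∈ Subgroup.centralizer ((S : Subgroup G) : Set G) ∧ Nonempty (X ≃* Subgroup.centralizer ({c} : Set G))) :
    ∃ (c : G') (S : Sylow 3 G'), orderOf c = 3 ∧ c ∈ (S : Subgroup G') ∧
      c ∈ Subgroup.centralizer ((S : Subgroup G') : Set G') ∧
      Nonempty (X ≃* Subgroup.centralizer ({c} : Set G')) := by
  obtain ⟨c, S, h1, h2, h3, ⟨φ⟩⟩ := h
  have hfact : Fact (Nat.Prime 3) := ⟨Nat.prime_three⟩
  have hcard : Nat.card ((S : Subgroup G).map (E : G →* G')) = 3 ^ (Nat.card G').factorization 3 := by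
    rw [Subgroup.card_map_of_injective E.injective, Sylow.card_eq_multiplicity, Nat.card_congr E.toEquiv]
  refine ⟨E c, Sylow.ofCard _ hcard, ?_, ?_, ?_, ?_⟩
  · rw [MulEquiv.orderOf_eq, h1]
  · rw [Sylow.coe_ofCard]
    exact ⟨c, h2, rfl⟩
  · rw [Sylow.coe_ofCard, Subgroup.mem_centralizer_iff]
    rintro _ ⟨s, hs, rfl⟩
    have := Subgroup.mem_centralizer_iff.1 h3 s hs
    change E s * E c = E c * E s
    rw [← map_mul, ← map_mul, this]
  · have hm : (Subgroup.centralizer ({c} : Set G)).map (E : G →* G') = Subgroup.centralizer ({E c} : Set G') := by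
      ext y
      rw [Subgroup.mem_centralizer_iff]
      constructor
      · rintro ⟨w, hw, rfl⟩ h' hh'
        rw [Set.mem_singleton_iff] at hh'
        subst hh'
        have := Subgroup.mem_centralizer_iff.1 hw c (Set.mem_singleton c)
        change E c * E w = E w * E c
        rw [← map_mul, ← map_mul, this]
      · intro hy
        refine ⟨E.symm y, ?_, by simp⟩
        rw [SetLike.mem_coe, Subgroup.mem_centralizer_iff]
        intro h' hh'
        rw [Set.mem_singleton_iff] at hh'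
        subst hh'
        apply E.injective
        rw [map_mul, map_mul, E.apply_symm_apply]
        exact hy _ (Set.mem_singleton _)
    exact ⟨φ.trans ((MulEquiv.subgroupMap E _).trans (MulEquiv.subgroupCongr hm))⟩

end transport

theorem main {X : Type*} [Group X] [Finite X]
    (hR : Cfsg.IsExtraspecial 3 (Cfsg.pCore 3 X)) (hRcard : Nat.card (Cfsg.pCore 3 X) = 27)
    (hRexp : ∀ r ∈ Cfsg.pCore 3 X, r ^ 3 = 1)
    (e : X ⧸ Cfsg.pCore 3 X ≃* Matrix.SpecialLinearGroup (Fin 2) (ZMod 3))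
    (hO2 : Cfsg.pCore 2 X = ⊥)
    (hE : ∃ E : Subgroup X, IsMulCommutative E ∧ (∀ a ∈ E, a ^ 3 = 1) ∧ Nat.card E = 27)
    (F : Type*) [Field F] [Fintype F] (hF : Fintype.card F = 3) :
    ∃ (c : Cfsg.PSp 2 F) (S : Sylow 3 (Cfsg.PSp 2 F)), orderOf c = 3 ∧ c ∈ (S : Subgroup (Cfsg.PSp 2 F)) ∧
      c ∈ Subgroup.centralizer ((S : Subgroup (Cfsg.PSp 2 F)) : Set (Cfsg.PSp 2 F)) ∧
      Nonempty (X ≃* Subgroup.centralizer ({c} : Set (Cfsg.PSp 2 F))) := by
  classical
  obtain ⟨Z, π, hyp⟩ := exists_hyp hR hRcard hRexp e hO2 hE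
  obtain ⟨H, ul, ur, k, ρ, ζ, D⟩ := hyp.data
  have ι : ZMod 3 ≃+* F := ZMod.ringEquivOfPrime F Nat.prime_three hF
  have hfinP : Finite (Cfsg.PSp 2 (ZMod 3)) := Nat.finite_of_card_ne_zero (by
    rw [card_PP]; norm_num)
  have hfinP' : Finite (Cfsg.PSp 2 F) :=
    Finite.of_equiv _ (pspCongr (m := 2) ι).toEquiv
  exact transport (pspCongr ι) D.main

end Cfsg.Agent.Lib.ZT.X648
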