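import Cfsg.Agent.Lib.RankOne.Prod
import Cfsg.Agent.Lib.Fusion.Hig15

/-! # Zassenhaus groups with a regular normal 2-subgroup: group-theoretic set-up -/

set_option linter.style.haveILetI false
set_option linter.unusedSectionVars false

namespace Cfsg.Agent.Lib.ZT

open MulAction Cfsg Cfsg.Agent.Lib.RankOne Cfsg.Agent.Lib.RankOne.Setup
open Cfsg.Agent.Lib.Fusion.Hig (KG)

section KGfacts

variable {K : Type*} [CommGroup K] {P : Type*} [Group P] {ρ : K →* MulAut P}

open Cfsg.Agent.Lib.Fusion.Hig in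
/-- In a KG-group the order of `K` is `|Z| - 1`, and `K` is cyclic. -/
theorem kg_card (h : KG ρ) (hnc : ∃ x y : P, x * y ≠ y * x) :
    Nat.card K + 1 = Nat.card (Subgroup.center P) ∧ IsCyclic K := by
  classical
  haveI := h.fin
  obtain ⟨F₂, fld₂, ⟨D⟩⟩ := h.exists_FD
  haveI : Finite F₂ := Finite.of_injective _ D.ι_inj
  haveI : Fintype F₂ := Fintype.ofFinite F₂
  have hcen : ∀ z ∈ Subgroup.center P, z * z = 1 := fun z hz => h.center_sq hnc hz
  have hcardZ : Nat.card (Subgroup.center P) = Nat.card F₂ := by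
    symm
    apply Nat.card_congr
    refine Equiv.ofBijective (fun a => (⟨D.ι a, h.central (D.ι_sq a)⟩ : Subgroup.center P)) ⟨?_, ?_⟩
    · intro a b hab
      exact D.ι_inj (congrArg Subtype.val hab)
    · rintro ⟨z, hz⟩
      obtain ⟨a, ha⟩ := D.ι_surj z (hcen z hz)
      exact ⟨a, Subtype.ext ha⟩
  have hcardK : Nat.card K + 1 = Nat.card F₂ := by
    rw [Nat.card_congr D.κ.toEquiv, Nat.card_eq_fintype_card, Fintype.card_units,
      ← Nat.card_eq_fintype_card]
    have : 1 < Nat.card F₂ := Finite.one_lt_card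
    omega
  refine ⟨by omega, ?_⟩
  exact isCyclic_of_injective D.κ.toMonoidHom D.κ.injective

end KGfacts

variable {G Ω : Type*} [Group G] [Finite G] [MulAction G Ω] {a : Ω} {t : G} {U : Subgroup G}

section Setup

variable (hS : IsRankOneSetup G Ω a t U)
  (h3 : ∀ g : G, ∀ x y z : Ω, x ≠ y → y ≠ z → x ≠ z → g • x = x → g • y = y → g • z = z → g = 1)

include hS h3

lemma D_centr {d : G} (hd : d ∈ DD G a t) (hc : d * t = t * d) : d = 1 := by
  obtain ⟨c, hc', -⟩ := invol_fix hS hS.ne_one hS.mul_self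
  have hdc : d • c = c := fix_of_commute hS hS.ne_one hS.mul_self hc hc'
  have hca : c ≠ a := by
    rintro rfl
    exact t_ne hS hc'
  have hcb : c ≠ t • a := by
    rintro rfl
    have : t • a = a := by
      have h1 := hc'
      rw [t_t hS] at h1
      exact h1.symm
    exact t_ne hS this
  exact h3 d a (t • a) c (Ne.symm (t_ne hS)) (Ne.symm hcb) (Ne.symm hca) hd.1 hd.2 hdc

lemma D_inv {d : G} (hd : d ∈ DD G a t) : t * d * t = d⁻¹ := by
  have hmem : ∀ x ∈ DD G a t, t * x * t ∈ DD G a t := fun x hx => t_conj_D hS hx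
  let τ : DD G a t →* DD G a t :=
    { toFun := fun x => ⟨t * x * t, hmem x x.2⟩
      map_one' := by
        apply Subtype.ext
        show t * 1 * t = 1
        rw [mul_one, hS.mul_self]
      map_mul' := fun x y => by
        apply Subtype.ext
        show t * (x * y) * t = (t * x * t) * (t * y * t)
        calc t * ((x : G) * y) * t = t * x * 1 * y * t := by group
          _ = t * x * (t * t) * y * t := by rw [hS.mul_self]
          _ = _ := by group }
  have hfp : MonoidHom.FixedPointFree τ := by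
    intro x hx
    have h1 : t * (x : G) * t = x := congrArg Subtype.val hx
    apply Subtype.ext
    refine D_centr hS h3 x.2 ?_
    calc (x : G) * t = (t * x * t) * t := by rw [h1]
      _ = t * x * (t * t) := by group
      _ = t * x := by rw [hS.mul_self, mul_one]
  have hinv : Function.Involutive τ := by
    intro x
    apply Subtype.ext
    show t * (t * (x : G) * t) * t = x
    calc t * (t * (x : G) * t) * t = (t * t) * x * (t * t) := by group
      _ = x := by rw [hS.mul_self]; group
  have h1 := congrFun (hfp.coe_eq_inv_of_involutive hinv) ⟨d, hd⟩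
  exact congrArg Subtype.val h1

lemma D_comm {d e : G} (hd : d ∈ DD G a t) (he : e ∈ DD G a t) : d * e = e * d := by
  have h1 := D_inv hS h3 (Subgroup.mul_mem _ hd he)
  have h2 : t * (d * e) * t = (t * d * t) * (t * e * t) := by
    calc t * (d * e) * t = t * d * 1 * e * t := by group
      _ = t * d * (t * t) * e * t := by rw [hS.mul_self]
      _ = _ := by group
  rw [h2, D_inv hS h3 hd, D_inv hS h3 he, mul_inv_rev] at h1
  have h4 : (e * d)⁻¹ = (d * e)⁻¹ := by rw [mul_inv_rev, mul_inv_rev]; exact h1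
  exact (inv_injective h4).symm

lemma D_inverted {d : G} (hd : d ∈ DD G a t) : d ∈ invertedBy (DD G a t) t := by
  refine ⟨hd, ?_⟩
  rw [t_inv hS]
  exact D_inv hS h3 hd

lemma reg_exists {s s' : G} (hs : s ∈ involutionsIn (stabilizer G a : Set G))
    (hs' : s' ∈ involutionsIn (stabilizer G a : Set G)) :
    ∃ k ∈ DD G a t, k * s * k⁻¹ = s' := by
  obtain ⟨k, hk, h⟩ := exists_K_conj hS hs hs'
  exact ⟨k, hk.1, h⟩

lemma reg_inj {s k l : G} (hs : s ∈ involutionsIn (stabilizer G a : Set G)) (hk : k ∈ DD G a t)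
    (hl : l ∈ DD G a t) (h : k * s * k⁻¹ = l * s * l⁻¹) : k = l :=
  K_conj_inj hS hs (D_inverted hS h3 hk) (D_inverted hS h3 hl) h

/-- The commutative group structure on the two-point stabiliser. -/
@[reducible] def commD : CommGroup (DD G a t) :=
  { (inferInstance : Group (DD G a t)) with
    mul_comm := fun x y => Subtype.ext (D_comm hS h3 x.2 y.2) }

omit h3 in
/-- The conjugation action of the two-point stabiliser on `U`. -/
noncomputable def rho : DD G a t →* MulAut U where
  toFun d :=
    { toFun := fun u => ⟨d * u * (d : G)⁻¹, hS.conj_mem d d.2.1 u u.2⟩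
      invFun := fun u => ⟨(d : G)⁻¹ * u * d, by
        have := hS.conj_mem (d : G)⁻¹ (Subgroup.inv_mem _ d.2.1) u u.2
        rwa [inv_inv] at this⟩
      left_inv := fun x => by
        apply Subtype.ext
        show (d : G)⁻¹ * (d * x * (d : G)⁻¹) * d = x
        group
      right_inv := fun x => by
        apply Subtype.ext
        show (d : G) * ((d : G)⁻¹ * x * d) * (d : G)⁻¹ = x
        group
      map_mul' := fun x y => by
        apply Subtype.ext
        show (d : G) * (x * y) * (d : G)⁻¹ = (d * x * (d : G)⁻¹) * (d * y * (d : G)⁻¹)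
        group }
  map_one' := by
    ext x
    show ((1 : G) * x * (1 : G)⁻¹) = x
    group
  map_mul' d e := by
    ext x
    show ((d : G) * e * x * ((d : G) * e)⁻¹) = (d : G) * (e * x * (e : G)⁻¹) * (d : G)⁻¹
    group

omit h3 in
lemma rho_apply (d : DD G a t) (u : U) : ((rho hS d u : U) : G) = d * u * (d : G)⁻¹ := rfl

/-- The main KG structure. -/
theorem kg (hU2 : IsPGroup 2 U) (hne : ∃ d ∈ DD G a t, d ≠ 1) :
    @KG (DD G a t) (commD hS h3) U _ (rho hS) := by
  obtain ⟨s, hsU, hs1, hs2⟩ := exists_invol hS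
  obtain ⟨d, hd, hd1⟩ := hne
  have mkJ : ∀ x : U, x ≠ 1 → x * x = 1 → (x : G) ∈ involutionsIn (stabilizer G a : Set G) := by
    intro x hx1 hx2
    refine ⟨hS.le x.2, fun h => hx1 (Subtype.ext h), congrArg Subtype.val hx2⟩
  refine @KG.mk _ (commD hS h3) _ _ _ (Subgroup.instFiniteSubtypeMem U) hU2 ?_ ?_
  · refine ⟨⟨s, hsU⟩, rho hS ⟨d, hd⟩ ⟨s, hsU⟩, ?_, ?_, ?_, ?_, ?_⟩
    · intro h
      have h1 : s = d * s * d⁻¹ := congrArg Subtype.val h
      have h2 : (1 : G) * s * (1 : G)⁻¹ = d * s * d⁻¹ := by rw [← h1]; group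
      have h4 := reg_inj hS h3 (s := s) ⟨hS.le hsU, hs1, hs2⟩ (Subgroup.one_mem _) hd h2
      exact hd1 h4.symm
    · exact fun h => hs1 (congrArg Subtype.val h)
    · exact Subtype.ext hs2
    · intro h
      apply hs1
      have h1 : d * s * d⁻¹ = 1 := congrArg Subtype.val h
      have : s = d⁻¹ * (d * s * d⁻¹) * d := by group
      rw [this, h1]; group
    · apply Subtype.ext
      show (d * s * d⁻¹) * (d * s * d⁻¹) = 1
      calc (d * s * d⁻¹) * (d * s * d⁻¹) = d * (s * s) * d⁻¹ := by group
        _ = 1 := by rw [hs2]; group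
  · intro x y hx1 hx2 hy1 hy2
    obtain ⟨k, hk, hkx⟩ := reg_exists hS h3 (mkJ x hx1 hx2) (mkJ y hy1 hy2)
    refine ⟨⟨k, hk⟩, ?_, ?_⟩
    · apply Subtype.ext
      exact hkx
    · intro l hl
      apply Subtype.ext
      have h1 : (l : G) * x * (l : G)⁻¹ = y := congrArg Subtype.val hl
      exact reg_inj hS h3 (mkJ x hx1 hx2) l.2 hk (h1.trans hkx.symm)

end Setup

end Cfsg.Agent.Lib.ZT
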