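import Cfsg.Agent.Lib.ZT.ZT1

/-! # Zassenhaus groups with a regular normal 2-subgroup: counting -/

set_option linter.style.haveILetI false
set_option linter.unusedSectionVars false

namespace Cfsg.Agent.Lib.ZT

open MulAction Cfsg Cfsg.Agent.Lib.RankOne Cfsg.Agent.Lib.RankOne.Setup

variable {G Ω : Type*} [Group G] [Finite G] [MulAction G Ω] {a : Ω} {t : G} {U : Subgroup G}

variable (hS : IsRankOneSetup G Ω a t U)

include hS

/-- `G_a = U D`: the parametrisation. -/
noncomputable def prodEquiv : U × DD G a t ≃ stabilizer G a :=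
  Equiv.ofBijective
    (fun p => ⟨(p.1 : G) * (p.2 : G)⁻¹,
      Subgroup.mul_mem _ (hS.le p.1.2) (Subgroup.inv_mem _ p.2.2.1)⟩)
    (by
      constructor
      · rintro ⟨v, d⟩ ⟨v', d'⟩ h
        have h1 : (v : G) * (d : G)⁻¹ = v' * (d' : G)⁻¹ := congrArg Subtype.val h
        have h2 : (v' : G)⁻¹ * v = (d' : G)⁻¹ * d := by
          calc (v' : G)⁻¹ * v = (v' : G)⁻¹ * ((v : G) * (d : G)⁻¹) * d := by group
            _ = (v' : G)⁻¹ * (v' * (d' : G)⁻¹) * d := by rw [h1]
            _ = _ := by group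
        have h3 : (v' : G)⁻¹ * v ∈ U ⊓ DD G a t := by
          refine ⟨U.mul_mem (U.inv_mem v'.2) v.2, ?_⟩
          rw [h2]
          exact Subgroup.mul_mem _ (Subgroup.inv_mem _ d'.2) d.2
        rw [inf_Q_D hS] at h3
        have h4 : (v' : G)⁻¹ * v = 1 := h3
        have h5 : (v : G) = v' := (inv_mul_eq_one.mp h4).symm
        have h7 : (d : G)⁻¹ = (d' : G)⁻¹ := by
          rw [h5] at h1
          exact mul_left_cancel h1
        have h8 : (d : G) = d' := inv_injective h7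
        rw [Subtype.ext h5, Subtype.ext h8]
      · rintro ⟨g, hg⟩
        obtain ⟨x, hx, d, hd, rfl⟩ := exists_mul hS hg
        refine ⟨(⟨x, hx⟩, ⟨d⁻¹, Subgroup.inv_mem _ hd⟩), ?_⟩
        apply Subtype.ext
        show x * (d⁻¹)⁻¹ = x * d
        rw [inv_inv])

lemma prodEquiv_apply (p : U × DD G a t) :
    ((prodEquiv hS p : stabilizer G a) : G) = (p.1 : G) * (p.2 : G)⁻¹ := rfl

/-- `|G_a| = |U| |D|`. -/
lemma card_stab : Nat.card (stabilizer G a) = Nat.card U * Nat.card (DD G a t) := by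
  rw [← Nat.card_congr (prodEquiv hS), Nat.card_prod]

/-- `|Ω| = |U| + 1`. -/
lemma card_Ω : Nat.card Ω = Nat.card U + 1 := by
  classical
  haveI := finite_Ω hS
  have h1 : Nat.card U = Nat.card {c : Ω // c ≠ a} := by
    apply Nat.card_congr
    refine Equiv.ofBijective (fun u : U => ⟨(u : G) • t • a, ?_⟩) ⟨?_, ?_⟩
    · intro h
      have h2 : (u : G) • a = a := hS.le u.2
      exact t_ne hS (smul_left_cancel (u : G) (h.trans h2.symm))
    · intro u v huv
      have h2 : (u : G) • t • a = (v : G) • t • a := congrArg Subtype.val huv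
      exact Subtype.ext (Q_unique hS u.2 v.2 (t_ne hS) h2)
    · rintro ⟨c, hc⟩
      obtain ⟨x, hx, hxc⟩ := Q_trans hS hc
      exact ⟨⟨x, hx⟩, Subtype.ext hxc⟩
  rw [h1]
  haveI : Fintype Ω := Fintype.ofFinite Ω
  rw [Nat.card_eq_fintype_card, Nat.card_eq_fintype_card]
  have h2 : Fintype.card {c : Ω // c ≠ a} = Fintype.card Ω - 1 := Set.card_ne_eq a
  have h3 : 0 < Fintype.card Ω := Fintype.card_pos_iff.mpr ⟨a⟩
  omega

/-- `|G| = |Ω| |U| |D|`. -/
lemma card_G : Nat.card G = Nat.card Ω * (Nat.card U * Nat.card (DD G a t)) := by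
  classical
  haveI := finite_Ω hS
  haveI := isPretransitive hS
  rw [← card_stab hS, Subgroup.card_eq_card_quotient_mul_card_subgroup (stabilizer G a)]
  congr 1
  rw [← Nat.card_congr (orbitEquivQuotientStabilizer G a), orbit_eq_univ]
  exact Nat.card_congr (Equiv.Set.univ Ω)

/-- An element whose square lies in `U` and is not `1` lies in `U`. -/
lemma mem_of_sq {x : G} (hx : x * x ∈ U) (hx1 : x * x ≠ 1) : x ∈ U := by
  have hc : x * (x * x) = (x * x) * x := by group
  have hxa : x • a = a := mem_stab_of_commute hS hx hx1 hc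
  obtain ⟨v, hv, d, hd, rfl⟩ := exists_mul hS (show x ∈ stabilizer G a from hxa)
  have hdd : d * d ∈ U := by
    have h1 : d * d = (d * v⁻¹ * d⁻¹) * (v⁻¹ * (v * d * (v * d))) := by group
    rw [h1]
    refine U.mul_mem (hS.conj_mem d hd.1 _ (U.inv_mem hv)) (U.mul_mem (U.inv_mem hv) hx)
  have h2 : d * d ∈ U ⊓ DD G a t := ⟨hdd, Subgroup.mul_mem _ hd hd⟩
  rw [inf_Q_D hS] at h2
  have h3 : d = 1 := D_sq_eq_one hS hd h2
  rw [h3, mul_one]
  exact hv

/-- Number of involutions fixing a point. -/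
lemma card_invol_a (h3 : ∀ g : G, ∀ x y z : Ω, x ≠ y → y ≠ z → x ≠ z → g • x = x → g • y = y → g • z = z → g = 1) :
    Nat.card {u : G // u ≠ 1 ∧ u * u = 1 ∧ u • a = a} = Nat.card (DD G a t) := by
  obtain ⟨s, hsU, hs1, hs2⟩ := exists_invol hS
  have hJ : s ∈ involutionsIn (stabilizer G a : Set G) := ⟨hS.le hsU, hs1, hs2⟩
  symm
  apply Nat.card_congr
  refine Equiv.ofBijective (fun d : DD G a t => ⟨(d : G) * s * (d : G)⁻¹, ?_, ?_, ?_⟩) ⟨?_, ?_⟩
  · intro h
    apply hs1
    have : s = (d : G)⁻¹ * ((d : G) * s * (d : G)⁻¹) * d := by group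
    rw [this, h]; group
  · calc (d : G) * s * (d : G)⁻¹ * ((d : G) * s * (d : G)⁻¹) = d * (s * s) * (d : G)⁻¹ := by group
      _ = 1 := by rw [hs2]; group
  · have hda : (d : G) • a = a := d.2.1
    have hda' : (d : G)⁻¹ • a = a := (Subgroup.inv_mem _ d.2.1 : (d : G)⁻¹ ∈ stabilizer G a)
    rw [mul_smul, mul_smul, hda', hS.le hsU, hda]
  · intro d e h
    exact Subtype.ext (reg_inj hS h3 hJ d.2 e.2 (congrArg Subtype.val h))
  · rintro ⟨u, hu1, hu2, hua⟩
    obtain ⟨k, hk, hku⟩ := reg_exists hS h3 hJ ⟨hua, hu1, hu2⟩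
    exact ⟨⟨k, hk⟩, Subtype.ext hku⟩

/-- Number of involutions fixing any point. -/
lemma card_invol (h3 : ∀ g : G, ∀ x y z : Ω, x ≠ y → y ≠ z → x ≠ z → g • x = x → g • y = y → g • z = z → g = 1)
    (p : Ω) : Nat.card {u : G // u ≠ 1 ∧ u * u = 1 ∧ u • p = p} = Nat.card (DD G a t) := by
  obtain ⟨g, rfl⟩ := trans hS a p
  rw [← card_invol_a hS h3]
  symm
  apply Nat.card_congr
  refine
    { toFun := fun u => ⟨g * u * g⁻¹, ?_, ?_, ?_⟩
      invFun := fun u => ⟨g⁻¹ * u * g, ?_, ?_, ?_⟩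
      left_inv := fun u => by
        apply Subtype.ext
        show g⁻¹ * (g * u * g⁻¹) * g = u
        group
      right_inv := fun u => by
        apply Subtype.ext
        show g * (g⁻¹ * u * g) * g⁻¹ = u
        group }
  · intro h
    apply u.2.1
    have : (u : G) = g⁻¹ * (g * u * g⁻¹) * g := by group
    rw [this, h]; group
  · calc g * (u : G) * g⁻¹ * (g * u * g⁻¹) = g * (u * u) * g⁻¹ := by group
      _ = 1 := by rw [u.2.2.1]; group
  · rw [mul_smul, mul_smul, inv_smul_smul, u.2.2.2]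
  · intro h
    apply u.2.1
    have : (u : G) = g * (g⁻¹ * u * g) * g⁻¹ := by group
    rw [this, h]; group
  · calc g⁻¹ * (u : G) * g * (g⁻¹ * u * g) = g⁻¹ * (u * u) * g := by group
      _ = 1 := by rw [u.2.2.1]; group
  · rw [mul_smul, mul_smul, u.2.2.2, inv_smul_smul]

/-- The number of solutions of `u² = 1` in `G`. -/
lemma card_sq_one (h3 : ∀ g : G, ∀ x y z : Ω, x ≠ y → y ≠ z → x ≠ z → g • x = x → g • y = y → g • z = z → g = 1) :
    Nat.card {u : G // u * u = 1} = Nat.card Ω * Nat.card (DD G a t) + 1 := by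
  classical
  haveI := finite_Ω hS
  haveI : Fintype Ω := Fintype.ofFinite Ω
  have h1 : Nat.card (Σ p : Ω, {u : G // u ≠ 1 ∧ u * u = 1 ∧ u • p = p}) =
      Nat.card Ω * Nat.card (DD G a t) := by
    rw [Nat.card_sigma]
    simp only [card_invol hS h3]
    simp [Nat.card_eq_fintype_card]
  have h2 : Nat.card (Σ p : Ω, {u : G // u ≠ 1 ∧ u * u = 1 ∧ u • p = p}) =
      Nat.card {u : G // u ≠ 1 ∧ u * u = 1} := by
    apply Nat.card_congr
    refine Equiv.ofBijective (fun x => ⟨x.2, x.2.2.1, x.2.2.2.1⟩) ⟨?_, ?_⟩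
    · rintro ⟨p, u⟩ ⟨p', u'⟩ h
      have h4 : (u : G) = u' := congrArg Subtype.val h
      have h5 : p = p' := fix_eq hS u.2.1 u.2.2.1 u.2.2.2 (by rw [h4]; exact u'.2.2.2)
      subst h5
      have h6 : u = u' := Subtype.ext h4
      rw [h6]
    · rintro ⟨u, hu1, hu2⟩
      obtain ⟨c, hc, -⟩ := invol_fix hS hu1 hu2
      exact ⟨⟨c, ⟨u, hu1, hu2, hc⟩⟩, rfl⟩
  have h4 : Nat.card {u : G // u * u = 1} = Nat.card {u : G // u ≠ 1 ∧ u * u = 1} + 1 := by
    haveI : Fintype G := Fintype.ofFinite G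
    rw [Nat.card_eq_fintype_card, Nat.card_eq_fintype_card, Fintype.card_subtype, Fintype.card_subtype]
    have h5 : Finset.univ.filter (fun u : G => u * u = 1) =
        insert 1 (Finset.univ.filter (fun u : G => u ≠ 1 ∧ u * u = 1)) := by
      ext u
      simp only [Finset.mem_filter, Finset.mem_univ, true_and, Finset.mem_insert]
      constructor
      · intro h
        by_cases hu : u = 1
        · exact Or.inl hu
        · exact Or.inr ⟨hu, h⟩
      · rintro (rfl | h)
        · simp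
        · exact h.2
    rw [h5, Finset.card_insert_of_notMem]
    simp
  rw [h4, ← h2, h1]

end Cfsg.Agent.Lib.ZT
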