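import Cfsg.Agent.Lib.ZT.ZT2
import Cfsg.Agent.Lib.ZT.Comb
import Cfsg.Agent.Lib.Char.FSCount
import Cfsg.Agent.Lib.Char.Linear
import Cfsg.Agent.Lib.Char.Degree

/-! # Characters of KG-groups -/

set_option linter.style.haveILetI false
set_option linter.unusedSectionVars false

namespace Cfsg.Agent.Lib.ZT

open Cfsg Cfsg.Agent.Lib.Char Cfsg.Agent.Lib.Fusion.Hig
open Subgroup
open scoped commutatorElement

section

variable {K : Type*} [CommGroup K] {P : Type*} [Group P] {ρ : K →* MulAut P}

lemma sq_center (h : KG ρ) (hnc : ∃ x y : P, x * y ≠ y * x) (x : P) : x * x ∈ center P :=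
  h.central ((higman_main _ P ρ h rfl hnc).1 x)

lemma cm_center (h : KG ρ) (hnc : ∃ x y : P, x * y ≠ y * x) (x y : P) : cm x y ∈ center P :=
  h.central ((higman_main _ P ρ h rfl hnc).2 x y)

/-- Every central element is a commutator. -/
lemma center_is_cm (h : KG ρ) (hnc : ∃ x y : P, x * y ≠ y * x) {z : P} (hz : z ∈ center P) :
    ∃ x y : P, z = cm x y := by
  by_cases hz1 : z = 1
  · exact ⟨1, 1, by rw [hz1]; simp [cm]⟩
  obtain ⟨x, y, hxy⟩ := hnc
  have hc1 : cm x y ≠ 1 := by
    intro h1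
    apply hxy
    have h2 : x⁻¹ * y⁻¹ * x * y = 1 := h1
    calc x * y = (y * x) * (x⁻¹ * y⁻¹ * x * y) := by group
      _ = y * x := by rw [h2, mul_one]
  have hc2 := (higman_main _ P ρ h rfl ⟨x, y, hxy⟩).2 x y
  obtain ⟨k, hk, -⟩ := h.reg _ _ hc1 hc2 hz1 (h.center_sq ⟨x, y, hxy⟩ hz)
  refine ⟨ρ k x, ρ k y, ?_⟩
  rw [← hk, rho_cm]

lemma commutator_eq_center (h : KG ρ) (hnc : ∃ x y : P, x * y ≠ y * x) :
    commutator P = center P := by
  apply le_antisymm
  · rw [commutator_def, Subgroup.commutator_le]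
    intro x _ y _
    have : ⁅x, y⁆ = cm x⁻¹ y⁻¹ := by
      simp [cm, commutatorElement_def]
    rw [this]
    exact cm_center h hnc _ _
  · intro z hz
    obtain ⟨x, y, rfl⟩ := center_is_cm h hnc hz
    have : cm x y = ⁅x⁻¹, y⁻¹⁆ := by
      simp [cm, commutatorElement_def]
    rw [this]
    exact Subgroup.commutator_mem_commutator (mem_top _) (mem_top _)

/-- A linear character is trivial on the centre. -/
lemma hom_center (h : KG ρ) (hnc : ∃ x y : P, x * y ≠ y * x) {A : Type*} [CommGroup A] (ν : P →* A)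
    {z : P} (hz : z ∈ center P) : ν z = 1 := by
  obtain ⟨x, y, rfl⟩ := center_is_cm h hnc hz
  simp only [cm, map_mul, map_inv]
  rw [mul_comm (ν x)⁻¹ (ν y)⁻¹]
  group

lemma hom_sq (h : KG ρ) (hnc : ∃ x y : P, x * y ≠ y * x) {A : Type*} [CommGroup A] (ν : P →* A)
    (x : P) : ν (x * x) = 1 := hom_center h hnc ν (sq_center h hnc x)

/-- The quotient by the centre is commutative. -/
lemma quot_comm (h : KG ρ) (hnc : ∃ x y : P, x * y ≠ y * x) (x y : P ⧸ center P) :
    x * y = y * x := by
  induction x using QuotientGroup.induction_on with | _ x => ?_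
  induction y using QuotientGroup.induction_on with | _ y => ?_
  rw [← QuotientGroup.mk_mul, ← QuotientGroup.mk_mul, QuotientGroup.eq]
  have : (x * y)⁻¹ * (y * x) = cm y x := by
    simp [cm]
    group
  rw [this]
  exact cm_center h hnc _ _

/-- Twisting is onto modulo the centre. -/
lemma exists_twist (h : KG ρ) (hnc : ∃ x y : P, x * y ≠ y * x) {k : K} (hk : k ≠ 1) (y : P) :
    ∃ x : P, ∃ z ∈ center P, y = x⁻¹ * ρ k x * z := by
  classical
  haveI := h.fin
  let π : P →* P ⧸ center P := QuotientGroup.mk' _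
  have hπc : ∀ x y, π x * π y = π y * π x := fun x y => quot_comm h hnc _ _
  let φ : P →* P ⧸ center P := MonoidHom.mk' (fun x => π (x⁻¹ * ρ k x)) (by
    intro x y
    simp only [map_mul, map_inv]
    have h1 := hπc y (ρ k x)
    have h2 := hπc y x
    calc (π x * π y)⁻¹ * (π (ρ k x) * π (ρ k y))
      _ = (π y * π x)⁻¹ * (π (ρ k x) * π (ρ k y)) := by rw [h2]
      _ = (π x)⁻¹ * (π y)⁻¹ * (π (ρ k x) * π (ρ k y)) := by group
      _ = (π x)⁻¹ * ((π y)⁻¹ * π (ρ k x)) * π (ρ k y) := by group
      _ = (π x)⁻¹ * (π (ρ k x) * (π y)⁻¹) * π (ρ k y) := by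
          congr 2
          rw [inv_mul_eq_iff_eq_mul, ← mul_assoc, h1]
          group
      _ = _ := by group)
  have hφ : ∀ x, φ x = π (x⁻¹ * ρ k x) := fun x => rfl
  have hker : φ.ker = center P := by
    ext x
    rw [MonoidHom.mem_ker, hφ, QuotientGroup.mk'_apply, QuotientGroup.eq_one_iff]
    constructor
    · intro hx
      exact h.coset_fix hk (center_kinv ρ) hx
    · intro hx
      exact (center P).mul_mem ((center P).inv_mem hx) (center_kinv ρ k x hx)
  have hrange : φ.range = ⊤ := by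
    apply Subgroup.eq_top_of_card_eq
    rw [← Subgroup.index_ker, hker]
    rfl
  have hy : π y ∈ φ.range := by
    rw [hrange]
    exact mem_top _
  obtain ⟨x, hx⟩ := hy
  rw [hφ] at hx
  refine ⟨x, (x⁻¹ * ρ k x)⁻¹ * y, ?_, by group⟩
  exact QuotientGroup.eq.mp hx

/-- Freeness on linear characters. -/
lemma hom_comp_ne (h : KG ρ) (hnc : ∃ x y : P, x * y ≠ y * x) {A : Type*} [CommGroup A]
    {ν : P →* A} (hν : ν ≠ 1) {k : K} (hk : k ≠ 1) :
    ν.comp (ρ k).toMonoidHom ≠ ν := by
  intro he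
  apply hν
  ext y
  obtain ⟨x, z, hz, rfl⟩ := exists_twist h hnc hk y
  have h1 : ν (ρ k x) = ν x := DFunLike.congr_fun he x
  simp only [map_mul, map_inv, h1, hom_center h hnc ν hz, inv_mul_cancel, mul_one,
    MonoidHom.one_apply, inv_one]

/-- Twisting is onto on the centre. -/
lemma exists_twist_center (h : KG ρ) {k : K} (hk : k ≠ 1) {w : P} (hw : w ∈ center P) :
    ∃ z ∈ center P, w = z⁻¹ * ρ k z := by
  classical
  haveI := h.fin
  let f : center P → center P := fun z =>
    ⟨(z : P)⁻¹ * ρ k z, (center P).mul_mem ((center P).inv_mem z.2) (center_kinv ρ k _ z.2)⟩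
  have hinj : Function.Injective f := by
    intro y z hyz
    have h1 : (y : P)⁻¹ * ρ k y = (z : P)⁻¹ * ρ k z := congrArg Subtype.val hyz
    have hbot : KInv ρ (⊥ : Subgroup P) := by
      intro l x hx
      rw [mem_bot] at hx ⊢
      rw [hx, map_one]
    have h2 : (y : P) * (z : P)⁻¹ ∈ (⊥ : Subgroup P) := by
      apply h.coset_fix hk hbot
      rw [mem_bot, map_mul, map_inv]
      have hc1 : ∀ u v : P, u ∈ center P → u * v = v * u := fun u v hu => (mem_center_iff.mp hu v).symm
      have hyc := y.2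
      have hzc := z.2
      have hy' := center_kinv ρ k _ y.2
      have hz' := center_kinv ρ k _ z.2
      have h3 : ρ k y = y * ((z : P)⁻¹ * ρ k z) := by
        rw [← h1]; group
      rw [h3]
      have h4 : (z : P)⁻¹ * ρ k z ∈ center P := (center P).mul_mem ((center P).inv_mem z.2) hz'
      have h5 := hc1 _ (y : P)⁻¹ h4
      have h6 := hc1 _ (y : P) ((center P).inv_mem z.2)
      calc ((y : P) * (z : P)⁻¹)⁻¹ * ((y : P) * ((z : P)⁻¹ * ρ k z) * (ρ k z)⁻¹)
          = (z : P) * (y : P)⁻¹ * (y : P) * (z : P)⁻¹ := by group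
        _ = 1 := by group
    rw [mem_bot] at h2
    exact Subtype.ext (mul_inv_eq_one.mp h2)
  obtain ⟨z, hz⟩ := (Finite.injective_iff_surjective.mp hinj) ⟨w, hw⟩
  exact ⟨z, z.2, (congrArg Subtype.val hz).symm⟩

section Char

variable [Fintype P]

/-- A nonlinear irreducible character does not have the centre in its kernel. -/
lemma not_center_le (h : KG ρ) (hnc : ∃ x y : P, x * y ≠ y * x) {ξ : P → ℂ}
    (hξ : IsIrrCharacter P ξ) (h1 : ξ 1 ≠ 1) : ¬ center P ≤ charKer ξ := by
  classical
  intro hle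
  haveI : Fintype (center P) := Fintype.ofFinite _
  haveI : Fintype (P ⧸ center P) := Fintype.ofFinite _
  obtain ⟨β, hβ, rfl⟩ := exists_deflate (center P) hξ hle
  apply h1
  exact (comm_iff_irr_degree_one.mp (quot_comm h hnc)) ⟨β, hβ⟩

lemma apply_center_ne_zero {ξ : P → ℂ} (hξ : IsIrrCharacter P ξ) {z : P} (hz : z ∈ center P) :
    ξ z ≠ 0 := by
  intro h0
  have h1 := apply_mul_of_mem_center hξ hz z⁻¹
  rw [inv_mul_cancel, h0, mul_zero] at h1
  exact mul_self_ne_zero.mpr (IsIrrCharacter.apply_one_ne_zero hξ) h1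

/-- A nonlinear irreducible character is not fixed by `ρ k`. -/
lemma irr_comp_ne (h : KG ρ) (hnc : ∃ x y : P, x * y ≠ y * x) {ξ : P → ℂ}
    (hξ : IsIrrCharacter P ξ) (h1 : ξ 1 ≠ 1) {k : K} (hk : k ≠ 1) :
    (fun x => ξ (ρ k x)) ≠ ξ := by
  intro he
  apply not_center_le h hnc hξ h1
  intro w hw
  rw [mem_charKer (IsIrrCharacter.isCharacter hξ)]
  obtain ⟨z, hz, rfl⟩ := exists_twist_center h hk hw
  have h2 := apply_mul_of_mem_center hξ hw z
  have h3 : z * (z⁻¹ * ρ k z) = ρ k z := by group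
  rw [h3] at h2
  have h4 : ξ (ρ k z) = ξ z := congrFun he z
  rw [h4] at h2
  have h5 := apply_center_ne_zero hξ hz
  have h6 : ξ z * ξ 1 = ξ z * ξ (z⁻¹ * ρ k z) := by
    rw [← h2]; ring
  exact (mul_left_cancel₀ h5 h6).symm

/-- Composition with an automorphism preserves irreducibility. -/
lemma irr_comp {ξ : P → ℂ} (hξ : IsIrrCharacter P ξ) (f : P ≃* P) :
    IsIrrCharacter P (fun x => ξ (f x)) := by
  apply isIrrCharacter_of_classInner_self (IsCharacter.comp (IsIrrCharacter.isCharacter hξ) f.toMonoidHom)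
  rw [← classInner_irr_self hξ]
  unfold classInner
  congr 1
  exact Fintype.sum_equiv f.toEquiv _ _ (fun x => rfl)

/-- The indicator of a linear character. -/
lemma fsInd_hom (h : KG ρ) (hnc : ∃ x y : P, x * y ≠ y * x) (ν : P →* ℂˣ) :
    fsInd (fun x => (ν x : ℂ)) = 1 := by
  unfold fsInd
  have h1 : ∀ s : P, ((ν (s * s) : ℂˣ) : ℂ) = 1 := by
    intro s
    rw [hom_sq h hnc]
    rfl
  simp only [h1, Finset.sum_const, Finset.card_univ, nsmul_eq_mul, mul_one]
  rw [← Nat.card_eq_fintype_card]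
  exact inv_mul_cancel₀ (by exact_mod_cast Nat.card_pos.ne')

/-- Finiteness of the set of linear characters. -/
instance finite_hom : Finite (P →* ℂˣ) := Finite.of_equiv _ (linearCharEquiv P)

/-- The number of linear characters. -/
lemma card_hom (h : KG ρ) (hnc : ∃ x y : P, x * y ≠ y * x) :
    Nat.card (P →* ℂˣ) = (center P).index := by
  rw [← Nat.card_congr (linearCharEquiv P), card_linear_eq_index_commutator,
    commutator_eq_center h hnc]

end Char

section Count

variable [Fintype P]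

/-- The number of solutions of `x² = z`. -/
noncomputable def sqFib (z : P) : ℕ := Nat.card {x : P // x * x = z}

lemma sqFib_one (h : KG ρ) (hnc : ∃ x y : P, x * y ≠ y * x) :
    sqFib (1 : P) = Nat.card (center P) := by
  apply Nat.card_congr
  refine Equiv.subtypeEquivRight (fun x => ⟨fun hx => h.central hx, fun hx => h.center_sq hnc hx⟩)

lemma sqFib_eq (h : KG ρ) (hnc : ∃ x y : P, x * y ≠ y * x) {z w : P} (hz : z ∈ center P)
    (hw : w ∈ center P) (hz1 : z ≠ 1) (hw1 : w ≠ 1) : sqFib z = sqFib w := by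
  obtain ⟨k, hk, -⟩ := h.reg z w hz1 (h.center_sq hnc hz) hw1 (h.center_sq hnc hw)
  apply Nat.card_congr
  refine
    { toFun := fun x => ⟨ρ k x, by rw [← map_mul, x.2, hk]⟩
      invFun := fun x => ⟨(ρ k).symm x, by
        rw [← map_mul, x.2, ← hk]
        simp⟩
      left_inv := fun x => by
        apply Subtype.ext
        simp
      right_inv := fun x => by
        apply Subtype.ext
        simp }

/-- Counting squares: each nontrivial central element has `q² + q` roots when `|P| = q³`. -/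
lemma sqFib_cube (h : KG ρ) (hnc : ∃ x y : P, x * y ≠ y * x)
    (hN : Nat.card P = Nat.card (center P) ^ 3) {z : P} (hz : z ∈ center P) (hz1 : z ≠ 1) :
    sqFib z = Nat.card (center P) ^ 2 + Nat.card (center P) := by
  classical
  haveI : Fintype (center P) := Fintype.ofFinite _
  set q := Nat.card (center P) with hq
  let sq' : P → center P := fun x => ⟨x * x, sq_center h hnc x⟩
  have hfib : ∀ w : center P, (Finset.univ.filter (fun x => sq' x = w)).card = sqFib (w : P) := by
    intro w
    rw [sqFib, Nat.card_eq_fintype_card, Fintype.card_subtype]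
    congr 1
    ext x
    simp only [Finset.mem_filter, Finset.mem_univ, true_and, sq']
    rw [Subtype.ext_iff]
  have htot : ∑ w : center P, sqFib (w : P) = q ^ 3 := by
    rw [← hN, Nat.card_eq_fintype_card, Finset.card_univ.symm.trans
      (Finset.card_eq_sum_card_fiberwise (s := Finset.univ) (t := Finset.univ)
        (f := sq') (fun _ _ => Finset.mem_univ _))]
    exact Finset.sum_congr rfl fun w _ => (hfib w).symm
  let z' : center P := ⟨z, hz⟩
  have hsplit : ∑ w : center P, sqFib (w : P) =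
      sqFib ((1 : center P) : P) + ∑ w ∈ Finset.univ.erase (1 : center P), sqFib (w : P) :=
    (Finset.add_sum_erase _ _ (Finset.mem_univ _)).symm
  have hconst : ∑ w ∈ Finset.univ.erase (1 : center P), sqFib (w : P) = (q - 1) * sqFib z := by
    rw [Finset.sum_congr rfl (g := fun _ => sqFib z), Finset.sum_const, Finset.card_erase_of_mem
      (Finset.mem_univ _), Finset.card_univ, smul_eq_mul, ← Nat.card_eq_fintype_card]
    intro w hw
    have hw1 : (w : P) ≠ 1 := fun h0 => (Finset.mem_erase.mp hw).1 (Subtype.ext h0)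
    exact sqFib_eq h hnc w.2 hz hw1 hz1
  rw [hsplit, hconst, show ((1 : center P) : P) = 1 from rfl, sqFib_one h hnc] at htot
  have hq2 : 2 ≤ q := by
    have h1 : 1 < q := by
      have : Nontrivial (center P) := ⟨⟨⟨z, hz⟩, 1, fun h0 => hz1 (congrArg Subtype.val h0)⟩⟩
      exact Finite.one_lt_card
    omega
  obtain ⟨r, hr⟩ : ∃ r, q = r + 1 := ⟨q - 1, by omega⟩
  rw [hr] at htot ⊢
  simp only [Nat.add_sub_cancel] at htot
  have hr1 : 0 < r := by omega
  have h3 : r * sqFib z = r * ((r + 1) ^ 2 + (r + 1)) := by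
    have : r * ((r + 1) ^ 2 + (r + 1)) + (r + 1) = (r + 1) ^ 3 := by ring
    omega
  exact Nat.eq_of_mul_eq_mul_left hr1 h3

/-- The Frobenius–Schur computation for a nonlinear character when `|P| = q³`. -/
theorem nonlinear_fs (h : KG ρ) (hnc : ∃ x y : P, x * y ≠ y * x)
    (hN : Nat.card P = Nat.card (center P) ^ 3) {ξ : P → ℂ} (hξ : IsIrrCharacter P ξ)
    (h1 : ξ 1 ≠ 1) : ξ 1 = (Nat.card (center P) : ℂ) ∧ fsInd ξ = -1 := by
  classical
  haveI : Fintype (center P) := Fintype.ofFinite _
  set q := Nat.card (center P) with hq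
  have hq0 : (q : ℂ) ≠ 0 := by
    rw [hq]; exact_mod_cast Nat.card_pos.ne'
  have hnotle := not_center_le h hnc hξ h1
  have hsum0 : ∑ z : center P, ξ (z : P) = 0 := by
    have h2 := sum_coset_irr (center P) hξ 1
    simp only [mul_one] at h2
    rw [h2, if_neg hnotle]
  let sq' : P → center P := fun x => ⟨x * x, sq_center h hnc x⟩
  have hfib : ∀ w : center P, (Finset.univ.filter (fun x => sq' x = w)).card = sqFib (w : P) := by
    intro w
    rw [sqFib, Nat.card_eq_fintype_card, Fintype.card_subtype]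
    congr 1
    ext x
    simp only [Finset.mem_filter, Finset.mem_univ, true_and, sq']
    rw [Subtype.ext_iff]
  have hval : ∑ s : P, ξ (s * s) = ∑ w : center P, (sqFib (w : P) : ℂ) * ξ (w : P) := by
    have h2 : ∀ s : P, ξ (s * s) = (fun w : center P => ξ (w : P)) (sq' s) := fun s => rfl
    simp only [h2]
    rw [← Finset.sum_fiberwise (s := Finset.univ) (g := sq')]
    refine Finset.sum_congr rfl fun w _ => ?_
    rw [Finset.sum_congr rfl (g := fun _ => ξ (w : P)), Finset.sum_const, hfib, nsmul_eq_mul]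
    intro x hx
    rw [(Finset.mem_filter.mp hx).2]
  have hval2 : ∀ w : center P, (sqFib (w : P) : ℂ) * ξ (w : P) =
      ((q : ℂ) ^ 2 + q) * ξ (w : P) + (if w = 1 then (-(q : ℂ) ^ 2) * ξ 1 else 0) := by
    intro w
    by_cases hw : w = 1
    · subst hw
      rw [if_pos rfl, show ((1 : center P) : P) = 1 from rfl, sqFib_one h hnc]
      ring
    · have hw1 : (w : P) ≠ 1 := fun h0 => hw (Subtype.ext h0)
      rw [if_neg hw, sqFib_cube h hnc hN w.2 hw1, add_zero]
      push_cast
      rfl
  have hval3 : ∑ s : P, ξ (s * s) = -(q : ℂ) ^ 2 * ξ 1 := by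
    rw [hval, Finset.sum_congr rfl fun w _ => hval2 w, Finset.sum_add_distrib, ← Finset.mul_sum,
      hsum0, mul_zero, zero_add, Finset.sum_ite_eq']
    simp
  have hfs : fsInd ξ * (q : ℂ) = -ξ 1 := by
    unfold fsInd
    rw [hval3, hN]
    push_cast
    field_simp
  obtain ⟨n, -, hn⟩ := IsIrrCharacter.apply_one hξ
  rcases fsInd_trichotomy hξ with h2 | h2 | h2
  · rw [h2, zero_mul] at hfs
    exact absurd (neg_eq_zero.mp hfs.symm) (IsIrrCharacter.apply_one_ne_zero hξ)
  · exfalso
    rw [h2, one_mul] at hfs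
    rw [hn] at hfs
    have h3 : ((q : ℝ)) = -(n : ℝ) := by
      have := congrArg Complex.re hfs
      simpa using this
    have h4 : (0 : ℝ) ≤ q := by positivity
    have h5 : (0 : ℝ) ≤ n := by positivity
    have h6 : (q : ℝ) = 0 := by linarith
    exact hq0 (by exact_mod_cast h6)
  · refine ⟨?_, h2⟩
    rw [h2] at hfs
    rw [neg_mul, one_mul, neg_inj] at hfs
    exact hfs.symm

end Count

end

end Cfsg.Agent.Lib.ZT
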