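import Cfsg.Agent.Lib.ZT.ZT3
import Cfsg.Agent.Lib.Char.Ind

/-! # Characters induced from the regular normal subgroup of a point stabiliser -/

set_option linter.style.haveILetI false
set_option linter.unusedSectionVars false

namespace Cfsg.Agent.Lib.ZT

open MulAction Cfsg Cfsg.Agent.Lib.Char Cfsg.Agent.Lib.RankOne Cfsg.Agent.Lib.RankOne.Setup
open scoped ComplexConjugate

variable {G Ω : Type*} [Group G] [Fintype G] [MulAction G Ω] {a : Ω} {t : G} {U : Subgroup G}
  [Fintype U] [Fintype (DD G a t)]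

/-- The index of `U`. -/
lemma index_U (hS : IsRankOneSetup G Ω a t U) :
    U.index = (Nat.card U + 1) * Nat.card (DD G a t) := by
  have h1 := Subgroup.card_mul_index U
  rw [card_G hS, card_Ω hS] at h1
  have h2 : 0 < Nat.card U := Nat.card_pos
  apply Nat.eq_of_mul_eq_mul_left h2
  rw [h1]
  ring

/-- An element of `U` conjugated into `U`: the conjugator stabilises `a`. -/
lemma mem_stab_of_conj (hS : IsRankOneSetup G Ω a t U) {u : U} (hu : u ≠ 1) {x : G}
    (hx : x⁻¹ * u * x ∈ U) : x ∈ stabilizer G a := by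
  have h1 : (x⁻¹ * u * x) • a = a := hS.le hx
  have h2 : (u : G) • (x • a) = x • a := by
    have h3 := congrArg (fun c => x • c) h1
    simpa [mul_smul] using h3
  by_contra hxa
  exact hu (Subtype.ext (Q_free hS u.2 hxa h2))

open scoped Classical in
/-- The restriction to `U` of an induced class function. -/
theorem indFun_res (hS : IsRankOneSetup G Ω a t U) (θ : U → ℂ) (hθ : IsClassFunction U θ) (u : U) :
    indFun U θ u = (∑ d : DD G a t, θ (rho hS d u)) +
      (if u = 1 then (Nat.card U : ℂ) * (Nat.card (DD G a t) : ℂ) * θ 1 else 0) := by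
  classical
  by_cases hu : u = 1
  · subst hu
    rw [if_pos rfl]
    have h1 : indFun U θ ((1 : U) : G) = (U.index : ℂ) * θ 1 := indFun_one U θ
    rw [h1, index_U hS]
    simp only [map_one, Finset.sum_const, Finset.card_univ, nsmul_eq_mul]
    rw [← Nat.card_eq_fintype_card]
    push_cast
    ring
  · rw [if_neg hu, add_zero, indFun_apply]
    haveI : Fintype (stabilizer G a) := Fintype.ofFinite _
    have h1 : ∑ x : G, extendByZero U θ (x⁻¹ * u * x) =
        ∑ x ∈ Finset.univ.filter (· ∈ stabilizer G a), extendByZero U θ (x⁻¹ * u * x) := by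
      symm
      apply Finset.sum_subset (Finset.subset_univ _)
      intro x _ hx
      have hx' : x ∉ stabilizer G a := by simpa using hx
      apply extendByZero_of_notMem
      exact fun h => hx' (mem_stab_of_conj hS hu h)
    rw [h1, Finset.sum_subtype (p := (· ∈ stabilizer G a)) _ (by simp)]
    rw [← Equiv.sum_comp (prodEquiv hS), Fintype.sum_prod_type]
    have h2 : ∀ (v : U) (d : DD G a t),
        extendByZero U θ ((((prodEquiv hS (v, d) : stabilizer G a) : G))⁻¹ * u *
          ((prodEquiv hS (v, d) : stabilizer G a) : G)) = θ (rho hS d u) := by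
      intro v d
      have h3 : ((prodEquiv hS (v, d) : stabilizer G a) : G)⁻¹ * u *
          ((prodEquiv hS (v, d) : stabilizer G a) : G) =
          ((rho hS d (v⁻¹ * u * v) : U) : G) := by
        rw [prodEquiv_apply, rho_apply]
        push_cast
        group
      rw [h3, extendByZero_coe, map_mul, map_mul, map_inv]
      have h4 := hθ (rho hS d u) (rho hS d v)⁻¹
      rw [inv_inv] at h4
      exact h4
    simp only [h2]
    rw [Finset.sum_const, Finset.card_univ, nsmul_eq_mul, ← Nat.card_eq_fintype_card, ← mul_assoc,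
      inv_mul_cancel₀ (by exact_mod_cast Nat.card_pos.ne'), one_mul]

/-- The Mackey formula. -/
theorem classInner_ind_ind (hS : IsRankOneSetup G Ω a t U) (θ θ' : U → ℂ)
    (hθ' : IsClassFunction U θ') :
    classInner (indFun U θ) (indFun U θ') =
      (Nat.card (DD G a t) : ℂ) * θ 1 * conj (θ' 1) +
        ∑ d : DD G a t, classInner θ (fun u => θ' (rho hS d u)) := by
  classical
  rw [classInner_indFun_left U θ _ (isClassFunction_indFun U θ')]
  unfold classInner
  simp only [indFun_res hS θ' hθ', map_add, map_sum, mul_add, Finset.sum_add_distrib]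
  have hN : ((Nat.card U : ℕ) : ℂ) ≠ 0 := by exact_mod_cast Nat.card_pos.ne'
  have h1 : ∑ u : U, θ u * conj (if u = 1 then (Nat.card U : ℂ) * (Nat.card (DD G a t) : ℂ) * θ' 1
      else 0) = θ 1 * conj ((Nat.card U : ℂ) * (Nat.card (DD G a t) : ℂ) * θ' 1) := by
    rw [Finset.sum_eq_single (1 : U)]
    · rw [if_pos rfl]
    · intro u _ hu
      rw [if_neg hu, map_zero, mul_zero]
    · simp
  rw [h1, add_comm]
  congr 1
  · simp only [map_mul, map_natCast]
    field_simp
  · rw [Finset.mul_sum]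
    simp only [Finset.mul_sum]
    rw [Finset.sum_comm]

/-- The number of elements of `U` with square `1`. -/
lemma card_U_sq_one (hS : IsRankOneSetup G Ω a t U)
    (h3 : ∀ g : G, ∀ x y z : Ω, x ≠ y → y ≠ z → x ≠ z → g • x = x → g • y = y → g • z = z → g = 1) :
    Nat.card {y : U // y * y = 1} = Nat.card (DD G a t) + 1 := by
  classical
  rw [← card_invol_a hS h3]
  have h1 : Nat.card {y : U // y ≠ 1 ∧ y * y = 1} =
      Nat.card {u : G // u ≠ 1 ∧ u * u = 1 ∧ u • a = a} := by
    apply Nat.card_congr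
    refine Equiv.ofBijective (fun y => ⟨(y : U), ?_, ?_, hS.le (y : U).2⟩) ⟨?_, ?_⟩
    · exact fun h => y.2.1 (Subtype.ext h)
    · exact congrArg Subtype.val y.2.2
    · intro x y hxy
      have h0 := congrArg Subtype.val hxy
      exact Subtype.ext (Subtype.ext h0)
    · rintro ⟨u, hu1, hu2, hua⟩
      have huU : u ∈ U := mem_Q_of_invol hS hua hu2
      exact ⟨⟨⟨u, huU⟩, fun h => hu1 (congrArg Subtype.val h), Subtype.ext hu2⟩, rfl⟩
  rw [← h1, Nat.card_eq_fintype_card, Nat.card_eq_fintype_card, Fintype.card_subtype,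
    Fintype.card_subtype]
  have h5 : Finset.univ.filter (fun u : U => u * u = 1) =
      insert 1 (Finset.univ.filter (fun u : U => u ≠ 1 ∧ u * u = 1)) := by
    ext u
    simp only [Finset.mem_filter, Finset.mem_univ, true_and, Finset.mem_insert]
    constructor
    · intro h
      by_cases hu : u = 1
      · exact Or.inl hu
      · exact Or.inr ⟨hu, h⟩
    · rintro (rfl | h)
      · simp
      · exact h.2
  rw [h5, Finset.card_insert_of_notMem (by simp)]

open scoped Classical in
/-- The square root count of `G` restricted to `U`. -/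
lemma sqrtCount_res (hS : IsRankOneSetup G Ω a t U)
    (h3 : ∀ g : G, ∀ x y z : Ω, x ≠ y → y ≠ z → x ≠ z → g • x = x → g • y = y → g • z = z → g = 1)
    (u : U) :
    sqrtCount (u : G) = sqrtCount u +
      (if u = 1 then (Nat.card U : ℂ) * (Nat.card (DD G a t) : ℂ) else 0) := by
  classical
  by_cases hu : u = 1
  · subst hu
    rw [if_pos rfl]
    unfold sqrtCount
    have h1 := card_sq_one hS h3
    have h2 := card_U_sq_one hS h3
    rw [card_Ω hS] at h1
    show ((Nat.card {x : G // x * x = 1} : ℕ) : ℂ) = _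
    rw [h1, h2]
    push_cast
    ring
  · rw [if_neg hu, add_zero]
    unfold sqrtCount
    congr 1
    symm
    apply Nat.card_congr
    refine Equiv.ofBijective (fun y => ⟨(y : U), congrArg Subtype.val y.2⟩) ⟨?_, ?_⟩
    · intro x y hxy
      have h0 := congrArg Subtype.val hxy
      exact Subtype.ext (Subtype.ext h0)
    · rintro ⟨x, hx⟩
      have hxU : x ∈ U := by
        apply mem_of_sq hS
        · rw [hx]; exact u.2
        · rw [hx]
          exact fun h => hu (Subtype.ext h)
      exact ⟨⟨⟨x, hxU⟩, Subtype.ext hx⟩, rfl⟩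

/-- The inner product of the square root count with an induced character. -/
theorem classInner_sqrt_ind (hS : IsRankOneSetup G Ω a t U)
    (h3 : ∀ g : G, ∀ x y z : Ω, x ≠ y → y ≠ z → x ≠ z → g • x = x → g • y = y → g • z = z → g = 1)
    {θ : U → ℂ} (hθ : IsIrrCharacter U θ) :
    classInner (sqrtCount : G → ℂ) (indFun U θ) =
      fsInd θ + (Nat.card (DD G a t) : ℂ) * θ 1 := by
  classical
  rw [classInner_indFun_right U θ _ isClassFunction_sqrtCount, ← classInner_sqrtCount hθ]
  unfold classInner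
  simp only [sqrtCount_res hS h3, add_mul, Finset.sum_add_distrib, mul_add]
  congr 1
  rw [Finset.sum_eq_single (1 : U)]
  · rw [if_pos rfl, IsCharacter.conj_apply_one (IsIrrCharacter.isCharacter hθ)]
    have hN : ((Nat.card U : ℕ) : ℂ) ≠ 0 := by exact_mod_cast Nat.card_pos.ne'
    field_simp
  · intro u _ hu
    rw [if_neg hu, zero_mul]
  · simp

/-- The multiplicities of an induced function. -/
noncomputable def coef (θ : U → ℂ) (χ : IrrCharacter G) : ℕ :=
  ⌊(classInner (indFun U θ) (χ : G → ℂ)).re⌋₊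

lemma coef_spec {θ : U → ℂ} (hθ : IsCharacter U θ) (χ : IrrCharacter G) :
    (coef θ χ : ℂ) = classInner (indFun U θ) (χ : G → ℂ) := by
  obtain ⟨n, hn⟩ := IsCharacter.classInner_irr_eq_nat (isCharacter_indFun U hθ) χ.2
  rw [coef, hn]
  simp

lemma sum_coef_mul {θ θ' : U → ℂ} (hθ : IsCharacter U θ) (hθ' : IsCharacter U θ') :
    ((∑ χ : IrrCharacter G, coef θ χ * coef θ' χ : ℕ) : ℂ) =
      classInner (indFun U θ) (indFun U θ') := by
  rw [classInner_eq_sum_coeffs _ _ (isClassFunction_indFun U θ) (isClassFunction_indFun U θ')]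
  push_cast
  refine Finset.sum_congr rfl fun χ _ => ?_
  rw [← coef_spec hθ, ← coef_spec hθ', map_natCast]

/-- The Frobenius–Schur sign, as an integer. -/
noncomputable def sgn (χ : IrrCharacter G) : ℤ := ⌊(fsInd (χ : G → ℂ)).re⌋

lemma floor_re_int {z : ℂ} {c : ℤ} (h : z = c) : ⌊z.re⌋ = c := by
  rw [h, Complex.intCast_re, Int.floor_intCast]

lemma sgn_cases (χ : IrrCharacter G) :
    (sgn χ = 0 ∧ fsInd (χ : G → ℂ) = ((0 : ℤ) : ℂ)) ∨ (sgn χ = 1 ∧ fsInd (χ : G → ℂ) = ((1 : ℤ) : ℂ)) ∨
      (sgn χ = -1 ∧ fsInd (χ : G → ℂ) = ((-1 : ℤ) : ℂ)) := by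
  rcases fsInd_trichotomy χ.2 with h | h | h
  · have h' : fsInd (χ : G → ℂ) = ((0 : ℤ) : ℂ) := by simpa using h
    exact Or.inl ⟨floor_re_int h', h'⟩
  · have h' : fsInd (χ : G → ℂ) = ((1 : ℤ) : ℂ) := by simpa using h
    exact Or.inr (Or.inl ⟨floor_re_int h', h'⟩)
  · have h' : fsInd (χ : G → ℂ) = ((-1 : ℤ) : ℂ) := by simpa using h
    exact Or.inr (Or.inr ⟨floor_re_int h', h'⟩)

lemma sgn_spec (χ : IrrCharacter G) : ((sgn χ : ℤ) : ℂ) = fsInd (χ : G → ℂ) := by
  rcases sgn_cases χ with ⟨h1, h2⟩ | ⟨h1, h2⟩ | ⟨h1, h2⟩ <;> rw [h1, h2]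

lemma sgn_bounds (χ : IrrCharacter G) : -1 ≤ sgn χ ∧ sgn χ ≤ 1 := by
  rcases sgn_cases χ with ⟨h1, h2⟩ | ⟨h1, h2⟩ | ⟨h1, h2⟩ <;> rw [h1] <;> norm_num

lemma sum_sgn_coef (hS : IsRankOneSetup G Ω a t U)
    (h3 : ∀ g : G, ∀ x y z : Ω, x ≠ y → y ≠ z → x ≠ z → g • x = x → g • y = y → g • z = z → g = 1)
    {θ : U → ℂ} (hθ : IsIrrCharacter U θ) :
    ((∑ χ : IrrCharacter G, sgn χ * (coef θ χ : ℤ) : ℤ) : ℂ) =
      fsInd θ + (Nat.card (DD G a t) : ℂ) * θ 1 := by
  rw [← classInner_sqrt_ind hS h3 hθ,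
    classInner_eq_sum_coeffs _ _ isClassFunction_sqrtCount (isClassFunction_indFun U θ)]
  push_cast
  refine Finset.sum_congr rfl fun χ _ => ?_
  rw [sgn_spec, classInner_sqrtCount χ.2, ← coef_spec (IsIrrCharacter.isCharacter hθ), map_natCast]

end Cfsg.Agent.Lib.ZT
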