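import Cfsg.Agent.Lib.ZT.ZT4

/-! # Excluding `|U| = q³` -/

set_option linter.style.haveILetI false
set_option linter.unusedSectionVars false

namespace Cfsg.Agent.Lib.ZT

open MulAction Cfsg Cfsg.Agent.Lib.Char Cfsg.Agent.Lib.RankOne Cfsg.Agent.Lib.RankOne.Setup
open Cfsg.Agent.Lib.Fusion.Hig (KG)
open scoped ComplexConjugate
open Subgroup (center)

variable {G Ω : Type*} [Group G] [Fintype G] [MulAction G Ω] {a : Ω} {t : G} {U : Subgroup G}
  [Fintype U] [Fintype (DD G a t)]

/-- A linear character, as a function. -/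
abbrev lin {P : Type*} [Group P] (ν : P →* ℂˣ) : P → ℂ := fun u => (ν u : ℂ)

section lin

variable {P : Type*} [Group P] [Fintype P]

lemma lin_irr (ν : P →* ℂˣ) : IsIrrCharacter P (lin ν) := isIrrCharacter_of_monoidHom ν

lemma lin_char (ν : P →* ℂˣ) : IsCharacter P (lin ν) := IsIrrCharacter.isCharacter (lin_irr ν)

lemma lin_class (ν : P →* ℂˣ) : IsClassFunction P (lin ν) := IsCharacter.isClassFunction (lin_char ν)

lemma lin_inj {ν ν' : P →* ℂˣ} (h : lin ν = lin ν') : ν = ν' := by
  ext u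
  exact congrFun h u

open scoped Classical in
lemma classInner_lin (ν ν' : P →* ℂˣ) :
    classInner (lin ν) (lin ν') = if ν = ν' then 1 else 0 := by
  split_ifs with h
  · rw [h]; exact classInner_irr_self (lin_irr ν')
  · exact classInner_irr_of_ne (lin_irr ν) (lin_irr ν') (fun e => h (lin_inj e))

end lin

/-- The twist of a linear character by the two-point stabiliser. -/
noncomputable def twist (hS : IsRankOneSetup G Ω a t U) (ν : U →* ℂˣ) (d : DD G a t) : U →* ℂˣ :=
  ν.comp (rho hS d).toMonoidHom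

section core

variable (hS : IsRankOneSetup G Ω a t U)

include hS

omit [Fintype G] [Fintype U] [Fintype (DD G a t)] in
lemma twist_apply (ν : U →* ℂˣ) (d : DD G a t) (u : U) : twist hS ν d u = ν (rho hS d u) := rfl

omit [Fintype G] [Fintype U] [Fintype (DD G a t)] in
lemma rho_mul_apply' (d e : DD G a t) (u : U) : rho hS (d * e) u = rho hS d (rho hS e u) := by
  rw [map_mul]; rfl

omit [Fintype G] [Fintype U] [Fintype (DD G a t)] in
lemma rho_one_apply' (u : U) : rho hS 1 u = u := by
  rw [map_one]; rfl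

omit [Fintype G] [Fintype U] [Fintype (DD G a t)] in
lemma twist_inj (hfree : ∀ ν : U →* ℂˣ, ν ≠ 1 → ∀ d : DD G a t, d ≠ 1 → twist hS ν d ≠ ν)
    {ν : U →* ℂˣ} (hν : ν ≠ 1) {d e : DD G a t} (h : twist hS ν d = twist hS ν e) : d = e := by
  by_contra hne
  have hde : d * e⁻¹ ≠ 1 := fun h0 => hne (mul_inv_eq_one.mp h0)
  apply hfree ν hν _ hde
  ext u
  have h1 := DFunLike.congr_fun h (rho hS e⁻¹ u)
  rw [twist_apply, twist_apply, ← rho_mul_apply', ← rho_mul_apply', mul_inv_cancel,
    rho_one_apply'] at h1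
  rw [twist_apply, h1]

omit [Fintype G] [Fintype U] [Fintype (DD G a t)] in
lemma twist_ne_one {ν : U →* ℂˣ} (hν : ν ≠ 1) (d : DD G a t) : twist hS ν d ≠ 1 := by
  intro h
  apply hν
  ext u
  have h1 := DFunLike.congr_fun h (rho hS d⁻¹ u)
  rw [twist_apply, ← rho_mul_apply', mul_inv_cancel, rho_one_apply'] at h1
  rw [h1]
  rfl

open scoped Classical in
/-- The inner product of two induced linear characters. -/
lemma n_lin (hfree : ∀ ν : U →* ℂˣ, ν ≠ 1 → ∀ d : DD G a t, d ≠ 1 → twist hS ν d ≠ ν)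
    (ν ν' : U →* ℂˣ) (hν' : ν' ≠ 1) :
    ∑ χ : IrrCharacter G, coef (lin ν) χ * coef (lin ν') χ =
      Nat.card (DD G a t) + if ∃ d, ν = twist hS ν' d then 1 else 0 := by
  have h1 := sum_coef_mul (lin_char ν) (lin_char ν')
  rw [classInner_ind_ind hS _ _ (lin_class ν')] at h1
  have h2 : ∀ d : DD G a t, classInner (lin ν) (fun u => lin ν' (rho hS d u)) =
      if ν = twist hS ν' d then 1 else 0 := fun d => classInner_lin ν (twist hS ν' d)
  simp only [h2] at h1
  have h3 : ∑ d : DD G a t, (if ν = twist hS ν' d then (1 : ℂ) else 0) =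
      ((if ∃ d, ν = twist hS ν' d then 1 else 0 : ℕ) : ℂ) := by
    by_cases hex : ∃ d, ν = twist hS ν' d
    · rw [if_pos hex]
      obtain ⟨d₀, hd₀⟩ := hex
      rw [Finset.sum_eq_single d₀]
      · rw [if_pos hd₀]; simp
      · intro d _ hd
        rw [if_neg]
        intro he
        exact hd (twist_inj hS hfree hν' (he.symm.trans hd₀))
      · simp
    · rw [if_neg hex]
      push Not at hex
      simp [hex]
  have e1 : ∀ μ : U →* ℂˣ, lin μ 1 = 1 := fun μ => by simp [lin]
  rw [h3, e1, e1, map_one, mul_one, mul_one] at h1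
  exact_mod_cast h1

/-- The core of the exclusion of `|U| = q³`. -/
theorem not_cube_core
    (h3 : ∀ g : G, ∀ x y z : Ω, x ≠ y → y ≠ z → x ≠ z → g • x = x → g • y = y → g • z = z → g = 1)
    [IsSimpleGroup G] (q : ℕ) (hh : Nat.card (DD G a t) + 1 = q) (hq2 : 2 ≤ q)
    (hcard : Nat.card (U →* ℂˣ) = q ^ 2)
    (hfree : ∀ ν : U →* ℂˣ, ν ≠ 1 → ∀ d : DD G a t, d ≠ 1 → twist hS ν d ≠ ν)
    (hcne : ∀ ξ : U → ℂ, IsIrrCharacter U ξ → ξ 1 ≠ 1 → ∀ d : DD G a t, d ≠ 1 →
      (fun x => ξ (rho hS d x)) ≠ ξ)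
    (hfs : ∀ ξ : U → ℂ, IsIrrCharacter U ξ → ξ 1 ≠ 1 → ξ 1 = (q : ℂ) ∧ fsInd ξ = -1)
    (hfsν : ∀ ν : U →* ℂˣ, fsInd (lin ν) = 1)
    (hz : ∀ ν : U →* ℂˣ, ∀ z ∈ center U, ν z = 1)
    {z₀ : U} (hz₀ : z₀ ∈ center U) (hz₁ : z₀ ≠ 1) : False := by
  classical
  obtain ⟨h', hq⟩ : ∃ h', q = h' + 1 := ⟨q - 1, by omega⟩
  subst hq
  have hh' : Nat.card (DD G a t) = h' := by omega
  have hh1 : 1 ≤ h' := by omega
  haveI : Fintype (U →* ℂˣ) := Fintype.ofFinite _
  let F : (U →* ℂˣ) → IrrCharacter G → ℕ := fun ν => coef (lin ν)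
  have n1 := n_lin hS hfree
  rw [hh'] at n1
  have nself : ∀ ν : U →* ℂˣ, ν ≠ 1 → ∑ χ, F ν χ * F ν χ = h' + 1 := by
    intro ν hν
    have h1 := n1 ν ν hν
    have h0 : ∃ d, ν = twist hS ν d := ⟨1, by
      ext u
      rw [twist_apply, rho_one_apply']⟩
    rw [if_pos h0] at h1
    exact h1
  have hFiff : ∀ ν ν' : U →* ℂˣ, ν ≠ 1 → ν' ≠ 1 → (F ν = F ν' ↔ ∃ d, ν = twist hS ν' d) := by
    intro ν ν' hν hν'
    constructor
    · intro he
      by_contra hex
      have h1 := n1 ν ν' hν'
      rw [if_neg hex] at h1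
      have h2 := nself ν hν
      have h4 : ∑ χ, F ν χ * F ν' χ = ∑ χ, F ν χ * F ν χ := by rw [he]
      have h5 : ∑ χ, F ν χ * F ν' χ = h' := by simpa [F] using h1
      omega
    · intro hex
      have h1 := n1 ν ν' hν'
      rw [if_pos hex] at h1
      have h2 := nself ν hν
      have h4 := nself ν' hν'
      have h5 : ∑ χ, ((F ν χ : ℤ) - F ν' χ) ^ 2 = 0 := by
        have e1 : ∀ χ, ((F ν χ : ℤ) - F ν' χ) ^ 2 =
            ((F ν χ * F ν χ : ℕ) : ℤ) + ((F ν' χ * F ν' χ : ℕ) : ℤ) - 2 * ((F ν χ * F ν' χ : ℕ) : ℤ) := by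
          intro χ
          push_cast
          ring
        simp only [e1]
        rw [Finset.sum_sub_distrib, Finset.sum_add_distrib, ← Finset.mul_sum]
        have e2 : ∑ χ, ((F ν χ * F ν χ : ℕ) : ℤ) = (h' : ℤ) + 1 := by
          rw [← Nat.cast_sum, h2]; push_cast; rfl
        have e3 : ∑ χ, ((F ν' χ * F ν' χ : ℕ) : ℤ) = (h' : ℤ) + 1 := by
          rw [← Nat.cast_sum, h4]; push_cast; rfl
        have e4 : ∑ χ, ((F ν χ * F ν' χ : ℕ) : ℤ) = (h' : ℤ) + 1 := by
          rw [← Nat.cast_sum]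
          have : ∑ χ, F ν χ * F ν' χ = h' + 1 := h1
          rw [this]; push_cast; rfl
        rw [e2, e3, e4]
        ring
      funext χ
      have h6 := (Finset.sum_eq_zero_iff_of_nonneg (fun _ _ => sq_nonneg _)).mp h5 χ (Finset.mem_univ χ)
      have h7 : (F ν χ : ℤ) - F ν' χ = 0 := pow_eq_zero_iff (two_ne_zero) |>.mp h6
      have h8 : (F ν χ : ℤ) = F ν' χ := by linarith
      exact_mod_cast h8
  -- the index set
  let L : Finset (U →* ℂˣ) := Finset.univ.filter (· ≠ 1)
  have hLcard : L.card = (h' + 1) ^ 2 - 1 := by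
    have h1 : L = Finset.univ.erase 1 := by
      ext ν
      simp [L]
    rw [h1, Finset.card_erase_of_mem (Finset.mem_univ _), Finset.card_univ,
      ← Nat.card_eq_fintype_card, hcard]
  let J : Finset (IrrCharacter G → ℕ) := L.image F
  have hfib : ∀ b ∈ J, (L.filter (fun x => F x = b)).card = h' := by
    intro b hb
    obtain ⟨ν, hν, rfl⟩ := Finset.mem_image.mp hb
    have hν1 : ν ≠ 1 := (Finset.mem_filter.mp hν).2
    have h1 : L.filter (fun x => F x = F ν) = Finset.univ.image (twist hS ν) := by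
      ext x
      simp only [Finset.mem_filter, Finset.mem_image, Finset.mem_univ, true_and]
      constructor
      · rintro ⟨hx, hxν⟩
        have hx1 : x ≠ 1 := (Finset.mem_filter.mp hx).2
        obtain ⟨d, hd⟩ := (hFiff x ν hx1 hν1).mp hxν
        exact ⟨d, hd.symm⟩
      · rintro ⟨d, rfl⟩
        have hx1 := twist_ne_one hS hν1 d
        exact ⟨Finset.mem_filter.mpr ⟨Finset.mem_univ _, hx1⟩,
          (hFiff _ ν hx1 hν1).mpr ⟨d, rfl⟩⟩
    rw [h1, Finset.card_image_of_injective, Finset.card_univ, ← Nat.card_eq_fintype_card, hh']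
    intro d e hde
    exact twist_inj hS hfree hν1 hde
  have hJcard : J.card = h' + 1 + 1 := by
    have h1 := Finset.card_eq_sum_card_image F L
    rw [Finset.sum_congr rfl hfib, Finset.sum_const, smul_eq_mul, hLcard] at h1
    have h2 : h' * (h' + 1 + 1) = J.card * h' := by
      have : (h' + 1) ^ 2 - 1 = h' * (h' + 1 + 1) := by
        have : (h' + 1) ^ 2 = h' * (h' + 1 + 1) + 1 := by ring
        omega
      rw [← this]
      exact h1
    have h3 : h' * (h' + 1 + 1) = h' * J.card := by rw [h2, mul_comm]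
    exact (Nat.eq_of_mul_eq_mul_left (by omega) h3).symm
  have hJmem : ∀ j : J, ∃ ν : U →* ℂˣ, ν ≠ 1 ∧ (j : IrrCharacter G → ℕ) = F ν := by
    rintro ⟨b, hb⟩
    obtain ⟨ν, hν, rfl⟩ := Finset.mem_image.mp hb
    exact ⟨ν, (Finset.mem_filter.mp hν).2, rfl⟩
  have hcomb := main_comb (X := IrrCharacter G) (ι := J) (q := h' + 1) hq2
    (by rw [Fintype.card_coe, hJcard]) sgn sgn_bounds (fun j => (j : IrrCharacter G → ℕ))
    ?_ ?_ ?_ (F 1) ?_
  · -- the conclusion
    obtain ⟨χ, ⟨j, hj⟩, hχ⟩ := hcomb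
    obtain ⟨ν, hν, hjν⟩ := hJmem j
    -- all nonlinear constituents vanish
    have hvan : ∀ ξ : U → ℂ, IsIrrCharacter U ξ → ξ 1 ≠ 1 → coef ξ χ = 0 := by
      intro ξ hξ h1
      obtain ⟨hξ1, hξ2⟩ := hfs ξ hξ h1
      have hξc := IsIrrCharacter.isCharacter hξ
      have hξcl := IsCharacter.isClassFunction hξc
      apply hχ (coef ξ)
      · -- against the linear ones
        intro j'
        obtain ⟨ν', hν', hj'⟩ := hJmem j'
        rw [hj']
        have h2 := sum_coef_mul hξc (lin_char ν')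
        rw [classInner_ind_ind hS _ _ (lin_class ν')] at h2
        have h4 : ∀ d : DD G a t, classInner ξ (fun u => lin ν' (rho hS d u)) = 0 := by
          intro d
          apply classInner_irr_of_ne hξ (lin_irr (twist hS ν' d))
          intro he
          apply h1
          rw [he]
          simp
        have e1 : lin ν' 1 = 1 := by simp [lin]
        simp only [h4, Finset.sum_const_zero, add_zero, hξ1, hh', e1, map_one, mul_one] at h2
        simp only [Nat.add_sub_cancel]
        exact_mod_cast h2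
      · -- the norm
        have h2 := sum_coef_mul hξc hξc
        rw [classInner_ind_ind hS _ _ hξcl] at h2
        have h4 : ∑ d : DD G a t, classInner ξ (fun u => ξ (rho hS d u)) = 1 := by
          rw [Finset.sum_eq_single 1]
          · have : (fun u => ξ (rho hS 1 u)) = ξ := by
              funext u
              rw [rho_one_apply']
            rw [this]
            exact classInner_irr_self hξ
          · intro d _ hd
            exact classInner_irr_of_ne hξ (irr_comp hξ (rho hS d)) (fun e => hcne ξ hξ h1 d hd e.symm)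
          · simp
        rw [h4, hξ1, hh'] at h2
        simp only [Nat.add_sub_cancel]
        have h5 : ∀ χ' : IrrCharacter G, coef ξ χ' ^ 2 = coef ξ χ' * coef ξ χ' := fun _ => sq _
        simp only [h5]
        have h6 : ((1 + h' * (h' + 1) ^ 2 : ℕ) : ℂ) =
            (h' : ℂ) * ((h' + 1 : ℕ) : ℂ) * conj ((h' + 1 : ℕ) : ℂ) + 1 := by
          rw [map_natCast]
          push_cast
          ring
        rw [← h6] at h2
        exact_mod_cast h2
      · -- the signs
        have h2 := sum_sgn_coef hS h3 hξ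
        rw [hξ1, hξ2, hh'] at h2
        have h4 : ((∑ x, sgn x * (coef ξ x : ℤ) : ℤ) : ℂ) =
            (((((h' + 1 : ℕ) : ℤ) - 1) * ((h' + 1 : ℕ) : ℤ) - 1 : ℤ) : ℂ) := by
          rw [h2]
          push_cast
          ring
        exact_mod_cast h4
    -- the restriction to `U` of `χ`
    have hχc := IsIrrCharacter.isCharacter χ.2
    have hχcl := IsCharacter.isClassFunction hχc
    let res : U → ℂ := fun u => (χ : G → ℂ) u
    have hrescl : IsClassFunction U res := IsCharacter.isClassFunction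
      (IsCharacter.comp hχc U.subtype)
    have hcoef0 : ∀ ξ : IrrCharacter U, (ξ : U → ℂ) 1 ≠ 1 → classInner res (ξ : U → ℂ) = 0 := by
      intro ξ h1
      have h2 := hvan ξ ξ.2 h1
      have h4 := coef_spec (IsIrrCharacter.isCharacter ξ.2) χ
      rw [h2, classInner_indFun_left U _ _ hχcl] at h4
      rw [classInner_conj_symm]
      have h5 : classInner (ξ : U → ℂ) res = 0 := by
        rw [show res = fun u : U => (χ : G → ℂ) u from rfl, ← h4]
        simp
      rw [h5]
      simp
    have hexp := classFunction_eq_sum res hrescl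
    have hval : ∀ z ∈ center U, res z = res 1 := by
      intro z hz'
      have h1 := congrFun hexp z
      have h2 := congrFun hexp 1
      rw [h1, h2]
      simp only [Finset.sum_apply, Pi.smul_apply, smul_eq_mul]
      refine Finset.sum_congr rfl fun ξ _ => ?_
      by_cases hξ1 : (ξ : U → ℂ) 1 = 1
      · obtain ⟨lam, hlam⟩ := IsCharacter.exists_monoidHom (IsIrrCharacter.isCharacter ξ.2) hξ1
        rw [hlam]
        simp only [hz lam z hz']
        simp
      · rw [hcoef0 ξ hξ1]
        simp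
    -- `χ` is trivial
    have hker : charKer (χ : G → ℂ) = ⊤ := by
      haveI := charKer_normal hχc
      rcases Subgroup.Normal.eq_bot_or_eq_top (inferInstance : (charKer (χ : G → ℂ)).Normal) with h1 | h1
      · exfalso
        have h2 : ((z₀ : U) : G) ∈ charKer (χ : G → ℂ) := by
          rw [mem_charKer hχc]
          exact hval z₀ hz₀
        rw [h1, Subgroup.mem_bot] at h2
        exact hz₁ (Subtype.ext h2)
      · exact h1
    have hconst : ∀ g : G, (χ : G → ℂ) g = (χ : G → ℂ) 1 := fun g =>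
      (mem_charKer hχc).mp (by rw [hker]; exact Subgroup.mem_top g)
    have hF0 : (F ν χ : ℂ) = 0 := by
      rw [show F ν χ = coef (lin ν) χ from rfl, coef_spec (lin_char ν),
        classInner_indFun_left U _ _ hχcl]
      have h1 : (fun h : U => (χ : G → ℂ) h) = ((χ : G → ℂ) 1) • lin (1 : U →* ℂˣ) := by
        funext u
        rw [hconst]
        simp [lin]
      rw [h1, classInner_smul_right, classInner_lin, if_neg hν, mul_zero]
    have hF1 : F ν χ = 1 := by rw [← hjν]; exact hj
    rw [hF1] at hF0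
    simp at hF0
  · -- norms
    intro j
    obtain ⟨ν, hν, hjν⟩ := hJmem j
    rw [hjν]
    simp only [sq]
    exact nself ν hν
  · -- signs
    intro j
    obtain ⟨ν, hν, hjν⟩ := hJmem j
    rw [hjν]
    have h2 := sum_sgn_coef hS h3 (lin_irr ν)
    have e1 : lin ν 1 = 1 := by simp [lin]
    rw [hfsν, hh', e1, mul_one] at h2
    have h4 : ((∑ x, sgn x * (coef (lin ν) x : ℤ) : ℤ) : ℂ) = (((h' + 1 : ℕ) : ℤ) : ℂ) := by
      rw [h2]
      push_cast
      ring
    exact_mod_cast h4
  · -- pairwise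
    intro i j hij
    obtain ⟨ν, hν, hiν⟩ := hJmem i
    obtain ⟨ν', hν', hjν⟩ := hJmem j
    have hne : F ν ≠ F ν' := by
      intro he
      apply hij
      apply Subtype.ext
      rw [hiν, hjν, he]
    rw [hiν, hjν]
    have h1 := n1 ν ν' hν'
    rw [if_neg (fun hex => hne ((hFiff ν ν' hν hν').mpr hex))] at h1
    simpa [F] using h1
  · -- the weight
    intro j
    obtain ⟨ν, hν, hjν⟩ := hJmem j
    rw [hjν]
    have h1 := n1 1 ν hν
    rw [if_neg] at h1
    · simpa [F] using h1
    · rintro ⟨d, hd⟩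
      exact twist_ne_one hS hν d hd.symm

end core

/-- **No cubes**: a simple Zassenhaus group cannot have `|U| = |Z(U)|³`. -/
theorem not_cube (hS : IsRankOneSetup G Ω a t U)
    (h3 : ∀ g : G, ∀ x y z : Ω, x ≠ y → y ≠ z → x ≠ z → g • x = x → g • y = y → g • z = z → g = 1)
    (hU2 : IsPGroup 2 U) (hne : ∃ d ∈ DD G a t, d ≠ 1) (hnc : ∃ x y : U, x * y ≠ y * x)
    [IsSimpleGroup G] (hN : Nat.card U = Nat.card (center U) ^ 3) : False := by
  classical
  letI cg := commD hS h3
  have hk : KG (rho hS) := kg hS h3 hU2 hne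
  have hq := (kg_card hk hnc).1
  have hcen : 1 < Nat.card (center U) := by
    haveI := hk.fin
    haveI : Fact (Nat.Prime 2) := ⟨Nat.prime_two⟩
    haveI : Nontrivial U := by
      obtain ⟨x, y, hxy⟩ := hnc
      by_contra hnt
      rw [not_nontrivial_iff_subsingleton] at hnt
      exact hxy (Subsingleton.elim _ _)
    haveI := hU2.center_nontrivial
    exact Finite.one_lt_card
  have hd1 : 1 ≤ Nat.card (DD G a t) := Nat.card_pos
  have hindex : (center U).index = Nat.card (center U) ^ 2 := by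
    have h1 := Subgroup.card_mul_index (center U)
    rw [hN] at h1
    have h2 : 0 < Nat.card (center U) := Nat.card_pos
    apply Nat.eq_of_mul_eq_mul_left h2
    rw [h1]
    ring
  obtain ⟨z₀, hz₀⟩ : ∃ z₀ : center U, z₀ ≠ 1 := by
    haveI : Nontrivial (center U) := Finite.one_lt_card_iff_nontrivial.mp hcen
    exact exists_ne 1
  refine not_cube_core hS h3 (Nat.card (center U)) hq (by omega) ?_ ?_ ?_ ?_ ?_ ?_ z₀.2
    (fun h => hz₀ (Subtype.ext h))
  · rw [card_hom hk hnc, hindex]
  · intro ν hν d hd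
    exact hom_comp_ne hk hnc hν hd
  · intro ξ hξ h1 d hd
    exact irr_comp_ne hk hnc hξ h1 hd
  · intro ξ hξ h1
    exact nonlinear_fs hk hnc hN hξ h1
  · intro ν
    exact fsInd_hom hk hnc ν
  · intro ν z hz
    exact hom_center hk hnc ν hz

end Cfsg.Agent.Lib.ZT
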