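import Cfsg.Agent.Lib.ZT.ZT5
import Cfsg.Agent.Lib.Char.ZassInv

/-! # The circle argument: no elements of order three in the two-point stabiliser -/

set_option linter.style.haveILetI false
set_option linter.unusedSectionVars false

namespace Cfsg.Agent.Lib.ZT

open MulAction Cfsg Cfsg.Agent.Lib.RankOne Cfsg.Agent.Lib.RankOne.Setup
open Cfsg.Agent.Lib.Fusion.Hig (KG)
open scoped Pointwise

variable {G Ω : Type*} [Group G] [Finite G] [MulAction G Ω] {a : Ω} {t : G} {U : Subgroup G}

/-- Arithmetic of the circle. -/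
lemma not_dvd_arith {h : ℕ} (hodd : Odd h) :
    ¬ (h + 2) ∣ ((((h + 1) ^ 2 + 1) * ((h + 1) ^ 2 * h))) := by
  intro hd
  have c3 : Nat.Coprime (h + 2) h := by
    rw [add_comm, Nat.coprime_add_self_left]
    exact Nat.coprime_two_left.mpr hodd
  have c2 : Nat.Coprime (h + 2) ((h + 1) ^ 2) := by
    apply Nat.Coprime.pow_right
    have : h + 2 = 1 + (h + 1) := by ring
    rw [this, Nat.coprime_add_self_left]
    exact Nat.coprime_one_left _
  have c1 : Nat.Coprime (h + 2) ((h + 1) ^ 2 + 1) := by
    have : (h + 1) ^ 2 + 1 = (h + 2) * h + 2 := by ring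
    rw [this, Nat.coprime_mul_left_add_right]
    have h4 : Odd (h + 2) := by
      rcases hodd with ⟨k, rfl⟩
      exact ⟨k + 1, by ring⟩
    exact (Nat.coprime_two_left.mpr h4).symm
  have h1 := c1.dvd_of_dvd_mul_left hd
  have h2 := c2.dvd_of_dvd_mul_left h1
  have h0 : 0 < h := hodd.pos
  have h5 := Nat.le_of_dvd h0 h2
  omega

/-- The circle argument. -/
theorem circle_contra (hS : IsRankOneSetup G Ω a t U)
    (h3 : ∀ g : G, ∀ x y z : Ω, x ≠ y → y ≠ z → x ≠ z → g • x = x → g • y = y → g • z = z → g = 1)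
    (hEmul : ∀ y z : U, y * y = 1 → z * z = 1 → (y * z) * (y * z) = 1)
    {s : G} (hsa : s • a = a) (hs1 : s ≠ 1) (hs2 : s * s = 1) (hts : t * s * t = s * t * s)
    (hN : Nat.card U = (Nat.card (DD G a t) + 1) ^ 2) : False := by
  classical
  haveI := finite_Ω hS
  set b := t • a with hb
  have hba : b ≠ a := t_ne hS
  have hsU : s ∈ U := mem_Q_of_invol hS hsa hs2
  have hfix : t • (s • b) = s • b := by
    calc t • (s • b) = (t * s * t) • a := by rw [hb, mul_smul, mul_smul]
      _ = (s * t * s) • a := by rw [hts]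
      _ = s • t • s • a := by rw [mul_smul, mul_smul]
      _ = s • b := by rw [hsa]
  let Λ : Set Ω := {x | x = a ∨ ∃ y : U, y * y = 1 ∧ x = (y : G) • b}
  have hE : ∀ y : U, y * y = 1 → ∀ x ∈ Λ, (y : G) • x ∈ Λ := by
    rintro y hy x (rfl | ⟨z, hz, rfl⟩)
    · left
      exact hS.le y.2
    · right
      refine ⟨y * z, hEmul y z hy hz, ?_⟩
      rw [smul_smul]
      rfl
  have ht : ∀ x ∈ Λ, t • x ∈ Λ := by
    rintro x (rfl | ⟨y, hy, rfl⟩)
    · right
      exact ⟨1, one_mul 1, by simp [hb]⟩
    · by_cases hy1 : y = 1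
      · left
        rw [hy1]
        show t • ((1 : G) • t • a) = a
        rw [one_smul, t_t hS]
      · right
        have hyJ : (y : G) ∈ involutionsIn (stabilizer G a : Set G) :=
          ⟨hS.le y.2, fun h => hy1 (Subtype.ext h), congrArg Subtype.val hy⟩
        have hsJ : s ∈ involutionsIn (stabilizer G a : Set G) := ⟨hsa, hs1, hs2⟩
        obtain ⟨k, hk, hky⟩ := reg_exists hS h3 hsJ hyJ
        have hkb : k • b = b := hk.2
        have hkb' : k⁻¹ • b = b := (Subgroup.inv_mem _ hk).2
        have hka : k ∈ stabilizer G a := hk.1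
        have hk'a : k⁻¹ ∈ stabilizer G a := Subgroup.inv_mem _ hk.1
        have hmemU : k⁻¹ * s * k ∈ U := by
          have := hS.conj_mem k⁻¹ hk'a s hsU
          rwa [inv_inv] at this
        refine ⟨⟨k⁻¹ * s * k, hmemU⟩, ?_, ?_⟩
        · apply Subtype.ext
          show (k⁻¹ * s * k) * (k⁻¹ * s * k) = 1
          calc (k⁻¹ * s * k) * (k⁻¹ * s * k) = k⁻¹ * (s * s) * k := by group
            _ = 1 := by rw [hs2]; group
        · show t • ((y : G) • b) = (k⁻¹ * s * k) • b
          have h1 : (y : G) • b = k • s • b := by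
            rw [← hky, mul_smul, mul_smul, hkb']
          have h2 : t * k * t = k⁻¹ := D_inv hS h3 hk
          calc t • ((y : G) • b) = t • k • s • b := by rw [h1]
            _ = (t * k * t) • (t • (s • b)) := by
                rw [mul_smul, mul_smul, t_t hS]
            _ = k⁻¹ • (s • b) := by rw [h2, hfix]
            _ = (k⁻¹ * s * k) • b := by rw [mul_smul, mul_smul, hkb]
  have hfin : Λ.Finite := Set.toFinite _
  let H : Subgroup G := stabilizer G Λ
  have hmemH : ∀ g : G, (∀ x ∈ Λ, g • x ∈ Λ) → g ∈ H := by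
    intro g hg
    exact (mem_stabilizer_set' hfin).mpr (fun x hx => hg x hx)
  have hH : ∀ g ∈ H, ∀ x ∈ Λ, g • x ∈ Λ := by
    intro g hg x hx
    exact (mem_stabilizer_set' hfin).mp hg hx
  have haΛ : a ∈ Λ := Or.inl rfl
  have horb : orbit H a = Λ := by
    ext x
    constructor
    · rintro ⟨g, rfl⟩
      exact hH g g.2 a haΛ
    · rintro (rfl | ⟨y, hy, rfl⟩)
      · exact mem_orbit_self _
      · have h1 : (y : G) * t ∈ H := H.mul_mem (hmemH _ (hE y hy)) (hmemH _ ht)
        refine ⟨⟨_, h1⟩, ?_⟩
        show ((y : G) * t) • a = (y : G) • b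
        rw [mul_smul]
  -- counting
  have hcardΛ : Nat.card Λ = Nat.card (DD G a t) + 2 := by
    haveI : Fintype G := Fintype.ofFinite G
    haveI : Fintype U := Fintype.ofFinite U
    haveI : Fintype (DD G a t) := Fintype.ofFinite _
    have h1 := card_U_sq_one hS h3
    let f : Option {y : U // y * y = 1} → Λ := fun o => match o with
      | none => ⟨a, haΛ⟩
      | some y => ⟨((y : U) : G) • b, Or.inr ⟨y, y.2, rfl⟩⟩
    have hbij : Function.Bijective f := by
      constructor
      · rintro (_ | y) (_ | z) hyz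
        · rfl
        · exfalso
          have h2 : a = ((z : U) : G) • b := congrArg Subtype.val hyz
          have h4 : ((z : U) : G) • a = a := hS.le (z : U).2
          rw [← h4] at h2
          exact hba (smul_left_cancel _ h2).symm
        · exfalso
          have h2 : ((y : U) : G) • b = a := congrArg Subtype.val hyz
          have h4 : ((y : U) : G) • a = a := hS.le (y : U).2
          rw [← h4] at h2
          exact hba (smul_left_cancel _ h2)
        · have h2 : ((y : U) : G) • b = ((z : U) : G) • b := congrArg Subtype.val hyz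
          have h4 := Q_unique hS (y : U).2 (z : U).2 hba h2
          rw [Subtype.ext (Subtype.ext h4 : (y : U) = z)]
      · rintro ⟨x, (rfl | ⟨y, hy, rfl⟩)⟩
        · exact ⟨none, rfl⟩
        · exact ⟨some ⟨y, hy⟩, rfl⟩
    rw [← Nat.card_congr (Equiv.ofBijective f hbij), Finite.card_option, h1]
  have hdvd : Nat.card Λ ∣ Nat.card G := by
    have h1 : Nat.card (orbit H a) ∣ Nat.card H := by
      haveI : Fintype H := Fintype.ofFinite _
      haveI : Fintype (orbit H a) := Fintype.ofFinite _
      haveI : Fintype (stabilizer H a) := Fintype.ofFinite _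
      have h2 := card_orbit_mul_card_stabilizer_eq_card_group H a
      rw [Nat.card_eq_fintype_card, Nat.card_eq_fintype_card]
      exact Dvd.intro _ h2
    rw [horb] at h1
    exact h1.trans (Subgroup.card_subgroup_dvd_card H)
  rw [hcardΛ, card_G hS, card_Ω hS, hN] at hdvd
  exact not_dvd_arith (odd_D_card hS) hdvd

end Cfsg.Agent.Lib.ZT
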